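import Cfsg.Agent.H7.Bf0
import Cfsg.Agent.H29.ES

/-! Piece `b7`: the extraspecial subgroup of order `32` and an element of order `8`. -/

set_option autoImplicit false
set_option linter.unusedVariables false
set_option linter.unusedSectionVars false

namespace Cfsg.Agent.H7.Bf
open Subgroup Cfsg.Agent.H19.Gt Cfsg.Agent.H1.G2
universe u
variable {G : Type u} {K : Type*} [Group G] [Finite G] [CommGroup K] {τ : K × K →* G} {u v : G} {z : K} {S : Sylow 2 G}

theorem b7 (h : Gz (S : Subgroup G) τ u v z) (h4 : Nat.card K = 4) :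
    IsExtraspecial 2 h.M ∧ Nat.card h.M = 32 ∧ ∃ s : G, orderOf s = 8 := by
  have := h.fin
  have g := h.toGs
  obtain ⟨ρ, hρ, -⟩ := h.rho
  have p4 : ∀ a : K, a * a * (a * a) = 1 := fun a => by
    have := pow_card_eq_one' (x := a)
    rw [h4] at this
    rw [← this]; simp only [pow_succ, pow_zero, one_mul, mul_assoc]
  have sq : ∀ a : K, IsSquare a → a = 1 ∨ a = z := fun a ⟨c, e⟩ => h.inv2 (e ▸ p4 c)
  have sq' : ∀ a : K, a * a = 1 → IsSquare a := fun a e => (h.inv2 e).elim (fun e => e ▸ IsSquare.one) (· ▸ h.zsq)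
  have r1 : ρ * ρ ≠ 1 := hρ ▸ h.z1
  have r2 : ρ ≠ ρ⁻¹ := fun e => r1 (mul_eq_one_iff_eq_inv.2 e)
  have dg : ∀ a b : K, IsSquare a → a * b = 1 → τ (a, b) = 1 ∨ τ (a, b) = τ (z, z) := fun a b e f => by
    rw [eq_inv_of_mul_eq_one_right f]
    rcases sq a e with rfl | rfl
    · exact .inl (by rw [inv_one, t1])
    · exact .inr (by rw [h.zi])
  have m1 : τ (ρ, ρ) ∈ h.M := ⟨_, _, ⟨ρ, rfl⟩, .inl rfl⟩
  have m2 : τ (ρ, ρ⁻¹) ∈ h.M := ⟨_, _, by simp, .inl rfl⟩
  have cen : ∀ x ∈ h.M, x ∈ centralizer (h.M : Set G) → x = 1 ∨ x = τ (z, z) := by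
    rintro _ ⟨a, b, e, rfl | rfl | rfl | rfl⟩ c
    · have c1 := (g.cu (a := 1) (b := 1) (c := a) (d := b)).1 (by rw [t1, one_mul]; exact (c u h.uM).symm)
      have c2 := (g.cv (a := 1) (b := 1) (c := a) (d := b)).1 (by rw [t1, one_mul]; exact (c v h.vM).symm)
      subst c2
      exact dg a a (sq' a c1.1) c1.1
    · exact absurd (g.cu.1 (c _ m1)).1 r1
    · exact absurd (g.cv.1 (c _ m2)) r2
    · exact absurd (g.cw.1 (c _ m1)) r2
  have E : H29.ES h.M (τ (z, z)) := ⟨⟨h.t_ne, h.tt, h.Q_le h.tQ, ?_, fun x hx c _ => cen x hx c⟩, cen, fun c => ?_⟩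
  · refine ⟨E.isExtraspecial, ?_, τ (ρ, 1) * v, ?_⟩
    · have n : τ (ρ, 1) ∉ h.M := by
        rintro ⟨a, b, e, f | f | f | f⟩
        · obtain ⟨rfl, rfl⟩ := g.teq.1 f
          rw [mul_one] at e
          rcases sq _ e with e | e
          · exact r1 (by rw [e, one_mul])
          · exact r1 (by rw [e, h.zz])
        exacts [h.ne_u _ _ _ _ f.symm, h.ne_v _ _ _ _ f.symm, h.ne_w _ _ _ _ f.symm]
      have k : ∀ c : K, IsSquare c ∨ IsSquare (ρ * c) := fun c => by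
        rcases h.inv2 (p4 c) with e | e
        · exact .inl (sq' c e)
        · exact .inr (sq' _ (by rw [mul_mul_mul_comm, hρ, e, h.zz]))
      have i : (h.M.subgroupOf (S : Subgroup G)).index = 2 := index_eq_two_iff'.2 ⟨⟨_, g.tS ρ 1⟩, fun s => by
        by_cases hs : s.1 ∈ h.M
        · exact .inr ⟨hs, fun e => n ((mul_mem_cancel_right hs).1 e)⟩
        refine .inl ⟨?_, hs⟩
        show τ (ρ, 1) * s.1 ∈ h.M
        obtain ⟨a, b, f⟩ := (g.mem s.1).1 s.2
        have e := (k (a * b)).resolve_left fun e => hs ⟨a, b, e, f⟩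
        refine ⟨ρ * a, 1 * b, by rwa [one_mul, mul_assoc], ?_⟩
        rcases f with f | f | f | f <;> rw [f] <;> simp only [tm, tm', true_or, or_true]⟩
      have c := (h.M.subgroupOf (S : Subgroup G)).index_mul_card
      rw [i, g.card, h4, Nat.card_congr (subgroupOfEquivOfLe h.M_le).toEquiv] at c
      omega
    · have e2 : (τ (ρ, 1) * v) ^ 2 = τ (ρ, ρ) := by
        rw [pow_two, mul_assoc, g.vt', g.vv, mul_one, tm, mul_one, one_mul]
      have e4 : (τ (ρ, 1) * v) ^ 2 ^ 2 = τ (z, z) := by rw [pow_two 2, pow_mul, e2, pow_two, tm, hρ]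
      haveI : Fact (Nat.Prime 2) := ⟨Nat.prime_two⟩
      exact orderOf_eq_prime_pow (p := 2) (n := 2) (e4 ▸ h.t_ne) (by rw [pow_succ 2 2, pow_mul, e4, pow_two, h.tt])
  · rintro _ ⟨a, b, e, rfl | rfl | rfl | rfl⟩
    · rw [tm]
      obtain ⟨c, e⟩ := e
      exact dg _ _ ⟨a, rfl⟩ (by rw [mul_mul_mul_comm, e, p4])
    · exact .inl (by rw [mul_assoc, g.ut', g.uu, mul_one, tm, mul_inv_cancel, mul_inv_cancel, t1])
    · rw [mul_assoc, g.vt', g.vv, mul_one, tm]
      obtain ⟨c, e⟩ := e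
      exact dg _ _ ⟨c, e⟩ (by rw [mul_comm b, e, p4])
    · rw [mul_assoc, mul_assoc, g.vt', g.ut', g.vu', g.vv, mul_one, g.uu, mul_one, tm]
      exact dg _ _ (by rw [show a * b⁻¹ = a * b * (b⁻¹ * b⁻¹) by group]; exact e.mul ⟨_, rfl⟩)
        (by rw [mul_mul_mul_comm, mul_comm b⁻¹, ← mul_inv, mul_inv_cancel])
  · have := (g.cu (a := 1) (b := 1) (c := ρ) (d := ρ)).1 (by rw [t1, one_mul]; exact c h.uM _ m1)
    exact r1 this.1

end Cfsg.Agent.H7.Bf
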