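import Mathlib

/-! Generating functions for class numbers of classical groups: numerics. -/

namespace Cfsg.Agent.H18.Cn

open PowerSeries Finset

/-- The series `1 + κ X^i / (1 - q X^i)`. -/
noncomputable def Bs (κ q : ℝ) (i : ℕ) : ℝ⟦X⟧ :=
  PowerSeries.mk fun l => if l = 0 then 1 else if i ∣ l then κ * q ^ (l / i - 1) else 0

variable {κ q : ℝ}

theorem coeff_Bs (i l : ℕ) : coeff l (Bs κ q i) =
    if l = 0 then 1 else if i ∣ l then κ * q ^ (l / i - 1) else 0 := coeff_mk _ _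

theorem Bs_nonneg (hκ : 0 ≤ κ) (hq : 0 ≤ q) (i l : ℕ) : 0 ≤ coeff l (Bs κ q i) := by
  rw [coeff_Bs]; split_ifs <;> positivity

theorem Bs_eq {i : ℕ} (hi : 0 < i) :
    Bs κ q i = 1 + C (κ - q) * X ^ i + C q * (X ^ i * Bs κ q i) := by
  ext l
  simp only [map_add, coeff_C_mul, coeff_X_pow_mul', coeff_one, coeff_X_pow, coeff_Bs]
  by_cases h0 : l = 0
  · subst h0; simp [hi.ne, hi.ne']
  by_cases h1 : l = i
  · subst h1; simp [h0, Nat.div_self hi]
  by_cases h2 : i ≤ l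
  · obtain ⟨m, rfl⟩ := Nat.exists_eq_add_of_le h2
    have hm : m ≠ 0 := by omega
    simp only [h0, h1, h2, if_true, if_false, Nat.add_sub_cancel_left, hm,
      (Nat.dvd_add_right (dvd_refl i))]
    split_ifs with h3
    · obtain ⟨k, rfl⟩ := h3
      obtain ⟨k, rfl⟩ : ∃ j, k = j + 1 := ⟨k - 1, by rcases k with _ | k <;> simp_all⟩
      rw [show i + i * (k + 1) = i * (k + 2) by ring, Nat.mul_div_cancel_left _ hi,
        Nat.mul_div_cancel_left _ hi]
      simp [pow_succ]; ring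
    · simp
  · have : ¬ i ∣ l := fun h => h2 (Nat.le_of_dvd (Nat.pos_of_ne_zero h0) h)
    simp [h0, h1, h2, this]

theorem coeff_Bs_mul {i : ℕ} (hi : 0 < i) (G : ℝ⟦X⟧) (m : ℕ) : coeff m (Bs κ q i * G) =
    coeff m G + if i ≤ m then (κ - q) * coeff (m - i) G + q * coeff (m - i) (Bs κ q i * G)
      else 0 := by
  have : Bs κ q i * G = G + C (κ - q) * (X ^ i * G) + C q * (X ^ i * (Bs κ q i * G)) := by
    conv_lhs => rw [Bs_eq hi]
    ring
  conv_lhs => rw [this]
  simp only [map_add, coeff_C_mul, coeff_X_pow_mul']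
  split_ifs <;> ring

theorem expand_Bs {t : ℕ} (ht : t ≠ 0) (i : ℕ) : expand t ht (Bs κ q i) = Bs κ q (t * i) := by
  ext l
  rw [coeff_expand]
  split_ifs with h
  · obtain ⟨k, rfl⟩ := h
    have h0 : 0 < t := Nat.pos_of_ne_zero ht
    simp only [Nat.mul_div_cancel_left _ h0, coeff_Bs, mul_eq_zero, ht, false_or,
      Nat.mul_dvd_mul_iff_left h0, Nat.mul_div_mul_left _ _ h0]
  · have h1 : l ≠ 0 := by rintro rfl; simp at h
    have h2 : ¬ t * i ∣ l := fun e => h ((dvd_mul_right t i).trans e)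
    simp [coeff_Bs, h1, h2]

theorem mul_nonneg' {G H : ℝ⟦X⟧} (hG : ∀ m, 0 ≤ coeff m G) (hH : ∀ m, 0 ≤ coeff m H) (m : ℕ) :
    0 ≤ coeff m (G * H) := by
  rw [coeff_mul]; exact sum_nonneg fun p _ => mul_nonneg (hG _) (hH _)

theorem le_Bs_mul (hκ : 0 ≤ κ) (hq : 0 ≤ q) (i : ℕ) {G : ℝ⟦X⟧} (hG : ∀ m, 0 ≤ coeff m G)
    (m : ℕ) : coeff m G ≤ coeff m (Bs κ q i * G) := by
  rw [coeff_mul]
  have := single_le_sum (f := fun p : ℕ × ℕ => coeff p.1 (Bs κ q i) * coeff p.2 G)
    (fun p _ => mul_nonneg (Bs_nonneg hκ hq _ _) (hG _)) (a := (0, m)) (s := antidiagonal m) (by simp)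
  simpa [coeff_Bs] using this

/-- The partial products. -/
noncomputable def Fs (κ q : ℝ) (N : ℕ) : ℝ⟦X⟧ := ∏ j ∈ Icc 1 N, Bs κ q j

theorem Fs_zero : Fs κ q 0 = 1 := by simp [Fs]

theorem Fs_succ (N : ℕ) : Fs κ q (N + 1) = Bs κ q (N + 1) * Fs κ q N := by
  rw [Fs, prod_Icc_succ_top (by omega), mul_comm, Fs]

theorem Fs_nonneg (hκ : 0 ≤ κ) (hq : 0 ≤ q) (N m : ℕ) : 0 ≤ coeff m (Fs κ q N) := by
  induction N generalizing m with
  | zero => rw [Fs_zero, coeff_one]; split_ifs <;> norm_num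
  | succ N ih => rw [Fs_succ]; exact mul_nonneg' (Bs_nonneg hκ hq _) ih m

/-- The class number function. -/
noncomputable def ac (κ q : ℝ) (m : ℕ) : ℝ := coeff m (Fs κ q m)

theorem ac_nonneg (hκ : 0 ≤ κ) (hq : 0 ≤ q) (m : ℕ) : 0 ≤ ac κ q m := Fs_nonneg hκ hq _ _

theorem coeff_Fs {N m : ℕ} (h : m ≤ N) : coeff m (Fs κ q N) = ac κ q m := by
  induction N, h using Nat.le_induction with
  | base => rfl
  | succ N h ih => rw [Fs_succ, coeff_Bs_mul (by omega), if_neg (by omega), add_zero, ih]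

theorem coeff_prod_mul {t : ℕ} (ht : t ≠ 0) (n : ℕ) :
    coeff n (∏ j ∈ Icc 1 n, Bs κ q (t * j)) = if t ∣ n then ac κ q (n / t) else 0 := by
  have : ∏ j ∈ Icc 1 n, Bs κ q (t * j) = expand t ht (Fs κ q n) := by
    rw [Fs, map_prod]; simp only [expand_Bs]
  rw [this, coeff_expand, coeff_Fs (Nat.div_le_self _ _)]

theorem Fs_one (m : ℕ) : coeff m (Fs κ q 1) = if m = 0 then 1 else κ * q ^ (m - 1) := by
  simp [Fs, coeff_Bs]

theorem ac_one : ac κ q 1 = κ := by simp [ac, Fs_one]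

theorem ac_two : ac κ q 2 = κ * q + κ := by
  rw [ac, Fs_succ, coeff_Bs_mul (by omega), coeff_Bs_mul (by omega)]
  simp [Fs_one]

theorem ac_three : ac κ q 3 = κ * q ^ 2 + κ * κ + κ := by
  rw [ac, Fs_succ, coeff_Bs_mul (by omega), coeff_Bs_mul (by omega), Fs_succ,
    coeff_Bs_mul (by omega), coeff_Bs_mul (by omega), coeff_Bs_mul (by omega)]
  simp [Fs_one]; ring

/-- The auxiliary sums `∑ X^k ∏_{k < i ≤ N} B_i`. -/
noncomputable def Ss (q : ℝ) : ℕ → ℝ⟦X⟧
  | 0 => 1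
  | N + 1 => Bs (q - 1) q (N + 1) * Ss q N + X ^ (N + 1)

theorem Ss_eq (N : ℕ) : (1 - C q * X) * Ss q N = 1 - C q * X ^ (N + 1) := by
  induction N with
  | zero => simp [Ss]
  | succ N ih =>
    have h := Bs_eq (κ := q - 1) (q := q) (Nat.succ_pos N)
    simp only [map_sub, map_one, Nat.succ_eq_add_one] at h
    rw [Ss]
    linear_combination Bs (q - 1) q (N + 1) * ih + h

theorem coeff_Ss {N m : ℕ} (h : m ≤ N) : coeff m (Ss q N) = q ^ m := by
  have h1 : Ss q N = 1 - C q * X ^ (N + 1) + C q * (X ^ 1 * Ss q N) := by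
    linear_combination Ss_eq (q := q) N
  induction m with
  | zero => rw [h1]; simp
  | succ m ih =>
    rw [h1]
    simp only [map_add, map_sub, coeff_C_mul, coeff_X_pow_mul', coeff_one, coeff_X_pow]
    rw [if_neg (by omega), if_neg (by omega), if_pos (by omega), Nat.add_sub_cancel,
      ih (by omega)]
    ring

theorem Fs_le_Ss (hq : 1 ≤ q) (N m : ℕ) : coeff m (Fs (q - 1) q N) ≤ coeff m (Ss q N) := by
  induction N generalizing m with
  | zero => simp [Ss, Fs_zero]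
  | succ N ih =>
    rw [Fs_succ, Ss, map_add]
    refine le_add_of_le_of_nonneg ?_ (by rw [coeff_X_pow]; split_ifs <;> norm_num)
    rw [coeff_mul, coeff_mul]
    exact sum_le_sum fun p _ => mul_le_mul_of_nonneg_left (ih _)
      (Bs_nonneg (by linarith) (by linarith) _ _)

theorem ac_le_pow (hq : 1 ≤ q) (m : ℕ) : ac (q - 1) q m ≤ q ^ m :=
  (Fs_le_Ss hq m m).trans (coeff_Ss le_rfl).le

/-- One step of the geometric bound. -/
theorem step_bound (hq : 0 ≤ q) (hκ : q ≤ κ) {G : ℝ⟦X⟧} {c c' : ℝ} {k : ℕ} (hk : 0 < k)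
    (hG : ∀ m, coeff m G ≤ c * q ^ m) (hc : c ≤ c')
    (h : c * q ^ k + (κ - q) * c + q * c' ≤ c' * q ^ k) (m : ℕ) :
    coeff m (Bs κ q k * G) ≤ c' * q ^ m := by
  induction m using Nat.strong_induction_on with
  | _ m ih =>
    rw [coeff_Bs_mul hk]
    split_ifs with h1
    · obtain ⟨j, rfl⟩ := Nat.exists_eq_add_of_le h1
      rw [Nat.add_sub_cancel_left]
      have h2 := mul_le_mul_of_nonneg_left (hG j) (sub_nonneg.2 hκ)
      have h3 := mul_le_mul_of_nonneg_left (ih j (by omega)) hq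
      have h4 := hG (k + j)
      have h5 := mul_le_mul_of_nonneg_right h (pow_nonneg hq j)
      rw [pow_add] at h4 ⊢
      nlinarith
    · rw [add_zero]; exact (hG m).trans (mul_le_mul_of_nonneg_right hc (pow_nonneg hq m))

/-- The unitary case, `q ≥ 3`. -/
theorem ac_le_unit (hq : 3 ≤ q) (m : ℕ) : ac (q + 1) q m ≤ 4 * q ^ m := by
  have h0 : 0 < q := by linarith
  have key : ∀ N m, coeff m (Fs (q + 1) q (N + 1)) ≤ 4 * (1 - 2 / q ^ (N + 1)) * q ^ m := by
    intro N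
    induction N with
    | zero =>
      intro m
      rw [Fs_one]
      split_ifs with h
      · subst h
        have : 2 / q ≤ 2 / 3 := by gcongr
        simp; linarith
      · obtain ⟨m, rfl⟩ := Nat.exists_eq_succ_of_ne_zero h
        simp only [Nat.succ_eq_add_one, Nat.add_sub_cancel, zero_add, pow_one]
        have : 4 * (1 - 2 / q) * q ^ (m + 1) = (4 * q - 8) * q ^ m := by field_simp; ring
        rw [this]; gcongr; linarith
    | succ N ih =>
      intro m
      rw [Fs_succ]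
      have hp : 0 < q ^ (N + 1) := by positivity
      have hp1 : 1 ≤ q ^ (N + 1) := one_le_pow₀ (by linarith)
      refine step_bound h0.le (by linarith) (by omega) ih ?_ ?_ m
      · gcongr
        · linarith
        · omega
      · rw [pow_succ q (N + 1)]
        generalize q ^ (N + 1) = y at hp hp1
        have : 4 * (1 - 2 / (y * q)) * (y * q) - (4 * (1 - 2 / y) * (y * q) +
            (q + 1 - q) * (4 * (1 - 2 / y)) + q * (4 * (1 - 2 / (y * q)))) =
            4 * (q - 3) + 16 / y := by field_simp; ring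
        have h2 : 0 ≤ 16 / y := by positivity
        linarith
  rcases m with _ | m
  · simp [ac, Fs_zero]
  · refine (key m (m + 1)).trans ?_
    have : 0 ≤ 2 / q ^ (m + 1) := by positivity
    gcongr; linarith

/-- The unitary case, `q = 2`. -/
theorem ac_le_unit_two (m : ℕ) : ac 3 2 m ≤ 9 * 2 ^ m := by
  have k1 : ∀ m, coeff m (Fs 3 2 1) ≤ 3 / 2 * (2 : ℝ) ^ m := fun m => by
    rw [Fs_one]
    split_ifs with h
    · subst h; norm_num
    · obtain ⟨m, rfl⟩ := Nat.exists_eq_succ_of_ne_zero h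
      simp only [Nat.succ_eq_add_one, Nat.add_sub_cancel, pow_succ]
      linarith
  have k2 : ∀ m, coeff m (Fs 3 2 2) ≤ 15 / 4 * (2 : ℝ) ^ m := fun m => by
    rw [Fs_succ]
    exact step_bound (by norm_num) (by norm_num) (by omega) k1 (by norm_num) (by norm_num) m
  have key : ∀ N m, coeff m (Fs 3 2 (N + 3)) ≤ 9 * (1 - 3 / 2 ^ (N + 3)) * (2 : ℝ) ^ m := by
    intro N
    induction N with
    | zero =>
      intro m
      rw [Fs_succ]
      exact step_bound (by norm_num) (by norm_num) (by omega) k2 (by norm_num) (by norm_num) m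
    | succ N ih =>
      intro m
      rw [show N + 1 + 3 = N + 3 + 1 by ring, Fs_succ]
      have hp : (0 : ℝ) < 2 ^ (N + 3) := by positivity
      refine step_bound (by norm_num) (by norm_num) (by omega) ih ?_ ?_ m
      · have : (3 : ℝ) / 2 ^ (N + 3 + 1) ≤ 3 / 2 ^ (N + 3) :=
          div_le_div_of_nonneg_left (by norm_num) hp (pow_le_pow_right₀ (by norm_num) (by omega))
        linarith
      · rw [pow_succ (2 : ℝ) (N + 3)]
        generalize (2 : ℝ) ^ (N + 3) = y at hp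
        have : 9 * (1 - 3 / (y * 2)) * (y * 2) - (9 * (1 - 3 / y) * (y * 2) +
            (3 - 2) * (9 * (1 - 3 / y)) + 2 * (9 * (1 - 3 / (y * 2)))) = 54 / y := by
          field_simp; ring
        have h2 : 0 ≤ 54 / y := by positivity
        linarith
  rw [← coeff_Fs (Nat.le_add_right m 3)]
  refine (key m m).trans ?_
  have : (0 : ℝ) ≤ 3 / 2 ^ (m + 3) := by positivity
  gcongr; linarith

/-- The bound for the special groups. -/
noncomputable def Ac (κ : ℕ) (q : ℝ) (m : ℕ) : ℝ := ac κ q m +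
  ∑ t ∈ (Icc 2 m).filter fun t => t ∣ κ ∧ t ∣ m, ((t : ℝ) ^ 2 - 1) * ac κ q (m / t)

theorem filter_Icc_eq {κ m : ℕ} (hκ : 0 < κ) (hm : 0 < m) :
    ((Icc 2 m).filter fun t => t ∣ κ ∧ t ∣ m) = (Icc 2 κ).filter fun t => t ∣ κ ∧ t ∣ m := by
  ext t
  simp only [mem_filter, mem_Icc]
  exact ⟨fun h => ⟨⟨h.1.1, Nat.le_of_dvd hκ h.2.1⟩, h.2⟩,
    fun h => ⟨⟨h.1.1, Nat.le_of_dvd hm h.2.2⟩, h.2⟩⟩

theorem Ac_le {κ m : ℕ} (hκ : 2 ≤ κ) (hm : 0 < m) (hq : 1 ≤ q) {c : ℝ} (hc : 0 ≤ c)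
    (h : ∀ j, ac κ q j ≤ c * q ^ j) : Ac κ q m ≤ ac κ q m + c * (3 * q ^ (m / 2) +
      (κ - 2) * (κ ^ 2 - 1) * q ^ (m / 3)) := by
  rw [Ac, filter_Icc_eq (by omega) hm]
  gcongr
  have h1 : ∀ t ∈ Icc 2 κ, 0 ≤ ((t : ℝ) ^ 2 - 1) := fun t ht => by
    have : (2 : ℝ) ≤ t := by exact_mod_cast (mem_Icc.1 ht).1
    nlinarith
  refine (sum_le_sum_of_subset_of_nonneg (filter_subset _ _) fun t ht _ =>
    mul_nonneg (h1 t ht) (ac_nonneg (by positivity) (by linarith) _)).trans ?_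
  rw [← Finset.insert_Icc_add_one_left_eq_Icc hκ, sum_insert (by simp), mul_add]
  refine add_le_add ?_ ?_
  · have := h (m / 2); norm_num; linarith
  · refine (sum_le_card_nsmul _ _ ((κ ^ 2 - 1) * (c * q ^ (m / 3))) fun t ht => ?_).trans ?_
    · have h2 := mem_Icc.1 ht
      have h3 : (t : ℝ) ≤ κ := by exact_mod_cast h2.2
      refine mul_le_mul (by gcongr) ((h _).trans ?_) (ac_nonneg (by positivity) (by linarith) _)
        (h1 κ (by simp [hκ]))
      exact mul_le_mul_of_nonneg_left (pow_le_pow_right₀ hq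
        (Nat.div_le_div_left (by omega) (by omega))) hc
    · rw [Nat.card_Icc, nsmul_eq_mul, show κ + 1 - (2 + 1) = κ - 2 by omega, Nat.cast_sub hκ]
      push_cast; ring_nf; rfl

theorem Ac_small {κ : ℕ} : Ac κ q 1 = ac κ q 1 ∧
    Ac κ q 2 = ac κ q 2 + (if 2 ∣ κ then 3 * ac κ q 1 else 0) ∧
    Ac κ q 3 = ac κ q 3 + (if 3 ∣ κ then 8 * ac κ q 1 else 0) ∧
    Ac κ q 4 = ac κ q 4 + ((if 2 ∣ κ then 3 * ac κ q 2 else 0) +
      (if 4 ∣ κ then 15 * ac κ q 1 else 0)) ∧
    Ac κ q 5 = ac κ q 5 + (if 5 ∣ κ then 24 * ac κ q 1 else 0) := by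
  refine ⟨?_, ?_, ?_, ?_, ?_⟩ <;>
    simp only [Ac, sum_filter] <;> norm_num [Finset.sum_Icc_succ_top]

theorem Ac_one {m : ℕ} : Ac 1 q m = ac 1 q m := by
  rw [Ac, sum_eq_zero, add_zero, Nat.cast_one]
  intro t ht
  simp only [mem_filter, mem_Icc, Nat.dvd_one] at ht
  omega

section fin
variable {q : ℕ}

theorem Ac_sl_one (hq : 2 ≤ q) : Ac (q - 1) q 1 = q - 1 := by
  rw [Ac_small.1, ac_one, Nat.cast_sub (by omega), Nat.cast_one]

theorem Ac_sl_two (hq : 2 ≤ q) : Ac (q - 1) q 2 ≤ (q - 1) * (q + 4) ∧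
    2 * Ac (q - 1) q 2 ≤ 5 * (q - 1) * q := by
  have h : (2 : ℝ) ≤ q := by exact_mod_cast hq
  rw [Ac_small.2.1, ac_one, ac_two, Nat.cast_sub (by omega), Nat.cast_one]
  split_ifs with h1
  · have : (3 : ℝ) ≤ q := by exact_mod_cast (by omega : 3 ≤ q)
    constructor <;> nlinarith
  · constructor <;> nlinarith

theorem Ac_sl (hq : 2 ≤ q) (m : ℕ) :
    Ac (q - 1) q (m + 3) ≤ (q - 1) * (q ^ (m + 2) + 3 * q ^ (m + 1)) := by
  have h : (2 : ℝ) ≤ q := by exact_mod_cast hq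
  have hc : ((q - 1 : ℕ) : ℝ) = q - 1 := by rw [Nat.cast_sub (by omega), Nat.cast_one]
  have ha : ∀ j, ac ((q - 1 : ℕ) : ℝ) q j ≤ q ^ j := fun j => hc ▸ ac_le_pow (by linarith) j
  have key : ∀ y : ℝ, y ≤ q ^ (m + 1) * (2 * q - 3) → ac ((q - 1 : ℕ) : ℝ) q (m + 3) + y ≤
      (q - 1) * (q ^ (m + 2) + 3 * q ^ (m + 1)) := fun y hy => by
    have := ha (m + 3)
    simp only [pow_succ] at *
    linarith
  have hp : ∀ c : ℕ, c ≤ q → ∀ k : ℕ, (0 : ℝ) ≤ (q - c) ^ k := fun c h k =>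
    pow_nonneg (sub_nonneg.2 (by exact_mod_cast h)) k
  rcases m with _ | _ | _ | m
  · rw [Ac_small.2.2.1, ac_one, ac_three, hc]
    split_ifs with h1
    · have := hp 4 (by omega) 1
      have := hp 4 (by omega) 2
      simp only [zero_add, Nat.reduceAdd, Nat.cast_ofNat] at *
      linarith
    · have := hp 2 (by omega) 1
      have := hp 2 (by omega) 2
      simp only [zero_add, Nat.reduceAdd, Nat.cast_ofNat] at *
      linarith
  · rw [Ac_small.2.2.2.1]
    refine key _ ?_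
    have h1 := ha 1
    have h2 := ha 2
    clear key
    split_ifs with h3 h4 h4
    · have := hp 5 (by omega) 1
      have := hp 5 (by omega) 2
      have := hp 5 (by omega) 3
      simp only [zero_add, Nat.reduceAdd, Nat.cast_ofNat] at *
      linarith
    · have := hp 3 (by omega) 1
      have := hp 3 (by omega) 2
      have := hp 3 (by omega) 3
      simp only [zero_add, Nat.reduceAdd, Nat.cast_ofNat] at *
      linarith
    · omega
    · have := hp 2 (by omega) 1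
      have := hp 2 (by omega) 2
      have := hp 2 (by omega) 3
      simp only [zero_add, Nat.reduceAdd, Nat.cast_ofNat] at *
      linarith
  · rw [Ac_small.2.2.2.2]
    refine key _ ?_
    have h1 := ha 1
    clear key
    split_ifs with h3
    · have := hp 6 (by omega) 1
      have := hp 6 (by omega) 2
      have := hp 6 (by omega) 3
      have := hp 6 (by omega) 4
      simp only [zero_add, Nat.reduceAdd, Nat.cast_ofNat] at *
      linarith
    · exact mul_nonneg (by positivity) (by linarith)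
  · rcases Nat.eq_or_lt_of_le hq with rfl | h3
    · rw [show 2 - 1 = 1 from rfl, Ac_one]
      simpa using key 0 (by norm_num)
    · refine (Ac_le (c := 1) (by omega) (by omega) (by linarith) (by norm_num)
        (by simpa using ha)).trans (key _ ?_)
      have h4 : (3 : ℝ) ≤ q := by exact_mod_cast h3
      have h5 : (q : ℝ) ^ ((m + 1 + 1 + 1 + 3) / 2) ≤ q ^ (m + 3) :=
        pow_le_pow_right₀ (by linarith) (by omega)
      have h6 : (q : ℝ) ^ ((m + 1 + 1 + 1 + 3) / 3) ≤ q ^ (m + 2) :=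
        pow_le_pow_right₀ (by linarith) (by omega)
      have h7 : (q - 1 - 2) * ((q - 1) ^ 2 - 1) * (q : ℝ) ^ ((m + 1 + 1 + 1 + 3) / 3) ≤
          (q - 3) * q ^ 2 * q ^ (m + 2) :=
        mul_le_mul (by nlinarith) h6 (by positivity) (mul_nonneg (by linarith) (by positivity))
      rw [hc]
      have h8 : (0 : ℝ) ≤ q ^ m := by positivity
      have h9 : 0 ≤ q ^ m * q * q * q * ((q : ℝ) - 3) := by
        have : (0 : ℝ) ≤ q - 3 := by linarith
        positivity
      have h10 : 0 ≤ q ^ m * q * q * q * q * ((q : ℝ) - 1) := by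
        have : (0 : ℝ) ≤ q - 1 := by linarith
        positivity
      simp only [pow_succ] at *
      nlinarith

theorem Ac_sl_crude (hq : 2 ≤ q) (m : ℕ) : 2 * Ac (q - 1) q (m + 1) ≤ 5 * (q - 1) * q ^ m := by
  have h : (2 : ℝ) ≤ q := by exact_mod_cast hq
  rcases m with _ | _ | m
  · rw [Ac_sl_one hq]; simp; linarith
  · simpa using (Ac_sl_two hq).2
  · have h1 := Ac_sl hq m
    have h2 : 0 ≤ q ^ (m + 1) * ((q : ℝ) - 2) * (q - 1) :=
      mul_nonneg (mul_nonneg (by positivity) (by linarith)) (by linarith)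
    rw [show m + 1 + 1 + 1 = m + 3 by ring]
    simp only [pow_succ] at *
    nlinarith

theorem Ac_psl (hq : 2 ≤ q) (m : ℕ) {ι : Type*} (S : Finset ι) (f : ι → ℕ)
    (h1 : S.card + 2 ≤ q) (h2 : S.card ≤ m + 1) (hf : ∀ z ∈ S, 2 ≤ f z ∧ f z ∣ m + 2) :
    Ac (q - 1) q (m + 2) + ∑ z ∈ S, Ac (q - 1) q ((m + 2) / f z) ≤
      (q - 1) * (q ^ (m + 1) + 5 * q ^ m) := by
  have h : (2 : ℝ) ≤ q := by exact_mod_cast hq
  have h1' : (S.card : ℝ) + 2 ≤ q := by exact_mod_cast h1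
  have h2' : (S.card : ℝ) ≤ m + 1 := by exact_mod_cast h2
  have h0 : (0 : ℝ) ≤ S.card := by positivity
  rcases m with _ | m
  · have h3 := (Ac_sl_two hq).1
    rw [sum_congr rfl (g := fun _ => (q : ℝ) - 1) fun z hz => by
      have := Nat.le_of_dvd (by omega) (hf z hz).2
      rw [show f z = 2 by have := (hf z hz).1; omega]; exact Ac_sl_one hq]
    have h4 : S.card * ((q : ℝ) - 1) ≤ 1 * (q - 1) :=
      mul_le_mul_of_nonneg_right (by simpa using h2') (by linarith)
    simp only [sum_const, nsmul_eq_mul, zero_add, pow_one, pow_zero]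
    linarith
  have h3 := Ac_sl hq m
  have h4 : ∑ z ∈ S, Ac (q - 1) q ((m + 1 + 2) / f z) ≤
      S.card • (5 / 2 * (q - 1) * (q : ℝ) ^ ((m + 1) / 2)) := sum_le_card_nsmul _ _ _ fun z hz => by
    obtain ⟨h5, k, h6⟩ := hf z hz
    obtain ⟨k, rfl⟩ : ∃ j, k = j + 1 := ⟨k - 1, by rcases k with _ | k <;> simp_all⟩
    rw [h6, Nat.mul_div_cancel_left _ (by omega)]
    have h7 := Ac_sl_crude hq k
    have h8 : (q : ℝ) ^ k ≤ q ^ ((m + 1) / 2) := pow_le_pow_right₀ (by linarith) (by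
      have : 2 * (k + 1) ≤ f z * (k + 1) := Nat.mul_le_mul_right _ h5
      omega)
    nlinarith
  have h5 : S.card * (5 / 2 * (q : ℝ) ^ ((m + 1) / 2)) ≤ 2 * q ^ (m + 1) := by
    have h6 : m ≤ 1 → 5 / 2 * (S.card : ℝ) ≤ 2 * q := fun hm => by
      have : 5 * S.card ≤ 4 * q := by omega
      have : 5 * (S.card : ℝ) ≤ 4 * q := by exact_mod_cast this
      linarith
    rcases m with _ | _ | m
    · have := h6 (by omega)
      norm_num; linarith
    · have := mul_le_mul_of_nonneg_right (h6 (by omega)) (by positivity : (0 : ℝ) ≤ q)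
      norm_num; linarith
    · have h8 : (q : ℝ) ^ ((m + 1 + 1 + 1) / 2) ≤ q ^ (m + 1) :=
        pow_le_pow_right₀ (by linarith) (by omega)
      have h9 : (0 : ℝ) ≤ q ^ (m + 1) := by positivity
      have : 5 / 2 * (S.card : ℝ) ≤ 2 * q * q := by nlinarith
      calc _ ≤ S.card * (5 / 2 * (q : ℝ) ^ (m + 1)) := by gcongr
        _ = (5 / 2 * (S.card : ℝ)) * q ^ (m + 1) := by ring
        _ ≤ 2 * q * q * q ^ (m + 1) := by gcongr
        _ = _ := by ring
  rw [nsmul_eq_mul] at h4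
  rw [show m + 1 + 2 = m + 3 by ring] at h4 ⊢
  nlinarith

theorem Ac_su (hq : 2 ≤ q) (m : ℕ) :
    100 * Ac (q + 1) q (m + 2) ≤ 826 * (q + 1) * q ^ (m + 1) := by
  have hc : ((q + 1 : ℕ) : ℝ) = q + 1 := by push_cast; rfl
  rcases Nat.eq_or_lt_of_le hq with rfl | h3
  · have ha : ∀ j, ac ((2 + 1 : ℕ) : ℝ) (2 : ℕ) j ≤ 9 * 2 ^ j := fun j => by
      simpa using ac_le_unit_two j
    have hA : ∀ n, 0 < n → Ac (2 + 1) (2 : ℕ) n = ac ((2 + 1 : ℕ) : ℝ) (2 : ℕ) n +
        if 3 ∣ n then 8 * ac ((2 + 1 : ℕ) : ℝ) (2 : ℕ) (n / 3) else 0 := fun n hn => by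
      rw [Ac, filter_Icc_eq (by omega) hn, sum_filter]
      norm_num [Finset.sum_Icc_succ_top]
    rw [hA _ (by omega)]
    have h1 := ha (m + 2)
    have h0 : (0 : ℝ) < 2 ^ m := by positivity
    split_ifs with h2
    · obtain ⟨k, h2⟩ := h2
      rw [h2, Nat.mul_div_cancel_left _ (by omega), ← h2]
      rcases k with _ | _ | _ | k
      · omega
      · obtain rfl : m = 1 := by omega
        rw [ac_one]; norm_num at h1 ⊢; linarith
      · obtain rfl : m = 4 := by omega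
        rw [ac_two]; norm_num at h1 ⊢; linarith
      · have h4 := ha (k + 1 + 1 + 1)
        have h5 : (2 : ℝ) ^ (k + 7) ≤ 2 ^ m := pow_le_pow_right₀ (by norm_num) (by omega)
        simp only [pow_succ] at *
        push_cast at *
        linarith
    · simp only [pow_succ] at *
      push_cast at *
      linarith
  have h : (3 : ℝ) ≤ q := by exact_mod_cast h3
  have ha : ∀ j, ac ((q + 1 : ℕ) : ℝ) q j ≤ 4 * q ^ j := fun j => hc ▸ ac_le_unit h j
  have key : ∀ y : ℝ, y ≤ 4 * (q ^ (m + 2) + 2 * q ^ (m + 1)) →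
      100 * (ac ((q + 1 : ℕ) : ℝ) q (m + 2) + y) ≤ 826 * (q + 1) * q ^ (m + 1) := fun y hy => by
    have := ha (m + 2)
    have h0 : (0 : ℝ) ≤ q ^ m * q := by positivity
    have h1 : (0 : ℝ) ≤ q ^ m * q * q := by positivity
    simp only [pow_succ] at *
    linarith
  have h1 := ha 1
  have h2 := ha 2
  have hp : ∀ k : ℕ, (0 : ℝ) ≤ (q - 3) ^ k := fun k => pow_nonneg (by linarith) k
  have p1 := hp 1
  have p2 := hp 2
  have p3 := hp 3
  have p4 := hp 4
  have p5 := hp 5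
  rcases m with _ | _ | _ | _ | m
  · rw [Ac_small.2.1]
    refine key _ ?_
    simp only [zero_add, Nat.reduceAdd]
    split_ifs <;> linarith
  · rw [Ac_small.2.2.1]
    refine key _ ?_
    simp only [zero_add, Nat.reduceAdd]
    split_ifs <;> linarith
  · rw [Ac_small.2.2.2.1]
    refine key _ ?_
    simp only [zero_add, Nat.reduceAdd]
    split_ifs <;> linarith
  · rw [Ac_small.2.2.2.2]
    refine key _ ?_
    simp only [zero_add, Nat.reduceAdd]
    split_ifs <;> linarith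
  · refine le_trans (mul_le_mul_of_nonneg_left (Ac_le (c := 4) (by omega) (by omega) (by linarith)
      (by norm_num) ha) (by norm_num)) (key _ ?_)
    have h5 : (q : ℝ) ^ ((m + 1 + 1 + 1 + 1 + 2) / 2) ≤ q ^ (m + 3) :=
      pow_le_pow_right₀ (by linarith) (by omega)
    have h6 : (q : ℝ) ^ ((m + 1 + 1 + 1 + 1 + 2) / 3) ≤ q ^ (m + 2) :=
      pow_le_pow_right₀ (by linarith) (by omega)
    have h7 : (q + 1 - 2) * ((q + 1) ^ 2 - 1) * (q : ℝ) ^ ((m + 1 + 1 + 1 + 1 + 2) / 3) ≤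
        2 * q ^ 3 * q ^ (m + 2) :=
      mul_le_mul (by nlinarith) h6 (by positivity) (by positivity)
    rw [hc]
    have h9 : 0 ≤ q ^ (m + 3) * ((q : ℝ) ^ 3 - 3) :=
      mul_nonneg (by positivity) (by nlinarith)
    simp only [pow_succ] at *
    nlinarith

end fin

end Cfsg.Agent.H18.Cn
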