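import Mathlib
import Cfsg.Agent.H18.Cn1
import Cfsg.Agent.L0.GLn4
import Cfsg.Agent.H10.Reg

/-! Counting types of matrices through sequences of polynomials. -/

namespace Cfsg.Agent.H18.Cn

open Polynomial Finset L0

variable {F : Type*} [Field F]

open Classical in
/-- The irreducible factor of a primary polynomial. -/
noncomputable def rt (u : F[X]) : F[X] := if h : Prim u then h.choose else 1

open Classical in
/-- The exponent of a primary polynomial. -/
noncomputable def ex (u : F[X]) : ℕ := if h : Prim u then h.choose_spec.choose else 0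

theorem prim_spec {u : F[X]} (h : Prim u) :
    Irreducible (rt u) ∧ (rt u).Monic ∧ 0 < ex u ∧ u = rt u ^ ex u := by
  simp only [rt, ex, dif_pos h]; exact h.choose_spec.choose_spec

theorem rt_ex_pow {p : F[X]} (hp : Irreducible p) (hm : p.Monic) {k : ℕ} (hk : 0 < k) :
    rt (p ^ k) = p ∧ ex (p ^ k) = k := by
  obtain ⟨h1, h2, h3, h4⟩ := prim_spec (u := p ^ k) ⟨p, k, hp, hm, hk, rfl⟩
  have h5 : p = rt (p ^ k) := eq_of_monic_of_associated hm h2
    (hp.associated_of_dvd h1 (hp.prime.dvd_of_dvd_pow (h4 ▸ dvd_pow_self p hk.ne')))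
  refine ⟨h5.symm, ?_⟩
  have h6 := congrArg natDegree h4
  rw [← h5, natDegree_pow, natDegree_pow] at h6
  exact (Nat.eq_of_mul_eq_mul_right hp.natDegree_pos h6).symm

theorem ex_le {u : F[X]} (h : Prim u) : ex u ≤ u.natDegree := by
  obtain ⟨h1, -, -, h4⟩ := prim_spec h
  conv_rhs => rw [h4, natDegree_pow]
  exact Nat.le_mul_of_pos_right _ h1.natDegree_pos

/-- The product of the irreducible polynomials occurring with exponent `i`. -/
noncomputable def Up (s : Multiset F[X]) (i : ℕ) : F[X] := ((s.filter (ex · = i)).map rt).prod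

variable {s t : Multiset F[X]}

theorem Up_mem (hs : ∀ u ∈ s, Prim u) (i : ℕ) :
    ∀ p ∈ (s.filter (ex · = i)).map rt, Irreducible p ∧ p.Monic := by
  intro p hp
  obtain ⟨u, hu, rfl⟩ := Multiset.mem_map.1 hp
  have := prim_spec (hs u (Multiset.mem_of_mem_filter hu))
  exact ⟨this.1, this.2.1⟩

theorem Up_monic (hs : ∀ u ∈ s, Prim u) (i : ℕ) : (Up s i).Monic := by
  simpa [Up] using monic_multiset_prod_of_monic _ id fun p hp => (Up_mem hs i p hp).2

theorem filter_eq_map (hs : ∀ u ∈ s, Prim u) (i : ℕ) :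
    s.filter (ex · = i) = ((s.filter (ex · = i)).map rt).map (· ^ i) := by
  rw [Multiset.map_map]
  conv_lhs => rw [← Multiset.map_id (s.filter _)]
  refine Multiset.map_congr rfl fun u hu => ?_
  obtain ⟨h1, rfl⟩ := Multiset.mem_filter.1 hu
  exact (prim_spec (hs u h1)).2.2.2

theorem eq_of_Up (hs : ∀ u ∈ s, Prim u) (ht : ∀ u ∈ t, Prim u) (h : ∀ i, Up s i = Up t i) :
    s = t := by
  classical
  ext u
  rw [← Multiset.count_filter_of_pos (s := s) (p := (ex · = ex u)) rfl,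
    ← Multiset.count_filter_of_pos (s := t) (p := (ex · = ex u)) rfl, filter_eq_map hs,
    filter_eq_map ht, multiset_eq_of_prod_eq (Up_mem hs _) (Up_mem ht _) (h _)]

theorem prod_eq_Up (hs : ∀ u ∈ s, Prim u) {T : Finset ℕ} (hT : ∀ u ∈ s, ex u ∈ T) :
    s.prod = ∏ i ∈ T, Up s i ^ i := by
  classical
  have : s = ∑ i ∈ T, s.filter (ex · = i) := by
    ext u
    rw [Multiset.count_sum', sum_eq_single (ex u) (fun i _ hi => by simp [hi.symm])
      fun h => by simpa using fun hu => h (hT u hu),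
      Multiset.count_filter_of_pos (p := (ex · = ex u)) rfl]
  conv_lhs => rw [this, Multiset.prod_sum]
  refine prod_congr rfl fun i _ => ?_
  rw [filter_eq_map hs, Multiset.prod_map_pow, Multiset.map_id', Up]

theorem exists_of_Up {i : ℕ} (h : (Up s i).natDegree ≠ 0) : ∃ u ∈ s, ex u = i := by
  by_contra h1
  push Not at h1
  rw [Up, Multiset.filter_eq_nil.2 h1] at h
  simp at h

theorem Up_ne_zero (hs : ∀ u ∈ s, Prim u) {u : F[X]} (hu : u ∈ s) :
    (Up s (ex u)).natDegree ≠ 0 := by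
  have h1 : rt u ∣ Up s (ex u) := Multiset.dvd_prod (Multiset.mem_map_of_mem _ (by simp [hu]))
  exact ((prim_spec (hs u hu)).1.natDegree_pos.trans_le
    (natDegree_le_of_dvd h1 (Up_monic hs _).ne_zero)).ne'

theorem Up_coeff (hs : ∀ u ∈ s, Prim u) (hX : ∀ u ∈ s, ¬ X ∣ u) (i : ℕ) : (Up s i).coeff 0 ≠ 0 := by
  intro h
  obtain ⟨p, hp, hd⟩ := Prime.exists_mem_multiset_dvd prime_X (X_dvd_iff.2 h)
  obtain ⟨u, hu, rfl⟩ := Multiset.mem_map.1 hp
  have h1 := Multiset.mem_of_mem_filter hu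
  have h2 := prim_spec (hs u h1)
  exact hX u h1 (h2.2.2.2 ▸ hd.trans (dvd_pow_self _ h2.2.2.1.ne'))

/-- The degree vector of a type. -/
noncomputable def lv (s : Multiset F[X]) : ℕ →₀ ℕ :=
  Finsupp.onFinset (s.map ex).toFinset (fun i => i * (Up s i).natDegree) fun i h => by
    simpa using exists_of_Up (right_ne_zero_of_mul h)

theorem lv_apply (i : ℕ) : lv s i = i * (Up s i).natDegree := rfl

theorem mem_lv (hs : ∀ u ∈ s, Prim u) {i : ℕ} : i ∈ (lv s).support ↔ ∃ u ∈ s, ex u = i := by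
  rw [Finsupp.mem_support_iff, lv_apply]
  refine ⟨fun h => exists_of_Up (right_ne_zero_of_mul h), ?_⟩
  rintro ⟨u, hu, rfl⟩
  exact mul_ne_zero (prim_spec (hs u hu)).2.2.1.ne' (Up_ne_zero hs hu)

theorem lv_mem (hs : ∀ u ∈ s, Prim u) {n : ℕ} (hn : (s.map natDegree).sum = n) :
    lv s ∈ finsuppAntidiag (Icc 1 n) n := by
  have hT : ∀ u ∈ s, ex u ∈ Icc 1 n := fun u hu => mem_Icc.2 ⟨(prim_spec (hs u hu)).2.2.1,
    (ex_le (hs u hu)).trans (hn ▸ Multiset.single_le_sum (by simp) _ (Multiset.mem_map_of_mem _ hu))⟩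
  refine mem_finsuppAntidiag.2 ⟨?_, fun i hi => ?_⟩
  · rw [← natDegree_multiset_prod_of_monic _ fun u hu => (hs u hu).monic, prod_eq_Up hs hT,
      natDegree_prod_of_monic _ _ fun i _ => (Up_monic hs i).pow i] at hn
    simp only [natDegree_pow] at hn
    exact hn
  · obtain ⟨u, hu, rfl⟩ := (mem_lv hs).1 hi
    exact hT u hu

section grp
variable (K : Type*) [CommGroup K] (T : Finset ℕ)

/-- The map `(c_i) ↦ ∏ c_i ^ i`. -/
def phi : (T → K) →* K where
  toFun c := ∏ i : T, c i ^ i.1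
  map_one' := by simp
  map_mul' a b := by simp [mul_pow, prod_mul_distrib]

/-- The index of the subgroup generated by the `i`-th powers, `i ∈ T`. -/
noncomputable def ind : ℕ := (phi K T).range.index

variable {K T}

theorem ind_dvd [IsCyclic K] {i : ℕ} (hi : i ∈ T) : ind K T ∣ i := by
  classical
  have : IsCyclic (K ⧸ (phi K T).range) := isCyclic_of_surjective _ (QuotientGroup.mk'_surjective _)
  obtain ⟨g, hg⟩ := IsCyclic.exists_generator (α := K ⧸ (phi K T).range)
  rw [ind, Subgroup.index, ← orderOf_eq_card_of_forall_mem_zpowers hg, orderOf_dvd_iff_pow_eq_one]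
  obtain ⟨g, rfl⟩ := QuotientGroup.mk_surjective g
  rw [← QuotientGroup.mk_pow, QuotientGroup.eq_one_iff]
  refine ⟨Pi.mulSingle ⟨i, hi⟩ g, ?_⟩
  change ∏ j : T, _ = _
  rw [prod_eq_single ⟨i, hi⟩ (fun j _ hj => by simp [hj]) (by simp)]
  simp

theorem index_le_ind [Finite K] {H : Subgroup K} (h : ∀ i ∈ T, ∀ c : K, c ^ i ∈ H) :
    H.index ≤ ind K T :=
  Nat.le_of_dvd (Nat.pos_of_ne_zero Subgroup.index_ne_zero_of_finite) (Subgroup.index_dvd_of_le (by
    rintro _ ⟨c, rfl⟩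
    exact H.prod_mem fun i _ => h _ i.2 _))

theorem card_fiber_phi [Finite K] (p : K → Prop) (hp : ∀ a b, p a → p b → a = b) :
    Nat.card K * Nat.card {c // p (phi K T c)} ≤ ind K T * Nat.card K ^ T.card := by
  rcases isEmpty_or_nonempty {c // p (phi K T c)} with h | ⟨⟨c, hc⟩⟩
  · simp
  have h1 : Nat.card {c // p (phi K T c)} ≤ Nat.card (phi K T).ker :=
    Nat.card_le_card_of_injective (fun a => ⟨a.1 * c⁻¹, by simp [hp _ _ a.2 hc]⟩)
      fun a b h => Subtype.ext (by simpa using h)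
  have h2 : Nat.card K ^ T.card = Nat.card (phi K T).range * Nat.card (phi K T).ker := by
    rw [← Nat.card_congr (QuotientGroup.quotientKerEquivRange _).toEquiv,
      ← Subgroup.card_eq_card_quotient_mul_card_subgroup, Nat.card_fun]
    simp
  rw [h2, ← mul_assoc, ind, Subgroup.index_mul_card]
  exact Nat.mul_le_mul_left _ h1

end grp

/-- Admissible polynomials: the constant coefficients lie in `K`, and each value is taken a
bounded number of times. -/
structure Adm (K : Subgroup Fˣ) (P : F[X] → Prop) (q e : ℕ) : Prop where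
  mem : ∀ f, f.Monic → f.natDegree ≠ 0 → P f → ∃ c : K, (c.1 : F) = f.coeff 0
  card : ∀ d ≠ 0, ∀ c : F, Nat.card {f : F[X] // f.Monic ∧ f.natDegree = d ∧ f.coeff 0 = c ∧ P f} ≤
    if e ∣ d then q ^ (d / e - 1) else 0

theorem finite_monic [Finite F] (d : ℕ) (p : F[X] → Prop) :
    Finite {f : F[X] // f.Monic ∧ f.natDegree = d ∧ p f} := by
  have : Finite {f : F[X] // f.Monic ∧ f.natDegree = d} :=
    Nat.finite_of_card_ne_zero (by rw [card_monic]; exact pow_ne_zero _ Nat.card_pos.ne')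
  exact Finite.of_injective (fun f => (⟨f.1, f.2.1, f.2.2.1⟩ : {f : F[X] // f.Monic ∧ f.natDegree = d}))
    fun a b h => Subtype.ext (by simpa using h)

variable [Finite F] {K : Subgroup Fˣ} {P : F[X] → Prop} {q e : ℕ}

theorem card_fiber_le (A : Adm K P q e) (S : Finset (Multiset F[X])) (l : ℕ →₀ ℕ)
    (h1 : ∀ s ∈ S, ∀ u ∈ s, Prim u) (h2 : ∀ s ∈ S, ∀ i, P (Up s i)) (h3 : ∀ s ∈ S, lv s = l)
    (p : F → Prop) (h4 : ∀ s ∈ S, p (s.prod.coeff 0)) :
    S.card ≤ Nat.card {c // p (phi K l.support c).1} *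
      ∏ i ∈ l.support, if e ∣ l i / i then q ^ (l i / i / e - 1) else 0 := by
  have h5 : ∀ s ∈ S, ∀ i ∈ l.support, (Up s i).natDegree = l i / i ∧ l i / i ≠ 0 := by
    intro s hs i hi
    have h := Finsupp.mem_support_iff.1 hi
    rw [← h3 s hs, lv_apply] at h ⊢
    rw [Nat.mul_div_cancel_left _ (Nat.pos_of_ne_zero (left_ne_zero_of_mul h))]
    exact ⟨rfl, right_ne_zero_of_mul h⟩
  rcases S.eq_empty_or_nonempty with rfl | ⟨s₀, hs₀⟩
  · simp
  choose c hc using fun (s : S) (i : l.support) => A.mem (Up s.1 i) (Up_monic (h1 _ s.2) _)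
    (by rw [(h5 _ s.2 _ i.2).1]; exact (h5 _ s.2 _ i.2).2) (h2 _ s.2 _)
  have h6 : ∀ s : S, p (phi K l.support (c s)).1 := fun s => by
    convert h4 _ s.2
    rw [prod_eq_Up (h1 _ s.2) (T := l.support) fun u hu =>
      h3 _ s.2 ▸ (mem_lv (h1 _ s.2)).2 ⟨u, hu, rfl⟩, coeff_zero_prod, ← prod_coe_sort]
    simp [phi, hc, coeff_zero_eq_eval_zero]
  let M := fun (a : {c // p (phi K l.support c).1}) (i : l.support) =>
    {f : F[X] // f.Monic ∧ f.natDegree = l i / i ∧ f.coeff 0 = (a.1 i).1 ∧ P f}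
  have : ∀ a i, Finite (M a i) := fun a i => finite_monic _ _
  have h7 := Nat.card_le_card_of_injective (β := Σ a, ∀ i, M a i) (fun s : S => ⟨⟨c s, h6 s⟩, fun i =>
    ⟨Up s.1 i, Up_monic (h1 _ s.2) _, (h5 _ s.2 _ i.2).1, (hc s i).symm, h2 _ s.2 _⟩⟩) fun s t h => by
      refine Subtype.ext (eq_of_Up (h1 _ s.2) (h1 _ t.2) fun i => ?_)
      by_cases hi : i ∈ l.support
      · exact congrArg (fun z : Σ a, ∀ i, M a i => (z.2 ⟨i, hi⟩).1) h
      · have h8 : ∀ s : S, Up s.1 i = 1 := fun s => (Up_monic (h1 _ s.2) _).natDegree_eq_zero.1 (by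
          by_contra h
          exact hi (h3 _ s.2 ▸ (mem_lv (h1 _ s.2)).2 (exists_of_Up h)))
        rw [h8, h8]
  have := Fintype.ofFinite {c // p (phi K l.support c).1}
  rw [Nat.card_eq_fintype_card, Fintype.card_coe, Nat.card_sigma] at h7
  refine h7.trans ((sum_le_card_nsmul _ _ _ fun a _ => ?_).trans (by
    rw [card_univ, smul_eq_mul, Nat.card_eq_fintype_card]))
  rw [Nat.card_pi, ← prod_coe_sort l.support]
  exact prod_le_prod' fun i _ => A.card _ (h5 _ hs₀ _ i.2).2 _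

/-- The weight of a degree vector. -/
noncomputable def wl (κ q : ℝ) (e : ℕ) (l : ℕ →₀ ℕ) : ℝ :=
  ∏ i ∈ l.support, PowerSeries.coeff (l i) (Bs κ q (e * i))

theorem wl_nonneg {κ q : ℝ} (hκ : 0 ≤ κ) (hq : 0 ≤ q) (e : ℕ) (l : ℕ →₀ ℕ) : 0 ≤ wl κ q e l :=
  prod_nonneg fun _ _ => Bs_nonneg hκ hq _ _

omit [Finite F] in
theorem wl_lv (κ q e : ℕ) (s : Multiset F[X]) : wl κ q e (lv s) = ((κ ^ (lv s).support.card *
    ∏ i ∈ (lv s).support, if e ∣ lv s i / i then q ^ (lv s i / i / e - 1) else 0 : ℕ) : ℝ) := by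
  rw [← prod_const, ← prod_mul_distrib, Nat.cast_prod]
  refine prod_congr rfl fun i hi => ?_
  have h := Finsupp.mem_support_iff.1 hi
  rw [coeff_Bs, if_neg h]
  rw [lv_apply] at h ⊢
  have h0 := Nat.pos_of_ne_zero (left_ne_zero_of_mul h)
  rw [Nat.mul_div_cancel_left _ h0, mul_comm e, Nat.mul_div_mul_left _ _ h0]
  simp [Nat.mul_dvd_mul_iff_left h0]

theorem sum_wl_le {κ q : ℝ} (hκ : 0 ≤ κ) (hq : 0 ≤ q) {e t : ℕ} (he : e ≠ 0) (ht : t ≠ 0) (n : ℕ) :
    ∑ l ∈ (finsuppAntidiag (Icc 1 n) n).filter (fun l => ∀ i ∈ l.support, t ∣ i), wl κ q e l ≤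
      if e * t ∣ n then ac κ q (n / (e * t)) else 0 := by
  have h1 : ∏ i ∈ (Icc 1 n).image (t * ·), Bs κ q (e * i) = ∏ j ∈ Icc 1 n, Bs κ q (e * t * j) := by
    rw [prod_image fun a _ b _ h => Nat.eq_of_mul_eq_mul_left (Nat.pos_of_ne_zero ht) h]
    simp only [mul_assoc]
  rw [← coeff_prod_mul (mul_ne_zero he ht), ← h1, PowerSeries.coeff_prod]
  have h2 : (finsuppAntidiag (Icc 1 n) n).filter (fun l => ∀ i ∈ l.support, t ∣ i) ⊆
      finsuppAntidiag ((Icc 1 n).image (t * ·)) n := fun l hl => by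
    obtain ⟨h2, h3⟩ := mem_filter.1 hl
    obtain ⟨h4, h5⟩ := mem_finsuppAntidiag'.1 h2
    refine mem_finsuppAntidiag'.2 ⟨h4, fun i hi => ?_⟩
    obtain ⟨j, rfl⟩ := h3 i hi
    have h6 := mem_Icc.1 (h5 hi)
    refine mem_image_of_mem _ (mem_Icc.2 ⟨Nat.pos_of_ne_zero (by rintro rfl; omega), ?_⟩)
    exact (Nat.le_mul_of_pos_left _ (Nat.pos_of_ne_zero ht)).trans h6.2
  refine (sum_le_sum_of_subset_of_nonneg h2 fun l _ _ => wl_nonneg hκ hq _ _).trans (le_of_eq ?_)
  refine sum_congr rfl fun l hl => prod_subset (mem_finsuppAntidiag'.1 hl).2 fun i _ hi => ?_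
  rw [Finsupp.notMem_support_iff.1 hi, coeff_Bs, if_pos rfl]

theorem card_types_le (A : Adm K P q 1) (S : Finset (Multiset F[X])) {n : ℕ}
    (h1 : ∀ s ∈ S, ∀ u ∈ s, Prim u) (h2 : ∀ s ∈ S, ∀ i, P (Up s i))
    (h3 : ∀ s ∈ S, (s.map natDegree).sum = n) : (S.card : ℝ) ≤ ac (Nat.card K) q n := by
  classical
  rw [card_eq_sum_card_fiberwise (f := lv) (t := finsuppAntidiag (Icc 1 n) n)
    fun s hs => lv_mem (h1 s hs) (h3 s hs), Nat.cast_sum]
  have h := sum_wl_le (κ := Nat.card K) (q := q) (by positivity) (by positivity) one_ne_zero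
    one_ne_zero n
  simp only [one_dvd, implies_true, filter_true, mul_one, if_true, Nat.div_one] at h
  refine le_trans (sum_le_sum fun l _ => ?_) h
  rcases (S.filter (lv · = l)).eq_empty_or_nonempty with h4 | ⟨s, hs⟩
  · simpa [h4] using wl_nonneg (by positivity) (by positivity) _ _
  obtain rfl := (mem_filter.1 hs).2
  rw [wl_lv, Nat.cast_le]
  have h5 := card_fiber_le A (S.filter (lv · = lv s)) (lv s)
    (fun s hs => h1 s (mem_filter.1 hs).1) (fun s hs => h2 s (mem_filter.1 hs).1)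
    (fun s hs => (mem_filter.1 hs).2) (fun _ => True) fun _ _ => trivial
  rwa [Nat.card_subtype_true, Nat.card_fun, Nat.card_eq_fintype_card (α := (lv s).support),
    Fintype.card_coe] at h5

theorem sum_ind_le (A : Adm K P q e) (S : Finset (Multiset F[X])) {m : ℕ} (he : e ≠ 0) (hm : m ≠ 0)
    (h1 : ∀ s ∈ S, ∀ u ∈ s, Prim u) (h2 : ∀ s ∈ S, ∀ i, P (Up s i))
    (h3 : ∀ s ∈ S, (s.map natDegree).sum = e * m) {z : F} (h4 : ∀ s ∈ S, s.prod.coeff 0 = z) :
    (Nat.card K * ∑ s ∈ S, ind K (lv s).support : ℕ) ≤ Ac (Nat.card K) q m := by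
  classical
  have hK : 0 < Nat.card K := Nat.card_pos
  have hw := fun l => wl_nonneg (κ := Nat.card K) (q := q) (by positivity) (by positivity) e l
  rw [← sum_fiberwise_of_maps_to (g := lv) (t := finsuppAntidiag (Icc 1 (e * m)) (e * m))
    fun s hs => lv_mem (h1 s hs) (h3 s hs), mul_sum, Nat.cast_sum]
  refine (sum_le_sum (g := fun l => (1 + ∑ t ∈ (Icc 2 (Nat.card K)).filter (· ∣ Nat.card K),
    if ∀ i ∈ l.support, t ∣ i then (t : ℝ) ^ 2 - 1 else 0) * wl (Nat.card K) q e l)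
      fun l _ => ?_).trans ?_
  · have h5 : ∀ t ∈ (Icc 2 (Nat.card K)).filter (· ∣ Nat.card K),
        0 ≤ if ∀ i ∈ l.support, t ∣ i then (t : ℝ) ^ 2 - 1 else 0 := fun t ht => by
      have : (2 : ℝ) ≤ t := by exact_mod_cast (mem_Icc.1 (mem_filter.1 ht).1).1
      split_ifs <;> nlinarith
    refine le_trans ?_ (mul_le_mul_of_nonneg_right (b := (ind K l.support : ℝ) ^ 2) ?_ (hw l))
    · rcases (S.filter (lv · = l)).eq_empty_or_nonempty with h4 | ⟨s, hs⟩
      · simpa [h4] using mul_nonneg (by positivity) (hw l)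
      obtain rfl := (mem_filter.1 hs).2
      rw [wl_lv, ← Nat.cast_pow, ← Nat.cast_mul, Nat.cast_le, sum_congr rfl (g := fun _ =>
        ind K (lv s).support) fun t ht => by rw [(mem_filter.1 ht).2], sum_const, smul_eq_mul]
      have h6 := card_fiber_le A (S.filter (lv · = lv s)) (lv s)
        (fun s hs => h1 s (mem_filter.1 hs).1) (fun s hs => h2 s (mem_filter.1 hs).1)
        (fun s hs => (mem_filter.1 hs).2) (· = z) fun s hs => h4 s (mem_filter.1 hs).1
      have h7 := card_fiber_phi (T := (lv s).support) (fun c : K => (c.1 : F) = z)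
        fun a b ha hb => Subtype.ext (Units.ext (ha.trans hb.symm))
      generalize (∏ i ∈ (lv s).support, if e ∣ lv s i / i then q ^ (lv s i / i / e - 1) else 0) =
        y at h6 ⊢
      generalize Nat.card {c // ((phi K (lv s).support c).1 : F) = z} = x at h6 h7
      calc _ ≤ Nat.card K * ((x * y) * ind K (lv s).support) := by gcongr
        _ = (Nat.card K * x) * (y * ind K (lv s).support) := by ring
        _ ≤ (ind K (lv s).support * Nat.card K ^ (lv s).support.card) *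
          (y * ind K (lv s).support) := by gcongr
        _ = _ := by ring
    · have h6 : ind K l.support ∣ Nat.card K := Subgroup.index_dvd_card _
      rcases Nat.eq_or_lt_of_le (Nat.pos_of_dvd_of_pos h6 hK) with h7 | h7
      · rw [← h7]; simpa using sum_nonneg h5
      · have h8 := single_le_sum h5 (mem_filter.2 ⟨mem_Icc.2 ⟨h7, Nat.le_of_dvd hK h6⟩, h6⟩)
        rw [if_pos fun i hi => ind_dvd hi] at h8
        linarith
  · simp only [add_mul, one_mul, sum_add_distrib, sum_mul, ite_mul, zero_mul]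
    rw [Ac, filter_Icc_eq hK (Nat.pos_of_ne_zero hm), sum_comm, ← filter_filter, sum_filter (· ∣ m)]
    have h0 := Nat.pos_of_ne_zero he
    refine add_le_add ?_ (sum_le_sum fun t ht => ?_)
    · simpa [Nat.mul_div_cancel_left _ h0] using sum_wl_le (κ := Nat.card K) (q := q)
        (by positivity) (by positivity) he one_ne_zero (e * m)
    · have h5 := (mem_Icc.1 (mem_filter.1 ht).1).1
      have h6 : (2 : ℝ) ≤ t := by exact_mod_cast h5
      have h7 := mul_le_mul_of_nonneg_left (sum_wl_le (κ := Nat.card K) (q := q) (t := t)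
        (by positivity) (by positivity) he (by omega) (e * m)) (by nlinarith : 0 ≤ (t : ℝ) ^ 2 - 1)
      rw [mul_sum, sum_filter] at h7
      simpa [Nat.mul_dvd_mul_iff_left h0, Nat.mul_div_mul_left _ _ h0] using h7

/-- The main estimate for the number of classes in the kernel of the determinant. -/
theorem master {G : Type*} [Group G] [Finite G] (d : G →* Fˣ) (ρ : G → Multiset F[X])
    (A : Adm d.range P q e) {m : ℕ} (he : e ≠ 0) (hm : m ≠ 0)
    (h0 : ∀ a b, ρ a = ρ b → IsConj a b) (h1 : ∀ g, ∀ u ∈ ρ g, Prim u)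
    (h3 : ∀ g, ((ρ g).map natDegree).sum = e * m) {z : F} (h4 : ∀ g, d g = 1 → (ρ g).prod.coeff 0 = z)
    (h5 : ∀ g, ∀ u ∈ ρ g, ∀ c ∈ d.range, ∃ k, Commute g k ∧ d k = c ^ ex u) (Q : d.ker → Prop)
    (h2 : ∀ g, Q g → ∀ i, P (Up (ρ g) i)) :
    (Nat.card d.range * Nat.card {C : ConjClasses d.ker // ∃ u, ConjClasses.mk u = C ∧ Q u} : ℕ) ≤
      Ac (Nat.card d.range) q m := by
  classical
  have := Fintype.ofFinite d.ker
  let S := (univ.filter Q).image fun g : d.ker => ρ g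
  have hS : ∀ s ∈ S, ∃ g, Q g ∧ ρ g = s := fun s hs => by simpa [S] using hs
  choose x hx hx' using hS
  refine le_trans ?_ (sum_ind_le A S he hm (fun s hs => hx' s hs ▸ h1 _)
    (fun s hs => hx' s hs ▸ h2 _ (hx s hs)) (fun s hs => hx' s hs ▸ h3 _)
    (fun s hs => hx' s hs ▸ h4 _ (x s hs).2))
  rw [Nat.cast_le]
  gcongr
  have h6 : ∀ C : {C : ConjClasses d.ker // ∃ u, ConjClasses.mk u = C ∧ Q u}, ρ C.2.choose ∈ S :=
    fun C => mem_image_of_mem _ (by simpa using C.2.choose_spec.2)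
  refine (Nat.card_le_card_of_injective (β := Σ s : S, {C : ConjClasses d.ker // ∃ u,
    ConjClasses.mk u = C ∧ IsConj (x s.1 s.2).1 u.1}) (fun C => ⟨⟨_, h6 C⟩, C.1, _,
      C.2.choose_spec.1, h0 _ _ (hx' _ _)⟩) fun a b h =>
        Subtype.ext (congrArg (fun z => z.2.1) h)).trans ?_
  rw [Nat.card_sigma, ← sum_coe_sort S]
  refine sum_le_sum fun s _ => ?_
  rw [H10.card_classes_ker]
  refine index_le_ind fun i hi c => ?_
  rw [← hx' s.1 s.2, mem_lv (h1 _)] at hi
  obtain ⟨u, hu, rfl⟩ := hi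
  obtain ⟨k, h7, h8⟩ := h5 _ u hu c.1 c.2
  exact ⟨k, Subgroup.mem_centralizer_singleton_iff.2 h7.symm, h8⟩

end Cfsg.Agent.H18.Cn
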