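import Mathlib
import Cfsg.Agent.H18.Cn2
import Cfsg.Agent.H10.Real3

/-! Twisting types by scalars and by duality. -/

namespace Cfsg.Agent.H18.Cn

open Polynomial Finset L0 Module

universe u

variable {F : Type u} [Field F]

/-- Monic with non-zero constant coefficient. -/
def Gd (f : F[X]) : Prop := f.Monic ∧ f.coeff 0 ≠ 0

theorem Gd.mul {f g : F[X]} (hf : Gd f) (hg : Gd g) : Gd (f * g) :=
  ⟨hf.1.mul hg.1, by rw [mul_coeff_zero]; exact mul_ne_zero hf.2 hg.2⟩

theorem gd_one : Gd (1 : F[X]) := ⟨monic_one, by simp⟩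

theorem Gd.pow {f : F[X]} (hf : Gd f) (k : ℕ) : Gd (f ^ k) := by
  induction k with
  | zero => simpa using gd_one
  | succ k ih => rw [pow_succ]; exact ih.mul hf

theorem gd_prod {s : Multiset F[X]} (h : ∀ f ∈ s, Gd f) : Gd s.prod :=
  Multiset.prod_induction _ _ (fun _ _ => Gd.mul) gd_one h

theorem Gd.of_dvd {f g : F[X]} (hf : Gd f) (hg : g.Monic) (h : g ∣ f) : Gd g :=
  ⟨hg, fun e => hf.2 (X_dvd_iff.1 ((X_dvd_iff.2 e).trans h))⟩

theorem gd_of_prim {u : F[X]} (h : Prim u) (hX : ¬ X ∣ u) : Gd u := ⟨h.monic, mt X_dvd_iff.2 hX⟩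

theorem Gd.rt {u : F[X]} (h : Gd u) (hu : Prim u) : Gd (rt u) := by
  have h2 := prim_spec hu
  exact h.of_dvd h2.2.1 (by nth_rw 2 [h2.2.2.2]; exact dvd_pow_self _ h2.2.2.1.ne')

/-- A multiplicative degree preserving bijection of the good polynomials. -/
structure Tw (ψ ψ' : F[X] → F[X]) : Prop where
  gd : ∀ f, Gd f → Gd (ψ f)
  gd' : ∀ f, Gd f → Gd (ψ' f)
  mul : ∀ f g, Gd f → Gd g → ψ (f * g) = ψ f * ψ g
  deg : ∀ f, Gd f → (ψ f).natDegree = f.natDegree
  li : ∀ f, Gd f → ψ' (ψ f) = f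
  ri : ∀ f, Gd f → ψ (ψ' f) = f

namespace Tw
variable {ψ ψ' : F[X] → F[X]}

theorem symm (T : Tw ψ ψ') : Tw ψ' ψ where
  gd := T.gd'
  gd' := T.gd
  mul f g hf hg := by
    rw [← T.li _ ((T.gd' f hf).mul (T.gd' g hg)), T.mul _ _ (T.gd' f hf) (T.gd' g hg), T.ri f hf,
      T.ri g hg]
  deg f hf := by rw [← T.deg _ (T.gd' f hf), T.ri f hf]
  li := T.ri
  ri := T.li

theorem one (T : Tw ψ ψ') : ψ 1 = 1 :=
  (T.gd 1 gd_one).1.natDegree_eq_zero.1 (by rw [T.deg 1 gd_one, natDegree_one])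

theorem pow (T : Tw ψ ψ') {f : F[X]} (hf : Gd f) (k : ℕ) : ψ (f ^ k) = ψ f ^ k := by
  induction k with
  | zero => simpa using T.one
  | succ k ih => rw [pow_succ, T.mul _ _ (hf.pow k) hf, ih, pow_succ]

theorem prod (T : Tw ψ ψ') {s : Multiset F[X]} (h : ∀ f ∈ s, Gd f) : ψ s.prod = (s.map ψ).prod := by
  induction s using Multiset.induction_on with
  | empty => simpa using T.one
  | cons a s ih =>
    have h1 : ∀ f ∈ s, Gd f := fun f hf => h f (by simp [hf])
    rw [Multiset.prod_cons, T.mul _ _ (h a (by simp)) (gd_prod h1), ih h1, Multiset.map_cons,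
      Multiset.prod_cons]

theorem inj (T : Tw ψ ψ') {f g : F[X]} (hf : Gd f) (hg : Gd g) (h : ψ f = ψ g) : f = g := by
  rw [← T.li f hf, h, T.li g hg]

theorem irr (T : Tw ψ ψ') {p : F[X]} (hp : Gd p) (h : Irreducible p) : Irreducible (ψ p) := by
  have h1 := T.gd p hp
  rw [h1.1.irreducible_iff_natDegree]
  refine ⟨fun e => h.ne_one (T.inj hp gd_one (e.trans T.one.symm)), fun f g hf hg e => ?_⟩
  have h2 := h1.of_dvd hf (Dvd.intro _ e)
  have h3 := h1.of_dvd hg (Dvd.intro_left _ e)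
  have := (hp.1.irreducible_iff_natDegree.1 h).2 _ _ (T.gd' f h2).1 (T.gd' g h3).1
    (by rw [← T.symm.mul f g h2 h3, e, T.li p hp])
  rwa [T.symm.deg f h2, T.symm.deg g h3] at this

theorem prim (T : Tw ψ ψ') {u : F[X]} (h : Gd u) (hu : Prim u) :
    Prim (ψ u) ∧ rt (ψ u) = ψ (rt u) ∧ ex (ψ u) = ex u := by
  have h1 := h.rt hu
  have h2 := prim_spec hu
  have h3 : ψ u = ψ (rt u) ^ ex u := by rw [← T.pow h1, ← h2.2.2.2]
  rw [h3]
  exact ⟨⟨_, _, T.irr h1 h2.1, (T.gd _ h1).1, h2.2.2.1, rfl⟩,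
    rt_ex_pow (T.irr h1 h2.1) (T.gd _ h1).1 h2.2.2.1⟩

theorem Up_map (T : Tw ψ ψ') {s : Multiset F[X]} (h : ∀ u ∈ s, Gd u) (hs : ∀ u ∈ s, Prim u)
    (i : ℕ) : Up (s.map ψ) i = ψ (Up s i) := by
  rw [Up, Up, T.prod (fun f hf => by
    obtain ⟨u, hu, rfl⟩ := Multiset.mem_map.1 hf
    have := Multiset.mem_of_mem_filter hu
    exact (h u this).rt (hs u this)), Multiset.filter_map, Multiset.map_map, Multiset.map_map,
    Multiset.filter_congr (q := (ex · = i)) fun u hu => by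
      simp [(T.prim (h u hu) (hs u hu)).2.2]]
  refine congrArg _ (Multiset.map_congr rfl fun u hu => ?_)
  have := Multiset.mem_of_mem_filter hu
  exact (T.prim (h u this) (hs u this)).2.1

theorem gd_eq (T : Tw ψ ψ') {p u : F[X]} (hp : Gd p) (hi : Irreducible p) (h : Gd u) (hu : Prim u)
    (k : ℕ) : L0.gd (ψ p ^ k) (ψ u) = L0.gd (p ^ k) u := by
  have h1 := h.rt hu
  obtain ⟨h2, h3, -, h4⟩ := prim_spec hu
  generalize rt u = r at *
  generalize ex u = j at *
  subst h4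
  rw [T.pow h1]
  by_cases e : p = r
  · subst e
    rw [gd_pow_pow hi.ne_zero, gd_pow_pow (T.irr hp hi).ne_zero, T.deg p hp]
  · rw [gd_of_isCoprime (pow_ne_zero _ h2.ne_zero) (isCoprime_of_ne hi hp.1 h2 h3 e).pow,
      gd_of_isCoprime (pow_ne_zero _ (T.irr h1 h2).ne_zero) (isCoprime_of_ne (T.irr hp hi)
        (T.gd p hp).1 (T.irr h1 h2) (T.gd _ h1).1 fun e' => e (T.inj hp h1 e')).pow]

theorem tyE_eq (T : Tw ψ ψ') {V W : Type*} [AddCommGroup V] [Module F V] [FiniteDimensional F V]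
    [AddCommGroup W] [Module F W] [FiniteDimensional F W] {a : End F V} {b : End F W}
    (ha : ∀ u ∈ tyE a, Gd u) (hb : IsUnit b) (h : ∀ f, Gd f → kdE b (ψ f) = kdE a f) :
    tyE b = (tyE a).map ψ := by
  refine tyE_eq_of_kdE (fun u hu => ?_) fun p k hp hm => ?_
  · obtain ⟨v, hv, rfl⟩ := Multiset.mem_map.1 hu
    exact (T.prim (ha v hv) (prim_of_mem_tyE hv)).1
  rw [Multiset.map_map]
  by_cases h0 : p.coeff 0 = 0
  · obtain rfl : p = X := (eq_of_monic_of_associated monic_X hm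
      (irreducible_X.associated_of_dvd hp (X_dvd_iff.2 h0))).symm
    rw [kdE, map_pow, aeval_X, LinearMap.ker_eq_bot.2 ((End.isUnit_iff _).1 (hb.pow k)).1,
      finrank_bot]
    refine (Multiset.sum_eq_zero fun x hx => ?_).symm
    obtain ⟨u, hu, rfl⟩ := Multiset.mem_map.1 hx
    have := T.gd u (ha u hu)
    exact gd_of_isCoprime this.1.ne_zero
      (irreducible_X.coprime_iff_not_dvd.2 (mt X_dvd_iff.1 this.2)).pow_left
  · have h1 := T.gd' p ⟨hm, h0⟩
    rw [← T.ri p ⟨hm, h0⟩, ← T.pow h1, h _ (h1.pow k), kdE_eq_sum, T.pow h1]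
    refine congrArg _ (Multiset.map_congr rfl fun u hu => ?_)
    exact (T.gd_eq h1 (T.symm.irr ⟨hm, h0⟩ hp) (ha u hu) (prim_of_mem_tyE hu) k).symm

end Tw

section scale

theorem tw_scale (z : Fˣ) : Tw (fun f : F[X] => f.scaleRoots z) fun f => f.scaleRoots ↑z⁻¹ := by
  have h : ∀ (z : Fˣ) (f : F[X]), Gd f → Gd (f.scaleRoots z) := fun z f hf =>
    ⟨(monic_scaleRoots_iff _).2 hf.1, by simp [hf.2]⟩
  exact ⟨h z, h z⁻¹, fun f g _ _ => mul_scaleRoots_of_noZeroDivisors _ _ _,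
    fun f _ => natDegree_scaleRoots _ _, fun f _ => by simp [← scaleRoots_mul],
    fun f _ => by simp [← scaleRoots_mul]⟩

theorem gd_of_isUnit {V : Type*} [AddCommGroup V] [Module F V] [FiniteDimensional F V]
    {a : End F V} (ha : IsUnit a) : ∀ u ∈ tyE a, Gd u := fun u hu =>
  gd_of_prim (prim_of_mem_tyE hu) fun hX => by
    obtain ⟨k, hk, rfl⟩ := (prim_of_mem_tyE hu).eq_pow_of_dvd irreducible_X monic_X hX
    have h1 := kdE_eq_sum a X
    rw [kdE, aeval_X, LinearMap.ker_eq_bot.2 ((End.isUnit_iff _).1 ha).1, finrank_bot] at h1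
    have h2 := Multiset.single_le_sum (fun _ _ => Nat.zero_le _) _
      (Multiset.mem_map_of_mem (L0.gd X) hu)
    rw [← h1, gd_of_dvd_right (pow_ne_zero _ X_ne_zero) hX] at h2
    simp at h2

theorem tyE_smul {V : Type*} [AddCommGroup V] [Module F V] [FiniteDimensional F V]
    {a : End F V} (ha : IsUnit a) (z : Fˣ) :
    tyE ((z : F) • a) = (tyE a).map fun f => f.scaleRoots z := by
  refine (tw_scale z).tyE_eq (gd_of_isUnit ha) ?_ fun f _ => ?_
  · rw [Algebra.smul_def]; exact (z.isUnit.map _).mul ha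
  · have := scaleRoots_eval₂_mul_of_commute (p := f) (algebraMap F (End F V)) a z
      (Algebra.commutes _ _) fun _ _ => Algebra.commutes _ _
    rw [kdE, kdE, aeval_def, Algebra.smul_def, this, ← map_pow, ← Algebra.smul_def,
      LinearMap.ker_smul _ _ (pow_ne_zero _ z.ne_zero), aeval_def]

theorem adm_scale [Finite F] (z : Fˣ) :
    Adm ⊤ (fun f : F[X] => f.coeff 0 ≠ 0 ∧ f.scaleRoots z = f) (Nat.card F) (orderOf z) := by
  refine ⟨fun f _ _ h => ⟨⟨Units.mk0 _ h.1, trivial⟩, rfl⟩, fun d hd c => ?_⟩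
  have he : orderOf z ≠ 0 := (orderOf_pos z).ne'
  have key : ∀ f : F[X], f.scaleRoots z = f → ∀ i, f.coeff i ≠ 0 →
      orderOf z ∣ f.natDegree - i := fun f hf i hi => by
    have := congrArg (coeff · i) hf
    simp only [coeff_scaleRoots] at this
    rw [orderOf_dvd_iff_pow_eq_one]
    exact Units.ext (by simpa using (mul_eq_left₀ hi).1 this)
  split_ifs with h
  · obtain ⟨k, rfl⟩ := h
    obtain ⟨k, rfl⟩ := Nat.exists_eq_succ_of_ne_zero (right_ne_zero_of_mul hd)
    rw [Nat.mul_div_cancel_left _ (orderOf_pos z), Nat.succ_sub_one, ← card_monic_coeff k c]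
    have := finite_monic (k + 1) fun f : F[X] => f.coeff 0 = c
    have h1 : ∀ f : F[X], f.natDegree = orderOf z * (k + 1) →
        (contract (orderOf z) f).natDegree ≤ k + 1 := fun f hf =>
      natDegree_le_iff_coeff_eq_zero.2 fun i hi => by
        rw [coeff_contract he]
        exact coeff_eq_zero_of_natDegree_lt (by
          rw [hf, mul_comm]; exact Nat.mul_lt_mul_of_pos_right hi (orderOf_pos z))
    have h2 : ∀ f : F[X], f.Monic → f.natDegree = orderOf z * (k + 1) →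
        (contract (orderOf z) f).coeff (k + 1) = 1 := fun f hm hf => by
      rw [coeff_contract he, mul_comm, ← hf]; exact hm
    refine Nat.card_le_card_of_injective (fun f => ⟨contract (orderOf z) f.1,
      monic_of_natDegree_le_of_coeff_eq_one _ (h1 _ f.2.2.1) (h2 _ f.2.1 f.2.2.1),
      natDegree_eq_of_le_of_coeff_ne_zero (h1 _ f.2.2.1) (by simp [h2 _ f.2.1 f.2.2.1]),
      by simp [coeff_contract he, f.2.2.2.1]⟩) fun f g h => Subtype.ext (ext fun i => ?_)
    by_cases hi : orderOf z ∣ i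
    · obtain ⟨j, rfl⟩ := hi
      rw [mul_comm _ j, ← coeff_contract he, ← coeff_contract he]
      exact congrArg (fun p => p.1.coeff j) h
    · have h3 : ∀ f : F[X], f.natDegree = orderOf z * (k + 1) → f.scaleRoots z = f →
          f.coeff i = 0 := fun f h3 h4 => by
        by_contra h5
        have h6 := key f h4 i h5
        have h7 := le_natDegree_of_ne_zero h5
        rw [h3] at h6 h7
        exact hi ((Nat.dvd_sub_iff_right h7 (dvd_mul_right _ _)).1 h6)
      rw [h3 _ f.2.2.1 f.2.2.2.2.2, h3 _ g.2.2.1 g.2.2.2.2.2]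
  · rw [Nat.le_zero, Nat.card_eq_zero]
    exact .inl ⟨fun f => h (by simpa [f.2.2.1] using key _ f.2.2.2.2.2 0 f.2.2.2.2.1)⟩

end scale

theorem exists_norm_pow [Finite F] {u : F[X]} (hu : Prim u) (c : F) :
    ∃ a : AdjoinRoot u, Algebra.norm F a = c ^ ex u := by
  obtain ⟨h1, h2, h3, h4⟩ := prim_spec hu
  generalize rt u = p at *
  generalize ex u = k at *
  subst h4
  have := Fact.mk h1
  have := finite_adjoinRoot h1.ne_zero
  have := finite_adjoinRoot' h1.ne_zero
  have := finite_adjoinRoot hu.ne_zero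
  have := Fintype.ofFinite F
  let φ : AdjoinRoot p →ₐ[F] AdjoinRoot (p ^ k) := AdjoinRoot.liftAlgHom p (Algebra.ofId _ _)
    ((FiniteField.frobeniusAlgHom F _ ^ k) (AdjoinRoot.root _)) (by
      change aeval _ p = 0
      rw [aeval_algHom_apply, AdjoinRoot.aeval_eq, AlgHom.coe_pow, FiniteField.coe_frobeniusAlgHom,
        pow_iterate]
      beta_reduce
      rw [← map_pow, AdjoinRoot.mk_eq_zero]
      exact pow_dvd_pow _ (Nat.lt_pow_self Fintype.one_lt_card).le)
  letI := φ.toRingHom.toAlgebra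
  have : IsScalarTower F (AdjoinRoot p) (AdjoinRoot (p ^ k)) := .of_algHom φ
  have h5 := finrank_mul_finrank F (AdjoinRoot p) (AdjoinRoot (p ^ k))
  rw [finrank_adjoinRoot h1.ne_zero, finrank_adjoinRoot hu.ne_zero, natDegree_pow, mul_comm k] at h5
  obtain ⟨y, rfl⟩ := FiniteField.norm_surjective F (AdjoinRoot p) c
  exact ⟨algebraMap (AdjoinRoot p) _ y, by
    rw [← Algebra.norm_norm (S := AdjoinRoot p), Algebra.norm_algebraMap, map_pow,
      Nat.eq_of_mul_eq_mul_left h1.natDegree_pos h5]⟩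

section dual
variable {σ : F →+* F}

/-- The dual polynomial. -/
noncomputable def dl (σ : F →+* F) (f : F[X]) : F[X] := C (σ (f.coeff 0))⁻¹ * (f.map σ).reverse

theorem coeff_dl (f : F[X]) (i : ℕ) :
    (dl σ f).coeff i = (σ (f.coeff 0))⁻¹ * σ (f.coeff (revAt f.natDegree i)) := by
  simp [dl, coeff_reverse]

theorem natDegree_dl {f : F[X]} (hf : Gd f) : (dl σ f).natDegree = f.natDegree := by
  have := hf.2
  rw [dl, natDegree_C_mul (by simpa), reverse_natDegree,
    natTrailingDegree_eq_zero.2 (.inr (by simpa)), natDegree_map, Nat.sub_zero]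

theorem coeff_zero_dl {f : F[X]} (hf : f.Monic) : (dl σ f).coeff 0 = (σ (f.coeff 0))⁻¹ := by
  simp [coeff_dl, hf]

theorem tw_dl (hσ : ∀ a, σ (σ a) = a) : Tw (dl σ) (dl σ) := by
  have h1 : ∀ f, Gd f → Gd (dl σ f) := fun f hf => by
    have := hf.2
    refine ⟨?_, by simpa [coeff_zero_dl hf.1]⟩
    rw [Monic, leadingCoeff, natDegree_dl hf, coeff_dl, revAt_le le_rfl, Nat.sub_self,
      inv_mul_cancel₀ (by simpa)]
  have h2 : ∀ f, Gd f → dl σ (dl σ f) = f := fun f hf => by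
    have := hf.2
    ext i
    rw [coeff_dl, coeff_zero_dl hf.1, coeff_dl, natDegree_dl hf, revAt_invol]
    simp [hσ, this]
  refine ⟨h1, h1, fun f g _ _ => ?_, fun f => natDegree_dl, h2, h2⟩
  simp only [dl, mul_coeff_zero, map_mul, mul_inv, Polynomial.map_mul, reverse_mul_of_domain]
  ring

theorem aeval_reflect {A : Type*} [Ring A] [Algebra F A] {b b' : A} (h : b * b' = 1)
    (N : ℕ) (g : F[X]) (hg : g.natDegree ≤ N) : aeval b (reflect N g) = b ^ N * aeval b' g := by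
  have h1 : ∀ k, b ^ k * b' ^ k = 1 := fun k => by
    induction k with
    | zero => simp
    | succ k ih => rw [pow_succ, pow_succ', mul_assoc, ← mul_assoc b, h, one_mul, ih]
  have key : ∀ s : Finset ℕ, (∀ i ∈ s, i ≤ N) → aeval b (reflect N (∑ i ∈ s, C (g.coeff i) * X ^ i)) =
      b ^ N * aeval b' (∑ i ∈ s, C (g.coeff i) * X ^ i) := fun s => by
    induction s using Finset.induction_on with
    | empty => simp
    | insert a s ha ih =>
      intro hs
      obtain ⟨j, rfl⟩ := Nat.exists_eq_add_of_le' (hs a (by simp))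
      rw [sum_insert ha, reflect_add, map_add, map_add, ih fun i hi => hs i (by simp [hi]), mul_add,
        reflect_C_mul_X_pow, revAt_le (by omega)]
      simp [← Algebra.smul_def, pow_add, mul_assoc, h1]
  have := key (range (N + 1)) fun i hi => Nat.lt_succ_iff.1 (mem_range.1 hi)
  rwa [← as_sum_range_C_mul_X_pow' g (Nat.lt_succ_of_le hg)] at this

theorem tyE_dl (hσ : ∀ a, σ (σ a) = a) {V : Type*} [AddCommGroup V] [Module F V]
    [FiniteDimensional F V] {B : V →ₛₗ[σ] V →ₗ[F] F} (hB : B.SeparatingLeft)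
    (hB' : B.SeparatingRight) {a b : End F V} (h : ∀ x y, B (a x) (b y) = B x y) :
    tyE b = (tyE a).map (dl σ) := by
  have ha : IsUnit a := (LinearMap.isUnit_iff_ker_eq_bot a).2 (LinearMap.ker_eq_bot'.2 fun x hx =>
    hB x fun y => by rw [← h, hx]; simp)
  have hb : IsUnit b := (LinearMap.isUnit_iff_ker_eq_bot b).2 (LinearMap.ker_eq_bot'.2 fun y hy =>
    hB' y fun x => by rw [← h, hy]; simp)
  obtain ⟨b, rfl⟩ := hb
  refine (tw_dl hσ).tyE_eq (gd_of_isUnit ha) b.isUnit fun f hf => ?_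
  have := hf.2
  rw [H10.kdE_adj hσ hB hB' (a := a) (b := ↑b⁻¹) fun x y => by
    rw [← h x, ← End.mul_apply, Units.mul_inv, End.one_apply], kdE, kdE, dl, map_mul, aeval_C,
    ← Algebra.smul_def, LinearMap.ker_smul _ _ (by simpa), reverse,
    aeval_reflect b.mul_inv _ _ le_rfl, End.mul_eq_comp, LinearMap.ker_comp_of_ker_eq_bot _
      ((LinearMap.isUnit_iff_ker_eq_bot _).1 (b.isUnit.pow _))]

end dual

end Cfsg.Agent.H18.Cn
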