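import Mathlib
import Cfsg.Agent.H18.Cn3
import Cfsg.Agent.H10.SL
import Cfsg.Agent.S2384
import Cfsg.Agent.S2387

/-! Class numbers of the linear groups. -/

namespace Cfsg.Agent.H18.Cn

open Polynomial Finset L0 Module

section grp
variable {G : Type*} [Group G] [Finite G]

theorem card_classes_le (N : Subgroup G) [N.Normal] (hN : N ≤ Subgroup.center G) :
    Nat.card (ConjClasses G) ≤ Nat.card N * Nat.card (ConjClasses (G ⧸ N)) := by
  rw [← Nat.card_prod]
  refine Nat.card_le_card_of_surjective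
    (fun p => ConjClasses.mk (p.1.1 * Quotient.out (Quotient.out p.2 : G ⧸ N))) fun C => ?_
  obtain ⟨x, rfl⟩ := ConjClasses.mk_surjective C
  obtain ⟨g, hg⟩ := isConj_iff.1 (ConjClasses.mk_eq_mk_iff_isConj.1
    (Quotient.out_eq (ConjClasses.mk (x : G ⧸ N))))
  obtain ⟨g, rfl⟩ := QuotientGroup.mk_surjective g
  generalize hy : Quotient.out (Quotient.out (ConjClasses.mk (x : G ⧸ N)) : G ⧸ N) = y
  rw [← QuotientGroup.out_eq' (Quotient.out (ConjClasses.mk (x : G ⧸ N)) : G ⧸ N), hy,
    ← QuotientGroup.mk_mul, ← QuotientGroup.mk_inv, ← QuotientGroup.mk_mul, QuotientGroup.eq] at hg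
  refine ⟨(⟨_, hg⟩, ConjClasses.mk x), ?_⟩
  have h := Subgroup.mem_center_iff.1 (hN hg)
  simp only [hy, ConjClasses.mk_eq_mk_iff_isConj]
  generalize hz : (g * y * g⁻¹)⁻¹ * x = z at h
  refine isConj_iff.2 ⟨g, ?_⟩
  rw [← mul_assoc, h g, mul_assoc, mul_assoc, ← h, ← mul_assoc g, ← hz]
  group

theorem card_center_mul_le [Fintype (Subgroup.center G)] :
    Nat.card (Subgroup.center G) * Nat.card (ConjClasses (G ⧸ Subgroup.center G)) ≤
      ∑ z : Subgroup.center G, Nat.card {C : ConjClasses G // ∃ u, ConjClasses.mk u = C ∧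
        IsConj (z.1 * u) u} := by
  classical
  letI : MulAction (Subgroup.center G) (ConjClasses G) :=
    { smul := fun z => Quotient.map (z.1 * ·) fun a b h => by
        obtain ⟨g, rfl⟩ := isConj_iff.1 h
        exact isConj_iff.2 ⟨g, by
          rw [← mul_assoc, Subgroup.mem_center_iff.1 z.2 g]; simp only [mul_assoc]⟩
      one_smul := fun C => by
        obtain ⟨x, rfl⟩ := ConjClasses.mk_surjective C
        exact congrArg ConjClasses.mk (one_mul x)
      mul_smul := fun a b C => by
        obtain ⟨x, rfl⟩ := ConjClasses.mk_surjective C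
        exact congrArg ConjClasses.mk (mul_assoc _ _ x) }
  have h0 : ∀ (z : Subgroup.center G) (x : G), z • ConjClasses.mk x = ConjClasses.mk (z.1 * x) :=
    fun _ _ => rfl
  have := Fintype.ofFinite (ConjClasses G)
  have h := MulAction.sum_card_fixedBy_eq_card_orbits_mul_card_group (Subgroup.center G)
    (ConjClasses G)
  simp only [← Nat.card_eq_fintype_card] at h
  have h1 : Nat.card (ConjClasses (G ⧸ Subgroup.center G)) ≤
      Nat.card (Quotient (MulAction.orbitRel (Subgroup.center G) (ConjClasses G))) :=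
    Nat.card_le_card_of_surjective (Quotient.lift (ConjClasses.map (QuotientGroup.mk' _))
      fun a b h => by
        obtain ⟨z, rfl⟩ := MulAction.orbitRel_apply.1 h
        obtain ⟨x, rfl⟩ := ConjClasses.mk_surjective b
        change ConjClasses.mk ((z.1 * x : G) : G ⧸ Subgroup.center G) = ConjClasses.mk _
        rw [QuotientGroup.mk_mul, (QuotientGroup.eq_one_iff _).2 z.2, one_mul]; rfl) fun C => by
      obtain ⟨x, rfl⟩ := ConjClasses.mk_surjective C
      obtain ⟨x, rfl⟩ := QuotientGroup.mk_surjective x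
      exact ⟨Quotient.mk _ (ConjClasses.mk x), rfl⟩
  refine ((Nat.mul_le_mul_left _ h1).trans_eq ((mul_comm _ _).trans h.symm)).trans
    (sum_le_sum fun z _ => Nat.card_le_card_of_injective (fun C => ⟨C.1, ?_⟩)
      fun a b h => Subtype.ext (congrArg (·.1) h))
  obtain ⟨C, hC⟩ := C
  obtain ⟨x, rfl⟩ := ConjClasses.mk_surjective C
  exact ⟨x, rfl, ConjClasses.mk_eq_mk_iff_isConj.1 hC⟩

theorem card_classes_true : Nat.card (ConjClasses G) =
    Nat.card {C : ConjClasses G // ∃ u, ConjClasses.mk u = C ∧ True} :=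
  (Nat.card_congr (Equiv.subtypeUnivEquiv fun C => by simpa using ConjClasses.mk_surjective C)).symm

end grp

variable {F : Type*} [Field F] [Finite F]

theorem card_top_units : Nat.card (⊤ : Subgroup Fˣ) = Nat.card F - 1 := by
  rw [Subgroup.card_top, Nat.card_units]

theorem two_le_card : 2 ≤ Nat.card F := Finite.one_lt_card

theorem gl_le (n : ℕ) : Nat.card (ConjClasses (GL (Fin n) F)) ≤ Nat.card F ^ n := by
  classical
  have := Fintype.ofFinite (GL (Fin n) F)
  have A := adm_scale (1 : Fˣ)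
  rw [orderOf_one] at A
  have h := card_types_le A (univ.image fun g : GL (Fin n) F => ty g.1) (n := n)
    (by simpa using fun g u => prim_of_mem_ty) (by
      simpa using fun g i => Up_coeff (fun u => prim_of_mem_ty) (fun u => not_X_dvd_of_mem_ty g) i)
    (by simpa using fun g : GL (Fin n) F => by simpa using sum_natDegree_ty g.1)
  have h2 := two_le_card (F := F)
  rw [card_top_units, Nat.cast_sub (by omega), Nat.cast_one] at h
  have h3 := h.trans (ac_le_pow (by exact_mod_cast (by omega)) n)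
  refine le_trans ?_ (by exact_mod_cast h3)
  rw [← Fintype.card_coe, ← Nat.card_eq_fintype_card]
  exact Nat.card_le_card_of_injective (fun C => ⟨ty (Quotient.out C : GL (Fin n) F).1, by simp⟩)
    fun a b h => by
      rw [← Quotient.out_eq a, ← Quotient.out_eq b]
      exact Quotient.sound ((isConj_iff_ty _ _).2 (congrArg Subtype.val h))

omit [Finite F] in
theorem prod_ty_coeff {n : ℕ} {A : Matrix (Fin n) (Fin n) F} (h : A.det = 1) :
    (ty A).prod.coeff 0 = (-1) ^ n := by
  rw [Matrix.det_eq_sign_charpoly_coeff, charpoly_eq_prod_ty, Fintype.card_fin] at h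
  have hs : ((-1 : F) ^ n) * (-1) ^ n = 1 := by rw [← mul_pow]; simp
  linear_combination (-1) ^ n * h - (ty A).prod.coeff 0 * hs

theorem sl_fix (z : Fˣ) {n m : ℕ} (hm : m ≠ 0) (hn : n = orderOf z * m) :
    (((Nat.card F - 1) * Nat.card {C : ConjClasses (Matrix.SpecialLinearGroup (Fin n) F) //
      ∃ u, ConjClasses.mk u = C ∧ ty ((z : F) • u.1) = ty u.1} : ℕ) : ℝ) ≤
      Ac (Nat.card F - 1) (Nat.card F) m := by
  have he : orderOf z ≠ 0 := (orderOf_pos z).ne'
  have : Nonempty (Fin n) := ⟨⟨0, hn ▸ Nat.pos_of_ne_zero (mul_ne_zero he hm)⟩⟩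
  have hr := MonoidHom.range_eq_top.2 (Matrix.GeneralLinearGroup.det_surjective (n := Fin n) (R := F))
  have h := master (Matrix.GeneralLinearGroup.det : GL (Fin n) F →* Fˣ) (fun g => ty g.1)
    (hr ▸ adm_scale z) he hm (fun a b => (isConj_iff_ty a b).2) (fun g u => prim_of_mem_ty)
    (fun g => by simpa [← hn] using sum_natDegree_ty g.1)
    (fun g hg => prod_ty_coeff (congrArg Units.val hg)) (fun g u hu c _ => by
      obtain ⟨a, ha⟩ := exists_norm_pow (prim_of_mem_ty hu) (c : F)
      obtain ⟨B, h1, h2⟩ := exists_commute_det hu a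
      obtain ⟨B, rfl⟩ := (Matrix.isUnit_iff_isUnit_det B).2 (h2 ▸ ha ▸ c.isUnit.pow _)
      exact ⟨B, Commute.units_of_val h1, Units.ext (h2.trans ha)⟩)
    (fun g => ty ((z : F) • g.1.1) = ty g.1.1) fun g hg i => by
      have h1 := fun u => prim_of_mem_ty (A := g.1.1) (u := u)
      have h2 := fun u => not_X_dvd_of_mem_ty g.1 (u := u)
      refine ⟨Up_coeff h1 h2 i, ?_⟩
      have h3 := tyE_smul (a := Matrix.toLin' g.1.1) (g.1.isUnit.map Matrix.toLinAlgEquiv') z
      rw [← map_smul] at h3
      rw [← (tw_scale z).Up_map (fun u hu => gd_of_prim (h1 u hu) (h2 u hu)) h1]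
      exact congrArg (Up · i) (h3.symm.trans hg)
  rw [hr, card_top_units] at h
  rwa [H10.card_classes_congr' H10.slEquivKerDet (P := fun u => ty ((z : F) • u.1) = ty u.1)
    (P' := fun g => ty ((z : F) • g.1.1) = ty g.1.1) fun _ => Iff.rfl]

theorem sl_le {n : ℕ} (hn : n ≠ 0) : ((Nat.card F : ℝ) - 1) *
    Nat.card (ConjClasses (Matrix.SpecialLinearGroup (Fin n) F)) ≤
      Ac (Nat.card F - 1) (Nat.card F) n := by
  have h := sl_fix (1 : Fˣ) hn (n := n) (by simp)
  have h2 := two_le_card (F := F)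
  rw [Nat.cast_mul, Nat.cast_sub (by omega), Nat.cast_one] at h
  simpa [card_classes_true] using h

theorem sl_lt {n : ℕ} (hn : 2 ≤ n) :
    Nat.card F ^ (n - 1) < Nat.card (ConjClasses (Matrix.SpecialLinearGroup (Fin n) F)) := by
  have := Fintype.ofFinite F
  obtain ⟨p, hp, -⟩ := FiniteField.card' F
  have := Fact.mk (CharP.char_is_prime F p)
  rw [← S2384.result Nat.card_eq_fintype_card.symm p n (by omega)]
  obtain ⟨g, hg⟩ := exists_sl_ty_eq (n := Fin n) (s := {(X - 1 : F[X]) ^ n})
    (by simpa using prim_X_sub_one_pow (by omega)) (by simp [natDegree_X_sub_one])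
    (by simp [coeff_zero_eq_eval_zero, ← mul_pow])
  refine Finite.card_subtype_lt (x := ConjClasses.mk g) ?_
  rintro ⟨k, h1, h2⟩
  rw [← orderOf_injective _ Matrix.SpecialLinearGroup.toGL_injective, coprime_orderOf_iff p] at h2
  exact not_irreducible_pow (by omega) (h2 _ ((ty_eq_of_isConj_sl
    (ConjClasses.mk_eq_mk_iff_isConj.1 h1)).trans hg ▸ Multiset.mem_singleton_self _))

theorem psl_le (m : ℕ) : Nat.card (Subgroup.center (Matrix.SpecialLinearGroup (Fin (m + 2)) F)) *
    Nat.card (ConjClasses (Matrix.ProjectiveSpecialLinearGroup (Fin (m + 2)) F)) ≤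
      Nat.card F ^ (m + 1) + 5 * Nat.card F ^ m := by
  classical
  have := Fintype.ofFinite (Subgroup.center (Matrix.SpecialLinearGroup (Fin (m + 2)) F))
  have h2 := two_le_card (F := F)
  let e := Matrix.SpecialLinearGroup.center_equiv_rootsOfUnity' (R := F) (0 : Fin (m + 2))
  have h3 : ∀ z, orderOf (e z).1 ∣ m + 2 := fun z => by
    exact (orderOf_dvd_iff_pow_eq_one.2 ((mem_rootsOfUnity _ _).1 (e z).2)).trans (by simp)
  have h4 : ∀ z : Subgroup.center (Matrix.SpecialLinearGroup (Fin (m + 2)) F),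
      ((Nat.card F : ℝ) - 1) * Nat.card {C : ConjClasses (Matrix.SpecialLinearGroup (Fin (m + 2)) F) //
        ∃ u, ConjClasses.mk u = C ∧ IsConj (z.1 * u) u} ≤
      Ac (Nat.card F - 1) (Nat.card F) ((m + 2) / orderOf (e z).1) := fun z => by
    have h := sl_fix (e z).1 ((Nat.div_ne_zero_iff_of_dvd (h3 z)).2 ⟨by omega, (orderOf_pos _).ne'⟩)
      (Nat.mul_div_cancel' (h3 z)).symm
    rw [Nat.cast_mul, Nat.cast_sub (by omega), Nat.cast_one] at h
    refine le_trans (mul_le_mul_of_nonneg_left (Nat.cast_le.2 (Nat.card_le_card_of_injective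
      _ (Subtype.impEmbedding _ _ fun C hC => hC.imp fun u hu => ⟨hu.1, ?_⟩).injective))
        (by simpa using (by omega))) h
    rw [← ty_eq_of_isConj_sl hu.2]
    conv_rhs => rw [← e.symm_apply_apply z]
    exact congrArg ty (by simp [e, Units.smul_def]; rfl)
  have h5 := card_center_mul_le (G := Matrix.SpecialLinearGroup (Fin (m + 2)) F)
  have h6 : Nat.card (Subgroup.center (Matrix.SpecialLinearGroup (Fin (m + 2)) F)) =
    Nat.gcd (m + 2) (Nat.card F - 1) := by rw [H10.card_center_SL, Fintype.card_fin]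
  have h7 := Nat.gcd_le_left (Nat.card F - 1) (by omega : 0 < m + 2)
  have h8 := Nat.gcd_le_right (m + 2) (by omega : 0 < Nat.card F - 1)
  rw [← h6, Nat.card_eq_fintype_card] at h7 h8
  have h9 := Ac_psl h2 m (univ.erase 1) (fun z => orderOf (e z).1) (by simp; omega) (by simp; omega)
    fun z hz => ⟨by
      have := orderOf_pos (e z).1
      have : orderOf (e z).1 ≠ 1 := by simpa using hz
      omega, h3 z⟩
  have h10 := sum_le_sum fun z (_ : z ∈ univ) => h4 z
  rw [← mul_sum, ← add_sum_erase _ (fun z => Ac _ _ ((m + 2) / orderOf (e z).1)) (mem_univ 1), map_one, OneMemClass.coe_one, orderOf_one,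
    Nat.div_one] at h10
  have h11 := le_of_mul_le_mul_left (h10.trans h9) (by simpa using (by omega))
  exact h5.trans (by exact_mod_cast h11)

end Cfsg.Agent.H18.Cn
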