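import Mathlib
import Cfsg.Agent.H18.Cn4
import Cfsg.Agent.H10.Cent
import Cfsg.Agent.H11.GForm2

/-! Self-dual types and class numbers of unitary groups. -/

namespace Cfsg.Agent.H18.Cn

open Polynomial Finset L0 Module H10 H11

universe u

variable {F : Type u} [Field F] {σ : F →+* F} {ε κ : F} {τ : F →+ F}

theorem Tw.step {ψ : F[X] → F[X]} (T : Tw ψ ψ) {s : Multiset F[X]} (hs : ∀ u ∈ s, Gd u)
    (hi : s.map ψ = s) {u : F[X]} (hu : u ∈ s) : (ψ u = u ∧ ∃ t, s = {u} + t ∧ t.map ψ = t) ∨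
      ∃ t, s = {u} + {ψ u} + t ∧ t.map ψ = t := by
  obtain ⟨t, rfl⟩ := Multiset.exists_cons_of_mem hu
  by_cases h : ψ u = u
  · exact .inl ⟨h, t, rfl, by simpa [h] using hi⟩
  · obtain ⟨t, rfl⟩ := Multiset.exists_cons_of_mem ((Multiset.mem_cons.1
      (hi ▸ Multiset.mem_map_of_mem ψ hu :)).resolve_left h)
    refine .inr ⟨t, by simp [add_assoc], ?_⟩
    rw [Multiset.map_cons, Multiset.map_cons, T.li u (hs u hu), Multiset.cons_swap] at hi
    simpa using hi

theorem Tw.induction {ψ : F[X] → F[X]} (T : Tw ψ ψ) {p : Multiset F[X] → Prop} (h0 : p 0)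
    {s : Multiset F[X]} (hs : ∀ u ∈ s, Gd u) (hi : s.map ψ = s)
    (h1 : ∀ u ∈ s, ∀ t, p t → ψ u = u → p ({u} + t))
    (h2 : ∀ u ∈ s, ∀ t, p t → p ({u} + {ψ u} + t)) : p s := by
  induction s using Multiset.strongInductionOn with
  | ih s ih =>
    rcases s.empty_or_exists_mem with rfl | ⟨u, hu⟩
    · exact h0
    rcases T.step hs hi hu with ⟨h, t, rfl, ht⟩ | ⟨t, rfl, ht⟩
    · exact h1 u hu t (ih t (lt_add_of_pos_left t (by simp [pos_iff_ne_zero]))
        (fun v hv => hs v (by simp [hv])) ht (fun v hv => h1 v (by simp [hv]))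
        fun v hv => h2 v (by simp [hv])) h
    · exact h2 u hu t (ih t (lt_add_of_pos_left t (by simp [pos_iff_ne_zero]))
        (fun v hv => hs v (by simp [hv])) ht (fun v hv => h1 v (by simp [hv]))
        fun v hv => h2 v (by simp [hv]))

theorem realD_pair [Finite F] (P : Par σ ε κ τ) {u : F[X]} (hu : Prim u) (hg : Gd u)
    {c : F} (hc : c ≠ 0) : RealD σ ε κ τ ({u} + {dl σ u}) ((c * (σ c)⁻¹) ^ ex u) := by
  obtain ⟨A, hA⟩ := exists_gl_ty_eq (n := Fin u.natDegree) (s := {u}) (by simpa)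
    (by simpa using mt X_dvd_iff.1 hg.2) (by simp)
  obtain ⟨b, hb, -⟩ := exists_dual_end σ A
  have h1 := tyE_dl P.invol (hermB_sep _) (hermB_sepR _) (b := b.toLinearMap) hb
  obtain ⟨a, ha⟩ := exists_norm_pow hu c
  obtain ⟨A', h3, h6⟩ := exists_commute_det (hA ▸ Multiset.mem_singleton_self u) a
  rw [ha] at h6
  obtain ⟨A', rfl⟩ := (Matrix.isUnit_iff_isUnit_det A').mpr (h6 ▸ hc.isUnit.pow _)
  obtain ⟨b', hb', h4⟩ := exists_dual_end σ A'
  have h5 : Commute (Matrix.toLin' A.1) (Matrix.toLin' A'.1) := h3.map Matrix.toLinAlgEquiv'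
  have := P.realD_hyp (hermB_sep _) (hermB_sepR _) (b := b.toLinearMap) (b' := b'.toLinearMap)
    hb hb' h5 (LinearMap.ext fun y => sub_eq_zero.mp (hermB_sepR (σ := σ) _ _ fun x => by
      obtain ⟨x, rfl⟩ := (glEquiv _ F A).surjective x
      obtain ⟨x, rfl⟩ := (glEquiv _ F A').surjective x
      have e := LinearMap.congr_fun h5 x
      rw [map_sub, sub_eq_zero]
      exact ((hb _ _).trans (hb' _ _)).trans (((congrArg (hermB _ σ · (b' (b y))) e).trans
        ((hb' _ _).trans (hb _ _))).symm)))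
  rwa [h1, h4, LinearMap.det_toLin', show tyE (Matrix.toLin' A.1) = _ from hA, h6, map_pow,
    ← inv_pow, ← mul_pow] at this

theorem exists_theta_dl {u : F[X]} (hg : Gd u) (hd : dl σ u = u) :
    ∃ θ : AdjoinRoot u →+* AdjoinRoot u, (∀ a, θ (AdjoinRoot.of u a) = AdjoinRoot.of u (σ a)) ∧
      θ (AdjoinRoot.root u) * AdjoinRoot.root u = 1 := by
  have h0 := hg.2
  have h1 : IsUnit (AdjoinRoot.root u) := by
    have h := (congrArg (AdjoinRoot.mk u) (X_mul_divX_add u)).trans AdjoinRoot.mk_self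
    rw [map_add, map_mul, add_eq_zero_iff_eq_neg, AdjoinRoot.mk_X] at h
    exact isUnit_of_mul_isUnit_left (h ▸ ((hg.2.isUnit.map C).map _).neg)
  have := h1.invertible
  have h2 : eval₂ (AdjoinRoot.of u) (AdjoinRoot.root u) (u.map σ).reverse = 0 := by
    have h := (congrArg (eval₂ _ _) hd).trans (AdjoinRoot.eval₂_root u)
    rw [dl, eval₂_mul, eval₂_C] at h
    exact ((IsUnit.mk0 _ (by simpa)).map (AdjoinRoot.of u)).mul_right_eq_zero.1 h
  refine ⟨AdjoinRoot.lift ((AdjoinRoot.of u).comp σ) (⅟(AdjoinRoot.root u)) ?_,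
    fun a => AdjoinRoot.lift_of _, by rw [AdjoinRoot.lift_root, invOf_mul_self]⟩
  rw [← eval₂_map, ← eval₂_reverse_eq_zero_iff, invOf_invOf, h2]

theorem theta_invol (hσ : ∀ a, σ (σ a) = a) {u : F[X]} {θ : AdjoinRoot u →+* AdjoinRoot u}
    (h1 : ∀ a, θ (AdjoinRoot.of u a) = AdjoinRoot.of u (σ a))
    (h2 : θ (AdjoinRoot.root u) * AdjoinRoot.root u = 1) (a) : θ (θ a) = a :=
  DFunLike.congr_fun (AdjoinRoot.ringHom_ext
    (f := θ.comp θ) (g := RingHom.id _) (RingHom.ext fun c => by simp [h1, hσ])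
    (left_inv_eq_right_inv (by simpa using congrArg θ h2) h2)) a

theorem exists_socle {u : F[X]} (hu : Prim u) :
    ∃ z : AdjoinRoot u, z ≠ 0 ∧ ∀ a ≠ 0, ∃ b, a * b = z := by
  obtain ⟨p, k, hp, -, hk, rfl⟩ := hu
  obtain ⟨k, rfl⟩ := Nat.exists_eq_succ_of_ne_zero hk.ne'
  refine ⟨AdjoinRoot.mk _ (p ^ k), fun h => ?_, fun a ha => ?_⟩
  · have := (pow_dvd_pow_iff hp.ne_zero hp.not_isUnit).1 (AdjoinRoot.mk_eq_zero.1 h)
    omega
  obtain ⟨f, rfl⟩ := AdjoinRoot.mk_surjective a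
  obtain ⟨m, h, h2, h1⟩ := WfDvdMonoid.max_power_factor (a₀ := f) (by rintro rfl; simp at ha) hp
  obtain ⟨v, hv⟩ := ((isUnit_mk_pow_iff hp k.succ_pos h).mpr h2).exists_right_inv
  obtain ⟨j, hj⟩ := Nat.exists_eq_add_of_le (Nat.lt_succ_iff.mp (not_le.mp fun e =>
    ha (AdjoinRoot.mk_eq_zero.mpr (h1 ▸ (pow_dvd_pow _ e).mul_right _))))
  refine ⟨v * AdjoinRoot.mk _ (p ^ j), ?_⟩
  rw [h1, map_mul, mul_mul_mul_comm, mul_comm _ v, mul_mul_mul_comm, mul_comm v, hv, one_mul,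
    ← map_mul, ← pow_add, ← hj]

theorem realD_self_herm [Finite F] (hσ : σ ≠ RingHom.id F) (hσ2 : ∀ a, σ (σ a) = a) {u : F[X]}
    (hu : Prim u) (hg : Gd u) (hd : dl σ u = u) {c : F} (hc : c ≠ 0) :
    RealD σ 1 1 (trHom σ) {u} ((c * (σ c)⁻¹) ^ ex u) := by
  have := finite_adjoinRoot hu.ne_zero
  obtain ⟨θ, h1, h2⟩ := exists_theta_dl hg hd
  have h5 := theta_invol hσ2 h1 h2
  obtain ⟨z, hz, h3⟩ := exists_socle hu
  obtain ⟨l, h4⟩ : ∃ l : AdjoinRoot u →ₗ[F] F, l z + 1 * σ (l (θ z)) ≠ 0 := by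
    by_contra h
    push Not at h
    obtain ⟨l, hl⟩ := exists_dual_eq hz (1 : F)
    refine hσ (RingHom.ext fun a => ?_)
    have e1 := h l
    have e2 := h (a • l)
    simp only [LinearMap.smul_apply, smul_eq_mul, map_mul, hl] at e1 e2
    rw [RingHom.id_apply]
    linear_combination σ a * e1 - e2
  obtain ⟨y, hy⟩ := exists_norm_pow hu c
  have h6 : ∀ y, Algebra.norm F (θ y) = σ (Algebra.norm F y) := fun y => by
    have := Algebra.norm_eq_of_equiv_equiv (RingEquiv.ofRingHom σ σ (RingHom.ext hσ2)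
      (RingHom.ext hσ2)) (RingEquiv.ofRingHom θ θ (RingHom.ext h5) (RingHom.ext h5))
      (RingHom.ext fun a => (h1 a).symm) y
    rw [this]; exact (hσ2 _).symm
  obtain ⟨y', hy'⟩ : ∃ y', y * y' = 1 := by
    have h7 : IsUnit (LinearMap.mulLeft F y) := (LinearMap.isUnit_iff_isUnit_det _).2
      (by exact (hy ▸ hc.isUnit.pow _ : IsUnit (Algebra.norm F y)))
    exact ((End.isUnit_iff _).1 h7).2 1
  have h7 : Algebra.norm F y' = (c ^ ex u)⁻¹ :=
    eq_inv_of_mul_eq_one_right (by rw [← hy, ← map_mul, hy', map_one])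
  have := (par_herm hσ2).realD_cyc hu θ h1 h2 l h3 h4 (w := y * θ y') (by
    have := congrArg θ hy'
    rw [map_mul, map_one] at this
    rw [map_mul, h5]
    linear_combination (θ y * θ y') * hy' + this)
  rwa [map_mul, h6, hy, h7, map_inv₀, map_pow, ← inv_pow, ← mul_pow] at this

theorem realD_herm [Finite F] (hσ : σ ≠ RingHom.id F) (hσ2 : ∀ a, σ (σ a) = a) {s : Multiset F[X]}
    (hs : ∀ u ∈ s, Prim u) (hg : ∀ u ∈ s, Gd u) (hi : s.map (dl σ) = s) :
    Real σ 1 1 (trHom σ) s ∧ ∀ u ∈ s, ∀ c, σ c * c = 1 → RealD σ 1 1 (trHom σ) s (c ^ ex u) := by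
  have P := par_herm hσ2
  have key : ∀ s : Multiset F[X], (∀ u ∈ s, Prim u) → (∀ u ∈ s, Gd u) → s.map (dl σ) = s →
      Real σ 1 1 (trHom σ) s := fun s hs hg hi => (tw_dl hσ2).induction P.real_zero hg hi
    (fun u hu t ht h => (realD_self_herm hσ hσ2 (hs u hu) (hg u hu) h one_ne_zero).real.add ht)
    fun u hu t ht => (realD_pair P (hs u hu) (hg u hu) one_ne_zero).real.add ht
  refine ⟨key s hs hg hi, fun u hu c hc => ?_⟩
  obtain ⟨a, h1, h2⟩ := exists_div_conj hσ hσ2 hc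
  rw [← show a * (σ a)⁻¹ = c from (mul_inv_eq_iff_eq_mul₀ (by simpa)).mpr h2.symm, ← mul_one (_ ^ _)]
  rcases (tw_dl hσ2).step hg hi hu with ⟨h, t, rfl, ht⟩ | ⟨t, rfl, ht⟩
  · exact (realD_self_herm hσ hσ2 (hs u hu) (hg u hu) h h1).add (key t (fun v hv => hs v (by simp [hv]))
      (fun v hv => hg v (by simp [hv])) ht).realD
  · exact (realD_pair P (hs u hu) (hg u hu) h1).add (key t (fun v hv => hs v (by simp [hv]))
      (fun v hv => hg v (by simp [hv])) ht).realD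

theorem dl_coeff (hσ : ∀ a, σ (σ a) = a) {f : F[X]} (hf : Gd f) (h : dl σ f = f) :
    σ (f.coeff 0) * f.coeff 0 = 1 := by
  have h1 := coeff_zero_dl (σ := σ) hf.1
  rw [h] at h1
  nth_rw 2 [h1]
  exact mul_inv_cancel₀ (by simpa using hf.2)

theorem card_selfdual {q : ℕ} (hq : QConj σ q) (m : ℕ) {c : F} (hc : σ c * c = 1) :
    Nat.card {f : F[X] // f.Monic ∧ f.natDegree = m + 1 ∧ f.coeff 0 = c ∧ dl σ f = f} = q ^ m := by
  have := hq.finite
  let θ : F[X] →+ F[X] := AddMonoidHom.mk' (fun f => C c * reflect (m + 1) (f.map σ)) (by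
    simp [mul_add])
  have hθ : ∀ f, θ f = C c * reflect (m + 1) (f.map σ) := fun _ => rfl
  let P : Submodule F F[X] := degreeLT F (m + 1) ⊓ LinearMap.ker (lcoeff F 0)
  have hP : ∀ f, f ∈ P ↔ (∀ i, m + 1 ≤ i → f.coeff i = 0) ∧ f.coeff 0 = 0 := fun f => by
    simp only [P, Submodule.mem_inf, mem_degreeLT, LinearMap.mem_ker, lcoeff_apply,
      degree_lt_iff_coeff_zero]
  have h1 := card_fixed_sq hq.ne_id hq.invol θ (fun a x => by ext i; simp [hθ]; ring)
    (fun x => by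
      ext i
      simp only [hθ, coeff_C_mul, coeff_reflect, coeff_map, map_mul, revAt_invol, hq.invol]
      linear_combination x.coeff i * hc) P fun x hx => by
      rw [hP] at hx ⊢
      refine ⟨fun i hi => ?_, by simp [hθ, hx.1]⟩
      rcases hi.eq_or_lt with rfl | h
      · simp [hθ, hx.2]
      · simp [hθ, revAt_eq_self_of_lt h, hx.1 i hi]
  have h2 : ∀ f : F[X], f.Monic ∧ f.natDegree = m + 1 ∧ f.coeff 0 = c ↔
      f - (X ^ (m + 1) + C c) ∈ P := fun f => by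
    rw [hP]
    constructor
    · rintro ⟨h2, h3, h4⟩
      refine ⟨fun i hi => ?_, by simp [h4]⟩
      rcases hi.eq_or_lt with rfl | h
      · have := h2.coeff_natDegree
        rw [h3] at this
        simp [this]
      · have h0 : i ≠ 0 := by omega
        simp [coeff_eq_zero_of_natDegree_lt (h3 ▸ h), coeff_X_pow, h.ne', coeff_C, h0]
    · rintro ⟨h2, h3⟩
      have h4 : f.natDegree ≤ m + 1 := natDegree_le_iff_coeff_eq_zero.2 fun i hi => by
        have h0 : i ≠ 0 := by omega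
        simpa [coeff_X_pow, hi.ne', coeff_C, h0] using h2 i hi.le
      have h5 : f.coeff (m + 1) = 1 := by simpa [sub_eq_zero] using h2 _ le_rfl
      exact ⟨monic_of_natDegree_le_of_coeff_eq_one _ h4 h5,
        natDegree_eq_of_le_of_coeff_ne_zero h4 (by simp [h5]), by simpa [sub_eq_zero] using h3⟩
  have h3 : θ (X ^ (m + 1) + C c) = X ^ (m + 1) + C c := by
    simp [hθ, mul_add, ← mul_assoc, ← C_mul, mul_comm c, hc, add_comm]
  have h4 := Nat.card_congr ((Equiv.subRight _).subtypeEquiv h2)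
  rw [card_monic_coeff, hq.card, ← pow_mul, mul_comm, pow_mul] at h4
  rw [← Nat.pow_left_injective two_ne_zero (h1.trans h4.symm)]
  refine Nat.card_congr ((Equiv.subRight (X ^ (m + 1) + C c)).subtypeEquiv fun f => ?_)
  rw [Equiv.subRight_apply, ← h2, map_sub, h3, sub_left_inj, and_assoc, and_assoc]
  refine and_congr_right fun _ => and_congr_right fun h5 => and_congr_right fun h6 => ?_
  rw [hθ, dl, h6, reverse, natDegree_map, h5, ← eq_inv_of_mul_eq_one_right hc]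

theorem adm_unit {q : ℕ} (hq : QConj σ q) :
    Adm (normOne σ) (fun f : F[X] => f.coeff 0 ≠ 0 ∧ dl σ f = f) q 1 := by
  have := hq.finite
  refine ⟨fun f h _ h1 => ⟨⟨Units.mk0 _ h1.1, dl_coeff hq.invol ⟨h, h1.1⟩ h1.2⟩, rfl⟩,
    fun d hd c => ?_⟩
  obtain ⟨m, rfl⟩ := Nat.exists_eq_succ_of_ne_zero hd
  rw [if_pos (one_dvd _), Nat.div_one, Nat.succ_sub_one]
  by_cases hc : σ c * c = 1
  · rw [← card_selfdual hq m hc]
    have := finite_monic (m + 1) fun f : F[X] => f.coeff 0 = c ∧ dl σ f = f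
    exact Nat.card_le_card_of_injective _ (Subtype.impEmbedding _ _ fun f hf =>
      ⟨hf.1, hf.2.1, hf.2.2.1, hf.2.2.2.2⟩).injective
  · refine (Nat.card_eq_zero.2 (.inl ⟨fun f => hc ?_⟩)).trans_le (Nat.zero_le _)
    exact f.2.2.2.1 ▸ dl_coeff hq.invol ⟨f.2.1, f.2.2.2.2.1⟩ f.2.2.2.2.2

section form
variable {V : Type*} [AddCommGroup V] [Module F V] [FiniteDimensional F V]
  {B : V →ₛₗ[σ] V →ₗ[F] F} {Q : V → F}

theorem gd_isom (g : Isom B Q) : ∀ u ∈ tyE g.1.toLinearMap, Gd u :=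
  gd_of_isUnit ((End.isUnit_iff _).2 g.1.bijective)

theorem tyE_isom (h : IsForm ε κ τ B Q) (hB : B.SeparatingLeft) (g : Isom B Q) :
    (tyE g.1.toLinearMap).map (dl σ) = tyE g.1.toLinearMap :=
  (tyE_dl h.invol hB (fun _ => h.separatingRight hB) g.2.1).symm

theorem det_eq_prod_tyE (g : End F V) :
    (tyE g).prod.coeff 0 = (-1) ^ finrank F V * LinearMap.det g := by
  rw [← charpoly_eq_prod_tyE, LinearMap.det_eq_sign_charpoly_coeff, ← mul_assoc, ← mul_pow]
  simp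

end form

theorem su_le {q : ℕ} (hq : QConj σ q) {n : ℕ} (hn : n ≠ 0) :
    ((q : ℝ) + 1) * Nat.card (ConjClasses (SU n F q)) ≤ Ac (q + 1) q n := by
  have := hq.finite
  have hH := hq.isHerm (Fin n)
  have hB := hermB_sep (σ := σ) (Fin n)
  have hr := hH.range_detI hB (by simp; omega)
  have : Finite (UIsom (hermB (Fin n) σ)) := .of_equiv _ (guEquiv hq n).toEquiv
  have h := master (detI (hermB (Fin n) σ) fun x => hermB (Fin n) σ x x)
    (fun g => tyE g.1.toLinearMap) (hr ▸ adm_unit hq) one_ne_zero hn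
    (fun a b => isConj_herm hH hB) (fun g u => prim_of_mem_tyE)
    (fun g => by simp [← finrank_eq_sum_tyE]) (z := (-1) ^ n)
    (fun g hg => by rw [det_eq_prod_tyE, ← detI_coe, hg]; simp) (fun g u hu c hc => by
      obtain ⟨k, h1, h2⟩ := RealD.exists_comm hH hB g ((realD_herm hH.ne hH.invol
        (fun u => prim_of_mem_tyE) (gd_isom g) (tyE_isom hH.form hB g)).2 u hu c (hr ▸ hc :))
      exact ⟨k, h1, Units.ext h2⟩) (fun _ => True) fun g _ i => by
      refine ⟨Up_coeff (fun u => prim_of_mem_tyE) (fun u hu => mt X_dvd_iff.1 (gd_isom _ u hu).2) i, ?_⟩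
      rw [← (tw_dl hH.invol).Up_map (gd_isom _) fun u => prim_of_mem_tyE, tyE_isom hH.form hB]
  rw [hr, hq.card_normOne, ← card_classes_congr' (suEquiv hq n) (P := fun _ => True)
    fun _ => Iff.rfl, ← card_classes_true] at h
  exact_mod_cast h

theorem Tw.exists_type {ψ : F[X] → F[X]} (T : Tw ψ ψ) {f : F[X]} (hf : Gd f) (h : ψ f = f) :
    ∃ s : Multiset F[X], (∀ u ∈ s, Irreducible u ∧ u.Monic) ∧ (∀ u ∈ s, Gd u) ∧ s.prod = f ∧
      s.map ψ = s := by
  obtain ⟨s, hs, rfl⟩ := exists_multiset_prod_eq hf.1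
  have hg : ∀ u ∈ s, Gd u := fun u hu => hf.of_dvd (hs u hu).2 (Multiset.dvd_prod hu)
  refine ⟨s, hs, hg, rfl, multiset_eq_of_prod_eq (fun u hu => ?_) hs (by rw [← T.prod hg, h])⟩
  obtain ⟨v, hv, rfl⟩ := Multiset.mem_map.1 hu
  exact ⟨T.irr (hg v hv) (hs v hv).1, (T.gd v (hg v hv)).1⟩

theorem ex_irr {u : F[X]} (h : Irreducible u) (hm : u.Monic) : ex u = 1 := by
  simpa using (rt_ex_pow h hm one_pos).2

theorem natDegree_prod_ty {s : Multiset F[X]} (hs : ∀ u ∈ s, u.Monic) :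
    s.prod.natDegree = (s.map natDegree).sum := natDegree_multiset_prod_of_monic _ hs

theorem isConj_of_equiv {G H : Type*} [Group G] [Group H] (e : G ≃* H) {a b : G}
    (h : IsConj (e a) (e b)) : IsConj a b := by
  simpa using e.symm.toMonoidHom.map_isConj h

theorem su_semis {q : ℕ} (hq : QConj σ q) (p : ℕ) [Fact p.Prime] [CharP F p] (m : ℕ) :
    Nat.card {c : ConjClasses (SU (m + 1) F q) // ∃ g, ConjClasses.mk g = c ∧
      (orderOf g).Coprime p} = q ^ m := by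
  have := hq.finite
  have hH := hq.isHerm (Fin (m + 1))
  have hB := hermB_sep (σ := σ) (Fin (m + 1))
  have hr := hH.range_detI hB (by simp)
  have key : ∀ g : SU (m + 1) F q, (orderOf g).Coprime p ↔ ∀ u ∈ ty g.1.1, Irreducible u := fun g => by
    rw [← Subgroup.orderOf_coe, ← orderOf_injective _ Matrix.SpecialLinearGroup.toGL_injective]
    exact coprime_orderOf_iff p (Matrix.SpecialLinearGroup.toGL g.1)
  rw [← card_selfdual hq m (c := (-1) ^ (m + 1)) (by simp [← mul_pow])]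
  refine card_classes_eq _ (fun f g => (ty g.1.1).prod = f.1) (fun g _ => ⟨⟨(ty g.1.1).prod, ?_⟩, rfl⟩)
    (fun f => ?_) fun i j a b ha hb h1 h2 => ⟨fun h => Subtype.ext ?_, fun h => ?_⟩
  · have h1 := gd_isom (suEquiv hq _ g).1
    have h2 := tyE_isom hH.form hB (suEquiv hq _ g).1
    rw [tyE_suEquiv] at h1 h2
    exact ⟨(gd_prod h1).1, by simp [natDegree_prod_ty fun u hu => (h1 u hu).1, sum_natDegree_ty],
      prod_ty_coeff g.1.2, by rw [(tw_dl hH.invol).prod h1, h2]⟩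
  · obtain ⟨s, h1, h2, h3, h4⟩ := (tw_dl hH.invol).exists_type ⟨f.2.1, by simp [f.2.2.2.1]⟩ f.2.2.2.2
    obtain ⟨g, hg⟩ := (realD_herm hH.ne hH.invol (fun u hu => .of_irreducible (h1 u hu).1 (h1 u hu).2)
      h2 h4).1.herm hH hB (by simp [← natDegree_prod_ty fun u hu => (h1 u hu).2, h3, f.2.2.1])
    have h5 := det_eq_prod_tyE g.1.toLinearMap
    rw [hg, h3, f.2.2.2.1, finrank_fin_fun, eq_comm, mul_eq_left₀ (by simp)] at h5
    obtain ⟨A, hA⟩ := (suEquiv hq (m + 1)).surjective ⟨g, mem_sisom.2 h5⟩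
    have h6 : ty A.1.1 = s := by rw [← tyE_suEquiv hq, hA, hg]
    exact ⟨A, (key A).2 fun u hu => (h1 u (h6 ▸ hu)).1, h6 ▸ h3⟩
  · rw [← h1, ← h2]
    exact congrArg _ (ty_eq_of_isConj_sl ((SU (m + 1) F q).subtype.map_isConj h))
  · have h3 : ty a.1.1 = ty b.1.1 := multiset_eq_of_prod_eq
      (fun u hu => ⟨(key a).1 ha u hu, (prim_of_mem_ty hu).monic⟩)
      (fun u hu => ⟨(key b).1 hb u hu, (prim_of_mem_ty hu).monic⟩) (by rw [h1, h2, h])
    refine isConj_of_equiv (suEquiv hq (m + 1)) (isConj_ker_of _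
      (isConj_herm hH hB (by rw [tyE_suEquiv, tyE_suEquiv, h3])) fun g => ?_)
    obtain ⟨u, hu⟩ := Multiset.exists_mem_of_ne_zero (s := ty a.1.1) fun e => by
      simpa [e] using sum_natDegree_ty a.1.1
    obtain ⟨k, h4, h5⟩ := RealD.exists_comm hH hB _ ((realD_herm hH.ne hH.invol
      (fun u => prim_of_mem_tyE) (gd_isom _) (tyE_isom hH.form hB (suEquiv hq _ a).1)).2 u
        (by rwa [tyE_suEquiv]) _ (hr.le ⟨g, rfl⟩))
    rw [ex_irr ((key a).1 ha u hu) (prim_of_mem_ty hu).monic, pow_one] at h5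
    exact ⟨k, h4, Units.ext h5⟩

end Cfsg.Agent.H18.Cn
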