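import Mathlib
import Cfsg.Agent.H18.Cn5

/-! Semisimple types in symplectic groups. -/

namespace Cfsg.Agent.H18.Cn

open Polynomial Finset L0 Module H10 H11

universe u

variable {F : Type u} [Field F] {σ : F →+* F} {ε κ : F} {τ : F →+ F}

theorem real_self_irr (P : Par σ ε κ τ) {u : F[X]} (hu : Irreducible u) (hg : Gd u)
    (hd : dl σ u = u) (H : (∃ a, a + ε * σ a ≠ 0) ∨ σ = RingHom.id F ∧ ¬ u ∣ X ^ 2 - 1) :
    Real σ ε κ τ {u} := by
  have := Fact.mk hu
  obtain ⟨θ, h1, h2⟩ := exists_theta_dl hg hd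
  obtain ⟨l, z, h3, h4⟩ : ∃ (l : AdjoinRoot u →ₗ[F] F) (z : AdjoinRoot u), z ≠ 0 ∧
      l z + ε * σ (l (θ z)) ≠ 0 := by
    by_cases H' : ∃ a, a + ε * σ a ≠ 0
    · obtain ⟨a, ha⟩ := H'
      obtain ⟨l, hl⟩ := exists_dual_eq (one_ne_zero (α := AdjoinRoot u)) a
      exact ⟨l, 1, one_ne_zero, by simpa [hl]⟩
    · obtain ⟨rfl, h3⟩ := H.resolve_left H'
      obtain rfl : ε = -1 := by
        push Not at H'; simpa [add_eq_zero_iff_neg_eq, eq_comm (b := ε)] using H' 1
      obtain ⟨l, hl⟩ := exists_dual_eq (z := AdjoinRoot.root u - θ (AdjoinRoot.root u))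
        (fun e => h3 ((root_pow_eq_one_iff _ _).mp
          (by linear_combination h2 + AdjoinRoot.root u * e))) (1 : F)
      exact ⟨l, _, right_ne_zero_of_mul_eq_one h2, by simp [← sub_eq_add_neg, ← map_sub, hl]⟩
  exact (P.realD_cyc (.of_irreducible hu hg.1) θ h1 h2 l (z := z)
    (fun a ha => ⟨a⁻¹ * z, by field_simp⟩) h4 (w := 1) (by simp)).real

theorem real_semis [Finite F] (P : Par σ ε κ τ) {s : Multiset F[X]} (hs : ∀ u ∈ s, Irreducible u)
    (hg : ∀ u ∈ s, Gd u) (hi : s.map (dl σ) = s) (H : Good σ ε s) : Real σ ε κ τ s :=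
  (tw_dl P.invol).induction P.real_zero hg hi
    (fun u hu _ ht h => (real_self_irr P (hs u hu) (hg u hu) h
      (H.imp_right fun H => ⟨H.1, H.2 u hu⟩)).add ht)
    fun u hu _ ht => (realD_pair P (.of_irreducible (hs u hu) (hg u hu).1) (hg u hu)
      one_ne_zero).real.add ht

theorem eval_dl {f : F[X]} {x : F} (hx : x * x = 1) :
    (dl (RingHom.id F) f).eval x = (f.coeff 0)⁻¹ * (x ^ f.natDegree * f.eval x) := by
  simpa [dl, reverse, coe_aeval_eq_eval] using .inl (aeval_reflect (F := F) hx _ f le_rfl)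

theorem dl_X_sub_C {c : F} (hc : c * c = 1) : dl (RingHom.id F) (X - C c) = X - C c := by
  have h : c ≠ 0 := left_ne_zero_of_mul_eq_one hc
  rw [dl, Polynomial.map_id, reverse, natDegree_X_sub_C, reflect_sub, reflect_one_X, reflect_C]
  simp only [coeff_sub, coeff_X_zero, coeff_C_zero, zero_sub, RingHom.id_apply, inv_neg,
    ← eq_inv_of_mul_eq_one_left hc, pow_one, map_neg]
  linear_combination X * (by rw [← C_mul, hc, C_1] : C c * C c = 1)

theorem gd_X_sub_C {c : F} (hc : c ≠ 0) : Gd (X - C c) := ⟨monic_X_sub_C c, by simpa⟩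

theorem eq_of_dvd_sq {u : F[X]} (hu : Irreducible u) (hm : u.Monic) (h : u ∣ X ^ 2 - 1) :
    u = X - C 1 ∨ u = X - C (-1) :=
  (hu.prime.dvd_or_dvd (a := X - C 1) (b := X - C (-1)) (by convert h using 1; simp; ring)).imp
    (fun e => eq_of_monic_of_associated hm (monic_X_sub_C _)
      (hu.associated_of_dvd (irreducible_X_sub_C _) e))
    fun e => eq_of_monic_of_associated hm (monic_X_sub_C _)
      (hu.associated_of_dvd (irreducible_X_sub_C _) e)

open Classical in
theorem filter_dl {s : Multiset F[X]} (hs : ∀ u ∈ s, Irreducible u) (hg : ∀ u ∈ s, Gd u)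
    (hi : s.map (dl (RingHom.id F)) = s) : (s.filter (¬ · ∣ X ^ 2 - 1)).map (dl (RingHom.id F)) =
      s.filter (¬ · ∣ X ^ 2 - 1) := by
  have T := tw_dl (σ := RingHom.id F) fun _ => rfl
  have h : ∀ u, Irreducible u → Gd u → u ∣ X ^ 2 - 1 → dl (RingHom.id F) u = u := fun u h1 h2 h3 => by
    rcases eq_of_dvd_sq h1 h2.1 h3 with rfl | rfl <;> exact dl_X_sub_C (by simp)
  conv_rhs => rw [← hi, Multiset.filter_map]
  refine congrArg _ (Multiset.filter_congr fun u hu => not_congr ⟨fun e => ?_, fun e => ?_⟩)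
  · rwa [h u (hs u hu) (hg u hu) e]
  · rwa [← T.li u (hg u hu), h _ (T.irr (hg u hu) (hs u hu)) (T.gd u (hg u hu)) e]

theorem real_alt_semis [Finite F] {s : Multiset F[X]} (hs : ∀ u ∈ s, Irreducible u)
    (hg : ∀ u ∈ s, Gd u) (hi : s.map (dl (RingHom.id F)) = s) (he : Even (s.map natDegree).sum)
    (h0 : s.prod.coeff 0 = 1) : Real (RingHom.id F) (-1) 0 0 s := by
  classical
  have T := tw_dl (σ := RingHom.id F) fun _ => rfl
  have h1 := filter_dl hs hg hi
  have h2 := Multiset.filter_add_not (· ∣ X ^ 2 - 1) s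
  have h3 : ∀ u ∈ s.filter (¬ · ∣ X ^ 2 - 1), ¬ u ∣ X ^ 2 - 1 := fun u hu => (Multiset.mem_filter.1 hu).2
  have h4 : ∀ u ∈ s.filter (· ∣ X ^ 2 - 1), u = X - C 1 ∨ u = X - C (-1) := fun u hu =>
    have := Multiset.mem_filter.1 hu
    eq_of_dvd_sq (hs u this.1) (hg u this.1).1 this.2
  generalize s.filter (¬ · ∣ X ^ 2 - 1) = t at h1 h2 h3
  generalize s.filter (· ∣ X ^ 2 - 1) = r at h2 h4
  subst h2
  have hg' : ∀ u ∈ t, Gd u := fun u hu => hg u (by simp [hu])
  have h5 := real_semis par_alt (fun u hu => hs u (by simp [hu])) hg' h1 (.inr ⟨rfl, h3⟩)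
  refine (par_alt.real_of_count fun u hu => .inr ⟨?_, ?_⟩).add h5
  swap
  · have := (realD_pair par_alt (.of_irreducible (hs u (by simp [hu])) (hg u (by simp [hu])).1)
      (hg u (by simp [hu])) one_ne_zero).real
    rcases h4 u hu with rfl | rfl <;> rwa [dl_X_sub_C (by simp)] at this
  have h6 : Even (t.map natDegree).sum := by
    obtain ⟨V, _, _, _, B, Q, e1, e2, e3⟩ := h5
    have hA : B.IsAlt := fun x => by simpa using e1.diag x
    exact e3.finrank_eq ▸ even_finrank_of_alt (hA.isRefl.nondegenerate_iff_separatingLeft.mpr e2) hA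
  have h7 : Even r.card := by
    rw [Multiset.map_add, Multiset.sum_add, Nat.even_add, Multiset.map_congr rfl (g := fun _ => 1)
      fun u hu => by rcases h4 u hu with rfl | rfl <;> exact natDegree_X_sub_C _] at he
    simpa using he.2 h6
  by_cases h2 : (-1 : F) = 1
  · rwa [Multiset.count_eq_card.2 fun v hv => by
      rcases h4 u hu with rfl | rfl <;> rcases h4 v hv with rfl | rfl <;> simp [h2]]
  have hne : (X - C 1 : F[X]) ≠ X - C (-1) := fun e => h2 (C_injective (sub_right_injective e)).symm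
  obtain ⟨a, b, rfl⟩ : ∃ a b, r = Multiset.replicate a (X - C 1) +
      Multiset.replicate b (X - C (-1)) := ⟨r.count (X - C 1), r.count (X - C (-1)), by
    rw [← Multiset.filter_eq', ← Multiset.filter_eq', ← Multiset.filter_congr (p := (¬ · = X - C 1))
      (q := (· = X - C (-1))) fun v hv => by
        rcases h4 v hv with rfl | rfl
        · exact iff_of_false (fun h => h rfl) hne
        · exact iff_of_true hne.symm rfl, Multiset.filter_add_not]⟩
  have h8 : t.prod.eval 1 ≠ 0 := fun e => by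
    obtain ⟨v, hv, h⟩ := Prime.exists_mem_multiset_dvd (prime_X_sub_C 1) (dvd_iff_isRoot.2 e)
    refine h3 v hv (((irreducible_X_sub_C 1).associated_of_dvd (hs v (by simp [hv])) h).symm.dvd.trans ?_)
    exact dvd_iff_isRoot.2 (by simp)
  have h9 := eval_dl (f := t.prod) (x := 1) (by simp)
  rw [T.prod hg', h1, one_pow, one_mul, eq_comm, mul_eq_right₀ h8, inv_eq_one] at h9
  have h10 : Even a := by
    simpa [h9, coeff_zero_eq_eval_zero, neg_one_pow_eq_one_iff_even h2,
      ← coeff_zero_eq_eval_zero t.prod] using h0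
  have h11 : Even b := by simpa [Nat.even_add, h10] using h7
  rcases h4 u hu with rfl | rfl
  · rwa [Multiset.count_add, Multiset.count_replicate_self, Multiset.count_replicate,
      if_neg hne.symm]
  · rwa [Multiset.count_add, Multiset.count_replicate_self, Multiset.count_replicate,
      if_neg hne, zero_add]

/-- Palindromic polynomials. -/
def Pal (f : F[X]) : Prop :=
  f.Monic ∧ Even f.natDegree ∧ f.coeff 0 = 1 ∧ dl (RingHom.id F) f = f

theorem pal_iff {f : F[X]} {n : ℕ} : Pal f ∧ f.natDegree = 2 * n ↔ f.coeff 0 = 1 ∧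
    (∀ i, 2 * n < i → f.coeff i = 0) ∧ ∀ i ≤ 2 * n, f.coeff (2 * n - i) = f.coeff i := by
  constructor
  · rintro ⟨⟨-, -, h1, h2⟩, h3⟩
    refine ⟨h1, fun i hi => coeff_eq_zero_of_natDegree_lt (h3 ▸ hi), fun i hi => ?_⟩
    conv_rhs => rw [← h2, coeff_dl, h1, h3, revAt_le hi]
    simp
  · rintro ⟨h1, h2, h3⟩
    have h4 := natDegree_le_iff_coeff_eq_zero.2 h2
    have h5 : f.coeff (2 * n) = 1 := by simpa [h1] using h3 0 (by omega)
    have h6 := natDegree_eq_of_le_of_coeff_ne_zero h4 (by simp [h5])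
    refine ⟨⟨monic_of_natDegree_le_of_coeff_eq_one _ h4 h5, by simp [h6], h1, ext fun i => ?_⟩, h6⟩
    rw [coeff_dl, h1, h6]
    rcases le_or_gt i (2 * n) with h | h
    · simp [revAt_le h, h3 i h]
    · simp [revAt_eq_self_of_lt h]

theorem card_pal [Finite F] (n : ℕ) :
    Nat.card {f : F[X] // Pal f ∧ f.natDegree = 2 * n} = Nat.card F ^ n := by
  rw [← Nat.card_fin n, ← Nat.card_fun, Nat.card_fin]
  refine Nat.card_eq_of_bijective (fun f i => f.1.coeff (i + 1)) ⟨fun f g h => ?_, fun a => ?_⟩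
  · obtain ⟨h1, h2, h3⟩ := pal_iff.1 f.2
    obtain ⟨h4, h5, h6⟩ := pal_iff.1 g.2
    have key : ∀ i ≤ n, f.1.coeff i = g.1.coeff i := fun i hi => by
      rcases i with _ | i
      · rw [h1, h4]
      · exact congrFun h ⟨i, hi⟩
    refine Subtype.ext (ext fun i => ?_)
    rcases le_or_gt i n with h7 | h7
    · exact key i h7
    rcases le_or_gt i (2 * n) with h8 | h8
    · rw [← h3 i h8, ← h6 i h8, key _ (by omega)]
    · rw [h2 i h8, h5 i h8]
  · let c : ℕ → F := fun i => if h : i - 1 < n ∧ i ≠ 0 then a ⟨i - 1, h.1⟩ else 1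
    have h : ∀ i, (∑ j ∈ range (2 * n + 1), monomial j (c (min j (2 * n - j)))).coeff i =
        if i ≤ 2 * n then c (min i (2 * n - i)) else 0 := fun i => by
      simp [coeff_monomial]
    generalize (∑ j ∈ range (2 * n + 1), monomial j (c (min j (2 * n - j)))) = f at h
    refine ⟨⟨f, pal_iff.2 ⟨by simp [h, c], fun i hi => by rw [h, if_neg (by omega)],
      fun i hi => ?_⟩⟩, funext fun i => ?_⟩
    · rw [h, h, if_pos hi, if_pos (by omega), Nat.sub_sub_self hi, min_comm]
    · have := i.2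
      simp only [h]
      rw [if_pos (by omega), min_eq_left (by omega)]
      simp [c]

theorem pal_of_alt {V : Type*} [AddCommGroup V] [Module F V] [FiniteDimensional F V]
    {B : LinearMap.BilinForm F V} (hA : B.IsAlt) (hB : B.SeparatingLeft) {n : ℕ}
    (hn : finrank F V = 2 * n) (g : Isom (σ := RingHom.id F) B fun _ => 0) :
    Pal (tyE g.1.toLinearMap).prod ∧ (tyE g.1.toLinearMap).prod.natDegree = 2 * n := by
  have h1 := gd_isom g
  have h2 : (tyE g.1.toLinearMap).prod.natDegree = 2 * n := by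
    rw [natDegree_prod_ty fun u hu => (h1 u hu).1, ← finrank_eq_sum_tyE, hn]
  refine ⟨⟨(gd_prod h1).1, by simp [h2], ?_, by
    rw [(tw_dl fun _ => rfl).prod h1, tyE_isom (isForm_alt hA) hB]⟩, h2⟩
  rw [det_eq_prod_tyE, det_of_alt hB hA hn one_ne_zero (by simpa using g.2.1), hn]
  simp

theorem sp_semis [Finite F] (p : ℕ) [Fact p.Prime] [CharP F p] (n : ℕ) :
    Nat.card {c : ConjClasses (Matrix.symplecticGroup (Fin n) F) // ∃ g, ConjClasses.mk g = c ∧
      (orderOf g).Coprime p} = Nat.card F ^ n := by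
  have hA := spBilin_isAlt (l := Fin n) (F := F)
  have hB := (spBilin_nondegenerate (l := Fin n) (F := F)).1
  have hn : finrank F (Fin n ⊕ Fin n → F) = 2 * n := by simp [two_mul]
  let ρ : Matrix.symplecticGroup (Fin n) F →* GL (Fin n ⊕ Fin n) F :=
    (Matrix.symplecticGroup (Fin n) F).subtype.toHomUnits
  have key : ∀ g : Matrix.symplecticGroup (Fin n) F, (orderOf g).Coprime p ↔
      ∀ u ∈ tyE (spIso _ F g).1.toLinearMap, Irreducible u := fun g => by
    rw [← orderOf_injective ρ fun a b h => Subtype.ext (congrArg Units.val h), tyE_spIso]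
    exact coprime_orderOf_iff p (ρ g)
  rw [← card_pal]
  refine card_classes_eq _ (fun f g => (tyE (spIso _ F g).1.toLinearMap).prod = f.1)
    (fun g _ => ⟨⟨_, pal_of_alt hA hB hn (spIso _ F g)⟩, rfl⟩)
    (fun f => ?_) fun i j a b ha hb h1 h2 => ⟨fun h => Subtype.ext ?_, fun h => ?_⟩
  · obtain ⟨s, h1, h2, h3, h4⟩ := (tw_dl (σ := RingHom.id F) fun _ => rfl).exists_type
      ⟨f.2.1.1, by simp [f.2.1.2.2.1]⟩ f.2.1.2.2.2
    have h5 : (s.map natDegree).sum = 2 * n := by
      rw [← natDegree_prod_ty fun u hu => (h1 u hu).2, h3, f.2.2]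
    obtain ⟨g, hg⟩ := (real_alt_semis (fun u hu => (h1 u hu).1) h2 h4 (by simp [h5])
      (h3 ▸ f.2.1.2.2.1)).alt hA hB (h5.trans hn.symm)
    obtain ⟨g, rfl⟩ := (spIso _ F).surjective g
    exact ⟨g, (key g).2 fun u hu => (h1 u (hg ▸ hu)).1, hg ▸ h3⟩
  · rw [← h1, ← h2, tyE_spIso, tyE_spIso]
    exact congrArg Multiset.prod (show ty a.1 = ty b.1 from (isConj_iff_ty (ρ a) (ρ b)).1 (ρ.map_isConj h))
  · have h3 := multiset_eq_of_prod_eq
      (fun u hu => ⟨(key a).1 ha u hu, (prim_of_mem_tyE hu).monic⟩)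
      (fun u hu => ⟨(key b).1 hb u hu, (prim_of_mem_tyE hu).monic⟩) (by rw [h1, h2, h])
    obtain ⟨x, hx⟩ := (tyE_eq_iff _ _).1 h3
    refine isConj_of_equiv (spIso _ F)
      (isConj_of_alt hA hB _ _ hx (n := orderOf a) ?_ (natCast_ne_zero_of_coprime ha))
    rw [← Subgroup.coe_pow, ← map_pow, pow_orderOf_eq_one, map_one, Subgroup.coe_one]

end Cfsg.Agent.H18.Cn
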