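import Mathlib
import Cfsg.Agent.H18.Cn6
import Cfsg.Agent.H10.Wall1
import Cfsg.Agent.H10.Elus1
import Cfsg.Agent.H11.Bridge2

/-! Wall's classification of conjugacy classes of isometries in odd characteristic. -/

namespace Cfsg.Agent.H18.Cn

open Polynomial Finset L0 Module H10 H11

universe u

variable {F : Type u} [Field F]

section cl
variable {V U : Type*} [AddCommGroup V] [Module F V] [AddCommGroup U] [Module F U]

/-- The non-degenerate quotient of the form has square discriminant. -/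
def Cl (β : V →ₗ[F] V →ₗ[F] F) : Prop := ∃ (r : ℕ) (v : Fin r → V), (gram β v).det ≠ 0 ∧
  IsSquare (gram β v).det ∧ ∀ w : Fin (r + 1) → V, (gram β w).det = 0

theorem cl_pull {β : V →ₗ[F] V →ₗ[F] F} {γ : U →ₗ[F] U →ₗ[F] F} {p : V → U}
    (hp : Function.Surjective p) (h : ∀ x y, β x y = γ (p x) (p y)) : Cl β ↔ Cl γ := by
  have key : ∀ (r : ℕ) (v : Fin r → V), gram β v = gram γ (p ∘ v) := fun r v => by
    ext i j; simp [h]
  constructor
  · rintro ⟨r, v, h1, h2, h3⟩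
    refine ⟨r, p ∘ v, key r v ▸ h1, key r v ▸ h2, fun w => ?_⟩
    obtain ⟨w, rfl⟩ := hp.comp_left w
    exact key _ w ▸ h3 w
  · rintro ⟨r, v, h1, h2, h3⟩
    obtain ⟨v, rfl⟩ := hp.comp_left v
    exact ⟨r, v, key r v ▸ h1, key r v ▸ h2, fun w => key _ w ▸ h3 _⟩

theorem li_of_gram {β : V →ₗ[F] V →ₗ[F] F} {ι : Type*} [Fintype ι] [DecidableEq ι] {v : ι → V}
    (h : (gram β v).det ≠ 0) : LinearIndependent F v := by
  refine Fintype.linearIndependent_iff.2 fun c hc => ?_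
  by_contra h1
  refine h (Matrix.exists_vecMul_eq_zero_iff.1 ⟨c, fun e => h1 (congrFun e), funext fun j => ?_⟩)
  simpa [Matrix.vecMul, dotProduct] using congrArg (β · (v j)) hc

theorem cl_iff [FiniteDimensional F V] (h2 : (2 : F) ≠ 0) {β : V →ₗ[F] V →ₗ[F] F}
    (hS : ∀ x y, β x y = β y x) (hB : β.SeparatingLeft) {ι : Type*} [Fintype ι] [DecidableEq ι]
    (b : Basis ι F V) : Cl β ↔ IsSquare (gram β b).det := by
  have key : ∀ b' : Basis (Fin (finrank F V)) F V,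
      IsSquare (gram β b').det ↔ IsSquare (gram β b).det := fun b' => by
    obtain ⟨c, h1, h3⟩ := exists_gram_det_eq β b b'
    rw [h3]
    exact isSquare_mul_iff_of_isSquare (mul_ne_zero h1 h1) ⟨c, rfl⟩
  constructor
  · rintro ⟨r, v, h3, h4, h5⟩
    rcases (by simpa using (li_of_gram h3).fintype_card_le_finrank : r ≤ finrank F V).eq_or_lt with rfl | h
    · have := (key (basisOfLinearIndependentOfCardEqFinrank' v (li_of_gram h3) (by simp))).1
      simpa using this (by simpa)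
    · have := invertibleOfNonzero h2
      obtain ⟨c, hc⟩ := LinearMap.BilinForm.exists_orthogonal_basis (B := β) ⟨hS⟩
      have h6 := gram_det_ne_zero (fun _ => rfl) hB c
      rw [gram_det_orth β c fun i j e => hc e] at h6
      have h7 := h5 fun i => c (Fin.castLE h i)
      rw [gram_det_orth β _ fun i j e => hc ((Fin.castLE_injective h).ne e)] at h7
      obtain ⟨i, -, h8⟩ := prod_eq_zero_iff.1 h7
      exact (h6 (prod_eq_zero (mem_univ _) h8)).elim
  · intro h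
    refine ⟨_, finBasis F V, gram_det_ne_zero (fun _ => rfl) hB _, (key _).2 h, fun w => ?_⟩
    by_contra h3
    simpa using (li_of_gram h3).fintype_card_le_finrank

theorem exists_desc {β : V →ₗ[F] V →ₗ[F] F} (p : V →ₗ[F] U) (hp : Function.Surjective p)
    (h : ∀ x, p x = 0 → ∀ y, β x y = 0 ∧ β y x = 0) :
    ∃ γ : U →ₗ[F] U →ₗ[F] F, ∀ x y, β x y = γ (p x) (p y) := by
  obtain ⟨s, hs⟩ := p.exists_rightInverse_of_surjective (LinearMap.range_eq_top.2 hp)
  have h1 : ∀ x, p (x - s (p x)) = 0 := fun x => by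
    rw [map_sub, sub_eq_zero]; exact (LinearMap.congr_fun hs (p x)).symm
  refine ⟨pull β s, fun x y => ?_⟩
  have e1 := (h _ (h1 x) y).1
  have e2 := (h _ (h1 y) (s (p x))).2
  simp only [map_sub, LinearMap.sub_apply, pull_apply] at e1 e2 ⊢
  linear_combination e1 + e2

theorem gram_prod {β : V →ₗ[F] V →ₗ[F] F} {γ : U →ₗ[F] U →ₗ[F] F} {ι κ : Type*} [Fintype ι]
    [DecidableEq ι] [Fintype κ] [DecidableEq κ] (b : Basis ι F V) (c : Basis κ F U) :
    (gram (prodB β γ) (b.prod c)).det = (gram β b).det * (gram γ c).det := by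
  rw [← Matrix.det_fromBlocks_zero₂₁ _ 0]
  congr 1
  ext (i | i) (j | j) <;> simp

end cl

variable {V V' : Type u} [AddCommGroup V] [Module F V] [AddCommGroup V'] [Module F V']
  {ε : F} {B : V →ₗ[F] V →ₗ[F] F} {g : V ≃ₗ[F] V} {B' : V' →ₗ[F] V' →ₗ[F] F} {g' : V' ≃ₗ[F] V'}

/-- An isometry of an `ε`-symmetric form without eigenvalue `-1`. -/
structure Tr (ε : F) (B : V →ₗ[F] V →ₗ[F] F) (g : V ≃ₗ[F] V) : Prop where
  eps : ε = 1 ∨ ε = -1
  symm : ∀ x y, B y x = ε * B x y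
  sep : B.SeparatingLeft
  isom : ∀ x y, B (g x) (g y) = B x y
  inj : ∀ x, g x = -x → x = 0

theorem isForm_eps (h2 : (2 : F) ≠ 0) (he : ε = 1 ∨ ε = -1) (hs : ∀ x y, B y x = ε * B x y) :
    IsForm (σ := RingHom.id F) ε 2 (AddMonoidHom.mulLeft ((1 + ε) / 2)) B fun x => B x x / 2 := by
  refine ⟨fun _ => rfl, hs, fun x y => ?_, fun c x => ?_, fun x => ?_, fun x => ⟨B x x / 2, ?_⟩⟩
  · simp [hs x y]; ring
  · simp; ring
  · field_simp
  · rcases he with rfl | rfl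
    · rw [AddMonoidHom.coe_mulLeft, one_add_one_eq_two, div_self h2, one_mul]
    · have : 2 * B x x = 0 := by linear_combination hs x x
      simp [(mul_eq_zero.1 this).resolve_left h2]

theorem Tr.form (T : Tr ε B g) (h2 : (2 : F) ≠ 0) :
    IsForm (σ := RingHom.id F) ε 2 (AddMonoidHom.mulLeft ((1 + ε) / 2)) B fun x => B x x / 2 :=
  isForm_eps h2 T.eps T.symm

theorem Tr.mem (T : Tr ε B g) : g ∈ Isom (σ := RingHom.id F) B fun x => B x x / 2 :=
  ⟨T.isom, fun x => congrArg (· / 2) (T.isom x x)⟩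

theorem Tr.sq (T : Tr ε B g) : ε * ε = 1 := by rcases T.eps with rfl | rfl <;> simp

/-- The skew operator `g - g⁻¹`. -/
def sk (g : V ≃ₗ[F] V) : End F V := g.toLinearMap - g.symm.toLinearMap

theorem sk_apply (x : V) : sk g x = g x - g.symm x := rfl

/-- The forms `B (x, (g - g⁻¹) ^ k y)`. -/
def bet (B : V →ₗ[F] V →ₗ[F] F) (g : V ≃ₗ[F] V) (k : ℕ) : V →ₗ[F] V →ₗ[F] F :=
  B.compl₂ (sk g ^ k)

theorem bet_apply (k : ℕ) (x y : V) : bet B g k x y = B x ((sk g ^ k) y) := rfl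

/-- There is a Jordan block of size `k + 1`. -/
def Jb (N : End F V) (k : ℕ) : Prop :=
  ∃ x, N x = 0 ∧ (∃ y, (N ^ k) y = x) ∧ ∀ z, (N ^ (k + 1)) z ≠ x

theorem pow_comm_of {W : Type*} [AddCommGroup W] [Module F W] {a : End F V} {b : End F W}
    {f : V → W} (h : ∀ v, f (a v) = b (f v)) (k : ℕ) (v : V) : f ((a ^ k) v) = (b ^ k) (f v) := by
  induction k with
  | zero => rfl
  | succ k ih => rw [pow_succ', pow_succ', End.mul_apply, End.mul_apply, h, ih]

theorem Jb.congr {N : End F V} {N' : End F V'} (e : V ≃ₗ[F] V') (h : ∀ v, e (N v) = N' (e v))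
    {k : ℕ} (H : Jb N k) : Jb N' k := by
  obtain ⟨x, h1, ⟨y, h2⟩, h3⟩ := H
  refine ⟨e x, by rw [← h, h1, map_zero], ⟨e y, by rw [← pow_comm_of h, h2]⟩, fun z hz => ?_⟩
  obtain ⟨z, rfl⟩ := e.surjective z
  exact h3 z (e.injective (by rw [pow_comm_of h, hz]))

theorem sk_comm {W : Type u} [AddCommGroup W] [Module F W] {k : W ≃ₗ[F] W} {M : Type*}
    [FunLike M V W] [AddMonoidHomClass M V W] {f : M}
    (h : ∀ v, f (g v) = k (f v)) (v : V) : f (sk g v) = sk k (f v) := by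
  rw [sk_apply, sk_apply, map_sub, h, sub_right_inj, eq_comm, k.symm_apply_eq, ← h,
    g.apply_symm_apply]

theorem cl_bet_congr (e : V ≃ₗ[F] V') (h1 : ∀ x y, B' (e x) (e y) = B x y)
    (h2 : ∀ v, e (g v) = g' (e v)) (k : ℕ) : Cl (bet B g k) ↔ Cl (bet B' g' k) :=
  cl_pull e.surjective fun x y => by
    rw [bet_apply, bet_apply, ← h1, pow_comm_of (sk_comm h2)]

theorem Tr.sk_adj (T : Tr ε B g) (x y : V) : B (sk g x) y = -B x (sk g y) := by
  have h1 := T.isom x (g.symm y)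
  have h2 := T.isom (g.symm x) y
  simp only [sk_apply, map_sub, LinearMap.sub_apply, g.apply_symm_apply] at h1 h2 ⊢
  linear_combination h1 + h2

theorem Tr.sk_eq_zero (T : Tr ε B g) {x : V} : sk g x = 0 ↔ g x = x := by
  rw [sk_apply, sub_eq_zero]
  refine ⟨fun h => sub_eq_zero.1 (T.inj _ ?_), fun h => by rw [eq_comm, g.symm_apply_eq, h, h]⟩
  rw [map_sub, h, g.apply_symm_apply, neg_sub]

/-- The derived triple. -/
structure Der (B : V →ₗ[F] V →ₗ[F] F) (g : V ≃ₗ[F] V) (π : V →ₗ[F] movS g)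
    (χ B₁ : movS g →ₗ[F] movS g →ₗ[F] F) (g₁ : movS g ≃ₗ[F] movS g) : Prop where
  wall : WallD (σ := RingHom.id F) B g (movS g).subtype π χ
  coe : ∀ w, (g₁ w : V) = g w
  comm : ∀ v, π (g v) = g₁ (π v)
  form : ∀ x y, B₁ (π x) (π y) = B x (sk g y)
  chi : ∀ a b, B₁ a b = χ a (b + g₁.symm b)

variable [FiniteDimensional F V] [FiniteDimensional F V']

theorem Tr.exists_der (T : Tr ε B g) (h2 : (2 : F) ≠ 0) :
    ∃ π χ B₁ g₁, Der B g π χ B₁ g₁ ∧ Tr (-ε) B₁ g₁ := by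
  obtain ⟨π, χ, H⟩ := exists_wallD (T.form h2) T.sep T.mem
  have h1 : ∀ w ∈ movS g, g.toLinearMap w ∈ movS g := movS_invariant g fun _ => rfl
  let g₁ : movS g ≃ₗ[F] movS g := LinearEquiv.ofInjectiveEndo (g.toLinearMap.restrict h1)
    fun a b h => Subtype.ext (g.injective (congrArg Subtype.val h))
  have h3 : ∀ w, (g₁ w : V) = g w := fun _ => rfl
  have h4 : ∀ v, (π v : V) = g v - v := H.eq
  have h5 : ∀ v, π (g v) = g₁ (π v) := fun v => Subtype.ext (by rw [h3, h4, h4, map_sub])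
  have h6 : ∀ v, π (g.symm v) = g₁.symm (π v) := fun v => by
    rw [eq_comm, g₁.symm_apply_eq, ← h5, g.apply_symm_apply]
  let B₁ := χ.compl₂ (LinearMap.id + g₁.symm.toLinearMap)
  have h7 : ∀ a b, B₁ a b = χ a (b + g₁.symm b) := fun _ _ => rfl
  have h8 : ∀ x y, B₁ (π x) (π y) = B x (sk g y) := fun x y => by
    rw [h7, ← h6, ← map_add, H.form, sk_apply]
    simp [h4]
  refine ⟨π, χ, B₁, g₁, ⟨H, h3, h5, h8, h7⟩, T.eps.symm.imp (by rintro rfl; simp) (by rintro rfl; rfl),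
    fun a b => ?_, fun a ha => ?_, fun a b => ?_, fun a ha => Subtype.ext (T.inj _ ?_)⟩
  · obtain ⟨a, rfl⟩ := H.surj a
    obtain ⟨b, rfl⟩ := H.surj b
    rw [h8, h8, T.symm, T.sk_adj]; ring
  · obtain ⟨a, rfl⟩ := H.surj a
    refine Subtype.ext ((h4 a).trans (sub_eq_zero.2 (T.sk_eq_zero.1 (T.sep _ fun y => ?_))))
    rw [T.sk_adj, ← h8, ha, neg_zero]
  · obtain ⟨a, rfl⟩ := H.surj a
    obtain ⟨b, rfl⟩ := H.surj b
    rw [← h5, ← h5, h8, h8, ← sk_comm (f := g) (k := g) fun _ => rfl]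
    exact T.isom _ _
  · rw [← h3, ha]; rfl

namespace Der
variable {π : V →ₗ[F] movS g} {χ B₁ : movS g →ₗ[F] movS g →ₗ[F] F} {g₁ : movS g ≃ₗ[F] movS g}
  {π' : V' →ₗ[F] movS g'} {χ' B₁' : movS g' →ₗ[F] movS g' →ₗ[F] F} {g₁' : movS g' ≃ₗ[F] movS g'}

omit [FiniteDimensional F V] in
theorem cl (D : Der B g π χ B₁ g₁) (k : ℕ) : Cl (bet B g (k + 1)) ↔ Cl (bet B₁ g₁ k) :=
  cl_pull D.wall.surj fun x y => by
    rw [bet_apply, bet_apply, ← pow_comm_of (sk_comm D.comm), D.form, pow_succ', End.mul_apply]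

omit [FiniteDimensional F V] in
theorem jb (D : Der B g π χ B₁ g₁) {k : ℕ} (H : Jb (g₁.toLinearMap - 1) k) :
    Jb (g.toLinearMap - 1) (k + 1) := by
  have h1 : ∀ w : movS g, (((g₁.toLinearMap - 1) w : movS g) : V) = (g.toLinearMap - 1) w.1 :=
    fun w => by simp [D.coe]
  have h2 : ∀ (j : ℕ) v, ((((g₁.toLinearMap - 1 : End F _) ^ j) (π v) : movS g) : V) =
      ((g.toLinearMap - 1 : End F _) ^ (j + 1)) v := fun j v => by
    rw [pow_comm_of h1, pow_succ, End.mul_apply]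
    exact congrArg _ (D.wall.eq v)
  obtain ⟨x, h3, ⟨y, h4⟩, h5⟩ := H
  obtain ⟨y, rfl⟩ := D.wall.surj y
  exact ⟨x, by rw [← h1, h3]; rfl, ⟨y, by rw [← h2, h4]⟩,
    fun z hz => h5 (π z) (Subtype.ext ((h2 _ _).trans hz))⟩

omit [FiniteDimensional F V] [FiniteDimensional F V'] in
theorem equiv (D : Der B g π χ B₁ g₁) (D' : Der B' g' π' χ' B₁' g₁') (x : V ≃ₗ[F] V')
    (hx : ∀ v, x (g v) = g' (x v)) :
    ∃ y : movS g ≃ₗ[F] movS g', ∀ v, y (g₁ v) = g₁' (y v) := by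
  have h : (movS g).map x.toLinearMap = movS g' := by
    refine le_antisymm ?_ fun w hw => ?_
    · rintro _ ⟨w, hw, rfl⟩
      obtain ⟨v, rfl⟩ := mem_movS.mp hw
      exact mem_movS.mpr ⟨x v, by simp [hx]⟩
    · obtain ⟨v, rfl⟩ := mem_movS.mp hw
      obtain ⟨v, rfl⟩ := x.surjective v
      exact ⟨_, mem_movS.mpr ⟨v, rfl⟩, by simp [hx]⟩
  exact ⟨x.ofSubmodules _ _ h, fun v => Subtype.ext (by simp [D.coe, D'.coe, hx])⟩

end Der

theorem Tr.disc [Finite F] (T : Tr 1 B g) (h2 : (2 : F) ≠ 0) (H : ¬ Jb (g.toLinearMap - 1) 0) :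
    Cl (bet B g 2) ↔ IsSquare ((-1) ^ finrank F (movS g) * (gram B (finBasis F V)).det) := by
  have hS : ∀ x y, B x y = B y x := fun x y => by rw [T.symm, one_mul]
  have h1 : ∀ x y, bet B g 2 x y = -B (sk g x) (sk g y) := fun x y => by
    rw [T.sk_adj, neg_neg, bet_apply, pow_two, End.mul_apply]
  let p := (sk g * sk g).rangeRestrict
  have hp : ∀ x, p x = 0 ↔ sk g (sk g x) = 0 := fun x => Subtype.ext_iff
  have hp' := (sk g * sk g).surjective_rangeRestrict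
  obtain ⟨γ, hγ⟩ := exists_desc (β := bet B g 2) p hp' fun x hx y => by
    rw [h1, h1, hS (sk g x), and_self, T.sk_adj, (hp x).1 hx]; simp
  have h3 : ∀ a b, γ a b = γ b a := fun a b => by
    obtain ⟨a, rfl⟩ := hp' a
    obtain ⟨b, rfl⟩ := hp' b
    rw [← hγ, ← hγ, h1, h1, hS]
  have h4 : γ.SeparatingLeft := fun a ha => by
    obtain ⟨a, rfl⟩ := hp' a
    refine (hp a).2 (T.sep _ fun y => ?_)
    rw [T.sk_adj, ← h1, hγ, ha]
  have h5 : LinearMap.ker (sk g) = LinearMap.ker (g.toLinearMap - LinearMap.id) := by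
    ext x; simp [T.sk_eq_zero, sub_eq_zero]
  have h6 := (sk g).finrank_range_add_finrank_ker
  have h7 := (g.toLinearMap - LinearMap.id).finrank_range_add_finrank_ker
  have h8 : LinearMap.range (sk g) = movS g := Submodule.eq_of_le_of_finrank_eq (by
    rintro _ ⟨x, rfl⟩
    exact mem_movS.2 ⟨x + g.symm x, by simp [sk_apply]; abel⟩) (by rw [h5] at h6; rw [movS]; omega)
  have h9 := finrank_map_add_ker (sk g) (S := LinearMap.range (sk g)) fun x hx => by
    by_contra h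
    refine H ⟨x, by simpa [h5] using hx, ⟨x, rfl⟩, fun z hz => h (h8 ▸ mem_movS.2 ⟨z, ?_⟩)⟩
    simpa using hz
  rw [← LinearMap.range_comp, h8] at h9
  have h10 := ((sk g).prod p).finrank_range_add_finrank_ker
  rw [LinearMap.ker_prod, inf_eq_left.2 fun x hx => (hp x).2 (by rw [hx, map_zero])] at h10
  rw [h8] at h6
  have h11 := (exists_totIso_iff_disc h2 (B := prodB B γ) (fun x y => by simp [hS x.1, h3 x.2])
    ((isOrthSum_prod B 0 γ 0).sep T.sep h4) (k := finrank F (movS g)) (by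
      rw [finrank_prod, End.mul_eq_comp]; omega) ((finBasis F V).prod (finBasis F _))).1
    ⟨LinearMap.range ((sk g).prod p), by omega, by
      rintro _ ⟨x, rfl⟩ _ ⟨y, rfl⟩
      simp [← hγ, h1]⟩
  rw [gram_prod, ← mul_assoc] at h11
  rw [cl_pull hp' hγ, cl_iff h2 h3 h4 (finBasis F _)]
  exact (isSquare_iff_of_isSquare_mul (mul_ne_zero (by simp) (gram_det_ne_zero (fun _ => rfl) T.sep _))
    (gram_det_ne_zero (fun _ => rfl) h4 _) h11).symm

theorem Tr.disc_iff [Finite F] (T : Tr 1 B g) (T' : Tr 1 B' g') (h2 : (2 : F) ≠ 0)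
    (x : V ≃ₗ[F] V') (hx : ∀ v, x (g v) = g' (x v)) (H : ¬ Jb (g.toLinearMap - 1) 0) :
    (Cl (bet B g 0) ↔ Cl (bet B' g' 0)) ↔ (Cl (bet B g 2) ↔ Cl (bet B' g' 2)) := by
  obtain ⟨_, _, _, _, D, -⟩ := T.exists_der h2
  obtain ⟨_, _, _, _, D', -⟩ := T'.exists_der h2
  obtain ⟨y, -⟩ := D.equiv D' x hx
  rw [T.disc h2 H, T'.disc h2 fun h => H (h.congr x.symm fun v => by
    obtain ⟨v, rfl⟩ := x.surjective v
    simp [← hx]), ← y.finrank_eq, show bet B g 0 = B from rfl, show bet B' g' 0 = B' from rfl,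
    cl_iff h2 (fun x y => by rw [T.symm, one_mul]) T.sep (finBasis F _),
    cl_iff h2 (fun x y => by rw [T'.symm, one_mul]) T'.sep (finBasis F _)]
  have h3 := gram_det_ne_zero (fun _ => rfl) T.sep (finBasis F _)
  have h4 := gram_det_ne_zero (fun _ => rfl) T'.sep (finBasis F _)
  generalize (gram B (finBasis F V)).det = a at h3
  generalize (gram B' (finBasis F V')).det = b at h4
  have h5 : ((-1 : F) ^ finrank F (movS g)) ≠ 0 := by simp
  generalize (-1 : F) ^ finrank F (movS g) = c at h5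
  by_cases hc : IsSquare c
  · rw [isSquare_mul_iff_of_isSquare h5 hc, isSquare_mul_iff_of_isSquare h5 hc]
  · have : ∀ a, a ≠ 0 → (IsSquare (c * a) ↔ ¬ IsSquare a) := fun a ha =>
      ⟨fun h h' => hc ((isSquare_iff_of_isSquare_mul h5 ha h).2 h'), isSquare_mul_of_not_isSquare hc⟩
    rw [this a h3, this b h4, not_iff_not]

theorem exists_isom_of_cl [Finite F] (h2 : (2 : F) ≠ 0) (hS : ∀ x y, B x y = B y x)
    (hB : B.SeparatingLeft) (hS' : ∀ x y, B' x y = B' y x) (hB' : B'.SeparatingLeft)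
    (hn : finrank F V = finrank F V') (h : Cl B ↔ Cl B') :
    ∃ e : V ≃ₗ[F] V', ∀ x y, B' (e x) (e y) = B x y := by
  rw [cl_iff h2 hS hB (finBasis F _), cl_iff h2 hS' hB' (finBasis F _)] at h
  obtain ⟨e, he, -⟩ := (IsQuad.of_symm h2 hS).exists_equiv_of_disc hB (IsQuad.of_symm h2 hS') hB' h2
    (finBasis F _) (finBasis F _) hn (by
      by_cases h3 : IsSquare (gram B (finBasis F V)).det
      · exact h3.mul (h.1 h3)
      · exact isSquare_mul_of_not_isSquare h3 (mt h.2 h3))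
  exact ⟨e, he⟩

theorem wall_iso [Finite F] (h2 : (2 : F) ≠ 0) (n : ℕ) : ∀ {V V' : Type u} [AddCommGroup V]
    [Module F V] [AddCommGroup V'] [Module F V'] [FiniteDimensional F V] [FiniteDimensional F V']
    {ε : F} {B : V →ₗ[F] V →ₗ[F] F} {g : V ≃ₗ[F] V} {B' : V' →ₗ[F] V' →ₗ[F] F} {g' : V' ≃ₗ[F] V'},
    finrank F V = n → Tr ε B g → Tr ε B' g' → ∀ x : V ≃ₗ[F] V', (∀ v, x (g v) = g' (x v)) →
    (∀ k, ε * (-1) ^ k = 1 → Jb (g.toLinearMap - 1) k → (Cl (bet B g k) ↔ Cl (bet B' g' k))) →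
    ∃ e : V ≃ₗ[F] V', (∀ x y, B' (e x) (e y) = B x y) ∧ ∀ v, e (g v) = g' (e v) := by
  induction n using Nat.strong_induction_on with
  | _ n ih =>
  intro V V' _ _ _ _ _ _ ε B g B' g' hn T T' x hx H
  by_cases h0 : ∀ w, g w = w → w = 0
  · obtain ⟨e, h1, h3⟩ := exists_isom_equiv (T.form h2) T.sep (T'.form h2) T'.sep
      (g := g.toLinearMap) (g' := g'.toLinearMap) T.isom T'.isom (.inr fun w hw => h0 w
        (sub_eq_zero.1 (T.inj _ (by rw [map_sub, neg_sub]; exact congrArg (· - _) hw))))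
      (tyE_congr x hx).symm
    exact ⟨e.symm, fun a b => by simpa using (h1 (e.symm.symm.symm a) (e.symm b)).symm.trans (by simp),
      fun v => by simpa [e.symm_apply_eq] using (h3 (e.symm v)).symm⟩
  obtain ⟨π, χ, B₁, g₁, D, T₁⟩ := T.exists_der h2
  obtain ⟨π', χ', B₁', g₁', D', T₁'⟩ := T'.exists_der h2
  obtain ⟨y, hy⟩ := D.equiv D' x hx
  obtain ⟨e, h1, h3⟩ := ih _ (hn ▸ Submodule.finrank_lt fun e => h0 fun w hw =>
    LinearMap.ker_eq_bot'.1 ((LinearMap.ker_eq_bot_iff_range_eq_top).2 e) w (sub_eq_zero.2 hw))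
    rfl T₁ T₁' y hy fun k hk hJ => by
      rw [← D.cl, ← D'.cl]
      exact H _ (by rw [pow_succ]; linear_combination hk) (D.jb hJ)
  have h4 : ∀ a b, χ' (e a) (e b) = χ a b := fun a b => by
    obtain ⟨b, rfl⟩ := LinearMap.injective_iff_surjective.1 ((injective_iff_map_eq_zero
      (LinearMap.id + g₁.symm.toLinearMap)).2 fun c hc => T₁.inj c (by
        rw [← neg_eq_iff_eq_neg, ← map_neg, ← g₁.eq_symm_apply]
        exact neg_eq_of_add_eq_zero_right hc)) b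
    have : e (g₁.symm b) = g₁'.symm (e b) := by
      rw [eq_comm, g₁'.symm_apply_eq, ← h3, g₁.apply_symm_apply]
    change χ' (e a) (e (b + g₁.symm b)) = χ a (b + g₁.symm b)
    rw [← D.chi, map_add, this, ← D'.chi, h1]
  obtain ⟨φ, hφ⟩ : ∃ φ : V ≃ₗ[F] V', ∀ x y, B' (φ x) (φ y) = B x y := by
    rcases T.eps with rfl | rfl
    · refine exists_isom_of_cl h2 (fun x y => by rw [T.symm, one_mul]) T.sep
        (fun x y => by rw [T'.symm, one_mul]) T'.sep x.finrank_eq ?_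
      by_cases hJ : Jb (g.toLinearMap - 1) 0
      · exact H 0 (by simp) hJ
      · refine (T.disc_iff T' h2 x hx hJ).2 ?_
        rw [D.cl, D'.cl]
        exact cl_bet_congr e h1 h3 1
    · have h5 : ∀ {a : F}, a = -1 * a → a = 0 := fun {a} h =>
        (mul_eq_zero.1 (by linear_combination h : 2 * a = 0)).resolve_left h2
      have hA : B.IsAlt := fun x => h5 (T.symm x x)
      have hA' : B'.IsAlt := fun x => h5 (T'.symm x x)
      exact alt_isometric (hA.isRefl.nondegenerate_iff_separatingLeft.mpr T.sep) hA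
        (hA'.isRefl.nondegenerate_iff_separatingLeft.mpr T'.sep) hA' x.finrank_eq
  have W : WallD (σ := RingHom.id F) B (φ.trans (g'.trans φ.symm))
      (φ.symm.toLinearMap ∘ₗ (movS g').subtype) (π' ∘ₗ φ.toLinearMap) χ' :=
    ⟨φ.symm.injective.comp D'.wall.inj, D'.wall.surj.comp φ.surjective,
      fun v => by simpa [φ.symm_apply_eq] using D'.wall.eq (φ v),
      fun v w => by simpa [← hφ] using D'.wall.form (φ v) w⟩
  obtain ⟨k, h5, -, h6⟩ := D.wall.exists_conj W (T.form h2) T.sep T.mem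
    ⟨fun a b => by simp [← hφ, T'.isom], fun a => by simp [← hφ, T'.isom]⟩ e h4
  exact ⟨k.trans φ, fun a b => by simp [hφ, h5.1], fun v => by simp [h6]⟩

theorem cl_shift [Finite F] (h2 : (2 : F) ≠ 0) (k : ℕ) : ∀ {V V' : Type u} [AddCommGroup V]
    [Module F V] [AddCommGroup V'] [Module F V'] [FiniteDimensional F V] [FiniteDimensional F V']
    {ε : F} {B : V →ₗ[F] V →ₗ[F] F} {g : V ≃ₗ[F] V} {B' : V' →ₗ[F] V' →ₗ[F] F} {g' : V' ≃ₗ[F] V'},
    Tr ε B g → Tr ε B' g' → ∀ x : V ≃ₗ[F] V', (∀ v, x (g v) = g' (x v)) → ε * (-1) ^ k = 1 →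
    ¬ Jb (g.toLinearMap - 1) k → (Cl (bet B g k) ↔ Cl (bet B' g' k)) →
    (Cl (bet B g (k + 2)) ↔ Cl (bet B' g' (k + 2))) := by
  induction k with
  | zero =>
    intro V V' _ _ _ _ _ _ ε B g B' g' T T' x hx he hJ
    obtain rfl : ε = 1 := by simpa using he
    exact (T.disc_iff T' h2 x hx hJ).1
  | succ k ih =>
    intro V V' _ _ _ _ _ _ ε B g B' g' T T' x hx he hJ
    obtain ⟨π, χ, B₁, g₁, D, T₁⟩ := T.exists_der h2
    obtain ⟨π', χ', B₁', g₁', D', T₁'⟩ := T'.exists_der h2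
    obtain ⟨y, hy⟩ := D.equiv D' x hx
    rw [D.cl, D'.cl, D.cl, D'.cl]
    exact ih T₁ T₁' y hy (by rw [pow_succ] at he; linear_combination he) (mt D.jb hJ)

theorem cl_first [Finite F] (h2 : (2 : F) ≠ 0) (T : Tr 1 B g) (T' : Tr 1 B' g') (x : V ≃ₗ[F] V')
    (hx : ∀ v, x (g v) = g' (x v)) (h : Cl B ↔ Cl B') (k : ℕ)
    (hk : ∀ j < k, ¬ Jb (g.toLinearMap - 1) (2 * j)) :
    Cl (bet B g (2 * k)) ↔ Cl (bet B' g' (2 * k)) := by
  induction k with
  | zero => exact h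
  | succ k ih =>
    exact cl_shift h2 _ T T' x hx (by simp) (hk k (by omega)) (ih fun j hj => hk j (by omega))

theorem mem_tyE_of_jb {T : End F V} {p : F[X]} (hp : Irreducible p) (hm : p.Monic) {k : ℕ}
    (H : Jb (aeval T p) k) : p ^ (k + 1) ∈ tyE T := by
  classical
  by_contra h
  have h1 := kdE_step T hp hm k
  rw [Multiset.count_eq_zero.2 h] at h1
  rw [kdE, kdE, kdE, map_pow, map_pow, map_pow] at h1
  generalize aeval T p = N at H h1
  have h2 : ∀ j, finrank F ((LinearMap.ker (N ^ (j + 1))).map (N ^ j)) +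
      finrank F (LinearMap.ker (N ^ j)) = finrank F (LinearMap.ker (N ^ (j + 1))) := fun j =>
    finrank_map_add_ker (N ^ j) (S := LinearMap.ker (N ^ (j + 1))) fun x hx => by
      rw [LinearMap.mem_ker] at hx ⊢
      rw [pow_succ', End.mul_apply, hx, map_zero]
  have h3 := h2 k
  have h4 := h2 (k + 1)
  obtain ⟨x, h5, ⟨y, rfl⟩, h6⟩ := H
  have h7 : (LinearMap.ker (N ^ (k + 1 + 1))).map (N ^ (k + 1)) =
      (LinearMap.ker (N ^ (k + 1))).map (N ^ k) := Submodule.eq_of_le_of_finrank_eq (by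
    rintro _ ⟨z, hz, rfl⟩
    exact ⟨N z, by rwa [SetLike.mem_coe, LinearMap.mem_ker, ← End.mul_apply, ← pow_succ],
      by rw [← End.mul_apply, ← pow_succ]⟩) (by
    rw [show k + 2 = k + 1 + 1 from rfl, zero_mul] at h1; omega)
  obtain ⟨z, -, hz⟩ := h7.ge ⟨y, by
    rwa [SetLike.mem_coe, LinearMap.mem_ker, pow_succ', End.mul_apply], rfl⟩
  exact h6 z hz

end Cfsg.Agent.H18.Cn
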