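import Mathlib
import Cfsg.Agent.H18.Cn7

/-! The sign invariants of an isometry in odd characteristic. -/

namespace Cfsg.Agent.H18.Cn

open Polynomial Finset L0 Module H10 H11

universe u

variable {F : Type u} [Field F] {V : Type u} [AddCommGroup V] [Module F V]
  {ε : F} {B : V →ₗ[F] V →ₗ[F] F} {g g' : V ≃ₗ[F] V}

/-- The two signs. -/
def cb (F : Type u) [Field F] : Bool → F
  | true => 1
  | false => -1

theorem cb_sq (b : Bool) : cb F b * cb F b = 1 := by cases b <;> simp [cb]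

theorem cb_ne (b : Bool) : cb F b ≠ 0 := left_ne_zero_of_mul_eq_one (cb_sq b)

theorem Jb.smul {N : End F V} {c : F} (hc : c ≠ 0) {k : ℕ} (H : Jb (c • N) k) : Jb N k := by
  obtain ⟨x, h1, ⟨y, h2⟩, h3⟩ := H
  refine ⟨x, by simpa [hc] using h1, ⟨c ^ k • y, by simpa [_root_.smul_pow] using h2⟩,
    fun z hz => h3 ((c ^ (k + 1))⁻¹ • z) ?_⟩
  rw [_root_.smul_pow, LinearMap.smul_apply, map_smul, smul_inv_smul₀ (pow_ne_zero _ hc), hz]

/-- The Fitting decomposition for the eigenvalue `-1`. -/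
noncomputable def Wd (g : V ≃ₗ[F] V) : Bool → Submodule F V
  | true => LinearMap.range ((-g.toLinearMap - 1) ^ finrank F V)
  | false => LinearMap.ker ((-g.toLinearMap - 1) ^ finrank F V)

theorem Wd_map {x : V ≃ₗ[F] V} (hx : ∀ v, x (g v) = g' (x v)) (b : Bool) {v : V}
    (hv : v ∈ Wd g b) : x v ∈ Wd g' b := by
  have h := pow_comm_of (a := -g.toLinearMap - 1) (b := -g'.toLinearMap - 1) (f := x)
    (by simp [hx]) (finrank F V)
  cases b
  · exact (h v).symm.trans (by rw [LinearMap.mem_ker.1 hv, map_zero])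
  · obtain ⟨v, rfl⟩ := hv
    exact ⟨_, (h v).symm⟩

/-- The splitting of an isometry. -/
structure Spl (ε : F) (B : V →ₗ[F] V →ₗ[F] F) (g : V ≃ₗ[F] V)
    (k : ∀ b, Wd g b ≃ₗ[F] Wd g b) : Prop where
  compl : IsCompl (Wd g true) (Wd g false)
  orth : ∀ x ∈ Wd g true, ∀ y ∈ Wd g false, B x y = 0 ∧ B y x = 0
  coe : ∀ b w, (k b w : V) = cb F b • g w
  tr : ∀ b, Tr ε (B.domRestrict₁₂ (Wd g b) (Wd g b)) (k b)

variable [FiniteDimensional F V] {k : ∀ b, Wd g b ≃ₗ[F] Wd g b} {k' : ∀ b, Wd g' b ≃ₗ[F] Wd g' b}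

theorem exists_spl (h2 : (2 : F) ≠ 0) (he : ε = 1 ∨ ε = -1) (hs : ∀ x y, B y x = ε * B x y)
    (hB : B.SeparatingLeft) (hg : ∀ x y, B (g x) (g y) = B x y) : ∃ k, Spl ε B g k := by
  have h1 : ∀ b, ∀ w ∈ Wd g b, (cb F b • g.toLinearMap) w ∈ Wd g b := fun b w hw =>
    Submodule.smul_mem _ _ (Wd_map (x := g) (fun _ => rfl) b hw)
  have h3 : ∀ m, finrank F V ≤ m → ∀ x, ((-g.toLinearMap - 1 : End F V) ^ m) x = 0 →
      x ∈ Wd g false := fun m hm x hx => (End.ker_pow_eq_ker_pow_finrank_of_le hm).le hx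
  have h4 : IsCompl (Wd g true) (Wd g false) := (Submodule.isCompl_iff_disjoint _ _
    (LinearMap.finrank_range_add_finrank_ker _).ge).2 (Submodule.disjoint_def.2 (by
      rintro _ ⟨y, rfl⟩ hy
      exact h3 _ (Nat.le_add_right _ _) y (by rw [pow_add]; exact hy)))
  have h5 : ∀ x ∈ Wd g true, ∀ y ∈ Wd g false, B x y = 0 ∧ B y x = 0 := fun x hx y hy => by
    have := mem_perp.1 ((perp_ker_pow (g := -g.toLinearMap) hB (fun a b h => by rw [hs, h, mul_zero])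
      (by simpa using hg) _).ge hx) y hy
    exact ⟨by rw [hs, this, mul_zero], this⟩
  refine ⟨fun b => LinearEquiv.ofInjectiveEndo ((cb F b • g.toLinearMap).restrict (h1 b))
    fun x y h => Subtype.ext (g.injective (smul_right_injective _ (cb_ne b) (congrArg Subtype.val h))),
    h4, h5, fun _ _ => rfl, fun b => ⟨he, fun x y => hs _ _, fun x hx => Subtype.ext (hB _ fun y => ?_),
      fun x y => ?_, fun x hx => Subtype.ext ?_⟩⟩
  · obtain ⟨y, hy, z, hz, rfl⟩ := Submodule.mem_sup.1 (h4.sup_eq_top.ge (Submodule.mem_top (x := y)))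
    cases b
    · rw [map_add, (h5 y hy x x.2).2, zero_add]; exact hx ⟨z, hz⟩
    · rw [map_add, (h5 x x.2 z hz).1, add_zero]; exact hx ⟨y, hy⟩
  · change B (cb F b • g x) (cb F b • g y) = B x y
    simp [hg, ← mul_assoc, cb_sq]
  · have h6 : cb F b • g x = -x := congrArg Subtype.val hx
    cases b
    · by_contra h
      have h7 := End.HasEigenvector.pow_apply (f := -g.toLinearMap - 1) (μ := -2) (v := x.1)
        ⟨by simp [cb] at h6; simp [h6, two_smul, sub_eq_add_neg], h⟩ (finrank F V)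
      exact h (by simpa [LinearMap.mem_ker.1 x.2, h2] using h7.symm)
    · refine Submodule.disjoint_def.1 h4.disjoint _ x.2 (h3 _ (Nat.le_succ _) _ ?_)
      simp [cb] at h6
      simp [pow_succ, h6]

theorem Spl.mem (S : Spl ε B g k) {b : Bool} {j : ℕ} (H : Jb ((k b).toLinearMap - 1) j) :
    (X - C (cb F b)) ^ (j + 1) ∈ tyE g.toLinearMap := by
  have h1 : ∀ b, ∀ w ∈ Wd g b, g.toLinearMap w ∈ Wd g b := Wd_map (x := g) fun _ => rfl
  have h2 := mem_tyE_of_jb (T := g.toLinearMap.restrict (h1 b)) (irreducible_X_sub_C (cb F b))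
    (monic_X_sub_C _) (Jb.smul (cb_ne b) (k := j) (by
      convert H using 1
      ext w
      simp [S.coe, smul_sub, smul_smul, cb_sq]))
  rw [TyOn.eq_add ⟨h1 true, rfl⟩ ⟨h1 false, rfl⟩ S.compl]
  cases b <;> simp [h2]

omit [FiniteDimensional F V] in
theorem Spl.equiv (S : Spl ε B g k) (S' : Spl ε B g' k') {x : V ≃ₗ[F] V}
    (hx : ∀ v, x (g v) = g' (x v)) (b : Bool) :
    ∃ y : Wd g b ≃ₗ[F] Wd g' b, ∀ v, y (k b v) = k' b (y v) :=
  ⟨x.ofSubmodules _ _ (le_antisymm (by rintro _ ⟨w, hw, rfl⟩; exact Wd_map hx b hw) fun w hw =>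
    ⟨x.symm w, Wd_map (fun v => by rw [x.symm_apply_eq, hx, x.apply_symm_apply]) b hw, by simp⟩),
    fun v => Subtype.ext (by simp [S.coe, S'.coe, hx])⟩

omit [FiniteDimensional F V] in
theorem Spl.glue (S : Spl ε B g k) (S' : Spl ε B g' k') (H : ∀ b, ∃ e : Wd g b ≃ₗ[F] Wd g' b,
    (∀ x y, B (e x) (e y) = B x y) ∧ ∀ v, e (k b v) = k' b (e v)) :
    ∃ e : V ≃ₗ[F] V, (∀ x y, B (e x) (e y) = B x y) ∧ ∀ v, e (g v) = g' (e v) := by
  choose e h1 h2 using H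
  have h3 : ∀ b (w : Wd g b), g w = (cb F b • k b w : Wd g b) := fun b w => by
    simp [S.coe, smul_smul, cb_sq]
  have h4 : ∀ b (w : Wd g' b), g' w = (cb F b • k' b w : Wd g' b) := fun b w => by
    simp [S'.coe, smul_smul, cb_sq]
  let p := Submodule.prodEquivOfIsCompl _ _ S.compl
  let φ := p.symm.trans (((e true).prodCongr (e false)).trans
    (Submodule.prodEquivOfIsCompl _ _ S'.compl))
  have h5 : ∀ (a : Wd g true) (b : Wd g false), φ (a + b) = e true a + e false b := fun a b => by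
    rw [show (a + b : V) = p (a, b) from rfl]; simp [φ]
  refine ⟨φ, fun x y => ?_, fun x => ?_⟩
  · obtain ⟨⟨a, b⟩, rfl⟩ := p.surjective x
    obtain ⟨⟨c, d⟩, rfl⟩ := p.surjective y
    change B (φ (a + b)) (φ (c + d)) = B (a + b) (c + d)
    rw [h5, h5]
    simp [h1, S.orth _ a.2 _ d.2, S.orth _ c.2 _ b.2, S'.orth _ (e true a).2 _ (e false d).2,
      S'.orth _ (e true c).2 _ (e false b).2]
  · obtain ⟨⟨a, b⟩, rfl⟩ := p.surjective x
    change φ (g (a + b)) = g' (φ (a + b))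
    rw [map_add g, h3, h3, h5, h5, map_add g', h4, h4, map_smul, map_smul, h2, h2]

theorem Spl.cl (h2 : (2 : F) ≠ 0) (S : Spl 1 B g k) : ∃ d : Bool → F, (∀ b, d b ≠ 0 ∧
    (Cl (B.domRestrict₁₂ (Wd g b) (Wd g b)) ↔ IsSquare (d b))) ∧
      ∀ b, Cl B ↔ IsSquare (d b * d (!b)) := by
  have h1 := fun b x y => ((S.tr b).symm y x).trans (one_mul _)
  refine ⟨fun b => (gram _ (finBasis F _)).det, fun b => ⟨gram_det_ne_zero (fun _ => rfl) (S.tr b).sep _,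
    cl_iff h2 (h1 b) (S.tr b).sep _⟩, fun b => ?_⟩
  rw [← cl_pull (β := prodB (B.domRestrict₁₂ _ _) (B.domRestrict₁₂ _ _))
    (Submodule.prodEquivOfIsCompl _ _ S.compl).surjective fun x y => by
      simp [S.orth _ x.1.2 _ y.2.2, S.orth _ y.1.2 _ x.2.2, LinearMap.domRestrict₁₂_apply],
    cl_iff h2 (fun x y => congrArg₂ (· + ·) (h1 true _ _) (h1 false _ _))
      ((isOrthSum_prod _ 0 _ 0).sep (S.tr true).sep (S.tr false).sep)
      ((finBasis F _).prod (finBasis F _)), gram_prod]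
  cases b
  · rw [mul_comm]; rfl
  · rfl

/-- The sign invariants. -/
def Sg (ε : F) (B : V →ₗ[F] V →ₗ[F] F) {g : V ≃ₗ[F] V} (k : ∀ b, Wd g b ≃ₗ[F] Wd g b) (b : Bool)
    (j : ℕ) : Prop := ε * (-1) ^ j = 1 ∧ Jb ((k b).toLinearMap - 1) j ∧
      Cl (bet (B.domRestrict₁₂ (Wd g b) (Wd g b)) (k b) j)

theorem Spl.equiv' (S : Spl ε B g k) (S' : Spl ε B g' k')
    (h : tyE g.toLinearMap = tyE g'.toLinearMap) (b : Bool) :
    ∃ y : Wd g b ≃ₗ[F] Wd g' b, (∀ v, y (k b v) = k' b (y v)) ∧ ∀ j,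
      Jb ((k b).toLinearMap - 1) j ↔ Jb ((k' b).toLinearMap - 1) j := by
  obtain ⟨x, hx⟩ := (tyE_eq_iff _ _).1 h
  obtain ⟨y, hy⟩ := S.equiv S' hx b
  exact ⟨y, hy, fun j => ⟨Jb.congr y fun v => by simp [hy], Jb.congr y.symm fun v => by
    obtain ⟨v, rfl⟩ := y.surjective v
    simp [← hy]⟩⟩

variable [Finite F]

theorem Spl.iso (h2 : (2 : F) ≠ 0) (S : Spl ε B g k) (S' : Spl ε B g' k')
    (h : tyE g.toLinearMap = tyE g'.toLinearMap) (b : Bool) (H : ∀ j, Sg ε B k b j ↔ Sg ε B k' b j) :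
    ∃ e : Wd g b ≃ₗ[F] Wd g' b, (∀ x y, B (e x) (e y) = B x y) ∧ ∀ v, e (k b v) = k' b (e v) := by
  obtain ⟨y, hy, h4⟩ := S.equiv' S' h b
  exact wall_iso h2 _ rfl (S.tr b) (S'.tr b) y hy fun j h5 h6 =>
    ⟨fun h => ((H j).1 ⟨h5, h6, h⟩).2.2, fun h => ((H j).2 ⟨h5, (h4 j).1 h6, h⟩).2.2⟩

theorem Spl.first (h2 : (2 : F) ≠ 0) (S : Spl 1 B g k) (S' : Spl 1 B g' k')
    (h : tyE g.toLinearMap = tyE g'.toLinearMap) (b : Bool) (j : ℕ)
    (h4 : ∀ i < j, (X - C (cb F b)) ^ (2 * i + 1) ∉ tyE g.toLinearMap)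
    (H : ∀ j, Sg 1 B k (!b) j ↔ Sg 1 B k' (!b) j) : Sg 1 B k b (2 * j) ↔ Sg 1 B k' b (2 * j) := by
  obtain ⟨e, h6, -⟩ := S.iso h2 S' h _ H
  obtain ⟨y, hy, h7⟩ := S.equiv' S' h b
  refine and_congr_right fun _ => and_congr (h7 _) (cl_first h2 (S.tr b) (S'.tr b) y hy ?_ _
    fun j hj => mt S.mem (h4 j hj))
  obtain ⟨d, h8, h9⟩ := S.cl h2
  obtain ⟨d', h8', h9'⟩ := S'.cl h2
  have h10 := cl_pull (β := B.domRestrict₁₂ (Wd g !b) (Wd g !b))
    (γ := B.domRestrict₁₂ (Wd g' !b) (Wd g' !b)) e.surjective fun x y => (h6 x y).symm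
  have h11 := (h9 b).symm.trans (h9' b)
  rw [(h8 _).2, (h8' _).2] at h10 ⊢
  have key : ∀ a c : F, a ≠ 0 → c ≠ 0 → (IsSquare (a * c) ↔ (IsSquare a ↔ IsSquare c)) :=
    fun a c ha hc => ⟨isSquare_iff_of_isSquare_mul ha hc, fun h => by
      by_cases h' : IsSquare a
      · exact h'.mul (h.1 h')
      · exact isSquare_mul_of_not_isSquare h' (mt h.2 h')⟩
  rw [key _ _ (h8 _).1 (h8 _).1, key _ _ (h8' _).1 (h8' _).1, h10] at h11
  tauto

theorem exists_signs (h2 : (2 : F) ≠ 0) (he : ε = 1 ∨ ε = -1)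
    (hs : ∀ x y, B y x = ε * B x y) (hB : B.SeparatingLeft) {Q : V → F}
    (hQ : ∀ e : V ≃ₗ[F] V, (∀ x y, B (e x) (e y) = B x y) → ∀ x, Q (e x) = Q x) :
    ∃ σ : Isom (σ := RingHom.id F) B Q → Bool → ℕ → Prop,
      (∀ g b j, σ g b j → ε * (-1) ^ j = 1 ∧ (X - C (cb F b)) ^ (j + 1) ∈ tyE g.1.toLinearMap) ∧
      (∀ g g', tyE g.1.toLinearMap = tyE g'.1.toLinearMap → (∀ b j, σ g b j ↔ σ g' b j) →
        IsConj g g') ∧
      (ε = 1 → ∀ g g', tyE g.1.toLinearMap = tyE g'.1.toLinearMap → ∀ b₀ j₀,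
        (∀ j < j₀, (X - C (cb F b₀)) ^ (2 * j + 1) ∉ tyE g.1.toLinearMap) →
        (∀ b j, (b, j) ≠ (b₀, 2 * j₀) → (σ g b j ↔ σ g' b j)) → ∀ b j, σ g b j ↔ σ g' b j) := by
  choose k S using fun g : Isom (σ := RingHom.id F) B Q => exists_spl h2 he hs hB g.2.1
  refine ⟨fun g => Sg ε B (k g), fun g b j h => ⟨h.1, (S g).mem h.2.1⟩, fun g g' h H => ?_, ?_⟩
  · obtain ⟨e, h4, h5⟩ := (S g).glue (S g') fun b => (S g).iso h2 (S g') h b (H b)
    exact isConj_iff.2 ⟨⟨e, h4, hQ e h4⟩, mul_inv_eq_iff_eq_mul.2 (Subtype.ext (LinearEquiv.ext h5))⟩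
  rintro rfl g g' h b₀ j₀ h4 H b j
  by_cases h5 : (b, j) = (b₀, 2 * j₀)
  · obtain ⟨rfl, rfl⟩ := Prod.mk.inj h5
    exact (S g).first h2 (S g') h _ _ h4 fun j => H _ _ (by simp)
  · exact H b j h5

end Cfsg.Agent.H18.Cn
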