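import Mathlib
import Cfsg.Agent.H18.Cn8

/-! Counting types with signs. -/

namespace Cfsg.Agent.H18.Cn

open Polynomial Finset L0 Module H10 H11

universe u

theorem card_le_coeff {ι T D : Type*} (φ : ι → T → D) (ℓ : T → D → ℕ) (A : T → D → Prop)
    (f : T → PowerSeries ℝ) (I : Finset T)
    (hf : ∀ t ∈ I, ∀ m, ∀ U : Finset D, (∀ d ∈ U, A t d ∧ ℓ t d = m) →
      (U.card : ℝ) ≤ PowerSeries.coeff m (f t)) (S : Finset ι) (N : ℕ)
    (hA : ∀ x ∈ S, ∀ t ∈ I, A t (φ x t)) (hN : ∀ x ∈ S, ∑ t ∈ I, ℓ t (φ x t) = N)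
    (hi : ∀ x ∈ S, ∀ y ∈ S, (∀ t ∈ I, φ x t = φ y t) → x = y) :
    (S.card : ℝ) ≤ PowerSeries.coeff N (∏ t ∈ I, f t) := by
  classical
  induction I using Finset.induction_on generalizing S N with
  | empty =>
    rcases S.eq_empty_or_nonempty with rfl | ⟨x, hx⟩
    · simp [PowerSeries.coeff_one]; split_ifs <;> simp
    · obtain rfl : 0 = N := by simpa using hN x hx
      simpa using card_le_one.2 fun x hx y hy => hi x hx y hy (by simp)
  | insert a I ha ih =>
    replace ih := ih fun t ht => hf t (mem_insert_of_mem ht)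
    rw [prod_insert ha, PowerSeries.coeff_mul, card_eq_sum_card_fiberwise (t := antidiagonal N)
      (f := fun x => (ℓ a (φ x a), ∑ t ∈ I, ℓ t (φ x t))) fun x hx => by
        simpa [sum_insert ha] using hN x hx, Nat.cast_sum]
    refine sum_le_sum fun p _ => ?_
    set U := S.filter fun x => (ℓ a (φ x a), ∑ t ∈ I, ℓ t (φ x t)) = p
    rw [card_eq_sum_card_image (φ · a) U, Nat.cast_sum]
    refine (sum_le_card_nsmul _ _ _ fun d _ => ih _ p.2 (fun x hx t ht => ?_) (fun x hx => ?_)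
      fun x hx y hy h => ?_).trans ?_
    · exact hA x (mem_filter.1 (mem_filter.1 hx).1).1 t (mem_insert_of_mem ht)
    · exact congrArg Prod.snd (mem_filter.1 (mem_filter.1 hx).1).2
    · refine hi x (mem_filter.1 (mem_filter.1 hx).1).1 y (mem_filter.1 (mem_filter.1 hy).1).1
        (forall_mem_insert _ _ _ |>.2 ⟨(mem_filter.1 hx).2.trans (mem_filter.1 hy).2.symm, h⟩)
    · rw [nsmul_eq_mul]
      refine mul_le_mul_of_nonneg_right (hf a (mem_insert_self _ _) _ _ fun d hd => ?_)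
        (by simpa using ih ∅ p.2 (by simp) (by simp) (by simp))
      obtain ⟨x, hx, rfl⟩ := mem_image.1 hd
      exact ⟨hA x (mem_filter.1 hx).1 a (mem_insert_self _ _), congrArg Prod.fst (mem_filter.1 hx).2⟩

variable {F : Type u} [Field F]

theorem Pal.gd {f : F[X]} (h : Pal f) : Gd f := ⟨h.1, by simp [h.2.2.1]⟩

theorem Pal.mul {f g : F[X]} (hf : Pal f) (hg : Pal g) : Pal (f * g) :=
  ⟨hf.1.mul hg.1, by rw [hf.1.natDegree_mul hg.1]; exact hf.2.1.add hg.2.1,
    by simp [hf.2.2.1, hg.2.2.1],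
    by rw [(tw_dl fun _ => rfl).mul _ _ hf.gd hg.gd, hf.2.2.2, hg.2.2.2]⟩

theorem pal_pow {c : F} (hc : c * c = 1) (m : ℕ) : Pal ((X - C c) ^ (m + m)) :=
  ⟨(monic_X_sub_C c).pow _, by simp, by simp [coeff_zero_eq_eval_zero, pow_add, ← mul_pow, hc],
    by rw [(tw_dl fun _ => rfl).pow (gd_X_sub_C (left_ne_zero_of_mul_eq_one hc)), dl_X_sub_C hc]⟩

theorem pal_of_eval (h2 : (2 : F) ≠ 0) {w : F[X]} (hg : Gd w) (hd : dl (RingHom.id F) w = w)
    (h : ∀ b, w.eval (cb F b) ≠ 0) : Pal w := by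
  have h1 := eval_dl (f := w) (cb_sq true)
  have h3 := eval_dl (f := w) (cb_sq false)
  rw [hd, ← mul_assoc, eq_comm, mul_eq_right₀ (h _)] at h1 h3
  simp only [cb, one_pow, mul_one, inv_eq_one] at h1
  refine ⟨hg.1, ?_, h1, hd⟩
  rwa [h1, inv_one, one_mul, cb, neg_one_pow_eq_one_iff_even fun e => h2 (by
    linear_combination -e)] at h3

open Classical in
theorem pal_dec (h2 : (2 : F) ≠ 0) {r : Multiset F[X]} (hr : ∀ p ∈ r, Irreducible p ∧ p.Monic)
    (hg : Gd r.prod) (hd : dl (RingHom.id F) r.prod = r.prod) :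
    ∃ w, Pal w ∧ r.prod = w * ∏ b, (X - C (cb F b)) ^ r.count (X - C (cb F b)) := by
  have T := tw_dl (σ := RingHom.id F) fun _ => rfl
  have hne : (X - C (cb F true) : F[X]) ≠ X - C (cb F false) := fun e => h2 (by
    have := C_injective (sub_right_injective e)
    simp only [cb] at this
    linear_combination this)
  let t := (r.filter (· ≠ X - C (cb F true))).filter (· ≠ X - C (cb F false))
  have h1 : r.prod = t.prod * ∏ b, (X - C (cb F b)) ^ r.count (X - C (cb F b)) := by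
    rw [← Multiset.prod_filter_mul_prod_filter_not (· = X - C (cb F true)) (s := r),
      ← Multiset.prod_filter_mul_prod_filter_not (· = X - C (cb F false))
        (s := r.filter (¬ · = _)), Multiset.filter_eq', Multiset.filter_eq',
      Multiset.count_filter_of_pos (p := (¬ · = X - C (cb F true))) hne.symm]
    simp [t]; ring
  have h3 : ∀ p ∈ t, p ∈ r ∧ ∀ b, p ≠ X - C (cb F b) := fun p hp => by
    simp only [t, Multiset.mem_filter] at hp
    exact ⟨hp.1.1, Bool.forall_bool.2 ⟨hp.2, hp.1.2⟩⟩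
  have h4 : Gd t.prod := hg.of_dvd (by
    simpa using monic_multiset_prod_of_monic _ id fun p hp => (hr p (h3 p hp).1).2) ⟨_, h1⟩
  have h5 : ∀ b k, Gd ((X - C (cb F b)) ^ k) := fun b k => (gd_X_sub_C (cb_ne b)).pow k
  refine ⟨_, pal_of_eval h2 h4 ?_ fun b e => ?_, h1⟩
  · rw [h1, Fintype.prod_bool, T.mul _ _ h4 ((h5 _ _).mul (h5 _ _)), T.mul _ _ (h5 _ _) (h5 _ _),
      T.pow (gd_X_sub_C (cb_ne _)), T.pow (gd_X_sub_C (cb_ne _)), dl_X_sub_C (cb_sq _),
      dl_X_sub_C (cb_sq _)] at hd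
    exact mul_right_cancel₀ ((h5 _ _).mul (h5 _ _)).1.ne_zero hd
  · obtain ⟨v, hv, h⟩ := Prime.exists_mem_multiset_dvd (prime_X_sub_C _) (dvd_iff_isRoot.2 e)
    exact (h3 v hv).2 b (eq_of_monic_of_associated (hr v (h3 v hv).1).2 (monic_X_sub_C _)
      ((irreducible_X_sub_C _).associated_of_dvd (hr v (h3 v hv).1).1 h).symm)

open Classical in
theorem count_rt {s : Multiset F[X]} (hs : ∀ u ∈ s, Prim u) {p : F[X]} (hp : Irreducible p)
    (hm : p.Monic) {i : ℕ} (hi : 0 < i) :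
    ((s.filter (ex · = i)).map rt).count p = s.count (p ^ i) := by
  rw [Multiset.count_map, Multiset.filter_filter, Multiset.count_eq_card_filter_eq]
  refine congrArg _ (Multiset.filter_congr fun u hu => ⟨?_, ?_⟩)
  · rintro ⟨rfl, rfl⟩; exact (prim_spec (hs u hu)).2.2.2.symm
  · rintro rfl; simp [rt_ex_pow hp hm hi]

open Classical in
/-- The two bits attached to a multiplicity and a sign. -/
noncomputable def bit (u : F[X]) (p : Prop) (a : ℕ) : Bool → F[X]
  | true => if p then u else 1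
  | false => if p ↔ Even a then u else 1

open Classical in
theorem lev_dec (h2 : (2 : F) ≠ 0) {s : Multiset F[X]} (hs : ∀ u ∈ s, Prim u) (hg : ∀ u ∈ s, Gd u)
    (hd : s.map (dl (RingHom.id F)) = s) {i : ℕ} (hi : 0 < i) {p : Bool → Prop}
    (hp : ∀ b, p b → (X - C (cb F b)) ^ i ∈ s) : ∃ v, Pal v ∧ Up s i = v *
      ∏ o : Bool × Bool, bit (X - C (cb F o.1)) (p o.1) (s.count ((X - C (cb F o.1)) ^ i)) o.2 := by
  obtain ⟨w, h1, h3⟩ := pal_dec h2 (Up_mem hs i) ⟨Up_monic hs i, Up_coeff hs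
    (fun u hu e => (hg u hu).2 (X_dvd_iff.1 e)) i⟩ (by
      have := (tw_dl (σ := RingHom.id F) fun _ => rfl).Up_map hg hs i
      rw [hd] at this
      exact this.symm)
  have h4 : ∀ b, ∃ m, (X - C (cb F b)) ^ s.count ((X - C (cb F b)) ^ i) = (X - C (cb F b)) ^ (m + m) *
      ∏ t, bit (X - C (cb F b)) (p b) (s.count ((X - C (cb F b)) ^ i)) t := fun b => by
    have h5 := fun h => Multiset.count_pos.2 (hp b h)
    generalize s.count ((X - C (cb F b)) ^ i) = a at h5
    rcases Nat.even_or_odd' a with ⟨m, rfl | rfl⟩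
    · by_cases h : p b
      · obtain ⟨m, rfl⟩ : ∃ k, m = k + 1 := ⟨m - 1, by have := h5 h; omega⟩
        exact ⟨m, by simp [bit, h]; ring⟩
      · exact ⟨m, by simp [bit, h, two_mul]⟩
    · exact ⟨m, by by_cases h : p b <;> simp [bit, h] <;> ring⟩
  choose m hm using h4
  refine ⟨w * ∏ b, (X - C (cb F b)) ^ (m b + m b), ?_, ?_⟩
  · rw [Fintype.prod_bool]; exact h1.mul ((pal_pow (cb_sq _) _).mul (pal_pow (cb_sq _) _))
  · rw [Up, h3, Fintype.prod_prod_type, mul_assoc, ← prod_mul_distrib]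
    exact congrArg _ (prod_congr rfl fun b _ => by
      rw [count_rt hs (irreducible_X_sub_C _) (monic_X_sub_C _) hi, hm])

open Classical in
/-- The generating function of one level. -/
noncomputable def lev (R : ℕ → Prop) (κ : ℕ → ℝ) (i : ℕ) : PowerSeries ℝ :=
  Bs (κ i) (κ i) (2 * i) * (if R i then 1 + PowerSeries.X ^ i else 1) ^ 4

theorem card_pal_le [Finite F] (n : ℕ) (U : Finset F[X]) (hU : ∀ d ∈ U, Pal d ∧ d.natDegree = 2 * n) :
    (U.card : ℝ) ≤ (Nat.card F : ℝ) ^ n := by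
  have := (finite_monic (2 * n) (Pal (F := F))).of_injective
    (fun f : {f : F[X] // Pal f ∧ f.natDegree = 2 * n} => ⟨f.1, f.2.1.1, f.2.2, f.2.1⟩)
    fun a b h => Subtype.ext (Subtype.mk.inj h)
  rw [← Nat.cast_pow, ← card_pal, ← Nat.card_eq_finsetCard, Nat.cast_le]
  exact Nat.card_le_card_of_injective (fun f => ⟨f.1, hU _ f.2⟩)
    fun a b h => Subtype.ext (Subtype.mk.inj h)

open Classical in
theorem count_sg (h2 : (2 : F) ≠ 0) {ι : Type*} (S : Finset ι) (s : ι → Multiset F[X])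
    (σ : ι → Bool → ℕ → Prop) (R : ℕ → Prop) {N M : ℕ} (hM : N ≤ M) (P : ℕ → F[X] → Prop)
    (κ : ℕ → ℝ) (hκ : ∀ i, 0 ≤ κ i) (hP : ∀ i n (U : Finset F[X]),
      (∀ d ∈ U, (Pal d ∧ d.natDegree = 2 * n) ∧ P i d) → (U.card : ℝ) ≤ κ i ^ n)
    (hv : ∀ x ∈ S, ∀ i v, v ∣ Up (s x) i → P i v)
    (hs : ∀ x ∈ S, ∀ u ∈ s x, Prim u) (hg : ∀ x ∈ S, ∀ u ∈ s x, Gd u)
    (hd : ∀ x ∈ S, (s x).map (dl (RingHom.id F)) = s x)
    (hN : ∀ x ∈ S, ((s x).map natDegree).sum = N)
    (hσ : ∀ x ∈ S, ∀ b j, σ x b j → R (j + 1) ∧ (X - C (cb F b)) ^ (j + 1) ∈ s x)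
    (he : ∀ x ∈ S, ∀ b j, ¬ R (j + 1) → Even ((s x).count ((X - C (cb F b)) ^ (j + 1))))
    (hi : ∀ x ∈ S, ∀ y ∈ S, s x = s y → (∀ b j, σ x b j ↔ σ y b j) → x = y) :
    (S.card : ℝ) ≤ PowerSeries.coeff N (∏ i ∈ range M, lev R κ (i + 1)) := by
  choose! v h1 h3 using fun x (hx : x ∈ S) j => lev_dec h2 (hs x hx) (hg x hx) (hd x hx)
    j.succ_pos fun b h => (hσ x hx b j h).2
  let φ : ι → ℕ × Option (Bool × Bool) → F[X] := fun x t => t.2.elim (v x t.1) fun o =>
    bit (X - C (cb F o.1)) (σ x o.1 t.1) ((s x).count ((X - C (cb F o.1)) ^ (t.1 + 1))) o.2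
  have h4 : ∀ x ∈ S, ∀ j, Up (s x) (j + 1) = ∏ o, φ x (j, o) := fun x hx j => by
    rw [h3 x hx, Fintype.prod_option]; rfl
  have h5 : ∀ x ∈ S, ∀ u ∈ s x, ex u ∈ (range M).image (· + 1) := fun x hx u hu => by
    have := mem_Icc.1 ((mem_finsuppAntidiag.1 (lv_mem (hs x hx) (hN x hx))).2
      ((mem_lv (hs x hx)).2 ⟨u, hu, rfl⟩))
    exact mem_image.2 ⟨ex u - 1, mem_range.2 (by omega), by omega⟩
  let A : ℕ × Option (Bool × Bool) → F[X] → Prop := fun t d => t.2.elim (Pal d ∧ P (t.1 + 1) d) fun o =>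
    d = 1 ∨ R (t.1 + 1) ∧ d = X - C (cb F o.1)
  have h6 : ∀ x ∈ S, ∀ t, A t (φ x t) := by
    rintro x hx ⟨j, _ | ⟨b, _ | _⟩⟩
    · exact ⟨h1 x hx j, hv x hx _ _ ⟨_, h3 x hx j⟩⟩
    · simp only [A, φ, Option.elim, bit]
      split_ifs with h
      · exact .inr ⟨by_contra fun h' => h' (hσ x hx b j (h.2 (he x hx b j h'))).1, rfl⟩
      · exact .inl rfl
    · simp only [A, φ, Option.elim, bit]
      split_ifs with h
      · exact .inr ⟨(hσ x hx b j h).1, rfl⟩
      · exact .inl rfl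
  have h7 : ∀ t d, A t d → d.Monic := by
    rintro ⟨j, _ | o⟩ d h
    · exact h.1.1
    · rcases h with rfl | ⟨-, rfl⟩
      · exact monic_one
      · exact monic_X_sub_C _
  refine (card_le_coeff φ (fun t d => (t.1 + 1) * d.natDegree) A (fun t => t.2.elim
    (Bs (κ (t.1 + 1)) (κ (t.1 + 1)) (2 * (t.1 + 1))) fun _ =>
      if R (t.1 + 1) then 1 + PowerSeries.X ^ (t.1 + 1) else 1) (range M ×ˢ univ) ?_ S N
    (fun x hx t _ => h6 x hx t) (fun x hx => ?_) fun x hx y hy h => ?_).trans_eq ?_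
  · rintro ⟨j, _ | o⟩ - m U hU
    · rcases U.eq_empty_or_nonempty with rfl | ⟨d, hd⟩
      · simpa using Bs_nonneg (hκ _) (hκ _) _ _
      obtain ⟨n, hn⟩ := (hU d hd).1.1.2.1
      have h8 : m = 2 * (j + 1) * n := by rw [← (hU d hd).2, hn]; ring
      refine (hP (j + 1) n U fun f hf => ⟨⟨(hU f hf).1.1, Nat.eq_of_mul_eq_mul_left j.succ_pos
        ((hU f hf).2.trans (by rw [h8, Nat.succ_eq_add_one]; ring))⟩, (hU f hf).1.2⟩).trans_eq ?_
      rw [h8, Option.elim, coeff_Bs, Nat.mul_div_cancel_left _ (by omega), if_pos (dvd_mul_right _ _)]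
      cases n <;> simp [pow_succ']
    · rcases U.eq_empty_or_nonempty with rfl | ⟨d, hd⟩
      · simp only [Option.elim]
        split_ifs <;> simp [PowerSeries.coeff_one, PowerSeries.coeff_X_pow] <;> positivity
      have h8 : U.card ≤ 1 := card_le_one.2 fun a ha b hb => by
        have := (hU a ha).2.trans (hU b hb).2.symm
        rcases (hU a ha).1 with rfl | ⟨-, rfl⟩ <;> rcases (hU b hb).1 with rfl | ⟨-, rfl⟩ <;>
          simp at this ⊢
      refine (Nat.cast_le.2 h8).trans ?_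
      rw [← (hU d hd).2]
      rcases (hU d hd).1 with rfl | ⟨h, rfl⟩
      · simp only [Option.elim]
        split_ifs <;> simp
      · simp [h, PowerSeries.coeff_one]
  · rw [← hN x hx, ← natDegree_prod_ty fun u hu => (hs x hx u hu).monic,
      prod_eq_Up (hs x hx) (h5 x hx), natDegree_prod_of_monic _ _ fun i _ => (Up_monic (hs x hx) i).pow i,
      sum_image (by simp), sum_product]
    refine sum_congr rfl fun j _ => ?_
    rw [natDegree_pow, h4 x hx, natDegree_prod_of_monic _ _ fun o _ => h7 _ _ (h6 x hx _), mul_sum]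
  · refine hi x hx y hy (eq_of_Up (hs x hx) (hs y hy) fun i => ?_) fun b j => ?_
    · by_cases h8 : i ∈ (range M).image (· + 1)
      · obtain ⟨j, hj, rfl⟩ := mem_image.1 h8
        rw [h4 x hx, h4 y hy]
        exact prod_congr rfl fun o _ => h _ (mem_product.2 ⟨hj, mem_univ _⟩)
      · rw [Up, Up, Multiset.filter_eq_nil.2 fun u hu (e : ex u = i) => h8 (e ▸ h5 x hx u hu),
          Multiset.filter_eq_nil.2 fun u hu (e : ex u = i) => h8 (e ▸ h5 y hy u hu)]
    · by_cases h8 : j < M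
      · have h9 := h (j, some (b, true)) (by simpa)
        have h10 : X - C (cb F b) ≠ 1 := fun e => by simpa using congrArg natDegree e
        simp only [φ, Option.elim, bit] at h9
        split_ifs at h9 <;> simp_all
      · have h9 : ∀ x ∈ S, ¬ σ x b j := fun x hx e => by
          have := h5 x hx _ (hσ x hx b j e).2
          rw [(rt_ex_pow (irreducible_X_sub_C _) (monic_X_sub_C _) j.succ_pos).2] at this
          exact h8 (by simpa using this)
        exact iff_of_false (h9 x hx) (h9 y hy)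
  · rw [prod_product]
    simp [Fintype.prod_option, lev]

end Cfsg.Agent.H18.Cn
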