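import Mathlib
import Cfsg.Agent.H18.Cn9

/-! Numerical bounds for the generating functions with signs. -/

namespace Cfsg.Agent.H18.Cn

open PowerSeries Finset

/-- Bounds for the even and the odd coefficients. -/
def Bd (q : ℝ) (G : ℝ⟦X⟧) (e o : ℝ) : Prop :=
  0 ≤ e ∧ 0 ≤ o ∧ (∀ n, coeff (2 * n + 0) G ≤ e * q ^ n) ∧ ∀ n, coeff (2 * n + 1) G ≤ o * q ^ n

variable {q κ e o e' o' y z w : ℝ} {G : ℝ⟦X⟧} {R : ℕ → Prop} {K : ℕ → ℝ}

theorem Bd.mono (h : Bd q G e o) (hq : 0 ≤ q) (he : e ≤ e') (ho : o ≤ o') : Bd q G e' o' :=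
  ⟨h.1.trans he, h.2.1.trans ho, fun n => (h.2.2.1 n).trans (by gcongr),
    fun n => (h.2.2.2 n).trans (by gcongr)⟩

theorem bd_E1 (hq : 0 ≤ q) {r i : ℕ} (hr : r ≤ 1) (hi : 0 < i) (hκ : 0 ≤ κ) (hy : κ ≤ y * q ^ i)
    (h0 : 0 ≤ y) (h1 : y < 1) (he : 0 ≤ e) (hG : ∀ n, coeff (2 * n + r) G ≤ e * q ^ n) (n : ℕ) :
    coeff (2 * n + r) (G * Bs κ κ (2 * i)) ≤ e / (1 - y) * q ^ n := by
  have h2 : 0 ≤ e / (1 - y) := div_nonneg he (by linarith)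
  have h3 : e / (1 - y) = e + y * (e / (1 - y)) := by
    have : 1 - y ≠ 0 := by linarith
    field_simp; ring
  generalize e / (1 - y) = c at h2 h3
  rw [mul_comm G]
  induction n using Nat.strong_induction_on with
  | _ n ih =>
  have h4 := hG n
  rw [coeff_Bs_mul (by omega)]
  split_ifs with h
  · obtain ⟨m, rfl⟩ : ∃ m, n = i + m := ⟨n - i, by omega⟩
    have h5 := mul_le_mul_of_nonneg_left (ih m (by omega)) hκ
    have h6 := mul_le_mul_of_nonneg_right hy (show 0 ≤ c * q ^ m by positivity)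
    rw [show 2 * (i + m) + r - 2 * i = 2 * m + r by omega]
    rw [pow_add] at h4 ⊢
    nlinarith [congrArg (· * (q ^ i * q ^ m)) h3]
  · have : 0 ≤ y * c * q ^ n := by positivity
    nlinarith [congrArg (· * q ^ n) h3]

theorem Bd.E (h : Bd q G e o) (hq : 0 ≤ q) {i : ℕ} (hi : 0 < i) (hκ : 0 ≤ κ) (hy : κ ≤ y * q ^ i)
    (h0 : 0 ≤ y) (h1 : y < 1) : Bd q (G * Bs κ κ (2 * i)) (e / (1 - y)) (o / (1 - y)) :=
  ⟨div_nonneg h.1 (by linarith), div_nonneg h.2.1 (by linarith),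
    bd_E1 hq zero_le_one hi hκ hy h0 h1 h.1 h.2.2.1, bd_E1 hq le_rfl hi hκ hy h0 h1 h.2.1 h.2.2.2⟩

theorem bd_base : Bd q (1 * Bs q q (2 * (2 * 0 + 1))) 1 0 :=
  ⟨zero_le_one, le_rfl, fun n => by cases n <;> simp [coeff_Bs, pow_succ'],
    fun n => by simp [coeff_Bs]⟩

theorem bd_W1 (hq : 0 ≤ q) {r s i j : ℕ} (h : ∀ n, i ≤ 2 * n + r → ∃ m, n = j + m ∧
    2 * n + r - i = 2 * m + s) (hz : 1 ≤ z * q ^ j) (h0 : 0 ≤ z) (ho : 0 ≤ o)
    (h1 : ∀ n, coeff (2 * n + r) G ≤ e * q ^ n) (h2 : ∀ n, coeff (2 * n + s) G ≤ o * q ^ n) (n : ℕ) :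
    coeff (2 * n + r) (G * (1 + X ^ i)) ≤ (e + z * o) * q ^ n := by
  have h3 := h1 n
  rw [mul_add, mul_one, map_add, coeff_mul_X_pow']
  split_ifs with h4
  · obtain ⟨m, rfl, h5⟩ := h n h4
    have h6 := mul_le_mul_of_nonneg_right hz (show 0 ≤ o * q ^ m by positivity)
    rw [h5]
    rw [pow_add] at h3 ⊢
    nlinarith [h2 m]
  · have : 0 ≤ z * o * q ^ n := by positivity
    linarith

theorem Bd.ev (h : Bd q G e o) (hq : 0 ≤ q) {j : ℕ} (hz : 1 ≤ z * q ^ j) (h0 : 0 ≤ z) :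
    Bd q (G * (1 + X ^ (2 * j))) (e + z * e) (o + z * o) :=
  have := h.1
  have := h.2.1
  ⟨by positivity, by positivity,
    bd_W1 hq (fun n _ => ⟨n - j, by omega⟩) hz h0 h.1 h.2.2.1 h.2.2.1,
    bd_W1 hq (fun n _ => ⟨n - j, by omega⟩) hz h0 h.2.1 h.2.2.2 h.2.2.2⟩

theorem Bd.od (h : Bd q G e o) (hq : 0 ≤ q) {j : ℕ} (hz : 1 ≤ z * q ^ j) (h0 : 0 ≤ z)
    (hw : 1 ≤ w * q ^ (j + 1)) (h1 : 0 ≤ w) :
    Bd q (G * (1 + X ^ (2 * j + 1))) (e + w * o) (o + z * e) :=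
  have := h.1
  have := h.2.1
  ⟨by positivity, by positivity,
    bd_W1 hq (fun n _ => ⟨n - (j + 1), by omega⟩) hw h1 h.2.1 h.2.2.1 h.2.2.2,
    bd_W1 hq (fun n _ => ⟨n - j, by omega⟩) hz h0 h.1 h.2.2.2 h.2.2.1⟩

theorem Bd.l0 {i : ℕ} (h : Bd q (G * Bs (K i) (K i) (2 * i)) e o) (hR : ¬ R i) :
    Bd q (G * lev R K i) e o := by simpa [lev, hR] using h

theorem mul_lev {i : ℕ} (hR : R i) : G * lev R K i = G * Bs (K i) (K i) (2 * i) * (1 + X ^ i) *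
    (1 + X ^ i) * (1 + X ^ i) * (1 + X ^ i) := by
  rw [lev, if_pos hR]; ring

theorem Bd.lE {i j : ℕ} (h : Bd q (G * Bs (K i) (K i) (2 * i)) e o) (hR : R i) (hi : i = 2 * j)
    (hq : 0 ≤ q) (hz : 1 ≤ z * q ^ j) (h0 : 0 ≤ z) :
    Bd q (G * lev R K i) (e * (1 + z) ^ 4) (o * (1 + z) ^ 4) := by
  subst hi
  rw [mul_lev hR]
  convert (((h.ev hq hz h0).ev hq hz h0).ev hq hz h0).ev hq hz h0 using 1 <;> ring

theorem Bd.lO {i j : ℕ} (h : Bd q (G * Bs (K i) (K i) (2 * i)) e o) (hR : R i) (hi : i = 2 * j + 1)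
    (hq : 0 ≤ q) (hz : 1 ≤ z * q ^ j) (h0 : 0 ≤ z) (hw : 1 ≤ w * q ^ (j + 1)) (h1 : 0 ≤ w) :
    Bd q (G * lev R K i) ((1 + 6 * (z * w) + (z * w) ^ 2) * e + (4 + 4 * (z * w)) * w * o)
      ((1 + 6 * (z * w) + (z * w) ^ 2) * o + (4 + 4 * (z * w)) * z * e) := by
  subst hi
  rw [mul_lev hR]
  convert (((h.od hq hz h0 hw h1).od hq hz h0 hw h1).od hq hz h0 hw h1).od hq hz h0 hw h1
    using 1 <;> ring

/-- The partial products. -/
noncomputable def PP (R : ℕ → Prop) (K : ℕ → ℝ) (k : ℕ) : ℝ⟦X⟧ :=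
  ∏ i ∈ range (2 * k), lev R K (i + 1)

theorem PP_succ (k : ℕ) : PP R K (k + 1) = PP R K k * lev R K (2 * k + 1) * lev R K (2 * k + 2) := by
  rw [PP, mul_add, mul_one, prod_range_succ, prod_range_succ, PP]

theorem PP_zero : PP R K 0 = 1 := rfl

variable {a : ℝ}

theorem pw_aux (ha : 2 ≤ a) (hq : a ≤ q) (k : ℕ) : 1 ≤ a⁻¹ ^ k * q ^ k := by
  rw [← mul_pow]
  exact one_le_pow₀ (by rw [inv_mul_eq_div]; exact (one_le_div (by linarith)).2 hq)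

theorem Bd.E1 (h : Bd q G e o) (ha : 2 ≤ a) (hq : a ≤ q) (k i : ℕ) (hi : i = k + 2) :
    Bd q (G * Bs q q (2 * i)) (e / (1 - a⁻¹ ^ (k + 1))) (o / (1 - a⁻¹ ^ (k + 1))) :=
  hi ▸ h.E (by linarith) (by omega) (by linarith)
    (by rw [pow_succ q, ← mul_assoc]; exact le_mul_of_one_le_left (by linarith) (pw_aux ha hq _))
    (by positivity) (pow_lt_one₀ (by positivity) (inv_lt_one_of_one_lt₀ (by linarith)) (by omega))

theorem sp_step (hq : 3 ≤ q) (k : ℕ) {x : ℝ} (hx : x = 3⁻¹ ^ (k + 1))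
    (h : Bd q (PP Even (fun _ => q) (k + 1)) e 0)
    (he : e / (1 - x ^ 2) / (1 - x ^ 2 / 3) * (1 + x / 3) ^ 4 ≤ e') :
    Bd q (PP Even (fun _ => q) (k + 2)) e' 0 := by
  rw [PP_succ]
  have h1 := Bd.l0 (R := Even) (K := fun _ => q)
    (h.E1 (by norm_num) hq (2 * k + 1) (2 * (k + 1) + 1) (by ring)) (by simp)
  refine (Bd.lE (R := Even) (K := fun _ => q) (j := k + 2)
    (h1.E1 (by norm_num) hq (2 * k + 2) (2 * (k + 1) + 2) (by ring)) (by simp [parity_simps]) (by ring)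
    (by linarith) (pw_aux (by norm_num) hq _) (by positivity)).mono (by linarith)
    (le_of_eq_of_le ?_ he) (by simp)
  rw [hx]; ring

theorem third_pow (k : ℕ) : (0 : ℝ) ≤ 3⁻¹ ^ (k + 3) ∧ (3⁻¹ : ℝ) ^ (k + 3) ≤ 1 / 27 :=
  ⟨by positivity, (pow_le_pow_of_le_one (by norm_num) (by norm_num) (Nat.le_add_left 3 k)).trans
    (by norm_num)⟩

theorem sp_bound (hq : 3 ≤ q) (k : ℕ) :
    Bd q (PP Even (fun _ => q) (k + 3)) (54 / 5 * (1 - 2 * 3⁻¹ ^ (k + 3))) 0 := by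
  induction k with
  | zero =>
    have h1 : Bd q (PP Even (fun _ => q) (0 + 1)) (128 / 27) 0 := by
      rw [PP_succ, PP_zero]
      have h1 := Bd.l0 (R := Even) (K := fun _ => q) (i := 2 * 0 + 1) bd_base (by simp)
      exact (Bd.lE (R := Even) (K := fun _ => q) (j := 1) (h1.E1 (by norm_num) hq 0 (2 * 0 + 2) rfl)
        (by simp) rfl (by linarith) (pw_aux (by norm_num) hq _) (by positivity)).mono
        (by linarith) (by norm_num) (by simp)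
    exact sp_step hq 1 rfl (sp_step hq 0 rfl h1 (e' := 845 / 100) (by norm_num)) (by norm_num)
  | succ k ih =>
    refine sp_step hq _ rfl ih ?_
    obtain ⟨h0, h1⟩ := third_pow k
    rw [show k + 1 + 3 = k + 3 + 1 from rfl, pow_succ _ (k + 3)]
    generalize (3⁻¹ : ℝ) ^ (k + 3) = x at h0 h1
    have h2 : x ^ 2 ≤ x / 27 := by nlinarith
    rw [div_div, div_mul_eq_mul_div, div_le_iff₀ (by apply mul_pos <;> nlinarith)]
    have h3 : x ^ 3 ≤ x ^ 2 / 27 := by nlinarith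
    have h4 : x ^ 4 ≤ x ^ 2 / 27 := by nlinarith
    have h5 : x ^ 5 ≤ x ^ 2 / 27 := by nlinarith [pow_nonneg h0 3]
    nlinarith [pow_nonneg h0 2, pow_nonneg h0 3, pow_nonneg h0 4, pow_nonneg h0 5]

end Cfsg.Agent.H18.Cn
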