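import Mathlib
import Cfsg.Agent.H18.Cn10

/-! Upper bounds for class numbers of symplectic and orthogonal groups. -/

namespace Cfsg.Agent.H18.Cn

open Polynomial Finset L0 Module H10 H11

universe u

theorem card_conj_congr {G H : Type*} [Group G] [Group H] [Finite G] [Finite H] (e : G ≃* H) :
    Nat.card (ConjClasses G) = Nat.card (ConjClasses H) := by
  rw [card_classes_true, card_classes_true]
  exact card_classes_congr' e fun _ => Iff.rfl

variable {F : Type u} [Field F] {V : Type u} [AddCommGroup V] [Module F V] [FiniteDimensional F V]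
  {ε : F} {B : V →ₗ[F] V →ₗ[F] F} {Q : V → F}

open Classical in
theorem count_cb (g : V ≃ₗ[F] V) (b : Bool) (j : ℕ) :
    (tyE g.toLinearMap).count ((X - C (cb F b)) ^ j) =
      (tyE (cb F b • g.toLinearMap)).count ((X - 1) ^ j) := by
  have := tyE_smul (a := g.toLinearMap) ((End.isUnit_iff _).2 g.bijective) (Units.mk0 _ (cb_ne b))
  rw [Units.val_mk0] at this
  rw [this, ← Multiset.count_map_eq_count' (·.scaleRoots (cb F b)) _ fun p q h => by
    simpa [← scaleRoots_mul, cb_sq] using congrArg (·.scaleRoots (cb F b)) h,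
    pow_scaleRoots_of_isReduced, X_sub_C_scaleRoots, cb_sq, C_1]

open Classical in
theorem even_count_eps (h2 : (2 : F) ≠ 0) (he : ε = 1 ∨ ε = -1) (hs : ∀ x y, B y x = ε * B x y)
    (hB : B.SeparatingLeft) {g : V ≃ₗ[F] V} (hg : ∀ x y, B (g x) (g y) = B x y) (b : Bool) {j : ℕ}
    (hj : ε * (-1) ^ j ≠ 1) : Even ((tyE g.toLinearMap).count ((X - C (cb F b)) ^ (j + 1))) := by
  have h1 : ∀ x y, B ((cb F b • g.toLinearMap) x) ((cb F b • g.toLinearMap) y) = B x y := by
    simp [hg, ← mul_assoc, cb_sq]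
  rw [count_cb]
  rcases he with rfl | rfl
  · exact even_count_symm h2 hB (fun x y => by rw [hs, one_mul]) h1
      (Nat.even_add_one.2 fun h => hj (by simp [h.neg_one_pow])) j.succ_pos
  · exact even_count_alt hB (fun x => (mul_eq_zero.1 (by linear_combination hs x x)).resolve_left h2) h1
      (Nat.odd_add_one.2 fun h => hj (by simp [h.neg_one_pow]))

theorem isom_count (h2 : (2 : F) ≠ 0) (he : ε = 1 ∨ ε = -1) (hs : ∀ x y, B y x = ε * B x y)
    (hB : B.SeparatingLeft) {ι : Type*} (S : Finset ι) (r : ι → Isom (σ := RingHom.id F) B Q)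
    (σ : ι → Bool → ℕ → Prop) (R : ℕ → Prop) {k : ℕ} (hM : finrank F V ≤ 2 * k) (P : ℕ → F[X] → Prop)
    (κ : ℕ → ℝ) (hκ : ∀ i, 0 ≤ κ i) (hP : ∀ i n (U : Finset F[X]),
      (∀ d ∈ U, (Pal d ∧ d.natDegree = 2 * n) ∧ P i d) → (U.card : ℝ) ≤ κ i ^ n)
    (hv : ∀ x ∈ S, ∀ i v, v ∣ Up (tyE (r x).1.toLinearMap) i → P i v)
    (hσ : ∀ x ∈ S, ∀ b j, σ x b j → R (j + 1) ∧ (X - C (cb F b)) ^ (j + 1) ∈ tyE (r x).1.toLinearMap)
    (hR : ∀ x ∈ S, ∀ b j, ε * (-1) ^ j = 1 → ¬ R (j + 1) →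
      (X - C (cb F b)) ^ (j + 1) ∉ tyE (r x).1.toLinearMap)
    (hi : ∀ x ∈ S, ∀ y ∈ S, tyE (r x).1.toLinearMap = tyE (r y).1.toLinearMap →
      (∀ b j, σ x b j ↔ σ y b j) → x = y) :
    (S.card : ℝ) ≤ PowerSeries.coeff (finrank F V) (PP R κ k) := by
  classical
  refine count_sg h2 S (fun x => tyE (r x).1.toLinearMap) σ R hM P κ hκ hP hv
    (fun x _ u => prim_of_mem_tyE) (fun x _ => gd_isom _) (fun x _ => tyE_isom (isForm_eps h2 he hs) hB
      ⟨(r x).1, (r x).2.1, fun v => congrArg (· / 2) ((r x).2.1 v v)⟩)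
    (fun x _ => (finrank_eq_sum_tyE _).symm) hσ (fun x hx b j h => ?_) hi
  by_cases h1 : ε * (-1) ^ j = 1
  · rw [Multiset.count_eq_zero.2 (hR x hx b j h1 h)]; exact Even.zero
  · exact even_count_eps h2 he hs hB (r x).2.1 b h1

theorem neg_one_pow_iff (h2 : (2 : F) ≠ 0) {j : ℕ} : (-1 : F) ^ j = 1 ↔ Even j :=
  neg_one_pow_eq_one_iff_even fun e => h2 (by linear_combination -e)

variable [Finite F]

theorem three_le_card (h2 : (2 : F) ≠ 0) : 3 ≤ Nat.card F := by
  classical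
  have := Fintype.ofFinite F
  have h : (-1 : F) ≠ 1 := fun e => h2 (by linear_combination -e)
  rw [Nat.card_eq_fintype_card]
  exact Fintype.two_lt_card_iff.2 ⟨0, 1, -1, by simp, by simp, h.symm⟩

theorem alt_le (h2 : (2 : F) ≠ 0) (hA : B.IsAlt) (hB : B.SeparatingLeft) {n : ℕ}
    (hn : finrank F V = 2 * n) [Finite (Isom (σ := RingHom.id F) B fun _ => 0)] :
    5 * Nat.card (ConjClasses (Isom (σ := RingHom.id F) B fun _ => 0)) ≤ 54 * Nat.card F ^ n := by
  have hs : ∀ x y, B y x = -1 * B x y := fun x y => by rw [← hA.neg, neg_one_mul]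
  obtain ⟨σ, h1, h3, -⟩ := exists_signs h2 (.inr rfl) hs hB (Q := fun _ => 0) fun _ _ _ => rfl
  have := Fintype.ofFinite (ConjClasses (Isom (σ := RingHom.id F) B fun _ => 0))
  choose r hr using ConjClasses.mk_surjective (α := Isom (σ := RingHom.id F) B fun _ => 0)
  have h4 : ∀ j, (-1 : F) * (-1) ^ j = 1 → Even (j + 1) := fun j h =>
    (neg_one_pow_iff h2).1 (by rwa [pow_succ'])
  have h5 := isom_count h2 (.inr rfl) hs hB univ r (fun x => σ (r x)) Even (k := n + 3) (by omega)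
    (fun _ _ => True) (fun _ => Nat.card F) (by simp) (fun _ n U h => card_pal_le n U fun d hd => (h d hd).1)
    (by simp) (fun x _ b j h => (h1 _ b j h).imp_left (h4 j)) (fun x _ b j h h' => (h' (h4 j h)).elim)
    fun x _ y _ h h' => by rw [← hr x, ← hr y, ConjClasses.mk_eq_mk_iff_isConj]; exact h3 _ _ h h'
  have h6 := (sp_bound (Nat.cast_le.2 (three_le_card h2)) n).2.2.1 n
  rw [card_univ, hn, ← Nat.card_eq_fintype_card] at h5
  have h7 : (0 : ℝ) ≤ 3⁻¹ ^ (n + 3) * Nat.card F ^ n := by positivity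
  rw [← Nat.cast_le (α := ℝ)]
  push_cast
  nlinarith [h5.trans h6]

end Cfsg.Agent.H18.Cn
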