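import Mathlib
import Cfsg.Agent.H18.Cn11

/-! Upper bounds for class numbers of orthogonal groups. -/

namespace Cfsg.Agent.H18.Cn

open Finset L0 Module H10 H11

universe u

section num
variable {q a e o e' o' : ℝ}

theorem o_base (ha : 2 ≤ a) (hq : a ≤ q) : Bd q (PP Odd (fun _ => q) (0 + 1))
    ((1 + 6 * a⁻¹ + a⁻¹ ^ 2) / (1 - a⁻¹)) ((4 + 4 * a⁻¹) / (1 - a⁻¹)) := by
  rw [PP_succ, PP_zero]
  have h1 := Bd.lO (R := Odd) (K := fun _ => q) (i := 2 * 0 + 1) (j := 0) bd_base (by simp) rfl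
    (by linarith) (pw_aux ha hq _) (by positivity) (pw_aux ha hq _) (by positivity)
  simpa using Bd.l0 (R := Odd) (K := fun _ => q) (h1.E1 ha hq 0 (2 * 0 + 2) rfl) (by simp)

theorem o_step (ha : 2 ≤ a) (hq : a ≤ q) (k : ℕ) {x : ℝ} (hx : x = a⁻¹ ^ (k + 1))
    (h : Bd q (PP Odd (fun _ => q) (k + 1)) e o)
    (he : ((1 + 6 * (x ^ 2 / a) + (x ^ 2 / a) ^ 2) * e + (4 + 4 * (x ^ 2 / a)) * (x / a) * o) /
      ((1 - x ^ 2) * (1 - x ^ 2 / a)) ≤ e')
    (ho : ((1 + 6 * (x ^ 2 / a) + (x ^ 2 / a) ^ 2) * o + (4 + 4 * (x ^ 2 / a)) * x * e) /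
      ((1 - x ^ 2) * (1 - x ^ 2 / a)) ≤ o') :
    Bd q (PP Odd (fun _ => q) (k + 2)) e' o' := by
  rw [PP_succ]
  have h0 : 0 ≤ a := by linarith
  have h1 := Bd.lO (R := Odd) (K := fun _ => q) (j := k + 1)
    (h.E1 ha hq (2 * k + 1) (2 * (k + 1) + 1) (by ring)) (by simp) rfl
    (by linarith) (pw_aux ha hq _) (by positivity) (pw_aux ha hq _) (by positivity)
  have h2 := Bd.l0 (R := Odd) (K := fun _ => q) (h1.E1 ha hq (2 * k + 2) (2 * (k + 1) + 2) (by ring))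
    (by simp [parity_simps])
  rw [show a⁻¹ ^ (2 * k + 1 + 1) = x ^ 2 by rw [hx]; ring, show a⁻¹ ^ (2 * k + 2 + 1) = x ^ 2 / a by
    rw [hx]; ring, show a⁻¹ ^ (k + 1 + 1) = x / a by rw [hx]; ring, ← hx] at h2
  refine h2.mono (by linarith) (le_of_eq_of_le ?_ he) (le_of_eq_of_le ?_ ho) <;>
    rw [← div_div] <;> ring

theorem o_bound (hq : 3 ≤ q) (k : ℕ) : Bd q (PP Odd (fun _ => q) (k + 3))
    (17 * (1 - 7 / 2 * 3⁻¹ ^ (k + 3))) (29 * (1 - 18 / 5 * 3⁻¹ ^ (k + 3))) := by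
  induction k with
  | zero =>
    exact o_step (by norm_num) hq 1 rfl (o_step (by norm_num) hq 0 rfl (o_base (by norm_num) hq)
      (e' := 11) (o' := 19) (by norm_num) (by norm_num)) (by norm_num) (by norm_num)
  | succ k ih =>
    obtain ⟨h0, h1⟩ := third_pow k
    refine o_step (by norm_num) hq _ rfl ih ?_ ?_
    all_goals
      rw [show k + 1 + 3 = k + 3 + 1 from rfl, pow_succ _ (k + 3)]
      generalize (3⁻¹ : ℝ) ^ (k + 3) = x at h0 h1
      have h2 : x ^ 2 ≤ x / 27 := by nlinarith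
      rw [div_le_iff₀ (by apply mul_pos <;> nlinarith)]
      have h3 : x ^ 3 ≤ x ^ 2 / 27 := by nlinarith
      have h4 : x ^ 4 ≤ x ^ 2 / 27 := by nlinarith
      have h5 : x ^ 5 ≤ x ^ 2 / 27 := by nlinarith [pow_nonneg h0 3]
      nlinarith [pow_nonneg h0 2, pow_nonneg h0 3, pow_nonneg h0 4, pow_nonneg h0 5]

theorem z_bound (hq : 3 ≤ q) (k : ℕ) : Bd q (PP (fun _ => False) (fun _ => q) (k + 1))
    (2 * (1 - 2 * (3⁻¹ ^ (k + 1)) ^ 2)) 0 := by
  induction k with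
  | zero =>
    rw [PP_succ, PP_zero]
    have h1 := Bd.l0 (R := fun _ => False) (K := fun _ => q) (i := 2 * 0 + 1) bd_base id
    exact (Bd.l0 (R := fun _ => False) (K := fun _ => q) (h1.E1 (by norm_num) hq 0 (2 * 0 + 2) rfl)
      id).mono (by linarith) (by norm_num) (by simp)
  | succ k ih =>
    rw [PP_succ]
    have h1 := Bd.l0 (R := fun _ => False) (K := fun _ => q)
      (ih.E1 (by norm_num) hq (2 * k + 1) (2 * (k + 1) + 1) (by ring)) id
    refine (Bd.l0 (R := fun _ => False) (K := fun _ => q)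
      (h1.E1 (by norm_num) hq (2 * k + 2) (2 * (k + 1) + 2) (by ring)) id).mono (by linarith) ?_ (by simp)
    have h2 : (3⁻¹ : ℝ) ^ (2 * k + 2) ≤ 1 / 9 :=
      (pow_le_pow_of_le_one (by norm_num) (by norm_num) (Nat.le_add_left 2 _)).trans (by norm_num)
    have h0 : (0 : ℝ) ≤ 3⁻¹ ^ (2 * k + 2) := by positivity
    rw [show ((3⁻¹ : ℝ) ^ (k + 1)) ^ 2 = 3⁻¹ ^ (2 * k + 2) by ring, show ((3⁻¹ : ℝ) ^ (k + 1 + 1)) ^ 2 =
      3⁻¹ ^ (2 * k + 2) / 9 by ring, pow_succ _ (2 * k + 2), show 2 * k + 1 + 1 = 2 * k + 2 from rfl]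
    generalize (3⁻¹ : ℝ) ^ (2 * k + 2) = x at h0 h2
    rw [div_div, div_le_iff₀ (by apply mul_pos <;> linarith)]
    nlinarith [mul_nonneg h0 h0]

end num

open Polynomial

variable {F : Type u} [Field F] [Finite F] {V : Type u} [AddCommGroup V] [Module F V]
  [FiniteDimensional F V] {B : V →ₗ[F] V →ₗ[F] F} {Q : V → F}

/-- There is an odd Jordan block for an eigenvalue `±1`. -/
def Ob (s : Multiset F[X]) : Prop := ∃ b j, (X - C (cb F b)) ^ (2 * j + 1) ∈ s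

omit [Finite F] [FiniteDimensional F V] in
theorem quad_of_isom (h2 : (2 : F) ≠ 0) (h : IsQuad B Q) (e : V ≃ₗ[F] V)
    (he : ∀ x y, B (e x) (e y) = B x y) (x : V) : Q (e x) = Q x :=
  mul_left_cancel₀ h2 (by rw [← h.diag', ← h.diag', he])

open Classical in
theorem quad_two (h2 : (2 : F) ≠ 0) (h : IsQuad B Q) (hB : B.SeparatingLeft) {ι : Type*}
    (S : Finset ι) (r : ι → Isom (σ := RingHom.id F) B Q)
    (hr : ∀ x ∈ S, ∀ y ∈ S, IsConj (r x) (r y) → x = y) {k : ℕ} (hM : finrank F V ≤ 2 * k)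
    (P : ℕ → F[X] → Prop) (κ : ℕ → ℝ) (hκ : ∀ i, 0 ≤ κ i) (hP : ∀ i n (U : Finset F[X]),
      (∀ d ∈ U, (Pal d ∧ d.natDegree = 2 * n) ∧ P i d) → (U.card : ℝ) ≤ κ i ^ n)
    (hv : ∀ x ∈ S, ∀ i v, v ∣ Up (tyE (r x).1.toLinearMap) i → P i v) :
    (S.card + (S.filter fun x => Ob (tyE (r x).1.toLinearMap)).card : ℝ) ≤
      PowerSeries.coeff (finrank F V) (PP Odd κ k) := by
  have hs : ∀ x y, B y x = 1 * B x y := fun x y => by rw [h.comm, one_mul]
  obtain ⟨σ, h1, h3, h4⟩ := exists_signs h2 (.inl rfl) hs hB (quad_of_isom h2 h)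
  have h5 : ∀ s : Multiset F[X], Ob s → ∃ p : Bool × ℕ, (X - C (cb F p.1)) ^ (2 * p.2 + 1) ∈ s ∧
      ∀ j < p.2, (X - C (cb F p.1)) ^ (2 * j + 1) ∉ s := fun s ⟨b, hb⟩ =>
    ⟨(b, Nat.find hb), Nat.find_spec hb, fun j => Nat.find_min hb⟩
  choose! f f1 f2 using h5
  have h6 : ∀ j, (1 : F) * (-1) ^ j = 1 → Even j := fun j h => (neg_one_pow_iff h2).1 (by simpa using h)
  let ρ : ι ⊕ ι → ι := Sum.elim id id
  have h7 : ∀ p ∈ S.disjSum (S.filter fun x => Ob (tyE (r x).1.toLinearMap)), ρ p ∈ S := by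
    rintro (x | x) <;> simp +contextual [ρ]
  rw [← Nat.cast_add, ← card_disjSum]
  refine isom_count h2 (.inl rfl) hs hB _ (fun p => r (ρ p)) (fun p b j =>
    if (b, j) = ((f (tyE (r (ρ p)).1.toLinearMap)).1, 2 * (f (tyE (r (ρ p)).1.toLinearMap)).2)
      then p.isRight = true else σ (r (ρ p)) b j) Odd hM P κ hκ hP (fun p hp => hv _ (h7 p hp))
    (fun p hp b j H => ?_) (fun p _ b j H H' => (H' (h6 j H).add_one).elim) fun p hp p' hp' e H => ?_
  · split_ifs at H with h8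
    · obtain ⟨rfl, rfl⟩ := Prod.mk.inj h8
      obtain ⟨x, rfl⟩ := Sum.isRight_iff.1 H
      exact ⟨by simp, f1 _ (mem_filter.1 (inr_mem_disjSum.1 hp)).2⟩
    · exact (h1 _ b j H).imp_left fun H => (h6 j H).add_one
  · simp only [← e] at H
    have h8 : ρ p = ρ p' := hr _ (h7 p hp) _ (h7 p' hp') (h3 _ _ e (by
      by_cases h9 : Ob (tyE (r (ρ p)).1.toLinearMap)
      · exact h4 rfl _ _ e _ _ (f2 _ h9) fun b j h => by simpa only [if_neg h] using H b j
      · have : ∀ g : Isom (σ := RingHom.id F) B Q, ¬ Ob (tyE g.1.toLinearMap) → ∀ b j, ¬ σ g b j :=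
          fun g hg b j H => by
            obtain ⟨i, rfl⟩ := (h6 j (h1 g b j H).1).two_dvd
            exact hg ⟨b, i, (h1 g b _ H).2⟩
        exact fun b j => iff_of_false (this _ h9 b j) (this _ (e ▸ h9) b j)))
    have h9 := H (f (tyE (r (ρ p)).1.toLinearMap)).1 (2 * (f (tyE (r (ρ p)).1.toLinearMap)).2)
    rw [if_pos rfl, if_pos rfl] at h9
    clear * - h8 h9
    rcases p with x | x <;> rcases p' with y | y <;> simp_all [ρ]

theorem quad_zero (h2 : (2 : F) ≠ 0) (h : IsQuad B Q) (hB : B.SeparatingLeft) {ι : Type*}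
    (S : Finset ι) (r : ι → Isom (σ := RingHom.id F) B Q)
    (hr : ∀ x ∈ S, ∀ y ∈ S, IsConj (r x) (r y) → x = y) {k : ℕ} (hM : finrank F V ≤ 2 * k)
    (hS : ∀ x ∈ S, ¬ Ob (tyE (r x).1.toLinearMap)) :
    (S.card : ℝ) ≤ PowerSeries.coeff (finrank F V) (PP (fun _ => False) (fun _ => Nat.card F) k) := by
  have hs : ∀ x y, B y x = 1 * B x y := fun x y => by rw [h.comm, one_mul]
  obtain ⟨σ, h1, h3, -⟩ := exists_signs h2 (.inl rfl) hs hB (quad_of_isom h2 h)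
  have h6 : ∀ x ∈ S, ∀ b j, (1 : F) * (-1) ^ j = 1 →
      (X - C (cb F b)) ^ (j + 1) ∉ tyE (r x).1.toLinearMap := fun x hx b j h H => by
    obtain ⟨i, rfl⟩ := ((neg_one_pow_iff h2).1 (by simpa using h)).two_dvd
    exact hS x hx ⟨b, i, H⟩
  exact isom_count h2 (.inl rfl) hs hB S r (fun x => σ (r x)) _ hM (fun _ _ => True) _ (by simp)
    (fun _ n U h => card_pal_le n U fun d hd => (h d hd).1) (by simp)
    (fun x hx b j H => (h6 x hx b j (h1 _ b j H).1 (h1 _ b j H).2).elim)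
    (fun x hx b j H _ => h6 x hx b j H) fun x hx y hy e H => hr x hx y hy (h3 _ _ e H)

theorem quad_even_le (h2 : (2 : F) ≠ 0) (h : IsQuad B Q) (hB : B.SeparatingLeft) {n : ℕ}
    (hn : finrank F V = 2 * n) [Finite (Isom (σ := RingHom.id F) B Q)] :
    2 * Nat.card (ConjClasses (Isom (σ := RingHom.id F) B Q)) ≤ 19 * Nat.card F ^ n := by
  classical
  have := Fintype.ofFinite (ConjClasses (Isom (σ := RingHom.id F) B Q))
  choose r hr using ConjClasses.mk_surjective (α := Isom (σ := RingHom.id F) B Q)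
  have h1 : ∀ x y, IsConj (r x) (r y) → x = y := fun x y h => by
    rw [← hr x, ← hr y, ConjClasses.mk_eq_mk_iff_isConj.2 h]
  have h3 := quad_two h2 h hB univ r (fun x _ y _ => h1 x y) (k := n + 3) (by omega) (fun _ _ => True)
    (fun _ => Nat.card F) (by simp) (fun _ n U h => card_pal_le n U fun d hd => (h d hd).1) (by simp)
  have h4 := quad_zero h2 h hB (univ.filter fun x => ¬ Ob (tyE (r x).1.toLinearMap)) r
    (fun x _ y _ => h1 x y) (k := n + 1) (by omega) (by simp)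
  have h5 := (o_bound (Nat.cast_le.2 (three_le_card h2)) n).2.2.1 n
  have h6 := (z_bound (Nat.cast_le.2 (three_le_card h2)) n).2.2.1 n
  have h7 := congrArg (Nat.cast (R := ℝ))
    (card_filter_add_card_filter_not (s := univ) fun x => Ob (tyE (r x).1.toLinearMap))
  rw [hn] at h3 h4
  rw [card_univ, ← Nat.card_eq_fintype_card] at h3 h7
  have h8 : (0 : ℝ) ≤ 3⁻¹ ^ (n + 3) * Nat.card F ^ n := by positivity
  have h9 : (0 : ℝ) ≤ (3⁻¹ ^ (n + 1)) ^ 2 * Nat.card F ^ n := by positivity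
  rw [← Nat.cast_le (α := ℝ)]
  push_cast at h7 ⊢
  nlinarith [h3.trans h5, h4.trans h6]

end Cfsg.Agent.H18.Cn
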