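import Mathlib
import Cfsg.Agent.H18.Cn12

/-! Lower bounds for class numbers of orthogonal groups. -/

namespace Cfsg.Agent.H18.Cn

open Polynomial Finset L0 Module H10 H11

universe u

variable {F : Type u} [Field F] {V : Type*} [AddCommGroup V] [Module F V]
  [FiniteDimensional F V] {B : V →ₗ[F] V →ₗ[F] F} {Q : V → F}

theorem isSquare_gram_alt (hA : B.IsAlt) (hB : B.SeparatingLeft) :
    IsSquare (gram B (finBasis F V)).det := by
  have h1 := hA.isRefl.nondegenerate_iff_separatingLeft.mpr hB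
  obtain ⟨m, hm⟩ := even_finrank_of_alt h1 hA
  obtain ⟨e, he⟩ := exists_isometry_std (l := Fin m) h1 hA (by simpa [two_mul] using hm)
  obtain ⟨c, -, hc⟩ := exists_gram_det_eq B ((Pi.basisFun F _).map e) (finBasis F V)
  rw [hc, show gram B ((Pi.basisFun F _).map e) = Matrix.J (Fin m) F by
    ext i j; simp [he, spBilin_apply], SymplecticGroup.det_eq_one (SymplecticGroup.J_mem _ _), mul_one]
  exact ⟨c, rfl⟩

theorem gram_compl (S : End F V) : (gram (B.compl₂ S) (finBasis F V)).det =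
    (gram B (finBasis F V)).det * LinearMap.det S := by
  rw [← LinearMap.det_toMatrix (finBasis F V), ← Matrix.det_mul]
  congr 1
  ext i j
  rw [gram_apply, LinearMap.compl₂_apply, ← (finBasis F V).sum_repr (S _)]
  simp [Matrix.mul_apply, LinearMap.toMatrix_apply, mul_comm, -Basis.sum_repr]

theorem disc_sk (h2 : (2 : F) ≠ 0) (hS : ∀ x y, B x y = B y x) (hB : B.SeparatingLeft)
    {g : V ≃ₗ[F] V} (hg : ∀ x y, B (g x) (g y) = B x y)
    (h : LinearMap.det (g.toLinearMap * g.toLinearMap - 1) ≠ 0) :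
    IsSquare ((gram B (finBasis F V)).det * (LinearMap.det g.toLinearMap *
      LinearMap.det (g.toLinearMap * g.toLinearMap - 1))) := by
  let S : End F V := g.toLinearMap - g.symm.toLinearMap
  have h1 : g.toLinearMap * g.toLinearMap - 1 = g.toLinearMap * S := by ext; simp [S]
  rw [h1, map_mul] at h ⊢
  have h3 := isSquare_gram_alt (B := B.compl₂ S) (fun x => by
    have := hg x (g.symm x)
    simp [S, hS x (g x), ← this]) fun x hx => hB x fun y => by
      obtain ⟨y, rfl⟩ := ((End.isUnit_iff S).1 (LinearMap.isUnit_iff_isUnit_det _ |>.2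
        (right_ne_zero_of_mul h).isUnit)).2 y
      exact hx y
  rw [gram_compl] at h3
  rw [← mul_assoc (LinearMap.det _), mul_left_comm]
  exact (IsSquare.mul_self _).mul h3

theorem eval_tyE (g : End F V) : (tyE g).prod.eval 1 * (tyE g).prod.eval (-1) =
    LinearMap.det (g * g - 1) := by
  rw [← charpoly_eq_prod_tyE, LinearMap.eval_charpoly, LinearMap.eval_charpoly, ← map_mul]
  congr 1
  simp; noncomm_ring

theorem exists_shift (h2 : (2 : F) ≠ 0) (m : ℕ) (δ : F × F) : ∃ p : F[X], (∀ f,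
    Pal f ∧ f.natDegree = 2 * (m + 2) → Pal (f + p) ∧ (f + p).natDegree = 2 * (m + 2)) ∧
      p.eval 1 = δ.1 ∧ p.eval (-1) = δ.2 := by
  refine ⟨C ((δ.1 + (-1) ^ m * δ.2) / 2) * X ^ (m + 2) + C ((δ.1 - (-1) ^ m * δ.2) / 2 / 2) *
    (X ^ (m + 1) + X ^ (m + 3)), fun f hf => ?_, ?_, ?_⟩
  · obtain ⟨h1, h3, h4⟩ := pal_iff.1 hf
    simp only [pal_iff, coeff_add, coeff_C_mul, coeff_X_pow]
    refine ⟨by simp [h1], fun i hi => ?_, fun i hi => ?_⟩
    · rw [h3 i hi, if_neg (by omega), if_neg (by omega), if_neg (by omega)]; simp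
    · rw [h4 i hi, add_comm (if i = m + 1 then _ else _)]
      congr 3 <;> [skip; congr 1] <;> exact if_congr (by omega) rfl rfl
  · simp; field_simp; ring
  · have : ((-1 : F) ^ m) ^ 2 = 1 := by rw [← pow_mul, mul_comm, pow_mul]; simp
    simp [pow_add]; field_simp; linear_combination (4 * δ.2) * this

variable [Finite F]

theorem real_of_dl (h2 : (2 : F) ≠ 0) {f : F[X]} (hf : Gd f) (hd : dl (RingHom.id F) f = f) :
    ∃ s, Real (RingHom.id F) 1 2 (AddMonoidHom.id F) s ∧ s.prod = f ∧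
      (s.map natDegree).sum = f.natDegree := by
  obtain ⟨s, h1, h3, rfl, h4⟩ := (tw_dl (σ := RingHom.id F) fun _ => rfl).exists_type hf hd
  exact ⟨s, real_semis par_quad (fun u hu => (h1 u hu).1) h3 h4 (.inl ⟨1, by simpa [one_add_one_eq_two]⟩),
    rfl, (natDegree_prod_ty fun u hu => (h1 u hu).2).symm⟩

theorem real_disc (h2 : (2 : F) ≠ 0) (h : IsQuad B Q) (hB : B.SeparatingLeft) {f : F[X]} (hf : Pal f)
    (hn : f.natDegree = finrank F V) (h0 : f.eval 1 * f.eval (-1) ≠ 0)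
    (H : IsSquare ((gram B (finBasis F V)).det * (f.eval 1 * f.eval (-1)))) :
    ∃ g : Isom (σ := RingHom.id F) B Q, (tyE g.1.toLinearMap).prod = f := by
  obtain ⟨s, ⟨W, _, _, _, B', Q', h1, h3, h4⟩, rfl, h5⟩ := real_of_dl h2 hf.gd hf.2.2.2
  have h6 := h4.finrank_eq.trans h5
  obtain ⟨e, e1, e2⟩ := IsQuad.exists_equiv_of_disc h1 h3 h hB h2 (finBasis F _) (finBasis F _)
    (h6.trans hn) (by
      obtain ⟨g, rfl⟩ := h4
      have h7 := det_eq_prod_tyE g.1.toLinearMap
      rw [hf.2.2.1, h6, hf.2.1.neg_one_pow, one_mul] at h7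
      have h8 := disc_sk h2 (IsQuad.comm h1) h3 g.2.1 ((eval_tyE _).symm.trans_ne h0)
      rw [← h7, one_mul, ← eval_tyE] at h8
      have := h8.mul H
      rwa [mul_mul_mul_comm, mul_comm, isSquare_mul_iff_of_isSquare (mul_ne_zero h0 h0) ⟨_, rfl⟩] at this)
  obtain ⟨g, hg⟩ := h4.sim (B' := B) (Q' := Q) e (a := 1) (by simpa) (by simpa)
  exact ⟨g, congrArg Multiset.prod hg⟩

theorem real_root (h2 : (2 : F) ≠ 0) (h : IsQuad B Q) (hB : B.SeparatingLeft) {f : F[X]} (hf : Pal f)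
    (hn : f.natDegree = finrank F V) (h0 : f.eval 1 = 0) :
    ∃ g : Isom (σ := RingHom.id F) B Q, (tyE g.1.toLinearMap).prod = f := by
  have T := tw_dl (σ := RingHom.id F) fun _ => rfl
  have h1 := gd_X_sub_C (F := F) one_ne_zero
  have key : ∀ f : F[X], Gd f → dl (RingHom.id F) f = f → f.eval 1 = 0 →
      ∃ g, f = (X - C 1) * g ∧ Gd g ∧ dl (RingHom.id F) g = g := fun f h3 h4 h5 => by
    obtain ⟨g, rfl⟩ := dvd_iff_isRoot.2 h5
    have h6 := h3.of_dvd (h1.1.of_mul_monic_left h3.1) (dvd_mul_left _ _)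
    rw [T.mul _ _ h1 h6, dl_X_sub_C (by simp)] at h4
    exact ⟨g, rfl, h6, mul_left_cancel₀ h1.1.ne_zero h4⟩
  obtain ⟨g, rfl, h3, h4⟩ := key f hf.gd hf.2.2.2 h0
  obtain ⟨w, rfl, h5, h6⟩ := key g h3 h4 (by
    have h5 := eval_dl (f := g) (x := 1) (by simp)
    have h6 : g.coeff 0 = -1 := by simpa [neg_eq_iff_eq_neg] using hf.2.2.1
    rw [h4, h6] at h5
    exact (mul_eq_zero.1 (by simp at h5; linear_combination h5)).resolve_left h2)
  obtain ⟨s, h7, rfl, h8⟩ := real_of_dl h2 h5 h6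
  have h9 := hf.2.1
  rw [hn] at h9
  rw [h1.1.natDegree_mul h3.1, h1.1.natDegree_mul h5.1, natDegree_X_sub_C] at hn
  obtain ⟨k, hk⟩ := realIn_quad_even h hB h7 (j := 0) h9 (by omega)
  obtain rfl : k = 2 := by
    have := hk.finrank_eq
    simp [natDegree_X_sub_one] at this
    omega
  obtain ⟨g, hg⟩ := hk
  exact ⟨g, (congrArg Multiset.prod hg).trans (by simp [sq, mul_assoc, mul_comm])⟩

omit [Finite F] in
theorem card_real_le [Finite (Isom (σ := RingHom.id F) B Q)] {ι : Type*} (φ : ι → F[X])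
    (hφ : Function.Injective φ)
    (h : ∀ i, ∃ g : Isom (σ := RingHom.id F) B Q, (tyE g.1.toLinearMap).prod = φ i) :
    Nat.card ι ≤ Nat.card (ConjClasses (Isom (σ := RingHom.id F) B Q)) := by
  choose g hg using h
  refine Nat.card_le_card_of_injective (fun i => ConjClasses.mk (g i)) fun i j e => hφ ?_
  obtain ⟨c, hc⟩ := ConjClasses.mk_eq_mk_iff_isConj.1 e
  rw [← hg, ← hg, tyE_congr c.1.1 fun v => LinearEquiv.congr_fun (congrArg Subtype.val hc.eq) v]

theorem quad_even_ge (h2 : (2 : F) ≠ 0) (h : IsQuad B Q) (hB : B.SeparatingLeft) {m : ℕ}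
    (hn : finrank F V = 2 * (m + 2)) [Finite (Isom (σ := RingHom.id F) B Q)] :
    Nat.card F ^ (m + 2) ≤ 2 * Nat.card (ConjClasses (Isom (σ := RingHom.id F) B Q)) := by
  classical
  let Ω := {f : F[X] // Pal f ∧ f.natDegree = 2 * (m + 2)}
  have : Finite Ω := Nat.finite_of_card_ne_zero (by rw [card_pal]; exact pow_ne_zero _ Nat.card_pos.ne')
  let R : Ω → Prop := fun f => ∃ g : Isom (σ := RingHom.id F) B Q, (tyE g.1.toLinearMap).prod = f.1
  have h1 := card_real_le (ι := {f // R f}) (·.1.1) (fun a b e => Subtype.ext (Subtype.ext e)) (·.2)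
  choose p h3 h4 h5 using exists_shift h2 m
  obtain ⟨ν, hν⟩ := FiniteField.exists_nonsquare (F := F) fun e => h2 (by
    exact_mod_cast (ringChar.spec F 2).2 (e ▸ dvd_rfl))
  have hν0 : ν ≠ 0 := by rintro rfl; simp at hν
  let ψ : F × F → F × F := fun a => if a.2 = 0 then (0, a.1) else (a.1, ν * a.2)
  let v : F[X] → F × F := fun f => (f.eval 1, f.eval (-1))
  have h6 : ∀ f, v (f + p (ψ (v f) - v f)) = ψ (v f) := fun f => by simp [v, h4, h5]
  have h7 : ∀ f : {f // ¬ R f}, f.1.1.eval 1 ≠ 0 := fun f e =>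
    f.2 (real_root h2 h hB f.1.2.1 (f.1.2.2.trans hn.symm) e)
  have h8 : Nat.card {f // ¬ R f} ≤ Nat.card {f // R f} := by
    refine Nat.card_le_card_of_injective (fun f => ⟨⟨f.1.1 + p (ψ (v f.1.1) - v f.1.1), h3 _ _ f.1.2⟩,
      ?_⟩) fun a b e => Subtype.ext (Subtype.ext ?_)
    · have h8 := h3 (ψ (v f.1.1) - v f.1.1) _ f.1.2
      obtain ⟨h9, h10⟩ := Prod.ext_iff.1 (h6 f.1.1)
      by_cases h0 : f.1.1.eval (-1) = 0
      · exact real_root h2 h hB h8.1 (h8.2.trans hn.symm) (h9.trans (by simp [ψ, v, h0]))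
      · replace h9 := h9.trans (show _ = f.1.1.eval 1 by simp [ψ, v, h0])
        replace h10 := h10.trans (show _ = ν * f.1.1.eval (-1) by simp [ψ, v, h0])
        refine real_disc h2 h hB h8.1 (h8.2.trans hn.symm)
          ((congrArg₂ (· * ·) h9 h10).trans_ne (by simp [h7, h0, hν0])) ?_
        convert isSquare_mul_of_not_isSquare hν fun e => f.2 (real_disc h2 h hB f.1.2.1
          (f.1.2.2.trans hn.symm) (mul_ne_zero (h7 f) h0) e) using 1
        exact (congrArg _ (congrArg₂ (· * ·) h9 h10)).trans (by ring)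
    · have h8 := Subtype.mk.inj (Subtype.mk.inj e)
      have h9 : v a.1.1 = v b.1.1 := by
        have h9 := (h6 _).symm.trans ((congrArg v h8).trans (h6 _))
        simp only [ψ, v] at h9 ⊢
        split_ifs at h9 with h10 h11 h11 <;> obtain ⟨h12, h13⟩ := Prod.mk.inj h9
        · rw [h10, h11, h13]
        · exact (h7 b h12.symm).elim
        · exact (h7 a h12).elim
        · rw [h12, mul_left_cancel₀ hν0 h13]
      rwa [h9, add_left_inj] at h8
  rw [← card_pal, ← Nat.card_congr (Equiv.sumCompl R), Nat.card_sum]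
  omega

end Cfsg.Agent.H18.Cn
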