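import Mathlib
import Cfsg.Agent.H18.Cn13
import Cfsg.Agent.H28.ClassCount

/-! Class numbers of subgroups of index four; numerical bounds. -/

namespace Cfsg.Agent.H18.Cn

open Finset

section grp
open H28 Subgroup
variable {G : Type*} [Group G] [Finite G]

theorem cpairs_split (A B : Set G) :
    (cpairs A Set.univ).ncard = (cpairs A B).ncard + (cpairs A Bᶜ).ncard := by
  rw [← Set.ncard_union_eq (Set.disjoint_left.2 fun p h h' => h'.2.1 h.2.1)]
  congr 1
  ext p
  simp only [cpairs, Set.mem_ofPred_eq, Set.mem_union, Set.mem_compl_iff]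
  tauto

theorem ncard_le_compl (M : Subgroup G) {x h : G} (hc : Commute x h) (hh : h ∉ M) :
    ((M : Set G) ∩ centralizer {x}).ncard ≤ ((M : Set G)ᶜ ∩ centralizer {x}).ncard :=
  Set.ncard_le_ncard_of_injOn (h * ·) (fun y hy => ⟨fun e => hh ((M.mul_mem_cancel_right hy.1).1 e),
    mul_mem (mem_centralizer_singleton_iff.2 hc.symm) hy.2⟩) (mul_right_injective h).injOn

theorem four_mul_le {N M : Subgroup G} (hN : N.index = 4) (hM : N ≤ M) {z : G} (hz : z ∈ center G)
    (h1 : z ∈ M) (h2 : z ∉ N) {Y : Set G} (hY : ∀ g x, x ∈ Y → g * x * g⁻¹ ∈ Y)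
    (H : ∀ x ∉ Y, ∃ h ∉ M, Commute x h) :
    4 * Nat.card (ConjClasses N) ≤ Nat.card (ConjClasses G) + 3 * kcl Y := by
  have e1 := card_conjClasses_mul_card (G := G)
  have e2 := card_conjClasses_subgroup_mul_card N
  have e3 := kcl_mul_card hY
  have e4 := N.card_mul_index
  have h3 : ∀ A : Set G, 2 * (cpairs A N).ncard ≤ (cpairs A M).ncard := fun A => by
    rw [ncard_cpairs_eq_sum, ncard_cpairs_eq_sum, mul_sum]
    refine sum_le_sum fun x _ => ?_
    rw [ncard_inter_coe, ncard_inter_coe]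
    obtain ⟨k, hk⟩ := card_dvd_of_le (inf_le_inf_right (centralizer {x}) hM)
    have h4 : k ≠ 1 := by
      rintro rfl
      exact h2 ((eq_of_le_of_card_ge (inf_le_inf_right (centralizer {x}) hM) (by omega)).ge
        ⟨h1, mem_centralizer_singleton_iff.2 (mem_center_iff.1 hz x).symm⟩).1
    have h5 : k ≠ 0 := by rintro rfl; exact Nat.card_pos.ne' hk
    rw [hk, mul_comm]
    exact Nat.mul_le_mul_left _ (by omega)
  have h4 := h3 N
  have h5 := h3 M
  rw [ncard_cpairs_swap] at h5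
  have h6 := cpairs_split (Set.univ : Set G) M
  rw [ncard_cpairs_swap _ (M : Set G), ncard_cpairs_swap _ (M : Set G)ᶜ, cpairs_split (M : Set G) M,
    cpairs_split (M : Set G)ᶜ M] at h6
  have h7 := ncard_cpairs_le (A := (M : Set G)ᶜ) (B := M) (B' := (M : Set G)ᶜ) (k := 1)
    fun x hx => by simpa using ncard_le_compl M (Commute.refl x) hx
  have h8 := ncard_cpairs_swap (M : Set G) (M : Set G)ᶜ
  have h10 : (cpairs (M : Set G) M).ncard ≤ (cpairs Y Set.univ).ncard +
      (cpairs (M : Set G) (M : Set G)ᶜ).ncard := by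
    have a1 := ncard_cpairs_le (A := M \ Y) (B := M) (B' := (M : Set G)ᶜ) (k := 1) fun x hx => by
      obtain ⟨h, a1, a2⟩ := H x hx.2
      simpa using ncard_le_compl M a2 a1
    have a2 := ncard_cpairs_mono (A := M \ Y) (A' := M) (B := (M : Set G)ᶜ) Set.sdiff_subset le_rfl
    have a3 := Set.ncard_le_ncard (s := cpairs (M : Set G) M)
      (t := cpairs Y Set.univ ∪ cpairs (M \ Y) M) fun p hp => by
        by_cases h : p.1 ∈ Y
        · exact .inl ⟨h, trivial, hp.2.2⟩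
        · exact .inr ⟨⟨hp.1, h⟩, hp.2⟩
    have a4 := Set.ncard_union_le (cpairs Y Set.univ) (cpairs (M \ Y) M)
    omega
  refine Nat.le_of_mul_le_mul_right ?_ (Nat.card_pos (α := G))
  rw [add_mul, mul_assoc 3, e1, e3, ← e4, hN, ← mul_assoc, mul_assoc 4, e2]
  omega

end grp

section num
open PowerSeries
variable {q e o e' o' : ℝ} {G H : ℝ⟦X⟧}

theorem o_bound5 (hq : 5 ≤ q) (k : ℕ) : Bd q (PP Odd (fun _ => q) (k + 1))
    (7 * (1 - 5 / 2 * 5⁻¹ ^ (k + 1))) (73 / 5 * (1 - 29 / 10 * 5⁻¹ ^ (k + 1))) := by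
  induction k with
  | zero => exact (o_base (by norm_num) hq).mono (by linarith) (by norm_num) (by norm_num)
  | succ k ih =>
    have h0 : (0 : ℝ) ≤ 5⁻¹ ^ (k + 1) := by positivity
    have h1 : (5⁻¹ : ℝ) ^ (k + 1) ≤ 1 / 5 :=
      (pow_le_pow_of_le_one (by norm_num) (by norm_num) (Nat.le_add_left 1 k)).trans (by norm_num)
    refine o_step (by norm_num) hq _ rfl ih ?_ ?_
    all_goals
      rw [pow_succ _ (k + 1)]
      generalize (5⁻¹ : ℝ) ^ (k + 1) = x at h0 h1
      have h2 : x ^ 2 ≤ x / 5 := by nlinarith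
      rw [div_le_iff₀ (by apply mul_pos <;> nlinarith)]
      have h3 : x ^ 3 ≤ x ^ 2 / 5 := by nlinarith
      have h4 : x ^ 4 ≤ x ^ 2 / 5 := by nlinarith
      have h5 : x ^ 5 ≤ x ^ 2 / 5 := by nlinarith [pow_nonneg h0 3]
      nlinarith [pow_nonneg h0 2, pow_nonneg h0 3, pow_nonneg h0 4, pow_nonneg h0 5]

/-- The growth rates for the split classes over the field of three elements. -/
def K3 (i : ℕ) : ℝ := if i % 2 = 1 then 2 else 3

theorem r_step (k : ℕ) {x : ℝ} (hx : x = 2⁻¹ ^ (k + 1)) (h : Bd 2 (PP Odd K3 (k + 1)) e o)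
    (he : ((1 + 6 * (x ^ 2 / 2) + (x ^ 2 / 2) ^ 2) * e + (4 + 4 * (x ^ 2 / 2)) * (x / 2) * o) /
      ((1 - x ^ 2) * (1 - 3 / 4 * x ^ 2)) ≤ e')
    (ho : ((1 + 6 * (x ^ 2 / 2) + (x ^ 2 / 2) ^ 2) * o + (4 + 4 * (x ^ 2 / 2)) * x * e) /
      ((1 - x ^ 2) * (1 - 3 / 4 * x ^ 2)) ≤ o') :
    Bd 2 (PP Odd K3 (k + 2)) e' o' := by
  rw [PP_succ]
  have h0 : K3 (2 * (k + 1) + 1) = 2 := if_pos (by omega)
  have h3 : K3 (2 * (k + 1) + 2) = 3 := if_neg (by omega)
  have h4 : x ^ 2 < 1 := by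
    rw [hx, ← pow_mul]; exact pow_lt_one₀ (by norm_num) (by norm_num) (by omega)
  have h5 : x * 2 ^ (k + 1) = 1 := by rw [hx, ← mul_pow]; norm_num
  have h6 : 0 ≤ x := by rw [hx]; positivity
  have h1 := Bd.lO (R := Odd) (K := K3) (i := 2 * (k + 1) + 1) (j := k + 1) (z := x) (w := x / 2)
    (h.E (y := x ^ 2) zero_le_two (by omega) (h0.symm ▸ zero_le_two) (h0.trans_le (le_of_eq (by
      linear_combination (-2 - 2 * x * 2 ^ (k + 1)) * h5))) (by positivity) h4) (by simp) rfl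
    zero_le_two h5.ge h6 (le_of_eq (by linear_combination -h5)) (by positivity)
  have h2 := Bd.l0 (R := Odd) (K := K3) (i := 2 * (k + 1) + 2) (h1.E (y := 3 / 4 * x ^ 2) zero_le_two
    (by omega) (h3.symm ▸ zero_le_three) (h3.trans_le (le_of_eq (by
      linear_combination (-3 - 3 * x * 2 ^ (k + 1)) * h5))) (by positivity) (by linarith))
    (by simp [parity_simps])
  refine h2.mono zero_le_two (le_of_eq_of_le ?_ he) (le_of_eq_of_le ?_ ho) <;>
    rw [← div_div] <;> ring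

theorem r_bound (k : ℕ) : Bd 2 (PP Odd K3 (k + 4))
    (464 * (1 - 6 * 2⁻¹ ^ (k + 4))) (696 * (1 - 6 * 2⁻¹ ^ (k + 4))) := by
  induction k with
  | zero =>
    have h1 : Bd 2 (PP Odd K3 (0 + 1)) 17 24 := by
      rw [PP_succ, PP_zero]
      have h1 := Bd.lO (q := 2) (R := Odd) (K := K3) (i := 2 * 0 + 1) (j := 0) (z := 1) (w := 1 / 2) bd_base
        (by simp) rfl zero_le_two (by norm_num) (by norm_num) (by norm_num) (by norm_num)
      exact (Bd.l0 (R := Odd) (K := K3) (i := 2 * 0 + 2) (h1.E (y := 3 / 4) zero_le_two (by omega)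
        zero_le_three (by norm_num [K3]) (by norm_num) (by norm_num)) (by simp)).mono zero_le_two
        (by norm_num) (by norm_num)
    exact r_step 2 rfl (r_step 1 rfl (r_step 0 rfl h1 (e' := 936 / 10) (o' := 1324 / 10) (by norm_num)
      (by norm_num)) (e' := 201) (o' := 2842 / 10) (by norm_num) (by norm_num)) (by norm_num)
      (by norm_num)
  | succ k ih =>
    have h0 : (0 : ℝ) ≤ 2⁻¹ ^ (k + 4) := by positivity
    have h1 : (2⁻¹ : ℝ) ^ (k + 4) ≤ 1 / 16 :=
      (pow_le_pow_of_le_one (by norm_num) (by norm_num) (Nat.le_add_left 4 k)).trans (by norm_num)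
    refine r_step _ rfl ih ?_ ?_
    all_goals
      rw [show k + 1 + 4 = k + 4 + 1 from rfl, pow_succ _ (k + 4)]
      generalize (2⁻¹ : ℝ) ^ (k + 4) = x at h0 h1
      have h2 : x ^ 2 ≤ x / 16 := by nlinarith
      rw [div_le_iff₀ (by apply mul_pos <;> nlinarith)]
      have h3 : x ^ 3 ≤ x ^ 2 / 16 := by nlinarith
      have h4 : x ^ 4 ≤ x ^ 2 / 16 := by nlinarith
      have h5 : x ^ 5 ≤ x ^ 2 / 16 := by nlinarith [pow_nonneg h0 3]
      nlinarith [pow_nonneg h0 2, pow_nonneg h0 3, pow_nonneg h0 4, pow_nonneg h0 5]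

/-- Truncated multiplication. -/
def conv (l : List ℕ) (h : ℕ → ℕ) : List ℕ :=
  (List.range 22).map fun m => ((List.range (m + 1)).map fun t => l.getD t 0 * h (m - t)).sum

/-- Coefficients of a geometric series. -/
def hB (κ j t : ℕ) : ℕ := if t % j = 0 then κ ^ (t / j) else 0

/-- Coefficients of a binomial. -/
def hW (i t : ℕ) : ℕ := (if t = 0 then 1 else 0) + if t = i then 1 else 0

/-- The truncated partial products. -/
def lst : ℕ → List ℕ
  | 0 => [1]
  | i + 1 => if i % 2 = 0 then conv (conv (conv (conv (conv (lst i) (hB 2 (2 * (i + 1)))) (hW (i + 1)))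
      (hW (i + 1))) (hW (i + 1))) (hW (i + 1)) else conv (lst i) (hB 3 (2 * (i + 1)))

theorem coeff_conv {l : List ℕ} {h : ℕ → ℕ} (hG : ∀ m < 22, coeff m G = l.getD m 0)
    (hH : ∀ m, coeff m H = h m) : ∀ m < 22, coeff m (G * H) = (conv l h).getD m 0 := fun m hm => by
  rw [coeff_mul, Nat.sum_antidiagonal_eq_sum_range_succ_mk, conv, List.getD_eq_getElem _ _ (by simpa),
    List.getElem_map, List.getElem_range, ← List.sum_toFinset _ List.nodup_range, List.toFinset_range,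
    Nat.cast_sum]
  exact sum_congr rfl fun t ht => by rw [hG t (by simp at ht; omega), hH, Nat.cast_mul]

theorem coeff_hB (κ : ℕ) {j : ℕ} (hj : 0 < j) (m : ℕ) : coeff m (Bs κ κ j) = hB κ j m := by
  simp only [coeff_Bs, hB, ← Nat.dvd_iff_mod_eq_zero]
  split_ifs with h1 h2 h3
  · simp [h1]
  · simp [h1] at h2
  · obtain ⟨n, rfl⟩ := h3
    obtain ⟨n, rfl⟩ := Nat.exists_eq_succ_of_ne_zero (right_ne_zero_of_mul h1)
    simp [Nat.mul_div_cancel_left _ hj, pow_succ']
  · simp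

theorem coeff_lst (i : ℕ) : ∀ m < 22,
    coeff m (∏ j ∈ range i, lev Odd K3 (j + 1)) = (lst i).getD m 0 := by
  induction i with
  | zero => rintro (_ | m) - <;> simp [lst, coeff_one]
  | succ i ih =>
    have h1 : ∀ m, coeff m (1 + X ^ (i + 1) : ℝ⟦X⟧) = hW (i + 1) m := fun m => by
      simp [hW, coeff_one, coeff_X_pow]
    rw [prod_range_succ, lst]
    split_ifs with h
    · rw [mul_lev (Nat.odd_iff.2 (by omega)), show K3 (i + 1) = (2 : ℕ) from if_pos (by omega)]
      exact coeff_conv (coeff_conv (coeff_conv (coeff_conv (coeff_conv ih (coeff_hB 2 (by omega)))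
        h1) h1) h1) h1
    · rw [lev, if_neg (by rw [Nat.odd_iff]; omega), one_pow, mul_one,
        show K3 (i + 1) = (3 : ℕ) from if_neg (by omega)]
      exact coeff_conv ih (coeff_hB 3 (by omega))

theorem r_final (n : ℕ) : ∃ k, n < k ∧ 5 * coeff (2 * n + 1) (PP Odd K3 k) ≤ 49 * 3 ^ n := by
  rcases lt_or_ge n 11 with h | h
  · refine ⟨11, h, ?_⟩
    rw [PP, coeff_lst _ _ (by omega)]
    exact_mod_cast (by decide +kernel : ∀ n < 11, 5 * (lst 22).getD (2 * n + 1) 0 ≤ 49 * 3 ^ n) n h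
  · refine ⟨n + 4, by omega, ?_⟩
    have h1 := (r_bound n).2.2.2 n
    obtain ⟨m, rfl⟩ := Nat.exists_eq_add_of_le h
    have h2 : (0 : ℝ) ≤ 2⁻¹ ^ (11 + m + 4) * 2 ^ (11 + m) := by positivity
    have h3 : (2 : ℝ) ^ m ≤ 3 ^ m := pow_le_pow_left₀ zero_le_two (by norm_num) m
    rw [pow_add (2 : ℝ)] at h1 h2
    rw [pow_add]
    linarith [pow_nonneg (zero_le_two (α := ℝ)) m]

end num

end Cfsg.Agent.H18.Cn
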