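import Mathlib
import Cfsg.Agent.H18.Cn14
import Cfsg.Agent.H29.Cl6

/-! Classes of orthogonal groups that do not split in the commutator subgroup. -/

namespace Cfsg.Agent.H18.Cn

open Polynomial Finset L0 Module H10 H11

universe u

variable {F : Type u} [Field F] {V W U : Type*} [AddCommGroup V] [Module F V] [AddCommGroup W]
  [Module F W] [AddCommGroup U] [Module F U] {B : V →ₗ[F] V →ₗ[F] F} {g : End F V}

/-- The centraliser contains a rotation of non-trivial spinor norm. -/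
def Ns (B : V →ₗ[F] V →ₗ[F] F) (g : End F V) : Prop := ∃ h : End F V,
  (∀ x y, B (h x) (h y) = B x y) ∧ Commute g h ∧ LinearMap.det h = 1 ∧
    ¬ IsSquare (LinearMap.det ((2 : F)⁻¹ • (1 + h)))

theorem Ns.ext [FiniteDimensional F W] [FiniteDimensional F U] (h2 : (2 : F) ≠ 0)
    {C : W →ₗ[F] W →ₗ[F] F} {D : U →ₗ[F] U →ₗ[F] F} {a : End F W} {b : End F U} (H : Ns C a)
    (e : (W × U) ≃ₗ[F] V) (hB : ∀ x y, B (e x) (e y) = C x.1 y.1 + D x.2 y.2)
    (hg : ∀ x, g (e x) = e (a x.1, b x.2)) : Ns B g := by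
  obtain ⟨h, h1, h3, h4, h5⟩ := H
  have key : ∀ k : End F W, LinearMap.det (e.conj (k.prodMap 1)) = LinearMap.det k := fun k => by
    rw [LinearEquiv.conj_apply, LinearMap.comp_assoc, LinearMap.det_conj, LinearMap.det_prodMap]
    simp
  refine ⟨e.conj (h.prodMap 1), fun x y => ?_, LinearMap.ext fun x => ?_, (key h).trans h4, ?_⟩
  · obtain ⟨x, rfl⟩ := e.surjective x
    obtain ⟨y, rfl⟩ := e.surjective y
    simp [hB, h1]
  · obtain ⟨x, rfl⟩ := e.surjective x
    simp [hg, show a (h x.1) = h (a x.1) from LinearMap.congr_fun h3 x.1]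
  · rw [← key] at h5
    convert h5 using 3
    refine LinearMap.ext fun x => ?_
    obtain ⟨x, rfl⟩ := e.surjective x
    have : x.2 = (2 : F)⁻¹ • (x.2 + x.2) := by rw [← two_smul F, inv_smul_smul₀ h2]
    simp only [LinearMap.smul_apply, LinearMap.add_apply, LinearEquiv.conj_apply_apply,
      e.symm_apply_apply, End.one_apply, ← map_add, ← map_smul]
    exact congrArg e (Prod.ext rfl this.symm)

theorem isUnit_of_norm {A : Type*} [CommRing A] [Algebra F A] [FiniteDimensional F A] {a : A}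
    (h : Algebra.norm F a ≠ 0) : IsUnit a :=
  Algebra.lmul_isUnit_iff.1 ((LinearMap.isUnit_iff_isUnit_det _).2 h.isUnit)

theorem alg_model (h2 : (2 : F) ≠ 0) {A : Type*} [CommRing A] [Algebra F A] [FiniteDimensional F A]
    (θ : A →ₐ[F] A) (hθ : ∀ a, θ (θ a) = a) (l : A →ₗ[F] F)
    (hl : ∀ x, (∀ y, l (θ x * y + θ y * x) = 0) → x = 0) {r : A} (hr : θ r * r = 1)
    (hu : IsUnit (r - θ r)) : ∃ B : A →ₗ[F] A →ₗ[F] F, (∀ x y, B x y = B y x) ∧ B.SeparatingLeft ∧
      (∀ x y, B (LinearMap.mulLeft F r x) (LinearMap.mulLeft F r y) = B x y) ∧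
      ∀ c, ¬ IsSquare (Algebra.norm F c) → IsUnit (c + θ c) → Ns B (LinearMap.mulLeft F r) := by
  obtain ⟨B, hB⟩ : ∃ B : A →ₗ[F] A →ₗ[F] F, ∀ x y, B x y = l (θ x * y + θ y * x) :=
    ⟨LinearMap.mk₂ F (fun x y => l (θ x * y + θ y * x)) (by intros; rw [← map_add, map_add θ]; ring_nf)
      (by simp [mul_add]) (by intros; rw [← map_add, map_add θ]; ring_nf) (by simp [mul_add]), fun _ _ => rfl⟩
  have h1 : ∀ w, θ w * w = 1 → ∀ x y, B (LinearMap.mulLeft F w x) (LinearMap.mulLeft F w y) = B x y :=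
    fun w hw x y => by
      simp only [hB, LinearMap.mulLeft_apply, map_mul, mul_mul_mul_comm (θ w), hw, one_mul]
  have h3 : B.SeparatingLeft := fun x hx => hl x fun y => (hB x y).symm.trans (hx y)
  have h4 : ∀ a, Algebra.norm F (θ a) = Algebra.norm F a := Algebra.norm_eq_of_algEquiv
    (AlgEquiv.ofAlgHom θ θ (AlgHom.ext hθ) (AlgHom.ext hθ))
  have h5 : ∀ a, IsUnit a → θ a = -a → IsSquare ((gram B (finBasis F A)).det * Algebra.norm F a) :=
    fun a ha e => by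
      rw [Algebra.norm_apply, ← gram_compl]
      refine isSquare_gram_alt (fun x => ?_) fun x hx => h3 x fun y => ?_
      · simp [hB, e, mul_comm, mul_left_comm, mul_assoc]
      · obtain ⟨b, hb⟩ := ha.exists_right_inv
        simpa [← mul_assoc, hb] using hx (b * y)
  refine ⟨B, fun x y => by rw [hB, hB, add_comm], h3, h1 r hr, fun c hc h6 => ?_⟩
  have h7 : Algebra.norm F c ≠ 0 := fun e => hc (e ▸ IsSquare.zero)
  obtain ⟨d, hd⟩ := isUnit_of_norm ((h4 c).trans_ne h7)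
  have h8 : ∀ a : A, LinearMap.det (LinearMap.mulLeft F a) = Algebra.norm F a := fun _ => rfl
  have h9 : Algebra.norm F (↑d⁻¹ : A) * Algebra.norm F c = 1 := by
    rw [← h4 c, ← hd, ← map_mul, d.inv_mul, map_one]
  have h10 : θ ↑d⁻¹ * c = 1 := by rw [← hθ c, ← hd, ← map_mul, d.inv_mul, map_one]
  refine ⟨LinearMap.mulLeft F (↑d⁻¹ * c), h1 _ (by
    rw [map_mul, ← hd]; linear_combination h10 + (θ ↑d⁻¹ * c) * d.mul_inv),
    LinearMap.ext fun x => mul_left_comm _ _ _, by rw [h8, map_mul, h9], ?_⟩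
  rw [show (2 : F)⁻¹ • (1 + LinearMap.mulLeft F (↑d⁻¹ * c)) =
    LinearMap.mulLeft F (↑d⁻¹ * ((2 : F)⁻¹ • (c + θ c))) from LinearMap.ext fun x => by
      simp [← hd, mul_add, add_mul, add_comm, mul_assoc], h8, map_mul]
  have h11 : IsUnit ((2 : F)⁻¹ • (c + θ c)) := by
    rw [Algebra.smul_def]; exact ((inv_ne_zero h2).isUnit.map _).mul h6
  have h12 := (h5 _ hu (by simp [hθ])).mul (h5 _ (hu.mul h11) (by simp [hθ, add_comm]; ring))
  have h13 := mul_ne_zero (gram_det_ne_zero (fun _ => rfl) h3 (finBasis F A))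
    (hu.map (Algebra.norm F)).ne_zero
  rw [map_mul, ← mul_assoc (Matrix.det _), ← mul_assoc,
    isSquare_mul_iff_of_isSquare (mul_ne_zero h13 h13) ⟨_, rfl⟩] at h12
  rw [mul_comm, isSquare_mul_iff_of_isSquare (h11.map (Algebra.norm F)).ne_zero h12,
    eq_inv_of_mul_eq_one_left h9, isSquare_inv]
  exact hc

theorem unit_add {u : F[X]} (hu : Prim u) {a b : AdjoinRoot u} (ha : IsUnit a) (hb : ¬ IsUnit b) :
    IsUnit (a + b) := by
  obtain ⟨p, k, hp, -, hk, rfl⟩ := hu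
  obtain ⟨f, rfl⟩ := AdjoinRoot.mk_surjective a
  obtain ⟨g, rfl⟩ := AdjoinRoot.mk_surjective b
  rw [← map_add]
  rw [isUnit_mk_pow_iff hp hk] at ha hb ⊢
  exact fun h => ha ((dvd_add_left (not_not.1 hb)).1 h)

theorem isUnit_sq_sub {u : F[X]} (hc : IsCoprime u (X ^ 2 - 1)) :
    IsUnit (AdjoinRoot.root u ^ 2 - 1) := by
  obtain ⟨a, b, h⟩ := hc
  exact IsUnit.of_mul_eq_one_right (AdjoinRoot.mk u b) (by simpa using congrArg (AdjoinRoot.mk u) h)

/-- A model of a type; if `p` holds, the class does not split. -/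
def RealN (p : Prop) (s : Multiset F[X]) : Prop :=
  ∃ (V : Type u) (_ : AddCommGroup V) (_ : Module F V) (_ : FiniteDimensional F V)
    (B : V →ₗ[F] V →ₗ[F] F) (g : End F V), (∀ x y, B x y = B y x) ∧ B.SeparatingLeft ∧
      (∀ x y, B (g x) (g y) = B x y) ∧ tyE g = s ∧ (p → Ns B g)

theorem RealN.add (h2 : (2 : F) ≠ 0) {p q : Prop} {s t : Multiset F[X]} (h : RealN p s)
    (h' : RealN q t) : RealN p (s + t) := by
  obtain ⟨V, _, _, _, B, g, h1, h3, h4, rfl, h5⟩ := h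
  obtain ⟨W, _, _, _, C, k, h1', h3', h4', rfl, -⟩ := h'
  exact ⟨V × W, _, _, inferInstance, prodB B C, g.prodMap k, fun x y => congrArg₂ (· + ·) (h1 _ _) (h1' _ _),
    (isOrthSum_prod B 0 C 0).sep h3 h3', fun x y => congrArg₂ (· + ·) (h4 _ _) (h4' _ _),
    tyE_prodMap _ _, fun hp => (h5 hp).ext h2 (LinearEquiv.refl F _) (fun _ _ => rfl) fun _ => rfl⟩

variable [Finite F]

theorem exists_norm_nonsq (h2 : (2 : F) ≠ 0) {u : F[X]} (hu : Prim u) (ho : Odd (ex u)) :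
    ∃ a : AdjoinRoot u, ¬ IsSquare (Algebra.norm F a) := by
  obtain ⟨ν, hν⟩ := FiniteField.exists_nonsquare (F := F) fun e => h2 (by
    exact_mod_cast (ringChar.spec F 2).2 (e ▸ dvd_rfl))
  have hν0 : ν ≠ 0 := by rintro rfl; simp at hν
  obtain ⟨a, ha⟩ := exists_norm_pow hu ν
  obtain ⟨k, hk⟩ := ho
  exact ⟨a, by rwa [ha, hk, pow_succ, isSquare_mul_iff_of_isSquare (pow_ne_zero _ hν0)
    ⟨ν ^ k, by ring⟩]⟩

theorem realN_self (h2 : (2 : F) ≠ 0) {u : F[X]} (hu : Prim u) (hg : Gd u)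
    (hc : IsCoprime u (X ^ 2 - 1)) (hd : dl (RingHom.id F) u = u) : RealN (Odd (ex u)) {u} := by
  have := finite_adjoinRoot hu.ne_zero
  obtain ⟨θ, h3, h4⟩ : ∃ θ : AdjoinRoot u →ₐ[F] AdjoinRoot u,
      θ (AdjoinRoot.root u) * AdjoinRoot.root u = 1 ∧ ∀ a, θ (θ a) = a :=
    (exists_theta_dl hg hd).elim fun θ h => ⟨⟨θ, h.1⟩, h.2, theta_invol (fun _ => rfl) h.1 h.2⟩
  have h5 := isUnit_sq_sub hc
  generalize hr : AdjoinRoot.root u = r at h3 h5
  have h6 : IsUnit (r - θ r) := by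
    rw [show r - θ r = θ r * (r ^ 2 - 1) by linear_combination -r * h3]
    exact (IsUnit.of_mul_eq_one _ h3).mul h5
  obtain ⟨z, h7, h8⟩ : ∃ z : AdjoinRoot u, z + θ z ≠ 0 ∧ ∀ a ≠ 0, ∃ b, a * b = z := by
    obtain ⟨z, h7, h8⟩ := exists_socle hu
    by_cases h : z + θ z = 0
    · refine ⟨(r - θ r) * z, fun e => h7 (h6.mul_right_eq_zero.1 ((smul_eq_zero_iff_right h2).1 ?_)),
        fun a ha => (h8 a ha).elim fun b hb => ⟨(r - θ r) * b, by rw [← hb]; ring⟩⟩
      rw [map_mul, map_sub, h4] at e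
      rw [two_smul]
      linear_combination e + (r - θ r) * h
    · exact ⟨z, h, h8⟩
  obtain ⟨l, hl⟩ := exists_dual_eq h7 (1 : F)
  obtain ⟨B, h9, h10, h11, h12⟩ := alg_model h2 θ h4 l (fun x hx => by
    by_contra h
    obtain ⟨b, hb⟩ := h8 (θ x) fun e => h (by rw [← h4 x, e, map_zero])
    have := hx b
    rw [hb, ← h4 x, ← map_mul, mul_comm, hb, hl] at this
    exact one_ne_zero this) h3 h6
  refine ⟨_, _, _, this, B, _, h9, h10, h11, hr ▸ tyE_mulLeft_root hu, fun ho => ?_⟩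
  obtain ⟨a, ha⟩ := exists_norm_nonsq h2 hu ho
  by_cases h : IsUnit (a + θ a)
  · exact h12 a ha h
  have h13 := isUnit_of_norm fun e => ha (e ▸ IsSquare.zero)
  have h14 : Algebra.norm F r = 1 := by
    have e1 : Algebra.norm F (θ (1 + r)) = Algebra.norm F (1 + r) := Algebra.norm_eq_of_algEquiv
      (AlgEquiv.ofAlgHom θ θ (AlgHom.ext h4) (AlgHom.ext h4)) _
    refine mul_right_cancel₀ ((isUnit_of_mul_isUnit_left (x := 1 + r) (y := r - 1)
      (by convert h5 using 1; ring)).map (Algebra.norm F)).ne_zero ?_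
    rw [one_mul, ← e1, ← map_mul, e1]
    congr 1
    simp only [map_add, map_one]
    linear_combination h3
  refine h12 (a * r) (by rwa [map_mul, h14, mul_one]) ?_
  convert unit_add hu (h13.mul h6) (b := (a + θ a) * θ r) fun e => h (isUnit_of_mul_isUnit_left e) using 1
  simp; ring

theorem realN_pair (h2 : (2 : F) ≠ 0) {u : F[X]} (hu : Prim u) (hg : Gd u)
    (hc : IsCoprime u (X ^ 2 - 1)) : RealN (Odd (ex u)) ({u} + {dl (RingHom.id F) u}) := by
  have := finite_adjoinRoot hu.ne_zero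
  have h5 := isUnit_sq_sub hc
  have h0 := tyE_mulLeft_root hu
  obtain ⟨r', h3⟩ : ∃ r', r' * AdjoinRoot.root u = 1 := by
    have h := (congrArg (AdjoinRoot.mk u) (X_mul_divX_add u)).trans AdjoinRoot.mk_self
    rw [map_add, map_mul, add_eq_zero_iff_eq_neg, AdjoinRoot.mk_X] at h
    exact (isUnit_of_mul_isUnit_left (h ▸ ((hg.2.isUnit.map C).map _).neg)).exists_left_inv
  generalize AdjoinRoot.root u = r at h3 h5 h0
  have h6 : IsUnit (r - r') := by
    rw [show r - r' = r' * (r ^ 2 - 1) by linear_combination -r * h3]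
    exact (IsUnit.of_mul_eq_one _ h3).mul h5
  obtain ⟨z, h7, h8⟩ := exists_socle hu
  obtain ⟨l, hl⟩ := exists_dual_eq h7 (1 : F)
  have h1 : ∀ x, (∀ y, l (x * y) = 0) → x = 0 := fun x hx => by
    by_contra h
    obtain ⟨b, hb⟩ := h8 x h
    exact one_ne_zero (hl ▸ hb ▸ hx b)
  obtain ⟨B, h9, h10, h11, h12⟩ := alg_model h2 (A := AdjoinRoot u × AdjoinRoot u)
    ((AlgHom.snd F _ _).prod (AlgHom.fst F _ _)) (fun _ => rfl) (l ∘ₗ LinearMap.fst F _ _)
    (fun x hx => Prod.ext (h1 _ fun y => by simpa [mul_comm] using hx (0, y))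
      (h1 _ fun y => by simpa using hx (y, 0))) (r := (r, r'))
    (Prod.ext h3 ((mul_comm _ _).trans h3)) (Prod.isUnit_iff.2 ⟨h6, by simpa using h6.neg⟩)
  have h4 : ∀ a b : AdjoinRoot u, LinearMap.mulLeft F (a, b) =
    (LinearMap.mulLeft F a).prodMap (LinearMap.mulLeft F b) := fun _ _ => rfl
  refine ⟨_, _, _, inferInstance, B, _, h9, h10, h11, ?_, fun ho => ?_⟩
  · rw [h4, tyE_prodMap, tyE_dl (σ := RingHom.id F) (fun _ => rfl) (B := (LinearMap.mul F _).compr₂ l) h1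
      (fun x hx => h1 x fun y => by rw [mul_comm]; exact hx y) (a := LinearMap.mulLeft F r)
      (b := LinearMap.mulLeft F r') fun x y => congrArg l (by simp; linear_combination x * y * h3), h0]
    rfl
  have h13 : ∀ a : AdjoinRoot u, ¬ IsSquare (Algebra.norm F a) → IsUnit (a + 1) →
      Ns B (LinearMap.mulLeft F (r, r')) := fun a ha h => h12 (a, 1) (by
    change ¬ IsSquare (LinearMap.det (LinearMap.mulLeft F (a, (1 : AdjoinRoot u))))
    rwa [h4, LinearMap.det_prodMap, LinearMap.mulLeft_one, LinearMap.det_id, mul_one]) (Prod.isUnit_iff.2 ⟨h, by simpa [add_comm] using h⟩)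
  obtain ⟨a, ha⟩ := exists_norm_nonsq h2 hu ho
  by_cases h : IsUnit (a + 1)
  · exact h13 a ha h
  have h14 := IsUnit.of_mul_eq_one_right _ h3
  refine h13 (r * r * a) ?_ ?_
  · have := (h14.map (Algebra.norm F)).ne_zero
    rwa [map_mul, map_mul, isSquare_mul_iff_of_isSquare (mul_ne_zero this this) ⟨_, rfl⟩]
  · convert unit_add hu h5.neg (b := (a + 1) * r ^ 2) fun e => h (isUnit_of_mul_isUnit_left e) using 1
    ring

theorem realN_of (h2 : (2 : F) ≠ 0) {s : Multiset F[X]} (hs : ∀ u ∈ s, Prim u) (hg : ∀ u ∈ s, Gd u)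
    (hc : ∀ u ∈ s, IsCoprime u (X ^ 2 - 1)) (hd : s.map (dl (RingHom.id F)) = s) {u : F[X]}
    (hu : u ∈ s) : RealN (Odd (ex u)) s := by
  have T := tw_dl (σ := RingHom.id F) fun _ => rfl
  have key : ∀ t : Multiset F[X], (∀ v ∈ t, v ∈ s) → t.map (dl (RingHom.id F)) = t → RealN False t :=
    fun t ht hi => T.induction (p := RealN False) ⟨Fin 0 → F, _, _, inferInstance, 0, 1, by simp,
      fun _ _ => Subsingleton.elim _ _, by simp, by simp [tyE_one], False.elim⟩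
      (fun v hv => hg v (ht v hv)) hi (fun v hv t h e => add_comm t _ ▸
        h.add h2 (realN_self h2 (hs v (ht v hv)) (hg v (ht v hv)) (hc v (ht v hv)) e))
      fun v hv t h => add_comm t _ ▸
        h.add h2 (realN_pair h2 (hs v (ht v hv)) (hg v (ht v hv)) (hc v (ht v hv)))
  rcases T.step hg hd hu with ⟨h, t, rfl, ht⟩ | ⟨t, rfl, ht⟩
  · exact (realN_self h2 (hs u hu) (hg u hu) (hc u hu) h).add h2 (key t (by simp +contextual) ht)
  · exact (realN_pair h2 (hs u hu) (hg u hu) (hc u hu)).add h2 (key t (by simp +contextual) ht)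

theorem ns_of_mem {V : Type u} [AddCommGroup V] [Module F V] [FiniteDimensional F V]
    {B : V →ₗ[F] V →ₗ[F] F} (h2 : (2 : F) ≠ 0) (hS : ∀ x y, B x y = B y x) (hB : B.SeparatingLeft)
    {g : V ≃ₗ[F] V} (hg : ∀ x y, B (g x) (g y) = B x y) {u : F[X]} (hu : u ∈ tyE g.toLinearMap)
    (hc : IsCoprime u (X ^ 2 - 1)) (ho : Odd (ex u)) : Ns B g.toLinearMap := by
  have hs : ∀ x y, B y x = 1 * B x y := fun x y => by rw [hS, one_mul]
  obtain ⟨k, S⟩ := exists_spl h2 (.inl rfl) hs hB (g := (g.trans g).trans (LinearEquiv.neg F))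
    (by simp [hg])
  have h1 : ∀ b, ∀ w ∈ Wd ((g.trans g).trans (LinearEquiv.neg F)) b,
      g.toLinearMap w ∈ Wd ((g.trans g).trans (LinearEquiv.neg F)) b :=
    fun b w => Wd_map (x := g) (by simp) b
  have h3 := TyOn.eq_add ⟨h1 true, rfl⟩ ⟨h1 false, rfl⟩ S.compl
  have h4 : ∀ w, g.toLinearMap.restrict (h1 true) (g.toLinearMap.restrict (h1 true) w) = w → w = 0 :=
    fun w hw => (S.tr true).inj w (Subtype.ext (by
      simpa [S.coe, cb] using congrArg Subtype.val hw))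
  have h5 : u ∈ tyE (g.toLinearMap.restrict (h1 true)) := by
    refine (Multiset.mem_add.1 (h3 ▸ hu)).resolve_right fun h => ?_
    refine (prim_of_mem_tyE h).natDegree_pos.ne' (natDegree_eq_zero_of_isUnit
      ((hc.pow_right (n := finrank F V)).isUnit_of_dvd ((aeval_eq_zero_iff_tyE _ _).1 ?_ u h)))
    refine LinearMap.ext fun w => Subtype.ext ?_
    rw [map_pow]
    exact (pow_comm_of (f := Subtype.val) (b := -((g.trans g).trans (LinearEquiv.neg F)).toLinearMap - 1)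
      (fun v => by simp [sq]) _ w).trans w.2
  have h6 : ∀ x y : Wd _ true, B.domRestrict₁₂ _ _ (g.toLinearMap.restrict (h1 true) x)
      (g.toLinearMap.restrict (h1 true) y) = B.domRestrict₁₂ _ _ x y := fun x y => hg _ _
  have h7 := isForm_eps h2 (.inl rfl) (S.tr true).symm
  obtain ⟨g₁, h8, h9⟩ := IsForm.exists_isom_of_linear
    (Q := fun x => B.domRestrict₁₂ _ _ x x / 2) (S.tr true).sep _ h6 fun x => congrArg (· / 2) (h6 x x)
  have h10 : g₁.toLinearMap = _ := LinearMap.ext h9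
  have h11 : ∀ v ∈ tyE (g.toLinearMap.restrict (h1 true)), IsCoprime v (X ^ 2 - 1) := fun v hv => by
    obtain ⟨p, j, hp, -, -, rfl⟩ := prim_of_mem_tyE hv
    refine (hp.coprime_iff_not_dvd.2 fun e => ?_).pow_left
    obtain ⟨w, h11, h12⟩ := exists_ker_of_mem_tyE hv (pow_dvd_pow_of_dvd e j)
    rw [map_pow, End.coe_pow] at h12
    exact h11 (Function.Injective.iterate ((injective_iff_map_eq_zero _).2 fun v hv =>
      h4 v (by simpa [sq, sub_eq_zero] using hv)) j (h12.trans (Function.iterate_fixed (map_zero _) j).symm))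
  obtain ⟨W, _, _, _, C, a, e1, e2, e3, e4, e5⟩ := realN_of h2 (fun _ => prim_of_mem_tyE)
    (h10 ▸ gd_isom ⟨g₁, h8⟩) h11 (h10 ▸ tyE_isom h7 (S.tr true).sep ⟨g₁, h8⟩) h5
  obtain ⟨e, e6, e7⟩ := exists_isom_equiv h7 (S.tr true).sep
    (isForm_eps h2 (.inl rfl) fun x y => (e1 y x).trans (one_mul _).symm) e2 h6 e3 (.inr h4) e4
  refine (e5 ho).ext h2 ((e.prodCongr (LinearEquiv.refl F _)).trans
    (Submodule.prodEquivOfIsCompl _ _ S.compl)) (D := B.domRestrict₁₂ _ _)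
    (b := g.toLinearMap.restrict (h1 false)) (fun x y => ?_) fun x => by simp [e7]
  simp [← e6, S.orth _ (e x.1).2 _ y.2.2, S.orth _ (e y.1).2 _ x.2.2, LinearMap.domRestrict₁₂_apply]

end Cfsg.Agent.H18.Cn
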