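import Mathlib
import Cfsg.Agent.H18.Cn15
import Cfsg.Agent.S4200

/-! Class numbers of the odd dimensional orthogonal groups. -/

namespace Cfsg.Agent.H18.Cn

open Polynomial Finset L0 Module H10 H11

universe u

theorem four_mul_le' {G : Type*} [Group G] [Finite G] {N : Subgroup G} (hN : N.index = 4) {z : G}
    (hz : ∀ g, g * z = z * g) (h1 : z * z = 1) (h2 : z ∉ N) {Y : Set G}
    (hY : ∀ g x, x ∈ Y → g * x * g⁻¹ ∈ Y) (H : ∀ x ∉ Y, ∃ h ∉ N, z * h ∉ N ∧ Commute x h) :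
    4 * Nat.card (ConjClasses N) ≤ Nat.card (ConjClasses G) + 3 * H28.kcl Y :=
  four_mul_le hN (M := ⟨⟨⟨{g | g ∈ N ∨ z * g ∈ N}, by
      rintro a b (ha | ha) (hb | hb)
      · exact .inl (N.mul_mem ha hb)
      · exact .inr (by simpa [← mul_assoc, hz a] using N.mul_mem ha hb)
      · exact .inr (by simpa [mul_assoc] using N.mul_mem ha hb)
      · exact .inl (by simpa [← hz a, mul_assoc, ← mul_assoc z, h1] using N.mul_mem ha hb)⟩,
      .inl N.one_mem⟩, by
      rintro a (ha | ha)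
      · exact .inl (N.inv_mem ha)
      · exact .inr (by simpa [inv_eq_of_mul_eq_one_right h1, hz] using N.inv_mem ha)⟩)
    (fun _ => .inl) (Subgroup.mem_center_iff.2 hz) (.inr (h1 ▸ N.one_mem)) h2 hY
    fun x hx => (H x hx).imp fun _ h => ⟨fun e => e.elim h.1 h.2.1, h.2.2⟩

variable {F : Type u} [Field F] [Finite F] {V : Type u} [AddCommGroup V] [Module F V]
  [FiniteDimensional F V] {B : V →ₗ[F] V →ₗ[F] F} {Q : V → F}

theorem card_pal_split (h2 : (2 : F) ≠ 0) (hq : Nat.card F = 3) (i n : ℕ) (U : Finset F[X])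
    (hU : ∀ d ∈ U, (Pal d ∧ d.natDegree = 2 * n) ∧ (Odd i → ∃ N, d ∣ (X ^ 2 - 1) ^ N)) :
    (U.card : ℝ) ≤ K3 i ^ n := by
  classical
  rw [K3]
  split_ifs with hi
  swap
  · simpa [hq] using card_pal_le n U fun d hd => (hU d hd).1
  have h1 : U ⊆ (range (n + 1)).image fun a => (X - C 1) ^ (2 * a) * (X - C (-1)) ^ (2 * n - 2 * a) :=
    fun d hd => by
      obtain ⟨⟨h3, h4⟩, h5⟩ := hU d hd
      obtain ⟨N, hN⟩ := h5 (Nat.odd_iff.2 hi)
      rw [show (X ^ 2 - 1 : F[X]) = (X - C 1) * (X - C (-1)) by simp; ring, mul_pow] at hN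
      obtain ⟨v, w, hv, hw, e⟩ := exists_dvd_and_dvd_of_dvd_mul hN
      obtain ⟨a, -, ha⟩ := (dvd_prime_pow (prime_X_sub_C _) N).1 hv
      obtain ⟨b, -, hb⟩ := (dvd_prime_pow (prime_X_sub_C _) N).1 hw
      obtain rfl := eq_of_monic_of_associated h3.1 (((monic_X_sub_C _).pow a).mul
        ((monic_X_sub_C _).pow b)) (e ▸ ha.mul_mul hb)
      rw [((monic_X_sub_C _).pow a).natDegree_mul ((monic_X_sub_C _).pow b)] at h4
      obtain ⟨c, rfl⟩ := ((neg_one_pow_iff h2 (j := a)).1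
        (by simpa [coeff_zero_eq_eval_zero] using h3.2.2.1)).two_dvd
      simp only [natDegree_pow, natDegree_X_sub_C, mul_one] at h4
      exact mem_image.2 ⟨c, mem_range.2 (by omega), by rw [← h4, Nat.add_sub_cancel_left]⟩
  exact_mod_cast ((card_le_card h1).trans card_image_le).trans
    ((card_range _).trans_le Nat.lt_two_pow_self)

theorem quad_odd_two (h2 : (2 : F) ≠ 0) (h : IsQuad B Q) (hB : B.SeparatingLeft) {n : ℕ}
    (hn : finrank F V = 2 * n + 1) [Finite (Isom (σ := RingHom.id F) B Q)]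
    {Y : Set (Isom (σ := RingHom.id F) B Q)} {k : ℕ} (hk : n < k)
    (P : ℕ → F[X] → Prop) (κ : ℕ → ℝ) (hκ : ∀ i, 0 ≤ κ i) (hP : ∀ i n (U : Finset F[X]),
      (∀ d ∈ U, (Pal d ∧ d.natDegree = 2 * n) ∧ P i d) → (U.card : ℝ) ≤ κ i ^ n)
    (hv : ∀ x ∈ Y, ∀ i v, v ∣ Up (tyE x.1.toLinearMap) i → P i v) :
    2 * (H28.kcl Y : ℝ) ≤ PowerSeries.coeff (2 * n + 1) (PP Odd κ k) := by
  classical
  let T := {C | ∃ g ∈ Y, ConjClasses.mk g = C}
  have := Fintype.ofFinite T
  choose r hr hr' using fun C : T => C.2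
  have h1 : ∀ x y, IsConj (r x) (r y) → x = y := fun x y h => Subtype.ext (by
    rw [← hr' x, ← hr' y, ConjClasses.mk_eq_mk_iff_isConj.2 h])
  have h3 := quad_two h2 h hB univ r (fun x _ y _ => h1 x y) (k := k) (by omega) P κ hκ hP
    fun x _ => hv _ (hr x)
  have h4 := quad_zero h2 h hB (univ.filter fun x => ¬ Ob (tyE (r x).1.toLinearMap)) r
    (fun x _ y _ => h1 x y) (k := n + 1) (by omega) (by simp)
  have h6 := (z_bound (Nat.cast_le.2 (three_le_card h2)) n).2.2.2 n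
  have h7 := congrArg (Nat.cast (R := ℝ))
    (card_filter_add_card_filter_not (s := univ) fun x => Ob (tyE (r x).1.toLinearMap))
  rw [hn] at h3 h4
  rw [card_univ, ← Nat.card_eq_fintype_card] at h3 h7
  rw [H28.kcl, ← Nat.card_coe_set_eq]
  push_cast at h7
  linarith

theorem omega_odd_le (h2 : (2 : F) ≠ 0) (hq : Nat.card F = 3 ∨ 5 ≤ Nat.card F) (h : IsQuad B Q)
    (hB : B.SeparatingLeft) {n : ℕ} (h0 : 0 < n) (hn : finrank F V = 2 * n + 1)
    [Finite (Isom (σ := RingHom.id F) B Q)] :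
    10 * Nat.card (ConjClasses (commutator (Isom (σ := RingHom.id F) B Q))) ≤ 73 * Nat.card F ^ n := by
  have h1 := h.index_commutator_of_odd hB h2 (by omega)
  have h3 := h.dick_negI_of_odd hB (hn ▸ odd_two_mul_add_one n)
  have h4 : ∀ g : Isom (σ := RingHom.id F) B Q, dick g.1 = 0 → h.negI * g ∉ commutator _ :=
    fun g hg e => by
      have := h.dick_eq_zero_of_mem_commutator hB e
      rw [h.dick_mul hB, h3, hg] at this
      simp at this
  have h5 := @four_mul_le' _ _ _ _ h1 _ h.negI_comm (Subtype.ext (LinearEquiv.ext fun x => by simp))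
    (by simpa using h4 1 dick_one)
  have h6 := fun k hk => quad_odd_two h2 h hB hn (Y := Set.univ) (k := k) hk (fun _ _ => True)
    (fun _ => Nat.card F) (by simp) (fun _ n U h => card_pal_le n U fun d hd => (h d hd).1) (by simp)
  rw [H28.kcl_univ] at h6
  rw [← Nat.cast_le (α := ℝ)]
  push_cast
  rcases hq with hq | hq
  · let Y : Set (Isom (σ := RingHom.id F) B Q) :=
      {g | ∀ u ∈ tyE g.1.toLinearMap, Odd (ex u) → ¬ IsCoprime u (X ^ 2 - 1)}
    have h7 := h5 (Y := Y) (fun g x hx => by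
      rwa [Set.mem_ofPred_eq, ← tyE_congr (f := x.1.toLinearMap) g.1 fun v => by simp]) fun x hx => by
      simp only [Y, Set.mem_ofPred_eq, not_forall, not_not] at hx
      obtain ⟨u, hu, h7, h8⟩ := hx
      obtain ⟨k, e1, e2, e3, e4⟩ := ns_of_mem h2 h.comm hB x.2.1 hu h8 h7
      obtain ⟨k', e5, e6⟩ := IsForm.exists_isom_of_linear (Q := Q) hB k e1 fun x =>
        mul_left_cancel₀ h2 (by rw [← h.diag', ← h.diag', e1])
      obtain rfl : k'.toLinearMap = k := LinearMap.ext e6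
      exact ⟨⟨k', e5⟩, fun e => e4 ((H29.zass h2 h hB ⟨k', e5⟩ fun e => e4 (e.symm ▸ IsSquare.zero)).1 e),
        h4 _ ((h.det_eq_one_iff hB h2 _).1 e3),
        Subtype.ext (LinearEquiv.ext (LinearMap.congr_fun e2))⟩
    obtain ⟨k, h8, h9⟩ := r_final n
    have h10 := quad_odd_two h2 h hB hn (Y := Y) h8 _ K3 (fun i => by rw [K3]; positivity)
      (card_pal_split h2 hq) fun x hx i v hv hi => ⟨_, hv.trans ((Multiset.prod_dvd_prod_of_dvd _
        (fun _ => X ^ 2 - 1) fun u hu => by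
          obtain ⟨h10, rfl⟩ := Multiset.mem_filter.1 hu
          obtain ⟨e1, -, -, e2⟩ := prim_spec (prim_of_mem_tyE h10)
          exact by_contra fun e => hx u h10 hi (e2 ▸ (e1.coprime_iff_not_dvd.2 e).pow_left)).trans
        (by rw [Multiset.map_const', Multiset.prod_replicate]))⟩
    have h11 := (h6 (n + 3) (by omega)).trans ((o_bound (Nat.cast_le.2 hq.ge) n).2.2.2 n)
    have h12 : (0 : ℝ) ≤ 3⁻¹ ^ (n + 3) * 3 ^ n := by positivity
    rw [← Nat.cast_le (α := ℝ)] at h7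
    rw [hq] at h11 ⊢
    push_cast at h7 h11 ⊢
    linarith
  · have h7 := h5 (Y := Set.univ) (by simp) (by simp)
    have h11 := (h6 (n + 1) (by omega)).trans ((o_bound5 (Nat.cast_le.2 hq) n).2.2.2 n)
    have h12 : (0 : ℝ) ≤ 5⁻¹ ^ (n + 1) * Nat.card F ^ n := by positivity
    rw [H28.kcl_univ, ← Nat.cast_le (α := ℝ)] at h7
    push_cast at h7
    linarith

theorem omega_odd_ge (h2 : (2 : F) ≠ 0) (h : IsQuad B Q) (hB : B.SeparatingLeft) {n : ℕ} (h0 : 0 < n)
    (hn : finrank F V = 2 * n + 1) [Finite (Isom (σ := RingHom.id F) B Q)] :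
    Nat.card F ^ n ≤ 2 * Nat.card (ConjClasses (commutator (Isom (σ := RingHom.id F) B Q))) := by
  have h1 := (S4200.result (commutator (Isom (σ := RingHom.id F) B Q))).2.1
  have h3 := card_real_le (B := B) (Q := Q) (ι := {f : F[X] // Pal f ∧ f.natDegree = 2 * n} × Bool)
    (fun p => p.1.1 * (X - C (cb F p.2))) (fun ⟨f, b⟩ ⟨g, c⟩ e => by
      have e1 := congrArg (coeff · 0) e
      simp only [mul_coeff_zero, f.2.1.2.2.1, g.2.1.2.2.1] at e1
      obtain rfl : b = c := by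
        have : (1 : F) ≠ -1 := fun e => h2 (by linear_combination e)
        cases b <;> cases c <;> simp [cb, this, this.symm] at e1 ⊢
      exact congrArg (·, b) (Subtype.ext (mul_right_cancel₀ (X_sub_C_ne_zero _) e))) fun ⟨f, b⟩ => by
      have h3 := gd_X_sub_C (cb_ne (F := F) b)
      obtain ⟨s, ⟨W, _, _, _, B', Q', h4, h5, h6⟩, e, h7⟩ := real_of_dl h2 (f.2.1.gd.mul h3) (by
        rw [(tw_dl fun _ => rfl).mul _ _ f.2.1.gd h3, f.2.1.2.2.2, dl_X_sub_C (cb_sq b)])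
      rw [f.2.1.1.natDegree_mul h3.1, f.2.2, natDegree_X_sub_C, ← h6.finrank_eq] at h7
      obtain ⟨c, φ, -, e1, e2⟩ := IsQuad.exists_equiv_of_odd h4 h5 h hB (h7 ▸ odd_two_mul_add_one n)
        (h7.trans hn.symm)
      obtain ⟨g, hg⟩ := h6.sim φ e1 e2
      exact ⟨g, (congrArg Multiset.prod hg).trans e⟩
  rw [h.index_commutator_of_odd hB h2 (by omega)] at h1
  rw [Nat.card_prod, card_pal, Nat.card_eq_fintype_card (α := Bool), Fintype.card_bool] at h3
  omega

end Cfsg.Agent.H18.Cn
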