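import Mathlib
import Cfsg.Agent.H18.Cn7

/-! Non-degenerate bilinear forms in characteristic two: one step of the classification. -/

namespace Cfsg.Agent.H18.Cn

open Module H10 H11

variable {F : Type*} [Field F] {W W' U U' C : Type*} [AddCommGroup W] [Module F W]
  [AddCommGroup W'] [Module F W'] [AddCommGroup U] [Module F U] [AddCommGroup U'] [Module F U']
  [AddCommGroup C] [Module F C] [FiniteDimensional F W] [FiniteDimensional F W']
  {χ δ : W →ₗ[F] W →ₗ[F] F} {χ' : W' →ₗ[F] W' →ₗ[F] F}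

theorem exists_half (hA : δ.IsAlt) : ∃ γ : W →ₗ[F] W →ₗ[F] F, ∀ a b, δ a b = γ a b - γ b a := by
  let b := finBasis F W
  let γ : W →ₗ[F] W →ₗ[F] F :=
    b.constr F fun i => b.constr F fun j => if i < j then δ (b i) (b j) else 0
  refine ⟨γ, fun x y => LinearMap.congr_fun₂ (show δ = γ - γ.flip from
    LinearMap.ext_basis b b fun i j => ?_) x y⟩
  simp only [γ, LinearMap.sub_apply, LinearMap.flip_apply, Basis.constr_basis]
  rcases lt_trichotomy i j with h | rfl | h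
  · simp [h, h.not_gt]
  · simp [hA.self_eq_zero]
  · simp [h, h.not_gt, hA.neg]

variable [CharP F 2] [Finite F]

omit [FiniteDimensional F W] in
theorem exists_sqrt (hs : ∀ a b, δ a b = δ b a) : ∃ l : W →ₗ[F] F, ∀ x, δ x x = l x * l x := by
  let fr := frobeniusEquiv F 2
  have hfr : ∀ a, fr a = a ^ 2 := fun _ => rfl
  let l : W →ₗ[F] F :=
    { toFun := fun v => fr.symm (δ v v)
      map_add' := fun u v => by
        rw [← map_add]; congr 1
        simp only [map_add, LinearMap.add_apply, hs v u]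
        linear_combination δ u v * CharTwo.two_eq_zero (R := F)
      map_smul' := fun c v => fr.injective (by
        simp only [map_smul, LinearMap.smul_apply, RingEquiv.apply_symm_apply, smul_eq_mul,
          RingHom.id_apply, map_mul, hfr c]
        ring) }
  exact ⟨l, fun x => by rw [← pow_two, ← hfr]; exact (fr.apply_symm_apply _).symm⟩

theorem exists_absorb (hχ : χ.SeparatingLeft) (R K : Submodule F W) (hK : R ≤ K)
    (hR : ∀ r ∈ R, ∀ w, χ r w = χ w r) (hM : ∀ r, (∀ m ∈ K, χ r m = 0) → r ∈ R)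
    (hs : ∀ a b, δ a b = δ b a) (h0 : ∀ m ∈ K, ∀ b, δ m b = 0)
    (hu : δ.IsAlt ∨ ∃ r ∈ R, χ r r ≠ 0) : ∃ e : W →ₗ[F] W, ∀ a b, χ (e a) (e b) = χ a b + δ a b := by
  obtain ⟨l, hl⟩ := exists_sqrt hs
  have hl0 : ∀ m ∈ K, l m = 0 := fun m hm => mul_self_eq_zero.1 ((hl m).symm.trans (h0 m hm m))
  obtain ⟨u, hu1, hu2⟩ : ∃ u ∈ R, ∀ a, l a * χ u u = l a := by
    rcases hu with h | ⟨r, h1, h2⟩
    · exact ⟨0, R.zero_mem, fun a => by simp [mul_self_eq_zero.1 ((hl a).symm.trans (h a))]⟩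
    · obtain ⟨c, hc⟩ := (frobeniusEquiv F 2).surjective (χ r r)⁻¹
      refine ⟨c • r, R.smul_mem c h1, fun a => ?_⟩
      have : c * (c * χ r r) = 1 := by
        rw [← mul_assoc, ← pow_two, show c ^ 2 = _ from hc, inv_mul_cancel₀ h2]
      simp [this]
  obtain ⟨γ, hγ⟩ := exists_half (δ := δ - (LinearMap.mul F F).compl₁₂ l l) fun x => by simp [hl]
  obtain ⟨s, hs'⟩ := K.subtype.exists_leftInverse_of_injective K.ker_subtype
  let P : W →ₗ[F] W := LinearMap.id - K.subtype ∘ₗ s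
  have hP : ∀ a, P a = a - s a := fun _ => rfl
  have hP0 : ∀ m ∈ K, P m = 0 := fun m hm => by
    rw [hP, show s m = ⟨m, hm⟩ from LinearMap.congr_fun hs' ⟨m, hm⟩, sub_self]
  let E := χ.linearEquivOfInjective (LinearMap.separatingLeft_iff_ker_eq_bot.1 hχ |>
    LinearMap.ker_eq_bot.1) (Subspace.dual_finrank_eq (K := F) (V := W)).symm
  let ρ : W →ₗ[F] W := E.symm.toLinearMap ∘ₗ (γ.compl₁₂ P P + (LinearMap.mul F F).compl₁₂ (χ u) l)
  have hρ : ∀ a b, χ (ρ a) b = γ (P a) (P b) + χ u a * l b := fun a b =>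
    LinearMap.congr_fun (E.apply_symm_apply _) b
  have h1 : ∀ a, ∀ m ∈ K, χ (ρ a) m = 0 := fun a m hm => by simp [hρ, hP0 m hm, hl0 m hm]
  have h2 : ∀ a, ρ a ∈ R := fun a => hM _ (h1 a)
  refine ⟨LinearMap.id + ρ + l.smulRight u, fun a b => ?_⟩
  have h3 := hγ (P a) (P b)
  have h4 : δ (P a) (P b) = δ a b := by
    rw [hP, map_sub, LinearMap.sub_apply, h0 _ (s a).2, hP, map_sub, hs a (s b), h0 _ (s b).2]; simp
  have h5 : ∀ a, l (P a) = l a := fun a => by rw [hP, map_sub, hl0 _ (s a).2, sub_zero]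
  simp only [LinearMap.sub_apply, LinearMap.compl₁₂_apply, LinearMap.mul_apply', h4, h5] at h3
  simp only [LinearMap.add_apply, LinearMap.id_apply, LinearMap.smulRight_apply, map_add, map_smul,
    LinearMap.smul_apply, smul_eq_mul, h1 _ _ (hK (h2 _)), h1 _ _ (hK hu1), ← hR _ (h2 b),
    ← hR _ hu1 a]
  rw [hρ, hρ]
  linear_combination l b * hu2 a - h3 +
    (γ (P b) (P a) + χ u a * l b + χ u b * l a) * CharTwo.two_eq_zero (R := F)

/-- A non-degenerate form `χ` with its derived alternating space. -/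
structure Wf (χ : W →ₗ[F] W →ₗ[F] F) (p : W →ₗ[F] U) (j : U →ₗ[F] W) (β : U →ₗ[F] U →ₗ[F] F) :
    Prop where
  sep : χ.SeparatingLeft
  surj : Function.Surjective p
  inj : Function.Injective j
  bsep : β.SeparatingLeft
  left : ∀ v b, χ (j v) b = β v (p b)
  add : ∀ a b, χ a b + χ b a = β (p a) (p b)

variable {p : W →ₗ[F] U} {j : U →ₗ[F] W} {β : U →ₗ[F] U →ₗ[F] F}
  {p' : W' →ₗ[F] U'} {j' : U' →ₗ[F] W'} {β' : U' →ₗ[F] U' →ₗ[F] F}

namespace Wf

omit [FiniteDimensional F W] [Finite F] in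
theorem symm (D : Wf χ p j β) {r : W} (hr : p r = 0) (w : W) : χ r w = χ w r := by
  have := D.add r w
  rw [hr, map_zero, LinearMap.zero_apply] at this
  linear_combination this - χ w r * CharTwo.two_eq_zero (R := F)

omit [FiniteDimensional F W] [Finite F] [CharP F 2] in
theorem ker_of (D : Wf χ p j β) {r : W} (h : ∀ v, χ (j v) r = 0) : p r = 0 :=
  D.bsep _ fun v => by
    obtain ⟨b, rfl⟩ := D.surj v
    rw [← D.add, add_comm, D.add, ← D.left, h]

omit [Finite F] [CharP F 2] in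
theorem range_of (D : Wf χ p j β) {r : W} (h : ∀ a, p a = 0 → χ r a = 0) : ∃ v, j v = r := by
  have := Module.Finite.of_surjective p D.surj
  obtain ⟨s, hs⟩ := p.exists_rightInverse_of_surjective (LinearMap.range_eq_top.2 D.surj)
  obtain ⟨v, hv⟩ := exists_form_eq (σ := RingHom.id F) (fun _ => rfl) D.bsep (χ r ∘ₗ s)
  refine ⟨v, sub_eq_zero.1 (D.sep _ fun b => ?_)⟩
  have := h (s (p b) - b) (by rw [map_sub, show p (s (p b)) = p b from LinearMap.congr_fun hs _, sub_self])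
  rw [map_sub] at this
  rw [map_sub, LinearMap.sub_apply, D.left, hv, LinearMap.comp_apply, this]

theorem split (D : Wf χ p j β) [FiniteDimensional F C] {ι : C →ₗ[F] W} (h1 : ∀ u, p (ι u) = 0)
    (h2 : ∀ u v, ι u = j v → u = 0) (h3 : ∀ r, p r = 0 → ∃ u v, r = ι u + j v) :
    ∃ (w : C) (q : W →ₗ[F] C), ChV (pull χ ι) w ∧ (w = 0 ↔ ∀ r, p r = 0 → χ r r = 0) ∧
      ∀ u a, χ (ι u) (ι (q a)) = χ (ι u) a := by
  have h4 : ∀ u v, χ (j v) (ι u) = 0 := fun u v => by rw [D.left, h1, map_zero]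
  have h5 : (pull χ ι).SeparatingLeft := fun u hu => by
    obtain ⟨v, hv⟩ := D.range_of (r := ι u) fun a ha => by
      obtain ⟨x, y, rfl⟩ := h3 a ha
      rw [map_add, D.symm (h1 u) (j y), h4, add_zero]
      exact hu x
    exact h2 u v hv.symm
  have h6 : ∀ a b, pull χ ι a b = pull χ ι b a := fun a b => D.symm (h1 a) _
  obtain ⟨w, hw⟩ := exists_chV h5 h6
  let E := (pull χ ι).linearEquivOfInjective (LinearMap.separatingLeft_iff_ker_eq_bot.1 h5 |>
    LinearMap.ker_eq_bot.1) (Subspace.dual_finrank_eq (K := F) (V := C)).symm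
  refine ⟨w, E.symm.toLinearMap ∘ₗ χ.compl₂ ι, hw, hw.isAlt_iff.symm.trans
    ⟨fun h r hr => ?_, fun h u => h _ (h1 u)⟩, fun u a => ?_⟩
  · obtain ⟨x, y, rfl⟩ := h3 r hr
    rw [map_add χ, LinearMap.add_apply, D.left, hr, map_add, D.symm (h1 x) (j y), h4]
    simpa using h x
  · rw [D.symm (h1 u), D.symm (h1 u)]
    exact LinearMap.congr_fun (E.apply_symm_apply _) u

theorem exists_equiv (D : Wf χ p j β) (D' : Wf χ' p' j' β') (y : W ≃ₗ[F] W')
    (hy : ∀ a, y (j (p a)) = j' (p' (y a))) (e : U ≃ₗ[F] U') (he : ∀ a b, β' (e a) (e b) = β a b)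
    (he' : ∀ v, e (p (j v)) = p' (j' (e v)))
    (hf : (∀ r, p r = 0 → χ r r = 0) ↔ ∀ r, p' r = 0 → χ' r r = 0)
    (hq : (∀ r, p r = 0 → χ r r = 0) → ∀ a a', p' a' = e (p a) → χ' a' a' = χ a a) :
    ∃ k : W ≃ₗ[F] W', ∀ a b, χ' (k a) (k b) = χ a b := by
  obtain ⟨C, hC⟩ := ((LinearMap.range j).comap (LinearMap.ker p).subtype).exists_isCompl
  let ι := (LinearMap.ker p).subtype ∘ₗ C.subtype
  have h1 : ∀ u, p (ι u) = 0 := fun u => u.1.2
  have h2 : ∀ u v, ι u = j v → u = 0 := fun u v h => Subtype.ext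
    ((Submodule.disjoint_def.1 hC.disjoint) _ ⟨v, h.symm⟩ u.2)
  have h3 : ∀ r, p r = 0 → ∃ u v, r = ι u + j v := fun r hr => by
    obtain ⟨a, ⟨v, hv⟩, b, hb, h⟩ := Submodule.mem_sup.1 (hC.sup_eq_top.ge (Submodule.mem_top
      (x := (⟨r, hr⟩ : LinearMap.ker p))))
    exact ⟨⟨b, hb⟩, v, by rw [hv, add_comm]; exact (congrArg Subtype.val h).symm⟩
  have hy0 : ∀ a, p' (y a) = 0 ↔ p a = 0 := fun a => by
    rw [← map_eq_zero_iff j' D'.inj, ← hy, map_eq_zero_iff y y.injective, map_eq_zero_iff j D.inj]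
  let ι' := y.toLinearMap ∘ₗ ι
  have h1' : ∀ u, p' (ι' u) = 0 := fun u => (hy0 _).2 (h1 u)
  obtain ⟨w, q, hw, h4, hq1⟩ := D.split h1 h2 h3
  obtain ⟨w', q', hw', h4', hq1'⟩ := D'.split (ι := ι') h1' (fun u v h => by
    obtain ⟨v, rfl⟩ := D'.surj v
    obtain ⟨v, rfl⟩ := y.surjective v
    exact h2 u _ (y.injective (h.trans (hy v).symm))) fun r hr => by
    obtain ⟨r, rfl⟩ := y.surjective r
    obtain ⟨u, v, rfl⟩ := h3 r ((hy0 r).1 hr)
    obtain ⟨v, rfl⟩ := D.surj v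
    exact ⟨u, _, by rw [map_add, hy]; rfl⟩
  obtain ⟨φ, hφ⟩ := hw.exists_equiv hw' rfl (h4.trans (hf.trans h4'.symm))
  simp only [pull_apply] at hφ
  obtain ⟨s, hs⟩ := p'.exists_rightInverse_of_surjective (LinearMap.range_eq_top.2 D'.surj)
  obtain ⟨t, ht⟩ := j.exists_leftInverse_of_injective (LinearMap.ker_eq_bot.2 D.inj)
  replace hs : ∀ v, p' (s v) = v := LinearMap.congr_fun hs
  replace ht : ∀ v, t (j v) = v := LinearMap.congr_fun ht
  let ψ₀ := s ∘ₗ e.toLinearMap ∘ₗ p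
  let ψ := (ψ₀ + (j' ∘ₗ e.toLinearMap - ψ₀ ∘ₗ j) ∘ₗ t) ∘ₗ (LinearMap.id - ι ∘ₗ q)
  let θ := ψ - ι' ∘ₗ q' ∘ₗ ψ + ι' ∘ₗ φ.toLinearMap ∘ₗ q
  have hθ : ∀ a, θ a = ψ a - ι' (q' (ψ a)) + ι' (φ (q a)) := fun _ => rfl
  have h5 : ∀ v, q (j v) = 0 := fun v => hw.sep _ fun u => by
    rw [hw.symm, pull_apply, hq1, D.symm (h1 u), D.left, h1, map_zero]
  have h5' : ∀ v, q' (j' v) = 0 := fun v => hw'.sep _ fun u => by
    rw [hw'.symm, pull_apply, hq1', D'.symm (h1' u), D'.left, h1', map_zero]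
  have h6 : ∀ u, q (ι u) = u := fun u => sub_eq_zero.1 (hw.sep _ fun v => by
    rw [hw.symm, map_sub, pull_apply, hq1, pull_apply, sub_self])
  have h7 : ∀ a, p' (θ a) = e (p a) := fun a => by
    simp [hθ, h1', ψ, ψ₀, hs, he', h1]
  have h8 : ∀ v, θ (j v) = j' (e v) := fun v => by simp [hθ, ψ, h5, ht, h5']
  have h9 : ∀ u b, χ' (θ (ι u)) (θ b) = χ (ι u) b := fun u b => by
    rw [show θ (ι u) = ι' (φ u) by simp [hθ, ψ, h6], hθ, map_add, map_sub, hq1', hφ, hq1]; simp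
  let δ := χ'.compl₁₂ θ θ - χ
  have hδ : ∀ a b, δ a b = χ' (θ a) (θ b) - χ a b := fun _ _ => rfl
  have h10 : ∀ a b, δ a b = δ b a := fun a b => by
    have := D'.add (θ a) (θ b)
    rw [h7, h7, he, ← D.add] at this
    rw [hδ, hδ]
    linear_combination this + (χ b a - χ' (θ b) (θ a)) * CharTwo.two_eq_zero (R := F)
  have h11 : ∀ v b, δ (j v) b = 0 := fun v b => by rw [hδ, h8, D'.left, h7, he, D.left, sub_self]
  have h12 : ∀ r, p r = 0 → ∀ b, δ r b = 0 := fun r hr b => by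
    obtain ⟨u, v, rfl⟩ := h3 r hr
    rw [map_add, LinearMap.add_apply, h11, hδ, h9, sub_self, add_zero]
  have h13 : ∀ a, (∀ b, χ b a = 0) → a = 0 := fun a ha =>
    D.sep _ fun b => by rw [D.symm (D.ker_of fun v => ha _), ha]
  obtain ⟨k, hk⟩ := exists_absorb (χ := χ.flip) h13 (LinearMap.ker p)
    (LinearMap.ker p ⊔ LinearMap.range j) le_sup_left (fun r hr w => (D.symm hr w).symm)
    (fun r hr => D.ker_of fun v => hr _ (Submodule.mem_sup_right ⟨v, rfl⟩)) h10 (fun m hm b => by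
      obtain ⟨a, ha, _, ⟨v, rfl⟩, rfl⟩ := Submodule.mem_sup.1 hm
      rw [map_add, LinearMap.add_apply, h11, h12 a ha, add_zero]) (by
      by_cases h : ∀ r, p r = 0 → χ r r = 0
      · exact .inl fun a => by rw [hδ, hq h a _ (h7 a), sub_self]
      · push Not at h
        exact .inr h)
  replace hk : ∀ a b, χ (k a) (k b) = χ' (θ a) (θ b) := fun a b => by
    have := hk b a
    rw [h10, hδ] at this
    simpa using this
  have h14 : ∀ a, (∀ b, χ' (θ b) (θ a) = 0) → a = 0 := fun a ha => by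
    have h : ∀ b, χ b a = -δ b a := fun b => by rw [hδ, ha]; simp
    exact h13 a fun b => by
      rw [h, h10, h12 a (D.ker_of fun v => by rw [h, h11, neg_zero]), neg_zero]
  let E := LinearEquiv.ofInjectiveEndo k ((injective_iff_map_eq_zero _).2 fun a ha =>
    h14 a fun b => by rw [← hk, ha, map_zero])
  refine ⟨E.symm.trans (θ.linearEquivOfInjective ((injective_iff_map_eq_zero _).2 fun a ha =>
    h14 a fun b => by rw [ha, map_zero]) y.finrank_eq), fun a b => ?_⟩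
  obtain ⟨a, rfl⟩ := E.surjective a
  obtain ⟨b, rfl⟩ := E.surjective b
  rw [LinearEquiv.trans_apply, LinearEquiv.trans_apply, E.symm_apply_apply, E.symm_apply_apply]
  exact (hk a b).symm

end Wf

end Cfsg.Agent.H18.Cn
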