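import Mathlib
import Cfsg.Agent.H18.Cn17

/-! Conjugacy classes of symplectic and orthogonal isometries in characteristic two. -/

namespace Cfsg.Agent.H18.Cn

open Module H10 H11

universe u

variable {F : Type u} [Field F]

section pl
variable {V U : Type*} [AddCommGroup V] [Module F V] [AddCommGroup U] [Module F U]
  {β : V →ₗ[F] V →ₗ[F] F} {γ : U →ₗ[F] U →ₗ[F] F} {Q : V → F} {S : U → F}

/-- The quadratic space is of plus type. -/
def Pl (β : V →ₗ[F] V →ₗ[F] F) (Q : V → F) : Prop :=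
  ∃ A : Submodule F V, (∀ x ∈ A, Q x = 0) ∧ ∀ y, (∀ x ∈ A, β x y = 0) → y ∈ A

theorem pl_pull (p : V →ₗ[F] U) (hp : Function.Surjective p) (h : ∀ x y, β x y = γ (p x) (p y))
    (hQ : ∀ x, Q x = S (p x)) : Pl β Q ↔ Pl γ S := by
  constructor
  · rintro ⟨A, h1, h2⟩
    refine ⟨A.map p, ?_, fun y hy => ?_⟩
    · rintro _ ⟨x, hx, rfl⟩
      rw [← hQ, h1 x hx]
    · obtain ⟨y, rfl⟩ := hp y
      exact ⟨y, h2 y fun x hx => by rw [h, hy _ ⟨x, hx, rfl⟩], rfl⟩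
  · rintro ⟨A, h1, h2⟩
    refine ⟨A.comap p, fun x hx => by rw [hQ, h1 _ hx], fun y hy => h2 _ fun x hx => ?_⟩
    obtain ⟨x, rfl⟩ := hp x
    rw [← h, hy x hx]

variable [FiniteDimensional F V]

theorem pl_sub (h : IsQuad β Q) (hB : β.SeparatingLeft) (W : Submodule F V)
    (H : ∀ x ∈ perp β W, x ∈ W ∧ Q x = 0) : Pl β Q ↔ Pl (pull β W.subtype) fun w => Q w := by
  constructor
  · rintro ⟨A, h1, h2⟩
    refine ⟨(A ⊔ perp β W).comap W.subtype, fun x hx => ?_, fun y hy => ?_⟩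
    · obtain ⟨a, ha, b, hb, e⟩ := Submodule.mem_sup.1 hx
      have h3 : a ∈ W := by
        rw [eq_sub_of_add_eq e]; exact W.sub_mem x.2 (H b hb).1
      show Q x = 0
      rw [← show a + b = x from e, h.add, h1 a ha, (H b hb).2, hb a h3]; simp
    · have h3 : (y : V) ∈ perp β (A ⊓ W) := fun x hx => hy ⟨x, hx.2⟩ (Submodule.mem_sup_left hx.1)
      rw [h.perp_inf hB] at h3
      exact (sup_le_sup_right (show perp β A ≤ A from h2) _ :) h3
  · rintro ⟨A, h1, h2⟩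
    refine ⟨A.map W.subtype, ?_, fun y hy => ?_⟩
    · rintro _ ⟨x, hx, rfl⟩
      exact h1 x hx
    · have h3 : y ∈ W := h.perp_perp hB W ▸ fun x hx => hy x
        ⟨⟨x, (H x hx).1⟩, h2 _ fun z _ => hx _ z.2, rfl⟩
      exact ⟨⟨y, h3⟩, h2 _ fun x hx => hy _ ⟨x, hx, rfl⟩, rfl⟩

theorem pl_iff_wittIdx (h : IsQuad β Q) (hB : β.SeparatingLeft) :
    Pl β Q ↔ ∃ ν, WittIdx β Q ν ∧ 2 * ν = finrank F V := by
  constructor
  · rintro ⟨A, h1, h2⟩
    have h3 : MaxTotSing β Q A := ⟨⟨h1, fun x hx y hy => by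
      simpa [h1 x hx, h1 y hy, h1 _ (A.add_mem hx hy)] using (h.add x y).symm⟩, fun x _ => h2 x⟩
    have h4 := h.two_mul_finrank_le hB h3.1
    have h5 := h.finrank_perp hB A
    have h6 := Submodule.finrank_mono (show perp β A ≤ A from h2)
    exact ⟨_, ⟨A, h3, rfl⟩, by omega⟩
  · rintro ⟨_, ⟨A, h1, rfl⟩, h2⟩
    have h5 := h.finrank_perp hB A
    exact ⟨A, h1.1.1, (Submodule.eq_of_le_of_finrank_eq (show A ≤ perp β A from
      fun y hy x hx => h1.1.2 x hx y hy) (by omega)).ge⟩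

theorem equiv_of_pl [Finite F] [FiniteDimensional F U] (h : IsQuad β Q) (hB : β.SeparatingLeft)
    (h' : IsQuad γ S) (hB' : γ.SeparatingLeft) (he : Even (finrank F V))
    (hn : finrank F V = finrank F U) (H : Pl β Q ↔ Pl γ S) :
    ∃ e : V ≃ₗ[F] U, (∀ x y, γ (e x) (e y) = β x y) ∧ ∀ x, S (e x) = Q x := by
  rw [pl_iff_wittIdx h hB, pl_iff_wittIdx h' hB'] at H
  by_cases h1 : ∃ ν, WittIdx β Q ν ∧ 2 * ν = finrank F V
  · obtain ⟨ν', h4, h5⟩ := H.1 h1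
    obtain ⟨ν, h2, h3⟩ := h1
    exact h.exists_equiv_of_wittIdx hB h' hB' he hn h2 ((by omega : ν' = ν) ▸ h4)
  · obtain ⟨ν, h2⟩ := h.exists_wittIdx
    obtain ⟨ν', h3⟩ := h'.exists_wittIdx
    have h4 := h.two_mul_wittIdx_le hB h2
    have h5 := h.finrank_le_wittIdx' hB h2
    have h6 := h'.two_mul_wittIdx_le hB' h3
    have h7 := h'.finrank_le_wittIdx' hB' h3
    have h8 : 2 * ν ≠ _ := fun e => h1 ⟨ν, h2, e⟩
    have h9 : 2 * ν' ≠ _ := fun e => mt H.2 h1 ⟨ν', h3, e⟩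
    obtain ⟨k, hk⟩ := id he
    exact h.exists_equiv_of_wittIdx hB h' hB' he hn h2 ((by omega : ν' = ν) ▸ h3)

end pl

variable {V V' : Type u} [AddCommGroup V] [Module F V] [AddCommGroup V'] [Module F V']
  {B : V →ₗ[F] V →ₗ[F] F} {g : V ≃ₗ[F] V} {B' : V' →ₗ[F] V' →ₗ[F] F} {g' : V' ≃ₗ[F] V'}
  {Q : V → F} {Q' : V' → F} {o : Prop}

/-- A symplectic isometry, preserving a quadratic form when `o` holds. -/
structure St (o : Prop) (B : V →ₗ[F] V →ₗ[F] F) (Q : V → F) (g : V ≃ₗ[F] V) : Prop where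
  alt : B.IsAlt
  sep : B.SeparatingLeft
  isom : ∀ x y, B (g x) (g y) = B x y
  quad : o → IsQuad B Q
  inv : o → ∀ x, Q (g x) = Q x

/-- The operator `g - 1`. -/
abbrev nn (g : V ≃ₗ[F] V) : End F V := g.toLinearMap - 1

/-- The quadratic form of level `k + 1`. -/
def Lq (B : V →ₗ[F] V →ₗ[F] F) (g : V ≃ₗ[F] V) (k : ℕ) (x : V) : F :=
  B ((nn g ^ k) x) ((nn g ^ (k + 1)) x)

/-- The flag of level `k`. -/
def Fl (B : V →ₗ[F] V →ₗ[F] F) (g : V ≃ₗ[F] V) (k : ℕ) : Prop :=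
  ∃ x, (nn g ^ (2 * k + 2)) x = 0 ∧ Lq B g k x ≠ 0

/-- The sign of level `k + 1`. -/
def Sq (B : V →ₗ[F] V →ₗ[F] F) (g : V ≃ₗ[F] V) (k : ℕ) : Prop :=
  Pl (pull B (nn g ^ (k + 1))) (Lq B g k)

/-- The derived space. -/
structure Dr (B : V →ₗ[F] V →ₗ[F] F) (g : V ≃ₗ[F] V) {U : Type u} [AddCommGroup U] [Module F U]
    (π : V →ₗ[F] movS g) (χ : movS g →ₗ[F] movS g →ₗ[F] F) (p : movS g →ₗ[F] U)
    (j : U →ₗ[F] movS g) (β : U →ₗ[F] U →ₗ[F] F) (S : U → F) (g₁ : U ≃ₗ[F] U) : Prop where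
  wall : WallD (σ := RingHom.id F) B g (movS g).subtype π χ
  wd : Wf χ p j β
  jp : ∀ a, j (p a) = π a
  pj : ∀ v, g₁ v = v + p (j v)
  form : ∀ a b, β (p a) (p b) = B a b
  quad : ¬ Fl B g 0 → ∀ a, S (p a) = χ a a
  st : St (¬ Fl B g 0) β S g₁

variable {U U' : Type u} [AddCommGroup U] [Module F U] [AddCommGroup U'] [Module F U']
  {π : V →ₗ[F] movS g} {χ : movS g →ₗ[F] movS g →ₗ[F] F} {p : movS g →ₗ[F] U}
  {j : U →ₗ[F] movS g} {β : U →ₗ[F] U →ₗ[F] F} {S : U → F} {g₁ : U ≃ₗ[F] U}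
  {π' : V' →ₗ[F] movS g'} {χ' : movS g' →ₗ[F] movS g' →ₗ[F] F} {p' : movS g' →ₗ[F] U'}
  {j' : U' →ₗ[F] movS g'} {β' : U' →ₗ[F] U' →ₗ[F] F} {S' : U' → F} {g₁' : U' ≃ₗ[F] U'}

theorem fl_zero (W : WallD (σ := RingHom.id F) B g (movS g).subtype π χ) :
    ¬ Fl B g 0 ↔ ∀ r : movS g, π r = 0 → χ r r = 0 := by
  have h1 : ∀ v, (π v : V) = nn g v := W.eq
  simp only [Fl, not_exists, not_and, not_not, Lq]
  refine ⟨fun h r hr => ?_, fun h x hx => ?_⟩
  · obtain ⟨x, rfl⟩ := W.surj r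
    rw [W.form]
    exact (congrArg _ (h1 x)).trans (h x (by rw [pow_two, End.mul_apply, ← h1 x, ← h1, hr]; rfl))
  · have := h (π x) (Subtype.ext (by rw [h1, h1]; exact hx))
    rw [W.form] at this
    exact (congrArg _ (h1 x)).symm.trans this

namespace Dr

theorem comm (D : Dr B g π χ p j β S g₁) (k : ℕ) (x : V) :
    p (π ((nn g ^ k) x)) = (nn g₁ ^ k) (p (π x)) :=
  pow_comm_of (f := fun x => p (π x)) (fun x => by
    rw [← show (π x : V) = nn g x from D.wall.eq x, ← D.jp]; simp [D.pj]) k x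

theorem coe (D : Dr B g π χ p j β S g₁) (k : ℕ) (x : V) :
    (j ((nn g₁ ^ k) (p (π x))) : V) = (nn g ^ (k + 2)) x := by
  have h1 : ∀ v, (π v : V) = nn g v := D.wall.eq
  rw [← D.comm, D.jp, h1, h1, pow_succ', pow_succ', End.mul_apply, End.mul_apply]

theorem form' (D : Dr B g π χ p j β S g₁) (k l : ℕ) (x y : V) :
    β ((nn g₁ ^ k) (p (π x))) ((nn g₁ ^ l) (p (π y))) =
      B ((nn g ^ (k + 1)) x) ((nn g ^ (l + 1)) y) := by
  have h1 : ∀ v, (π v : V) = nn g v := D.wall.eq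
  rw [← D.comm, ← D.comm, D.form, h1, h1, pow_succ', pow_succ', End.mul_apply, End.mul_apply]

theorem surj (D : Dr B g π χ p j β S g₁) : Function.Surjective (p ∘ₗ π) :=
  D.wd.surj.comp D.wall.surj

theorem fl (D : Dr B g π χ p j β S g₁) (k : ℕ) : Fl β g₁ k ↔ Fl B g (k + 1) := by
  rw [Fl, D.surj.exists]
  refine exists_congr fun x => and_congr ?_ (by rw [Lq, Lq, ← D.form']; rfl)
  rw [show 2 * (k + 1) + 2 = 2 * k + 2 + 2 by ring, ← D.coe, ZeroMemClass.coe_eq_zero,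
    map_eq_zero_iff j D.wd.inj]; rfl

theorem sg (D : Dr B g π χ p j β S g₁) (k : ℕ) : Sq B g (k + 1) ↔ Sq β g₁ k :=
  pl_pull _ D.surj (fun x y => (D.form' _ _ x y).symm) fun x => (D.form' _ _ x x).symm

theorem sg_zero (D : Dr B g π χ p j β S g₁) (h : ¬ Fl B g 0) : Sq B g 0 ↔ Pl β S :=
  pl_pull _ D.surj (fun x y => (D.form' 0 0 x y).symm) fun x => by
    rw [LinearMap.comp_apply, D.quad h, D.wall.form]
    exact congrArg _ (D.wall.eq x).symm

theorem jb (D : Dr B g π χ p j β S g₁) {k : ℕ} (H : Jb (nn g₁) k) : Jb (nn g) (k + 2) := by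
  obtain ⟨x, h3, ⟨y, rfl⟩, h5⟩ := H
  obtain ⟨y, rfl⟩ := D.surj y
  refine ⟨_, ?_, ⟨y, rfl⟩, fun z hz => h5 (p (π z)) (D.wd.inj (Subtype.ext ?_))⟩
  · rw [← End.mul_apply, ← pow_succ', show k + 2 + 1 = k + 1 + 2 from rfl, ← D.coe, pow_succ',
      End.mul_apply, show nn g₁ ((nn g₁ ^ k) (p (π y))) = 0 from h3, map_zero]; rfl
  · rw [D.coe, show k + 1 + 2 = k + 2 + 1 from rfl, hz, ← D.coe]; rfl

theorem equiv (D : Dr B g π χ p j β S g₁) (D' : Dr B' g' π' χ' p' j' β' S' g₁') (x : V ≃ₗ[F] V')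
    (hx : ∀ v, x (g v) = g' (x v)) : ∃ (y : movS g ≃ₗ[F] movS g') (z : U ≃ₗ[F] U'),
      (∀ a, y (j (p a)) = j' (p' (y a))) ∧ ∀ v, z (g₁ v) = g₁' (z v) := by
  have h : (movS g).map x.toLinearMap = movS g' := by
    refine le_antisymm ?_ fun w hw => ?_
    · rintro _ ⟨w, hw, rfl⟩
      obtain ⟨v, rfl⟩ := mem_movS.mp hw
      exact mem_movS.mpr ⟨x v, by simp [hx]⟩
    · obtain ⟨v, rfl⟩ := mem_movS.mp hw
      obtain ⟨v, rfl⟩ := x.surjective v
      exact ⟨_, mem_movS.mpr ⟨v, rfl⟩, by simp [hx]⟩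
  let y := x.ofSubmodules _ _ h
  have hy : ∀ a, y (j (p a)) = j' (p' (y a)) := fun a => Subtype.ext (by
    rw [D.jp, D'.jp]
    refine (congrArg x (D.wall.eq a)).trans (Eq.trans ?_ (D'.wall.eq _).symm)
    rw [map_sub, hx]; rfl)
  have h2 : (LinearMap.range j).map y.toLinearMap = LinearMap.range j' := by
    refine le_antisymm ?_ ?_
    · rintro _ ⟨_, ⟨v, rfl⟩, rfl⟩
      obtain ⟨v, rfl⟩ := D.wd.surj v
      exact ⟨_, (hy v).symm⟩
    · rintro _ ⟨v, rfl⟩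
      obtain ⟨v, rfl⟩ := D'.wd.surj v
      obtain ⟨v, rfl⟩ := y.surjective v
      exact ⟨_, ⟨_, rfl⟩, hy v⟩
  let z : U ≃ₗ[F] U' := (LinearEquiv.ofInjective j D.wd.inj).trans
    ((y.ofSubmodules _ _ h2).trans (LinearEquiv.ofInjective j' D'.wd.inj).symm)
  have hz : ∀ v, j' (z v) = y (j v) := fun v => by simp [z]
  exact ⟨y, z, hy, fun v => D'.wd.inj (by
    rw [hz, D.pj, D'.pj, map_add, map_add, map_add, hy, hz])⟩

end Dr

variable [FiniteDimensional F V] [FiniteDimensional F V'] [CharP F 2]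

theorem St.exists_dr (T : St o B Q g) : ∃ (U : Submodule F (movS g)) (π : _) (χ : _)
    (p : movS g →ₗ[F] U) (β : _) (S : _) (g₁ : _), Dr B g π χ p U.subtype β S g₁ := by
  have hF := isForm_alt T.alt
  have hg : g ∈ Isom (σ := RingHom.id F) B fun _ => 0 := ⟨T.isom, fun _ => rfl⟩
  obtain ⟨π, χ, H⟩ := exists_wallD hF T.sep hg
  have h0 := H.sep hF T.sep hg
  have h1 : ∀ v, (π v : V) = g v - v := H.eq
  let p := (π ∘ₗ (movS g).subtype).rangeRestrict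
  have hp : Function.Surjective p := LinearMap.surjective_rangeRestrict _
  have hp1 : ∀ a, (p a : movS g) = π a := fun _ => rfl
  have h2 : ∀ a b : movS g, B a b = χ (p a) b := fun a b => (H.form _ _).symm
  obtain ⟨β, hβ⟩ := exists_desc (β := pull B (movS g).subtype) p hp fun x hx y => by
    have : B x y = 0 := by rw [h2, hx]; simp
    exact ⟨this, T.alt.isRefl _ _ this⟩
  replace hβ : ∀ a b : movS g, β (p a) (p b) = B a b := fun a b => (hβ a b).symm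
  have h3 : ∀ a b, χ a b + χ b a = β (p a) (p b) := fun a b => by
    have := H.gram hF hg a b
    rw [hβ]
    simp only [Submodule.subtype_apply, RingHom.id_apply] at this
    linear_combination -this + χ a b * CharTwo.two_eq_zero (R := F)
  have h4 : β.SeparatingLeft := fun a ha => by
    obtain ⟨a, rfl⟩ := hp a
    exact Subtype.ext (h0 _ fun b => by rw [← h2, ← hβ, ha])
  have W : Wf χ p (Submodule.subtype _) β := ⟨h0, hp, Subtype.val_injective, h4, fun v b => by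
    obtain ⟨v, rfl⟩ := hp v
    rw [hβ, h2]; rfl, h3⟩
  let g₁ := LinearEquiv.ofInjectiveEndo (LinearMap.id + p ∘ₗ Submodule.subtype _)
    ((injective_iff_map_eq_zero _).2 fun a ha => Subtype.ext (Subtype.ext (g.injective (by
      have := congrArg (fun z => (z.1.1 : V)) ha
      simpa [hp1, h1] using this))))
  have h5 : ∀ v, g₁ v = v + p v := fun _ => rfl
  have h6 : ∀ a, g₁ (p a) = p (a + π a) := fun a => by rw [h5, map_add, hp1]
  have h7 : ∀ a : movS g, ((a + π a : movS g) : V) = g a := fun a => by simp [h1]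
  let S := fun v => χ (Function.surjInv hp v) (Function.surjInv hp v)
  have h8 : ¬ Fl B g 0 → ∀ a, S (p a) = χ a a := fun h a => by
    have h9 : p (Function.surjInv hp (p a) - a) = 0 := by
      rw [map_sub, Function.surjInv_eq hp, sub_self]
    have h10 := (fl_zero H).1 h _ ((hp1 _).symm.trans (congrArg Subtype.val h9))
    have h11 := W.symm h9 a
    simp only [map_sub, LinearMap.sub_apply] at h10 h11
    linear_combination h10 - h11 + (χ (Function.surjInv hp (p a)) a - χ a a) *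
      CharTwo.two_eq_zero (R := F)
  have h9 : β.IsAlt := fun a => by
    obtain ⟨a, rfl⟩ := hp a
    rw [hβ, T.alt]
  refine ⟨_, π, χ, p, β, S, g₁, H, W, hp1, h5, hβ, h8, h9, h4, fun a b => ?_, fun h =>
    ⟨fun _ => rfl, fun a b => ?_, fun a b => ?_, fun c a => ?_, fun a => ?_, fun a => ⟨_, rfl⟩⟩,
    fun h a => ?_⟩
  · obtain ⟨a, rfl⟩ := hp a
    obtain ⟨b, rfl⟩ := hp b
    rw [h6, h6, hβ, hβ, h7, h7, T.isom]
  · rw [← h9.neg, CharTwo.neg_eq, one_mul]; rfl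
  · obtain ⟨a, rfl⟩ := hp a
    obtain ⟨b, rfl⟩ := hp b
    rw [← map_add, h8 h, h8 h, h8 h, ← h3]
    simp; ring
  · obtain ⟨a, rfl⟩ := hp a
    rw [← map_smul, h8 h, h8 h]
    simp; ring
  · rw [h9, CharTwo.two_eq_zero, zero_mul]
  · obtain ⟨a, rfl⟩ := hp a
    rw [h6, h8 h, h8 h, map_add χ, LinearMap.add_apply, H.form, map_add, ← hp1]
    have := h3 a (p a)
    rw [← h2, hβ, T.alt] at this
    simp only [Submodule.subtype_apply, Submodule.coe_add, map_add, T.alt.self_eq_zero]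
    linear_combination this + B a (p a) * CharTwo.two_eq_zero (R := F)

omit [FiniteDimensional F V'] [CharP F 2] in
theorem conj_of_wall {ε κ : F} {τ : F →+ F} (h : IsForm (σ := RingHom.id F) ε κ τ B Q)
    (hB : B.SeparatingLeft) (hg : g ∈ Isom (σ := RingHom.id F) B Q)
    (hg' : g' ∈ Isom (σ := RingHom.id F) B' Q') (φ : V ≃ₗ[F] V')
    (hφ : ∀ x y, B' (φ x) (φ y) = B x y) (hφ' : ∀ x, Q' (φ x) = Q x)
    (W : WallD (σ := RingHom.id F) B g (movS g).subtype π χ)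
    (W' : WallD (σ := RingHom.id F) B' g' (movS g').subtype π' χ') (e : movS g ≃ₗ[F] movS g')
    (he : ∀ a b, χ' (e a) (e b) = χ a b) : ∃ k : V ≃ₗ[F] V', (∀ x y, B' (k x) (k y) = B x y) ∧
      (∀ v, k (g v) = g' (k v)) ∧ ∀ x, Q' (k x) = Q x := by
  have W'' : WallD (σ := RingHom.id F) B (φ.trans (g'.trans φ.symm))
      (φ.symm.toLinearMap ∘ₗ (movS g').subtype) (π' ∘ₗ φ.toLinearMap) χ' :=
    ⟨φ.symm.injective.comp W'.inj, W'.surj.comp φ.surjective,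
      fun v => by simpa [φ.symm_apply_eq] using W'.eq (φ v),
      fun v w => by simpa [← hφ] using W'.form (φ v) w⟩
  obtain ⟨k, h5, -, h6⟩ := W.exists_conj W'' h hB hg
    ⟨fun a b => by simp [← hφ, hg'.1], fun a => by simp [← hφ', hg'.2]⟩ e he
  exact ⟨k.trans φ, fun a b => by simp [hφ, h5.1], fun v => by simp [h6],
    fun v => by simp [hφ', h5.2]⟩

omit [FiniteDimensional F V'] in
theorem Dr.pl_iff (D : Dr B g π χ p j β S g₁) (T : St o B Q g) (ho : o) (h1 : ¬ Fl B g 0)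
    (h2 : ¬ Jb (nn g) 0) : Pl B Q ↔ Pl β S := by
  have h3 : ∀ a : movS g, Q a = χ a a := fun a =>
    (D.wall.quad (T.quad ho) ⟨T.isom, T.inv ho⟩ a).trans (CharTwo.neg_eq _)
  refine (pl_sub (T.quad ho) T.sep (movS g) fun x hx => ?_).trans
    (pl_pull p D.wd.surj (fun a b => (D.form a b).symm) fun a => by rw [h3, D.quad h1])
  rw [(T.quad ho).perp_movS T.sep ⟨T.isom, T.inv ho⟩, H11.mem_fixS] at hx
  have h4 : x ∈ movS g := by_contra fun h =>
    h2 ⟨x, sub_eq_zero.2 hx, ⟨x, rfl⟩, fun z hz => h (mem_movS.2 ⟨z, by simpa using hz⟩)⟩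
  exact ⟨h4, (h3 ⟨x, h4⟩).trans ((fl_zero D.wall).1 h1 _
    (Subtype.ext ((D.wall.eq x).trans (sub_eq_zero.2 hx))))⟩

theorem two_iso [Finite F] (n : ℕ) : ∀ {V V' : Type u} [AddCommGroup V]
    [Module F V] [AddCommGroup V'] [Module F V'] [FiniteDimensional F V] [FiniteDimensional F V']
    {o : Prop} {B : V →ₗ[F] V →ₗ[F] F} {Q : V → F} {g : V ≃ₗ[F] V} {B' : V' →ₗ[F] V' →ₗ[F] F}
    {Q' : V' → F} {g' : V' ≃ₗ[F] V'}, finrank F V = n → St o B Q g → St o B' Q' g' →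
    ∀ x : V ≃ₗ[F] V', (∀ v, x (g v) = g' (x v)) → (∀ k, Fl B g k ↔ Fl B' g' k) →
    (∀ k, ¬ Fl B g k → Fl B g (k + 1) ∨ Jb (nn g) (2 * k + 2) → (Sq B g k ↔ Sq B' g' k)) →
    (o → Fl B g 0 ∨ Jb (nn g) 0 → (Pl B Q ↔ Pl B' Q')) → ∃ e : V ≃ₗ[F] V',
      (∀ x y, B' (e x) (e y) = B x y) ∧ (∀ v, e (g v) = g' (e v)) ∧ (o → ∀ x, Q' (e x) = Q x) := by
  induction n using Nat.strong_induction_on with
  | _ n ih =>
  intro V V' _ _ _ _ _ _ o B Q g B' Q' g' hn T T' x hx hF hS hO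
  by_cases h0 : ∀ w, g w = w → w = 0
  · obtain ⟨e, h1, h3⟩ := exists_isom_equiv (isForm_alt T'.alt) T'.sep (isForm_alt T.alt) T.sep
      (g := g'.toLinearMap) (g' := g.toLinearMap) T'.isom T.isom (.inr fun w hw => by
        obtain ⟨w, rfl⟩ := x.surjective w
        have h2 : ∀ v : V, v + v = 0 := fun v => by
          rw [← two_smul F, CharTwo.two_eq_zero, zero_smul]
        have : g (g w) = w := x.injective (by rw [hx, hx]; exact hw)
        rw [h0 w (sub_eq_zero.1 (h0 _ (by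
          rw [map_sub, this, sub_eq_iff_eq_add, sub_add_eq_add_sub, h2, eq_sub_iff_add_eq, h2]))),
          map_zero]) (tyE_congr x hx)
    refine ⟨e, h1, h3, fun ho v => ?_⟩
    obtain ⟨v, rfl⟩ := LinearMap.injective_iff_surjective.1 ((injective_iff_map_eq_zero (nn g)).2
      fun w hw => h0 w (sub_eq_zero.1 hw)) v
    have h4 : e (g v) = g' (e v) := h3 v
    show Q' (e (g v - v)) = Q (g v - v)
    rw [map_sub, (T.quad ho).sub, (T'.quad ho).sub, h1, h4, T.inv ho, T'.inv ho]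
    linear_combination (Q' (e v) - Q v) * CharTwo.two_eq_zero (R := F)
  obtain ⟨U, π, χ, p, β, S, g₁, D⟩ := T.exists_dr
  obtain ⟨U', π', χ', p', β', S', g₁', D'⟩ := T'.exists_dr
  obtain ⟨y, z, hy, hz⟩ := D.equiv D' x hx
  obtain ⟨e, h1, h2, h3⟩ := ih _ (hn ▸ U.finrank_le.trans_lt (Submodule.finrank_lt fun e => h0
    fun w hw => LinearMap.ker_eq_bot'.1 ((LinearMap.ker_eq_bot_iff_range_eq_top).2 e) w
      (sub_eq_zero.2 hw))) rfl D.st (propext (hF 0) ▸ D'.st) z hz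
    (fun k => by rw [D.fl, D'.fl, hF]) (fun k h4 h5 => by
      rw [← D.sg, ← D'.sg]
      exact hS _ (mt (D.fl k).2 h4) (h5.imp (D.fl _).1 D.jb)) fun h4 h5 => by
      rw [← D.sg_zero h4, ← D'.sg_zero (mt (hF 0).2 h4)]
      exact hS _ h4 (h5.imp (D.fl _).1 D.jb)
  have h4 : ∀ r, p r = 0 ↔ π r = 0 := fun r => by rw [← D.jp, map_eq_zero_iff _ D.wd.inj]
  have h4' : ∀ r, p' r = 0 ↔ π' r = 0 := fun r => by rw [← D'.jp, map_eq_zero_iff _ D'.wd.inj]
  obtain ⟨k, hk⟩ := D.wd.exists_equiv D'.wd y hy e h1 (fun v => by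
    simpa [D.pj, D'.pj] using h2 v) (by
    simp only [h4, h4', ← fl_zero D.wall, ← fl_zero D'.wall, hF]) fun h a a' ha => by
    simp only [h4, ← fl_zero D.wall] at h
    rw [← D.quad h, ← D'.quad (mt (hF 0).2 h), ha, h3 h]
  have hn := T.alt.isRefl.nondegenerate_iff_separatingLeft.mpr T.sep
  by_cases ho : o
  · obtain ⟨φ, h5, h6⟩ := equiv_of_pl (T.quad ho) T.sep (T'.quad ho) T'.sep
      (even_finrank_of_alt hn T.alt) x.finrank_eq (by
      by_cases h : Fl B g 0 ∨ Jb (nn g) 0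
      · exact hO ho h
      · rw [not_or] at h
        rw [D.pl_iff T ho h.1 h.2, D'.pl_iff T' ho (mt (hF 0).2 h.1) fun h' =>
          h.2 (h'.congr x.symm fun v => by
            obtain ⟨v, rfl⟩ := x.surjective v
            simp [← hx])]
        exact pl_pull e.toLinearMap e.surjective (fun a b => (h1 a b).symm) fun a => (h3 h.1 a).symm)
    obtain ⟨k, h7, h8, h9⟩ := conj_of_wall (T.quad ho) T.sep ⟨T.isom, T.inv ho⟩
      ⟨T'.isom, T'.inv ho⟩ φ h5 h6 D.wall D'.wall k hk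
    exact ⟨k, h7, h8, fun _ => h9⟩
  · obtain ⟨φ, h5⟩ := alt_isometric hn T.alt
      (T'.alt.isRefl.nondegenerate_iff_separatingLeft.mpr T'.sep) T'.alt x.finrank_eq
    obtain ⟨k, h7, h8, -⟩ := conj_of_wall (Q' := fun _ => 0) (isForm_alt T.alt) T.sep
      ⟨T.isom, fun _ => rfl⟩ ⟨T'.isom, fun _ => rfl⟩ φ h5 (fun _ => rfl) D.wall D'.wall k hk
    exact ⟨k, h7, h8, fun h => (ho h).elim⟩

end Cfsg.Agent.H18.Cn
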