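import Mathlib
import Cfsg.Agent.H18.Cn11

/-! Counting along a chain with two states; the numerics in characteristic two. -/

namespace Cfsg.Agent.H18.Cn

open PowerSeries Finset

section gf
variable {ι D : Type*} {A A' : D → Prop} {ℓ : D → ℕ} {f f' : ℝ⟦X⟧}

/-- The series `f` bounds the number of objects of each size. -/
def Gf (A : D → Prop) (ℓ : D → ℕ) (f : ℝ⟦X⟧) : Prop :=
  ∀ m, ∀ U : Finset D, (∀ d ∈ U, A d ∧ ℓ d = m) → (U.card : ℝ) ≤ coeff m f

theorem Gf.or (h : Gf A ℓ f) (h' : Gf A' ℓ f') : Gf (fun d => A d ∨ A' d) ℓ (f + f') := by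
  classical
  intro m U hU
  rw [← card_filter_add_card_filter_not A, Nat.cast_add, map_add]
  exact add_le_add (h m _ fun d hd => ⟨(mem_filter.1 hd).2, (hU d (mem_filter.1 hd).1).2⟩)
    (h' m _ fun d hd => (hU d (mem_filter.1 hd).1).imp_left (·.resolve_left (mem_filter.1 hd).2))

theorem Gf.card_le (h : Gf A ℓ f) (φ : ι → D) (n : ι → ℕ) (S : Finset ι) (N : ℕ)
    (hA : ∀ x ∈ S, A (φ x)) (hN : ∀ x ∈ S, n x + ℓ (φ x) = N) (hG : ∀ m, ∀ U ⊆ S,
      (∀ x ∈ U, n x = m) → (∀ x ∈ U, ∀ y ∈ U, φ x = φ y) → (U.card : ℝ) ≤ coeff m f') :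
    (S.card : ℝ) ≤ coeff N (f' * f) := by
  classical
  rw [coeff_mul, card_eq_sum_card_fiberwise (t := antidiagonal N) (f := fun x => (n x, ℓ (φ x)))
    fun x hx => by simpa using hN x hx, Nat.cast_sum]
  refine sum_le_sum fun p _ => ?_
  set U := S.filter fun x => (n x, ℓ (φ x)) = p
  rw [card_eq_sum_card_image φ U, Nat.cast_sum]
  refine (sum_le_card_nsmul _ _ _ fun d _ => hG p.1 _ ((filter_subset _ _).trans (filter_subset _ _))
    (fun x hx => congrArg Prod.fst (mem_filter.1 (mem_filter.1 hx).1).2)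
    fun x hx y hy => (mem_filter.1 hx).2.trans (mem_filter.1 hy).2.symm).trans ?_
  rw [nsmul_eq_mul, mul_comm]
  refine mul_le_mul_of_nonneg_left (h _ _ fun d hd => ?_) (by simpa using hG p.1 ∅ (by simp))
  obtain ⟨x, hx, rfl⟩ := mem_image.1 hd
  exact ⟨hA x (mem_filter.1 hx).1, congrArg Prod.snd (mem_filter.1 hx).2⟩

theorem card_le_markov (φ : ι → ℕ → D) (ℓ : ℕ → D → ℕ) (M : ι → ℕ → Bool → Prop)
    (A : ℕ → Bool → Bool → D → Prop) (T : ℕ → Bool → Bool → ℝ⟦X⟧) (G : ℕ → Bool → ℝ⟦X⟧)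
    (h0 : G 0 true = 1) (h1 : G 0 false = 0) (h2 : ∀ x, ¬ M x 0 false)
    (hG : ∀ k c, G (k + 1) c = ∑ b, G k b * T k b c) (hT : ∀ k b c, Gf (A k b c) (ℓ k) (T k b c))
    (hM : ∀ x k c, M x (k + 1) c → ∃ b, M x k b ∧ A k b c (φ x k)) (k : ℕ) :
    ∀ (c : Bool) (S : Finset ι) (N : ℕ), (∀ x ∈ S, M x k c) →
      (∀ x ∈ S, ∑ t ∈ range k, ℓ t (φ x t) = N) →
      (∀ x ∈ S, ∀ y ∈ S, (∀ t < k, φ x t = φ y t) → x = y) → (S.card : ℝ) ≤ coeff N (G k c) := by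
  classical
  induction k with
  | zero =>
    intro c S N h3 h4 h5
    rcases S.eq_empty_or_nonempty with rfl | ⟨x, hx⟩
    · cases c <;> simp [h0, h1, coeff_one]
      split_ifs <;> simp
    · obtain rfl : 0 = N := by simpa using h4 x hx
      cases c
      · exact (h2 x (h3 x hx)).elim
      · simpa [h0] using card_le_one.2 fun x hx y hy => h5 x hx y hy (by simp)
  | succ k ih =>
    intro c S N h3 h4 h5
    choose! b hb using fun x hx => hM x k c (h3 x hx)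
    rw [hG, map_sum, card_eq_sum_card_fiberwise (t := univ) (f := b)
      fun _ _ => mem_coe.2 (mem_univ _), Nat.cast_sum]
    refine sum_le_sum fun a _ => (hT k a c).card_le (φ · k) (fun x => ∑ t ∈ range k, ℓ t (φ x t)) _ N
      (fun x hx => (mem_filter.1 hx).2 ▸ (hb x (mem_filter.1 hx).1).2)
      (fun x hx => by rw [← h4 x (mem_filter.1 hx).1, sum_range_succ]) fun m U hU h6 h7 =>
      ih a U m (fun x hx => (mem_filter.1 (hU hx)).2 ▸ (hb x (mem_filter.1 (hU hx)).1).1) h6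
        fun x hx y hy h => h5 x (mem_filter.1 (hU hx)).1 y (mem_filter.1 (hU hy)).1 fun t ht => ?_
    rcases (Nat.lt_succ_iff.1 ht).eq_or_lt with rfl | ht
    exacts [h7 x hx y hy, h t ht]

end gf

/-- The series of one atomic transition. -/
noncomputable def At (q : ℝ) (k a b : ℕ) : ℝ⟦X⟧ :=
  Bs q q (2 * (2 * k + 1)) * X ^ ((2 * k + 1) * a) * (Bs q q (2 * (2 * k + 2)) * X ^ ((2 * k + 2) * b))

/-- The transition series. -/
noncomputable def TT (q : ℝ) (d k : ℕ) : Bool → Bool → ℝ⟦X⟧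
  | true, true => At q k 0 0 + (At q k 0 1 + At q k 0 2)
  | true, false => At q k (if k = 0 then d else 0) 0
  | false, true => At q k 2 0 + (At q k 0 1 + At q k 0 2)
  | false, false => At q k 2 0

/-- The two generating functions. -/
noncomputable def GG (q : ℝ) (d : ℕ) : ℕ → Bool → ℝ⟦X⟧
  | 0, b => bif b then 1 else 0
  | k + 1, c => ∑ b, GG q d k b * TT q d k b c

/-- A bound for the even coefficients. -/
def Be (q : ℝ) (G : ℝ⟦X⟧) (e : ℝ) : Prop := 0 ≤ e ∧ ∀ n, coeff (2 * n + 0) G ≤ e * q ^ n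

variable {q e e' h h' : ℝ} {G H : ℝ⟦X⟧} {d : ℕ}

theorem Be.mono (hG : Be q G e) (hq : 2 ≤ q) (he : e ≤ e') : Be q G e' :=
  ⟨hG.1.trans he, fun n => (hG.2 n).trans (by gcongr)⟩

theorem Be.add (hG : Be q G e) (hH : Be q H e') : Be q (G + H) (e + e') :=
  ⟨add_nonneg hG.1 hH.1, fun n => by rw [map_add, add_mul]; exact add_le_add (hG.2 n) (hH.2 n)⟩

theorem Be.shift (hG : Be q G e) (hq : 2 ≤ q) {i : ℕ} (j : ℕ) (hi : i = 2 * j) :
    Be q (G * X ^ i) (e * 2⁻¹ ^ j) := by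
  have h1 := hG.1
  refine ⟨by positivity, fun n => ?_⟩
  rw [coeff_mul_X_pow']
  split_ifs with h4
  · obtain ⟨m, rfl⟩ : ∃ m, n = j + m := ⟨n - j, by omega⟩
    have h6 := mul_le_mul_of_nonneg_right (pw_aux le_rfl hq j) (show 0 ≤ e * q ^ m by positivity)
    rw [show 2 * (j + m) + 0 - i = 2 * m + 0 by omega, pow_add]
    nlinarith [hG.2 m]
  · positivity

theorem Be.E (hG : Be q G e) (hq : 2 ≤ q) (j : ℕ) :
    Be q (G * Bs q q (2 * (j + 2))) (e / (1 - 2⁻¹ ^ (j + 1))) := by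
  have h1 : (2⁻¹ : ℝ) ^ (j + 1) < 1 := pow_lt_one₀ (by norm_num) (by norm_num) (by omega)
  refine ⟨div_nonneg hG.1 (by linarith), bd_E1 (by linarith) zero_le_one (by omega) (by linarith) ?_
    (by positivity) h1 hG.1 hG.2⟩
  have := mul_le_mul_of_nonneg_right (pw_aux le_rfl hq (j + 1)) (show 0 ≤ q by linarith)
  rw [pow_succ q (j + 1)]; linarith

theorem Be.at (hG : Be q G e) (hq : 2 ≤ q) (k a b : ℕ) {x : ℝ} (hx : x = 2⁻¹ ^ (k + 1)) :
    Be q (G * At q (k + 1) (2 * a) b)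
      (e * ((x ^ 2 / 2) ^ a * (x / 2) ^ b) / ((1 - x ^ 2) * (1 - x ^ 2 / 2))) := by
  have := (((hG.E hq (2 * k + 1)).shift hq ((2 * k + 3) * a) (i := (2 * (k + 1) + 1) * (2 * a))
    (by ring)).E hq (2 * k + 2)).shift hq ((k + 2) * b) (i := (2 * (k + 1) + 2) * b) (by ring)
  have h1 : (2⁻¹ : ℝ) ^ (2 * k + 1 + 1) = x ^ 2 := by rw [hx]; ring
  have h2 : (2⁻¹ : ℝ) ^ (2 * k + 2 + 1) = x ^ 2 / 2 := by rw [hx]; ring
  have h3 : (2⁻¹ : ℝ) ^ (k + 2) = x / 2 := by rw [hx]; ring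
  rw [pow_mul 2⁻¹, pow_mul 2⁻¹, h1, h2, h3] at this
  convert this using 1
  · rw [At]; ring_nf
  · rw [← div_div]; ring

theorem gg_step (hq : 2 ≤ q) (k : ℕ) {x : ℝ} (hx : x = 2⁻¹ ^ (k + 1))
    (H : Be q (GG q d (k + 1) true) h ∧ Be q (GG q d (k + 1) false) e)
    (h1 : (h * (1 + x / 2 + x ^ 2 / 4) + e * (x / 2 + 3 * x ^ 2 / 4)) /
      ((1 - x ^ 2) * (1 - x ^ 2 / 2)) ≤ h')
    (h2 : (h + e * (x ^ 2 / 2)) / ((1 - x ^ 2) * (1 - x ^ 2 / 2)) ≤ e') :
    Be q (GG q d (k + 2) true) h' ∧ Be q (GG q d (k + 2) false) e' := by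
  constructor
  · rw [GG, Fintype.sum_bool, TT, TT, mul_add, mul_add, mul_add, mul_add]
    exact (((H.1.at hq k 0 0 hx).add ((H.1.at hq k 0 1 hx).add (H.1.at hq k 0 2 hx))).add
      ((H.2.at hq k 1 0 hx).add ((H.2.at hq k 0 1 hx).add (H.2.at hq k 0 2 hx)))).mono hq
      (le_of_eq_of_le (by ring) h1)
  · rw [GG, Fintype.sum_bool, TT, TT, if_neg k.succ_ne_zero]
    exact ((H.1.at hq k 0 0 hx).add (H.2.at hq k 1 0 hx)).mono hq (le_of_eq_of_le (by ring) h2)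

theorem be_at_zero (hq : 2 ≤ q) (a b : ℕ) : Be q (At q 0 (2 * a) b) (2 * 2⁻¹ ^ (a + b)) := by
  have : Be q (1 * Bs q q (2 * (2 * 0 + 1))) 1 := ⟨zero_le_one, (bd_base (q := q)).2.2.1⟩
  convert ((this.shift hq a (i := (2 * 0 + 1) * (2 * a)) (by ring)).E hq 0).shift hq b
    (i := (2 * 0 + 2) * b) (by ring) using 1
  · rw [At]; ring_nf
  · ring

theorem gg_one (hq : 2 ≤ q) (a : ℕ) :
    Be q (GG q (2 * a) 1 true) (7 / 2) ∧ Be q (GG q (2 * a) 1 false) (2 * 2⁻¹ ^ a) := by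
  simp only [GG, Fintype.sum_bool, TT, cond_true, cond_false, one_mul, zero_mul, add_zero, if_true]
  exact ⟨((be_at_zero hq 0 0).add ((be_at_zero hq 0 1).add (be_at_zero hq 0 2))).mono hq
    (by norm_num), be_at_zero hq a 0⟩

theorem gg_tail (hq : 2 ≤ q) {L : ℝ} (hL : 0 ≤ L)
    (H : Be q (GG q d 6 true) (L * (1 - 207 / 100 * 2⁻¹ ^ 6)) ∧ Be q (GG q d 6 false) L) (k : ℕ) :
    Be q (GG q d (k + 6) true) (L * (1 - 207 / 100 * 2⁻¹ ^ (k + 6))) ∧
      Be q (GG q d (k + 6) false) L := by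
  induction k with
  | zero => exact H
  | succ k ih =>
    have h1 : (0 : ℝ) ≤ 2⁻¹ ^ (k + 6) := by positivity
    have h2 : (2⁻¹ : ℝ) ^ (k + 6) ≤ 1 / 64 :=
      (pow_le_pow_of_le_one (by norm_num) (by norm_num) (Nat.le_add_left 6 k)).trans (by norm_num)
    have h3 : (2⁻¹ : ℝ) ^ (k + 1 + 6) = 2⁻¹ ^ (k + 6) / 2 := by ring
    rw [h3]
    refine gg_step hq (k + 5) rfl ih ?_ ?_ <;> generalize (2⁻¹ : ℝ) ^ (k + 5 + 1) = x at h1 h2 <;>
      rw [div_le_iff₀ (mul_pos (by nlinarith) (by nlinarith)), ← sub_nonneg]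
    · have : 0 ≤ x * (7 / 200 - 293 / 200 * x + 207 / 100 * x ^ 2 + x ^ 3 * (1 / 2 - 207 / 400 * x)) := by
        have : 0 ≤ x ^ 3 * (1 / 2 - 207 / 400 * x) := mul_nonneg (by positivity) (by linarith)
        exact mul_nonneg h1 (by nlinarith)
      convert mul_nonneg hL this using 1; ring
    · have : 0 ≤ x * (207 / 100 - 2 * x + x ^ 3 / 2) := mul_nonneg h1 (by
        have := pow_nonneg h1 3
        linarith)
      convert mul_nonneg hL this using 1; ring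

theorem gg_sp (hq : 2 ≤ q) (k : ℕ) : Be q (GG q 0 (k + 6) true) (76 / 5) := by
  have h1 := gg_step hq 0 rfl (gg_one hq 0) (h' := 416667 / 50000) (e' := 571429 / 100000)
    (by norm_num) (by norm_num)
  have h2 := gg_step hq 1 rfl h1 (h' := 577369 / 50000) (e' := 468613 / 50000)
    (by norm_num) (by norm_num)
  have h3 := gg_step hq 2 rfl h2 (h' := 1332037 / 100000) (e' := 1189801 / 100000)
    (by norm_num) (by norm_num)
  have h4 := gg_step hq 3 rfl h3 (h' := 355991 / 25000) (e' := 167777 / 12500)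
    (by norm_num) (by norm_num)
  refine (gg_tail hq (L := 76 / 5) (by norm_num)
    (gg_step hq 4 rfl h4 (by norm_num) (by norm_num)) k).1.mono hq ?_
  have : (0 : ℝ) ≤ 2⁻¹ ^ (k + 6) := by positivity
  linarith

theorem gg_o (hq : 2 ≤ q) (k : ℕ) : Be q (GG q 2 (k + 6) true) 15 := by
  have h1 := gg_step hq 0 rfl (gg_one hq 1) (h' := 7.7) (e' := 5.6) (by norm_num) (by norm_num)
  have h2 := gg_step hq 1 rfl h1 (h' := 10.8) (e' := 8.7) (by norm_num) (by norm_num)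
  have h3 := gg_step hq 2 rfl h2 (h' := 12.5) (e' := 11.2) (by norm_num) (by norm_num)
  have h4 := gg_step hq 3 rfl h3 (h' := 13.4) (e' := 12.7) (by norm_num) (by norm_num)
  refine (gg_tail hq (L := 15) (by norm_num)
    (gg_step hq 4 rfl h4 (by norm_num) (by norm_num)) k).1.mono hq ?_
  have : (0 : ℝ) ≤ 2⁻¹ ^ (k + 6) := by positivity
  linarith

end Cfsg.Agent.H18.Cn
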