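import Mathlib
import Cfsg.Agent.H18.Cn18
import Cfsg.Agent.H18.Cn19

/-! Upper bounds for class numbers of symplectic and orthogonal groups in characteristic two. -/

namespace Cfsg.Agent.H18.Cn

open Polynomial Finset L0 Module H10 H11

universe u

variable {F : Type u} [Field F]

theorem pal_of_eval_two [CharP F 2] {w : F[X]} (hd : dl (RingHom.id F) w = w) (hm : w.Monic)
    (h : w.eval 1 ≠ 0) : Pal w := by
  have h1 := eval_dl (f := w) (x := 1) (by simp)
  rw [hd, one_pow, one_mul, eq_comm, mul_eq_right₀ h, inv_eq_one] at h1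
  refine ⟨hm, by_contra fun h2 => h ?_, h1, hd⟩
  rw [eval_eq_sum_range]
  refine sum_involution (fun i _ => w.natDegree - i) (fun i hi => ?_) (fun i hi _ e => h2 ⟨i, ?_⟩)
    (fun i _ => mem_range.2 (by omega)) fun i hi => ?_
  · have := coeff_dl (σ := RingHom.id F) w i
    rw [hd, h1, revAt_le (Nat.lt_succ_iff.1 (mem_range.1 hi))] at this
    simp [this, CharTwo.add_self_eq_zero]
  all_goals have := mem_range.1 hi; omega

/-- A palindromic polynomial times a power of `X - 1`. -/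
def Pa (a : ℕ) (u : F[X]) : Prop := ∃ v, Pal v ∧ u = v * (X - C 1) ^ a

open Classical in
theorem pa_Up [CharP F 2] {s : Multiset F[X]} (hs : ∀ u ∈ s, Prim u) (hg : ∀ u ∈ s, Gd u)
    (hd : s.map (dl (RingHom.id F)) = s) {i a : ℕ} (hi : 0 < i)
    (h : ∃ m, s.count ((X - 1) ^ i) = m + m + a) : Pa a (Up s i) := by
  have T := tw_dl (σ := RingHom.id F) fun _ => rfl
  have h0 := T.Up_map hg hs i
  have hr := Up_mem hs i
  have hG : Gd (Up s i) := ⟨Up_monic hs i, Up_coeff hs (fun u hu e => (hg u hu).2 (X_dvd_iff.1 e)) i⟩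
  obtain ⟨m, hm⟩ := h
  rw [← C_1, ← count_rt hs (irreducible_X_sub_C _) (monic_X_sub_C _) hi] at hm
  rw [hd, Up] at h0
  rw [Up] at hG ⊢
  generalize (s.filter (ex · = i)).map rt = r at *
  let t := r.filter (¬ · = X - C 1)
  have h1 : r.prod = t.prod * (X - C 1) ^ (m + m + a) := by
    rw [← Multiset.prod_filter_mul_prod_filter_not (· = X - C 1) (s := r), Multiset.filter_eq', hm,
      Multiset.prod_replicate, mul_comm]
  have h4 : Gd t.prod := hG.of_dvd (by
    simpa using monic_multiset_prod_of_monic _ id fun p hp =>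
      (hr p (Multiset.mem_filter.1 hp).1).2) ⟨_, h1⟩
  have h5 := gd_X_sub_C (F := F) one_ne_zero
  refine ⟨_, (pal_of_eval_two ?_ h4.1 fun e => ?_).mul (pal_pow (one_mul 1) m),
    by rw [h1, pow_add, mul_assoc]⟩
  · rw [h1, T.mul _ _ h4 (h5.pow _), T.pow h5, dl_X_sub_C (one_mul 1)] at h0
    exact (mul_right_cancel₀ (h5.pow _).1.ne_zero h0).symm
  · obtain ⟨v, hv, h⟩ := Prime.exists_mem_multiset_dvd (prime_X_sub_C _) (dvd_iff_isRoot.2 e)
    have := Multiset.mem_filter.1 hv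
    exact this.2 (eq_of_monic_of_associated (hr v this.1).2 (monic_X_sub_C _)
      ((irreducible_X_sub_C _).associated_of_dvd (hr v this.1).1 h).symm)

variable [Finite F]

theorem gf_pa {i : ℕ} (hi : 0 < i) (a : ℕ) : Gf (Pa (F := F) a) (fun u => i * u.natDegree)
    (Bs (Nat.card F) (Nat.card F) (2 * i) * PowerSeries.X ^ (i * a)) := by
  classical
  intro m U hU
  rw [PowerSeries.coeff_mul_X_pow']
  rcases U.eq_empty_or_nonempty with rfl | ⟨d, hd⟩
  · split_ifs
    · simpa using Bs_nonneg (by simp) (by simp) _ _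
    · simp
  choose! v h1 h2 using fun d hd => (hU d hd).1
  have h3 : ∀ d ∈ U, m = i * (v d).natDegree + i * a := fun d hd => by
    have := congrArg natDegree (h2 d hd)
    rw [(h1 d hd).1.natDegree_mul ((monic_X_sub_C _).pow _), natDegree_pow, natDegree_X_sub_C] at this
    rw [← (hU d hd).2, ← mul_add, ← mul_one a, ← this]
  obtain ⟨n, hn⟩ := (h1 d hd).2.1
  have h4 : m - i * a = 2 * i * n := by rw [h3 d hd, hn, Nat.add_sub_cancel]; ring
  rw [if_pos (by rw [h3 d hd]; omega), h4, ← card_image_of_injOn (f := v) fun x hx y hy e => by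
    rw [h2 x hx, h2 y hy, e]]
  refine (card_pal_le n _ fun f hf => ?_).trans_eq ?_
  · obtain ⟨x, hx, rfl⟩ := mem_image.1 hf
    refine ⟨h1 x hx, Nat.eq_of_mul_eq_mul_left hi ?_⟩
    have := (h3 x hx).symm.trans (h3 d hd)
    rw [hn] at this
    rw [two_mul]; omega
  · rw [coeff_Bs, Nat.mul_div_cancel_left _ (by omega), if_pos (dvd_mul_right _ _)]
    cases n <;> simp [pow_succ', hi.ne']

/-- An atomic transition. -/
def Aa (a b : ℕ) (p q : Prop) (d : F[X] × F[X] × Prop × Prop) : Prop :=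
  Pa a d.1 ∧ Pa b d.2.1 ∧ d.2.2 = (p, q)

/-- The size of a level pair. -/
def sz (k : ℕ) (d : F[X] × F[X] × Prop × Prop) : ℕ :=
  (2 * k + 1) * d.1.natDegree + (2 * k + 2) * d.2.1.natDegree

theorem gf_aa (k a b : ℕ) (p q : Prop) : Gf (Aa (F := F) a b p q) (sz k) (At (Nat.card F) k a b) := by
  classical
  refine fun m U hU => (gf_pa (2 * k + 1).succ_pos b).card_le (·.2.1)
    (fun d => (2 * k + 1) * d.1.natDegree) U m (fun d hd => (hU d hd).1.2.1) (fun d hd => (hU d hd).2)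
    fun l W h1 h2 h3 => ?_
  rw [← card_image_of_injOn (f := Prod.fst) fun x hx y hy e => Prod.ext e (Prod.ext (h3 x hx y hy)
    ((hU x (h1 hx)).1.2.2.trans (hU y (h1 hy)).1.2.2.symm))]
  refine gf_pa (2 * k).succ_pos a _ _ fun f hf => ?_
  obtain ⟨x, hx, rfl⟩ := mem_image.1 hf
  exact ⟨(hU x (h1 hx)).1.1, h2 x hx⟩

/-- The transitions. -/
def AA (d k : ℕ) : Bool → Bool → F[X] × F[X] × Prop × Prop → Prop
  | true, true => fun x => Aa 0 0 False False x ∨ Aa 0 1 True False x ∨ Aa 0 2 True False x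
  | true, false => Aa (if k = 0 then d else 0) 0 False False
  | false, true => fun x => Aa 2 0 False True x ∨ Aa 0 1 True True x ∨ Aa 0 2 True True x
  | false, false => Aa 2 0 False True

theorem gf_AA (d k : ℕ) : ∀ b c, Gf (AA (F := F) d k b c) (sz k) (TT (Nat.card F) d k b c)
  | true, true => (gf_aa _ _ _ _ _).or ((gf_aa _ _ _ _ _).or (gf_aa _ _ _ _ _))
  | true, false => gf_aa _ _ _ _ _
  | false, true => (gf_aa _ _ _ _ _).or ((gf_aa _ _ _ _ _).or (gf_aa _ _ _ _ _))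
  | false, false => gf_aa _ _ _ _ _

variable {V : Type u} [AddCommGroup V] [Module F V] {B : V →ₗ[F] V →ₗ[F] F} {Q : V → F}
  {g : V ≃ₗ[F] V} {o : Prop}

/-- A sign is allowed at level `k`. -/
def Mk (d : ℕ) (B : V →ₗ[F] V →ₗ[F] F) (g : V ≃ₗ[F] V) : ℕ → Prop
  | 0 => False
  | k + 1 => ¬ Fl B g k ∧ (k = 0 → d ≠ 0 → Jb (nn g) 0)

/-- The recorded sign at level `k`. -/
def Sn (d : ℕ) (B : V →ₗ[F] V →ₗ[F] F) (g : V ≃ₗ[F] V) (k : ℕ) : Prop :=
  Mk d B g k ∧ (Fl B g k ∨ Jb (nn g) (2 * k)) ∧ Sq B g (k - 1)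

omit [Finite F] in
theorem St.lq_iff (T : St o B Q g) {k : ℕ} {x : V} (hx : (nn g ^ (2 * k + 2)) x = 0) :
    B ((nn g ^ (2 * k + 1)) x) x = 0 ↔ Lq B g k x = 0 := by
  rw [← form_pow_right (g := g.toLinearMap) T.isom (by simpa [pow_succ'] using hx) k,
    show 2 * k + 1 = k + (k + 1) by ring, pow_add, End.mul_apply,
    pow_sub_adj (g := g.toLinearMap) T.isom, Lq, ← T.alt.neg]
  simp

variable [FiniteDimensional F V]

omit [Finite F] in
theorem St.jb_of_fl (T : St o B Q g) {k : ℕ} (h : Fl B g k) : Jb (nn g) (2 * k + 1) := by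
  obtain ⟨x, h1, h2⟩ := h
  refine ⟨_, by rwa [← End.mul_apply, ← pow_succ'], ⟨x, rfl⟩, fun z hz => h2 ((T.lq_iff h1).1 ?_)⟩
  exact T.alt.isRefl _ _ ((perp_ker_pow (g := g.toLinearMap) T.sep T.alt.isRefl T.isom
    (2 * k + 2)).ge ⟨z, hz⟩ x h1)

omit [Finite F] in
theorem mem_of_jb {k : ℕ} (h : Jb (nn g) k) : (X - 1) ^ (k + 1) ∈ tyE g.toLinearMap :=
  mem_tyE_of_jb irr_X_sub_one monic_X_sub_one (by simpa using h)

variable [CharP F 2]

omit [Finite F] in
theorem St.step (T : St o B Q g) {d : ℕ} (hd : d = 0 ∨ d = 2) (k : ℕ) (c : Bool)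
    (h : c = false → Mk d B g (k + 1)) : ∃ b, (b = false → Mk d B g k) ∧ AA d k b c
      (Up (tyE g.toLinearMap) (2 * k + 1), Up (tyE g.toLinearMap) (2 * k + 2), Fl B g k,
        Sn d B g k) := by
  classical
  have P := fun i a => pa_Up (i := i + 1) (a := a) (fun u => prim_of_mem_tyE)
    (gd_isom (σ := RingHom.id F) (B := B) (Q := fun _ => 0) ⟨g, T.isom, fun _ => rfl⟩)
    (tyE_isom (isForm_alt T.alt) T.sep ⟨g, T.isom, fun _ => rfl⟩) i.succ_pos
  have h0 := even_count_alt (g := g.toLinearMap) T.sep T.alt T.isom (odd_two_mul_add_one k)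
  have h1 := P (2 * k) 0 h0
  have h2 : Jb (nn g) (2 * k) → _ := fun e => P (2 * k) 2 (by
    have := Multiset.count_pos.2 (mem_of_jb e)
    obtain ⟨m, hm⟩ := h0
    exact ⟨m - 1, by dsimp only; omega⟩)
  have h3 : ¬ Fl B g k → _ := fun e => P (2 * k + 1) 0 (even_count T.sep T.alt.isRefl T.isom _
    fun x hx => (T.lq_iff hx).2 (by_contra fun e' => e ⟨x, hx, e'⟩))
  have h4 : Fl B g k → Pa 1 _ ∨ Pa 2 _ := fun e => by
    have := Multiset.count_pos.2 (mem_of_jb (T.jb_of_fl e))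
    rcases Nat.even_or_odd' ((tyE g.toLinearMap).count ((X - 1) ^ (2 * k + 1 + 1))) with ⟨m, hm | hm⟩
    · exact .inr (P (2 * k + 1) 2 ⟨m - 1, by dsimp only; omega⟩)
    · exact .inl (P (2 * k + 1) 1 ⟨m, by dsimp only; omega⟩)
  by_cases hs : Sn d B g k
  · refine ⟨false, fun _ => hs.1, ?_⟩
    have h5 : ¬ Fl B g k → Aa 2 0 False True (_, _, Fl B g k, Sn d B g k) := fun e =>
      ⟨h2 (hs.2.1.resolve_left e), h3 e, Prod.ext (eq_false e) (eq_true hs)⟩
    cases c
    · exact h5 (h rfl).1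
    · by_cases e : Fl B g k
      · exact .inr ((h4 e).imp (⟨h1, ·, Prod.ext (eq_true e) (eq_true hs)⟩)
          (⟨h1, ·, Prod.ext (eq_true e) (eq_true hs)⟩))
      · exact .inl (h5 e)
  · refine ⟨true, by simp, ?_⟩
    cases c
    · refine ⟨?_, h3 (h rfl).1, Prod.ext (eq_false (h rfl).1) (eq_false hs)⟩
      rcases hd with rfl | rfl
      · simpa using h1
      · split_ifs with e
        · subst e; exact h2 ((h rfl).2 rfl two_ne_zero)
        · exact h1
    · by_cases e : Fl B g k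
      · exact .inr ((h4 e).imp (⟨h1, ·, Prod.ext (eq_true e) (eq_false hs)⟩)
          (⟨h1, ·, Prod.ext (eq_true e) (eq_false hs)⟩))
      · exact .inl ⟨h1, h3 e, Prod.ext (eq_false e) (eq_false hs)⟩

theorem St.conj {g' : V ≃ₗ[F] V} (T : St o B Q g) (T' : St o B Q g') {d : ℕ} (hd : d ≠ 0 → o)
    (h1 : tyE g.toLinearMap = tyE g'.toLinearMap) (h2 : ∀ k, Fl B g k ↔ Fl B g' k)
    (h3 : ∀ k, Sn d B g k ↔ Sn d B g' k) : ∃ e : V ≃ₗ[F] V,
      (∀ x y, B (e x) (e y) = B x y) ∧ (∀ v, e (g v) = g' (e v)) ∧ (o → ∀ x, Q (e x) = Q x) := by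
  obtain ⟨x, hx⟩ := (tyE_eq_iff _ _).1 h1
  have h4 : ∀ k, Jb (nn g) k ↔ Jb (nn g') k := fun k => ⟨.congr x fun v => by simpa using hx v,
    .congr x.symm fun v => by
      obtain ⟨v, rfl⟩ := x.surjective v
      simpa [x.symm_apply_eq] using (hx v).symm⟩
  refine two_iso _ rfl T T' x hx h2 (fun k h5 h6 => ?_) fun _ _ => Iff.rfl
  by_cases h : k = 0 → d ≠ 0 → Jb (nn g) 0
  · have := h3 (k + 1)
    simp only [Sn, Mk, ← h2, ← h4, Nat.add_sub_cancel] at this
    exact ⟨fun e => (this.1 ⟨⟨h5, h⟩, h6, e⟩).2.2, fun e => (this.2 ⟨⟨h5, h⟩, h6, e⟩).2.2⟩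
  · push Not at h
    obtain ⟨rfl, h7, h8⟩ := h
    obtain ⟨U, π, χ, p, β, S, g₁, D⟩ := T.exists_dr
    obtain ⟨U', π', χ', p', β', S', g₁', D'⟩ := T'.exists_dr
    have h9 := mt (h2 0).2 h5
    rw [D.sg_zero h5, D'.sg_zero h9, ← D.pl_iff T (hd h7) h5 h8,
      ← D'.pl_iff T' (hd h7) h9 (mt (h4 0).2 h8)]

theorem two_count {ι : Type*} [Fintype ι] (r : ι → V ≃ₗ[F] V) (T : ∀ x, St o B Q (r x)) {d : ℕ}
    (hd : d = 0 ∨ d = 2) (ho : d ≠ 0 → o) (hi : ∀ x y (e : V ≃ₗ[F] V), (∀ a b, B (e a) (e b) = B a b) →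
      (∀ v, e (r x v) = r y (e v)) → (o → ∀ v, Q (e v) = Q v) → x = y) {K : ℕ}
    (hK : finrank F V ≤ 2 * K) :
    (Fintype.card ι : ℝ) ≤ PowerSeries.coeff (finrank F V) (GG (Nat.card F) d K true) := by
  classical
  have hs : ∀ x, ∀ u ∈ tyE (r x).toLinearMap, Prim u := fun x u => prim_of_mem_tyE
  have h5 : ∀ x, ∀ u ∈ tyE (r x).toLinearMap, ex u ∈ (range (2 * K)).image (· + 1) := fun x u hu => by
    have := mem_Icc.1 ((mem_finsuppAntidiag.1 (lv_mem (hs x) (finrank_eq_sum_tyE _).symm)).2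
      ((mem_lv (hs x)).2 ⟨u, hu, rfl⟩))
    exact mem_image.2 ⟨ex u - 1, mem_range.2 (by omega), by omega⟩
  have h6 : ∀ x k, Jb (nn (r x)) k → k < 2 * K := fun x k h => by
    have := h5 x _ (mem_of_jb h)
    rw [(rt_ex_pow irr_X_sub_one monic_X_sub_one k.succ_pos).2] at this
    simpa using this
  refine card_le_markov (fun x k => (Up (tyE (r x).toLinearMap) (2 * k + 1),
    Up (tyE (r x).toLinearMap) (2 * k + 2), Fl B (r x) k, Sn d B (r x) k)) sz
    (fun x k c => c = false → Mk d B (r x) k) (AA d) (TT _ d) (GG _ d) rfl rfl (fun x h => h rfl)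
    (fun _ _ => rfl) (gf_AA d) (fun x => (T x).step hd) K true univ _ (by simp) (fun x _ => ?_)
    fun x _ y _ h => ?_
  · rw [finrank_eq_sum_tyE (r x).toLinearMap, ← natDegree_prod_ty fun u hu => (hs x u hu).monic,
      prod_eq_Up (hs x) (h5 x), natDegree_prod_of_monic _ _ fun i _ => (Up_monic (hs x) i).pow i,
      sum_image (by simp)]
    generalize K = k
    induction k with
    | zero => rfl
    | succ k ih =>
      rw [sum_range_succ, ih, mul_add, mul_one, sum_range_succ, sum_range_succ, natDegree_pow,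
        natDegree_pow, add_assoc]; rfl
  · obtain ⟨e, h1, h2, h3⟩ := (T x).conj (T y) ho (eq_of_Up (hs x) (hs y) fun i => by
      by_cases h8 : i ∈ (range (2 * K)).image (· + 1)
      · obtain ⟨j, hj, rfl⟩ := mem_image.1 h8
        have := mem_range.1 hj
        rcases Nat.even_or_odd' j with ⟨m, rfl | rfl⟩
        · exact congrArg (·.1) (h m (by omega))
        · exact congrArg (·.2.1) (h m (by omega))
      · rw [Up, Up, Multiset.filter_eq_nil.2 fun u hu (e : ex u = i) => h8 (e ▸ h5 x u hu),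
          Multiset.filter_eq_nil.2 fun u hu (e : ex u = i) => h8 (e ▸ h5 y u hu)])
      (fun k => by
        by_cases hk : k < K
        · exact iff_of_eq (congrArg (·.2.2.1) (h k hk))
        · have : ∀ x, ¬ Fl B (r x) k := fun x e => by have := h6 x _ ((T x).jb_of_fl e); omega
          exact iff_of_false (this x) (this y))
      fun k => by
        by_cases hk : k < K
        · exact iff_of_eq (congrArg (·.2.2.2) (h k hk))
        · have : ∀ x, ¬ Sn d B (r x) k := fun x e => e.2.1.elim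
            (fun e => by have := h6 x _ ((T x).jb_of_fl e); omega) fun e => by have := h6 x _ e; omega
          exact iff_of_false (this x) (this y)
    exact hi x y e h1 h2 h3

theorem two_le {L : ℝ} {d : ℕ} (hd : d = 0 ∨ d = 2) (ho : d ≠ 0 → o)
    (T : ∀ g : Isom (σ := RingHom.id F) B Q, St o B Q g.1) (hQ : ¬ o → ∀ x y, Q x = Q y) {n : ℕ}
    (hn : finrank F V = 2 * n) [Finite (Isom (σ := RingHom.id F) B Q)]
    (hL : Be (Nat.card F) (GG (Nat.card F) d (n + 6) true) L) :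
    (Nat.card (ConjClasses (Isom (σ := RingHom.id F) B Q)) : ℝ) ≤ L * Nat.card F ^ n := by
  have := Fintype.ofFinite (ConjClasses (Isom (σ := RingHom.id F) B Q))
  choose r hr using ConjClasses.mk_surjective (α := Isom (σ := RingHom.id F) B Q)
  have h5 := two_count (fun x => (r x).1) (fun x => T _) hd ho (K := n + 6) (fun x y e h1 h2 h3 => by
    rw [← hr x, ← hr y, ConjClasses.mk_eq_mk_iff_isConj, isConj_iff]
    exact ⟨⟨e, h1, fun v => by_cases (h3 · v) (hQ · _ _)⟩, mul_inv_eq_iff_eq_mul.2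
      (Subtype.ext (LinearEquiv.ext h2))⟩) (by omega)
  rw [hn, ← Nat.card_eq_fintype_card] at h5
  exact h5.trans (hL.2 n)

theorem two_alt_le (hA : B.IsAlt) (hB : B.SeparatingLeft) {n : ℕ} (hn : finrank F V = 2 * n)
    [Finite (Isom (σ := RingHom.id F) B fun _ => 0)] :
    5 * Nat.card (ConjClasses (Isom (σ := RingHom.id F) B fun _ => 0)) ≤ 76 * Nat.card F ^ n := by
  have := two_le (o := False) (Q := fun _ => 0) (.inl rfl) (· rfl) (fun g => ⟨hA, hB, g.2.1, False.elim, False.elim⟩)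
    (fun _ _ _ => rfl) hn (gg_sp (Nat.ofNat_le_cast.2 Finite.one_lt_card) n)
  rw [← Nat.cast_le (α := ℝ)]
  push_cast
  linarith

theorem two_quad_le (h : IsQuad B Q) (hB : B.SeparatingLeft) {n : ℕ} (hn : finrank F V = 2 * n)
    [Finite (Isom (σ := RingHom.id F) B Q)] :
    Nat.card (ConjClasses (Isom (σ := RingHom.id F) B Q)) ≤ 15 * Nat.card F ^ n := by
  exact_mod_cast two_le (o := True) (.inr rfl) (fun _ => trivial) (fun g => ⟨fun x => by
    rw [h.diag, CharTwo.two_eq_zero, zero_mul], hB, g.2.1, fun _ => h, fun _ => g.2.2⟩)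
    (fun h => (h trivial).elim) hn (gg_o (Nat.ofNat_le_cast.2 Finite.one_lt_card) n)

end Cfsg.Agent.H18.Cn
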