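import Mathlib
import Cfsg.Agent.H18.Cn13
import Cfsg.Agent.H18.Cn20

/-! The Arf invariant and a lower bound for class numbers of orthogonal groups. -/

namespace Cfsg.Agent.H18.Cn

open Polynomial Finset L0 Module H10 H11

universe u

variable {F : Type u} [Field F]

section mat
variable {n : Type*} [Fintype n] [DecidableEq n]

/-- The polynomial `det (1 + X A)`. -/
noncomputable def dX (A : Matrix n n F) : F[X] := (1 + (X : F[X]) • A.map C).det

theorem dX_zero (A : Matrix n n F) : (dX A).coeff 0 = 1 := by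
  rw [dX, Matrix.det_one_add_X_smul]; simp [coeff_X]

theorem dX_add (A D : Matrix n n F) : (dX (A + D)).coeff 2 =
    (dX A).coeff 2 + (dX D).coeff 2 + A.trace * D.trace - (A * D).trace := by
  have h0 : ∀ p q : F[X], (p * q).coeff 2 =
      p.coeff 0 * q.coeff 2 + p.coeff 1 * q.coeff 1 + p.coeff 2 * q.coeff 0 := fun p q => by
    simp [coeff_mul, Nat.antidiagonal_succ, add_assoc]
  have h1 : X ^ 3 ∣ dX A * dX D - dX (A + D) * (1 + (X ^ 2 : F[X]) • (A * D).map C).det := by
    rw [← Ideal.mem_span_singleton, ← Ideal.Quotient.eq, dX, dX, dX, ← Matrix.det_mul,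
      ← Matrix.det_mul, RingHom.map_det, RingHom.map_det]
    congr 1
    ext i j
    refine Ideal.Quotient.eq.2 (Ideal.mem_span_singleton.2
      ⟨-((A + D).map C * (A * D).map C) i j, ?_⟩)
    rw [← Matrix.sub_apply, ← Matrix.neg_apply]
    refine congrFun₂ (?_ : _ = (X ^ 3 : F[X]) • -((A + D).map C * (A * D).map C)) i j
    simp only [Matrix.map_add _ (map_add (C : F →+* F[X])), Matrix.map_mul, mul_add, add_mul, one_mul, mul_one,
      Matrix.smul_mul, Matrix.mul_smul, smul_add]
    module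
  have h2 := X_pow_dvd_iff.1 h1 2 (by simp)
  have h3 : ∀ M : Matrix n n F, (dX M).coeff 1 = M.trace := Matrix.coeff_det_one_add_X_smul_one
  rw [coeff_sub, h0, h0, Matrix.det_one_add_smul, ← AddMonoidHom.map_trace, ← pow_mul] at h2
  simp [dX_zero, h3, coeff_mul_X_pow', coeff_one] at h2
  linear_combination -h2

theorem dX_comm (A D : Matrix n n F) : dX (A * D) = dX (D * A) := by
  rw [dX, dX, Matrix.map_mul, Matrix.map_mul, ← Matrix.smul_mul, Matrix.det_one_add_mul_comm,
    Matrix.mul_smul]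

theorem dX_transpose (A : Matrix n n F) : dX A.transpose = dX A := by
  rw [dX, dX, ← Matrix.det_transpose]; simp [Matrix.transpose_map]

theorem dX_vec (u v : n → F) : (dX (Matrix.vecMulVec u v)).coeff 2 = 0 := by
  rw [dX, Matrix.vecMulVec_eq Unit, Matrix.map_mul, ← Matrix.mul_smul, Matrix.det_one_add_mul_comm]
  simp [Matrix.mul_apply, coeff_one, coeff_X]

end mat

variable {V : Type u} [AddCommGroup V] [Module F V] [FiniteDimensional F V]
  {B : V →ₗ[F] V →ₗ[F] F} {Q : V → F}

/-- The second elementary symmetric function of the eigenvalues. -/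
noncomputable def e2 (T : End F V) : F :=
  (dX (LinearMap.toMatrix (finBasis F V) (finBasis F V) T)).coeff 2

theorem e2_add (S T : End F V) : e2 (S + T) = e2 S + e2 T +
    LinearMap.trace F V S * LinearMap.trace F V T - LinearMap.trace F V (S * T) := by
  simp only [e2, map_add, dX_add, LinearMap.trace_eq_matrix_trace F (finBasis F V),
    LinearMap.toMatrix_mul]

theorem e2_adj (hB : B.SeparatingLeft) {S T : End F V} (h : ∀ x y, B x (T y) = B (S x) y) :
    e2 T = e2 S ∧ LinearMap.trace F V T = LinearMap.trace F V S := by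
  set b := finBasis F V
  have h1 : gram B b * LinearMap.toMatrix b b T = (LinearMap.toMatrix b b S).transpose * gram B b := by
    ext i j
    have := h (b i) (b j)
    rw [← b.sum_repr (T _), ← b.sum_repr (S _)] at this
    simpa [Matrix.mul_apply, LinearMap.toMatrix_apply, mul_comm, -Basis.sum_repr] using this
  have h2 := (gram_det_ne_zero (fun _ => rfl) hB b).isUnit
  have h3 := (Matrix.nonsing_inv_mul_cancel_left _ _ h2).symm.trans (congrArg ((gram B b)⁻¹ * ·) h1)
  simp only [e2, LinearMap.trace_eq_matrix_trace F b]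
  rw [h3, dX_comm, Matrix.trace_mul_comm, Matrix.mul_nonsing_inv_cancel_right _ _ h2, dX_transpose,
    Matrix.trace_transpose]
  exact ⟨rfl, rfl⟩

theorem exists_op (hB : B.SeparatingLeft) (γ : V →ₗ[F] V →ₗ[F] F) :
    ∃ A : End F V, ∀ x y, B (A x) y = γ x y :=
  let E := B.linearEquivOfInjective (LinearMap.separatingLeft_iff_ker_eq_bot.1 hB |>
    LinearMap.ker_eq_bot.1) (Subspace.dual_finrank_eq (K := F) (V := V)).symm
  ⟨E.symm.toLinearMap ∘ₗ γ, fun x y => LinearMap.congr_fun (E.apply_symm_apply (γ x)) y⟩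

variable [CharP F 2]

theorem e2_inv {g T : End F V} (h : (g - 1) * T = 1) :
    g.charpoly.eval 1 * e2 T = (taylor 1 g.charpoly).coeff 2 := by
  set b := finBasis F V
  have h1 := congrArg (fun S => (LinearMap.toMatrix b b S).map C) h
  simp only [LinearMap.toMatrix_mul, map_sub, LinearMap.toMatrix_one, Matrix.map_mul] at h1
  rw [e2, ← coeff_C_mul, ← LinearMap.charpoly_toMatrix g b, Matrix.eval_charpoly, RingHom.map_det, dX,
    ← Matrix.det_mul, Matrix.charpoly, ← taylorAlgHom_apply, AlgHom.map_det, ← neg_sub,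
    RingHom.mapMatrix_apply, Matrix.map_neg _ (by simp), mul_add, Matrix.mul_smul, neg_mul, neg_mul,
    map_one, h1]
  congr 2
  ext i j : 2
  by_cases e : i = j
  · subst e; simp [taylor_X, CharTwo.neg_eq, CharTwo.sub_eq_add]; ring
  · simp [e, Matrix.one_apply_ne e]

theorem e2_alt (hA : B.IsAlt) (hB : B.SeparatingLeft) {A S : End F V}
    (h1 : ∀ x y, B (A x) y + B (A y) x = B x y) (h2 : ∀ x, B (S x) x = 0) :
    ∃ p, e2 (A + S) = e2 A + p * p + p := by
  have h0 : ∀ x y, B x y = B y x := fun x y => by rw [← hA.neg, CharTwo.neg_eq]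
  obtain ⟨γ, hγ⟩ := exists_half (δ := B ∘ₗ S) h2
  obtain ⟨D, hD⟩ := exists_op hB γ
  obtain ⟨E, hE⟩ := exists_op hB γ.flip
  have h3 : ∀ x y, B x (E y) = B (D x) y := fun x y => by rw [h0, hE, hD]; rfl
  obtain rfl : S = D + E := LinearMap.ext fun x => sub_eq_zero.1 (hB _ fun y => by
    have := hγ x y
    simp only [map_sub, map_add, LinearMap.add_apply, LinearMap.sub_apply, hD, hE,
      LinearMap.flip_apply, LinearMap.comp_apply] at this ⊢
    rw [this, CharTwo.sub_eq_add (γ x y), sub_self])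
  have h4 : ∀ x y, B x ((1 - A) y) = B (A x) y := fun x y => by
    simp [← h1 x y, h0 x (A y)]
  have h5 := (e2_adj hB (S := D * (1 - A)) (T := A * E) fun x y => by
    rw [End.mul_apply, h0, ← h4, h0, h3]; rfl).2
  have h6 := (e2_adj hB (S := D * A * E) (T := D * (1 - A) * E) fun x y => by
    simp only [End.mul_apply]
    rw [h0, ← h3, h0, h4, h3]).2
  obtain ⟨h7, h8⟩ := e2_adj hB h3
  refine ⟨LinearMap.trace F V D, ?_⟩
  rw [mul_sub, mul_one, map_sub, LinearMap.trace_mul_comm F D] at h5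
  rw [mul_sub, mul_one, sub_mul, map_sub] at h6
  rw [e2_add, e2_add, h7, map_add, h8, mul_add A, map_add, h5]
  linear_combination -h6 + (e2 D + (LinearMap.trace F V A - 1) * LinearMap.trace F V D -
    LinearMap.trace F V (D * A * E)) * CharTwo.two_eq_zero (R := F)

variable [Finite F]

omit [FiniteDimensional F V] in
theorem exists_sqrt_add {φ : V → F} (h1 : ∀ x y, φ (x + y) = φ x + φ y)
    (h2 : ∀ (c : F) x, φ (c • x) = c * c * φ x) : ∃ l : V →ₗ[F] F, ∀ x, φ x = l x * l x := by
  let fr := frobeniusEquiv F 2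
  have hfr : ∀ a, fr a = a ^ 2 := fun _ => rfl
  exact ⟨⟨⟨fun v => fr.symm (φ v), fun u v => by rw [h1, map_add]⟩, fun c v => fr.injective (by
    simp only [h2, RingEquiv.apply_symm_apply, smul_eq_mul, RingHom.id_apply, map_mul, hfr c, sq])⟩,
    fun x => by rw [← pow_two, ← hfr]; exact (fr.apply_symm_apply _).symm⟩

omit [CharP F 2] in
theorem real_of_pal {f : F[X]} (hf : Pal f) : ∃ s, Real (RingHom.id F) (-1) 0 0 s ∧ s.prod = f ∧
    (s.map natDegree).sum = f.natDegree := by
  obtain ⟨s, h1, h3, rfl, h4⟩ := (tw_dl (σ := RingHom.id F) fun _ => rfl).exists_type hf.gd hf.2.2.2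
  have h5 := natDegree_prod_ty fun u hu => (h1 u hu).2
  exact ⟨s, real_alt_semis (fun u hu => (h1 u hu).1) h3 h4 (h5 ▸ hf.2.1) hf.2.2.1, rfl, h5.symm⟩

theorem real_arf (h : IsQuad B Q) (hB : B.SeparatingLeft) : ∃ c : F, ∀ f : F[X], Pal f →
    f.natDegree = finrank F V → f.eval 1 ≠ 0 →
    (∃ s, (taylor 1 f).coeff 2 = f.eval 1 * (c + s * s + s)) →
    ∃ g : Isom (σ := RingHom.id F) B Q, (tyE g.1.toLinearMap).prod = f := by
  have hA : B.IsAlt := fun x => by rw [h.diag, CharTwo.two_eq_zero, zero_mul]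
  have h0 : ∀ x y, B x y = B y x := fun x y => by rw [← hA.neg, CharTwo.neg_eq]
  have t := CharTwo.two_eq_zero (R := F)
  obtain ⟨γ, hγ⟩ := exists_half hA
  obtain ⟨l₀, hl₀⟩ := exists_sqrt_add (φ := fun x => Q x + γ x x) (fun x y => by
    simp only [h.add, hγ x y, map_add, LinearMap.add_apply, AddMonoidHom.id_apply]
    linear_combination γ x y * t) fun c x => by simp [h.smul]; ring
  obtain ⟨A, hA1⟩ := exists_op hB (γ + (LinearMap.mul F F).compl₁₂ l₀ l₀)
  have hA2 : ∀ x y, B (A x) y + B (A y) x = B x y := fun x y => by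
    simp only [hA1, hγ x y, LinearMap.add_apply, LinearMap.compl₁₂_apply, LinearMap.mul_apply']
    linear_combination (γ y x + l₀ x * l₀ y) * t
  have hA3 : ∀ x, B (A x) x = Q x := fun x => by
    simp only [hA1, LinearMap.add_apply, LinearMap.compl₁₂_apply, LinearMap.mul_apply', ← hl₀]
    linear_combination γ x x * t
  refine ⟨e2 A, fun f hf hn h1 ⟨s, hs⟩ => ?_⟩
  obtain ⟨r, ⟨W, _, _, _, B', Q', e1, e3, e4⟩, rfl, e5⟩ := real_of_pal hf
  have hA' : B'.IsAlt := fun x => by simpa using e1.diag x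
  obtain ⟨e, he⟩ := alt_isometric (hA'.isRefl.nondegenerate_iff_separatingLeft.mpr e3) hA'
    (hA.isRefl.nondegenerate_iff_separatingLeft.mpr hB) hA (e4.finrank_eq.trans (e5.trans hn))
  obtain ⟨g, rfl⟩ := e4.sim (B' := B) (Q' := fun _ => 0) e (a := 1) (by simpa) fun x => by
    simpa using (e1.tv x).choose_spec.symm
  rw [← charpoly_eq_prod_tyE] at h1 hs
  obtain ⟨T, h2⟩ : ∃ T, (g.1.toLinearMap - 1) * T = 1 := by
    rw [LinearMap.eval_charpoly, map_one] at h1
    obtain ⟨T, h⟩ := ((LinearMap.isUnit_iff_isUnit_det _).2 h1.isUnit).exists_right_inv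
    exact ⟨-T, by rw [← neg_sub, neg_mul_neg, h]⟩
  have h3 : ∀ x, g.1 (T x) = T x + x := fun x => eq_add_of_sub_eq' (LinearMap.congr_fun h2 x)
  have h4 : ∀ x y, B (T x) y + B (T y) x = B x y := fun x y => by
    have := g.2.1 (T x) (T y)
    simp only [h3, map_add, LinearMap.add_apply, h0 x (T y)] at this
    linear_combination this - B x y * t
  obtain ⟨l, hl⟩ := exists_sqrt (δ := B ∘ₗ (T - A)) fun x y => by
    simp only [LinearMap.comp_apply, LinearMap.sub_apply, map_sub]
    linear_combination h4 x y - hA2 x y + (B (A y) x - B (T y) x) * t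
  simp only [LinearMap.comp_apply, LinearMap.sub_apply, map_sub, hA3] at hl
  obtain ⟨v, rfl⟩ := exists_form_eq (σ := RingHom.id F) (fun _ => rfl) hB l
  obtain ⟨p, hp⟩ := e2_alt hA hB (A := A + (B v).smulRight v) (S := T - A - (B v).smulRight v)
    (fun x y => by
      simp only [LinearMap.add_apply, map_add, LinearMap.smulRight_apply, map_smul,
        LinearMap.smul_apply, smul_eq_mul]
      linear_combination hA2 x y + B v x * B v y * t) fun x => by simp [hA3, hl]
  rw [sub_sub, add_sub_cancel, e2_add, LinearMap.trace_smulRight, hA v, e2.eq_def (LinearMap.smulRight _ _), LinearMap.toMatrix_smulRight,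
    dX_vec, show A * (B v).smulRight v = (B v).smulRight (A v) from LinearMap.ext fun x => by simp,
    LinearMap.trace_smulRight, h0, hA3, mul_left_cancel₀ h1 ((e2_inv h2).trans hs)] at hp
  obtain ⟨c, hc⟩ : ∃ c, c * c * Q v + c = 1 := by
    by_cases h5 : s + p = 0
    · exact ⟨1, by linear_combination hp + (p - s + 1) * h5 - s * t⟩
    · exact ⟨(s + p)⁻¹, by field_simp; linear_combination hp + (p - s * s - s * p) * t⟩
  obtain ⟨k, h5, h6⟩ := IsForm.exists_isom_of_linear (σ := RingHom.id F) (Q := fun _ => 0) hB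
    (LinearMap.id + c • (B v).smulRight v) (fun x y => by
      simp only [LinearMap.add_apply, map_add, LinearMap.smulRight_apply, map_smul,
        LinearMap.smul_apply, smul_eq_mul, LinearMap.id_apply, hA v, h0 x v]
      linear_combination c * B v x * B v y * t) fun _ => rfl
  have h7 : g.1.toLinearMap * T = T * g.1.toLinearMap := by
    have := mul_eq_one_comm.1 h2
    rw [sub_mul, sub_eq_iff_eq_add] at h2
    rw [mul_sub, sub_eq_iff_eq_add] at this
    rw [h2, this, one_mul, mul_one]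
  obtain ⟨a, ha⟩ := RealIn.sim (B := B) (Q := fun x => B (T x) x) (B' := B) (Q' := Q)
    ⟨⟨g.1, g.2.1, fun x => (congrArg (B · _) (LinearMap.congr_fun h7 x).symm).trans
      (g.2.1 (T x) x)⟩, rfl⟩ k (a := 1) (by simpa using h5.1) fun x => by
      simp only [h6, LinearMap.add_apply, h.add, h.smul, LinearMap.smulRight_apply, map_smul,
        LinearMap.smul_apply, smul_eq_mul, LinearMap.id_apply, h0 x v, RingHom.id_apply,
        AddMonoidHom.id_apply]
      linear_combination B v x * B v x * hc - hl x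
  exact ⟨a, congrArg Multiset.prod ha⟩

theorem real_root_two (h : IsQuad B Q) (hB : B.SeparatingLeft) {f : F[X]} (hf : Pal f)
    (hn : f.natDegree = finrank F V) (h0 : f.eval 1 = 0) :
    ∃ g : Isom (σ := RingHom.id F) B Q, (tyE g.1.toLinearMap).prod = f := by
  have T := tw_dl (σ := RingHom.id F) fun _ => rfl
  have h1 := gd_X_sub_C (F := F) one_ne_zero
  have key : ∀ f : F[X], Gd f → dl (RingHom.id F) f = f → f.eval 1 = 0 →
      ∃ g, f = (X - C 1) * g ∧ Gd g ∧ dl (RingHom.id F) g = g := fun f h3 h4 h5 => by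
    obtain ⟨g, rfl⟩ := dvd_iff_isRoot.2 h5
    have h6 := h3.of_dvd (h1.1.of_mul_monic_left h3.1) (dvd_mul_left _ _)
    rw [T.mul _ _ h1 h6, dl_X_sub_C (by simp)] at h4
    exact ⟨g, rfl, h6, mul_left_cancel₀ h1.1.ne_zero h4⟩
  obtain ⟨g, rfl, h3, h4⟩ := key f hf.gd hf.2.2.2 h0
  have h9 := hf.2.1
  rw [h1.1.natDegree_mul h3.1, natDegree_X_sub_C] at hn h9
  obtain ⟨w, rfl, h5, h6⟩ := key g h3 h4 (by_contra fun e => by
    have := (pal_of_eval_two h4 h3.1 e).2.1
    grind)
  rw [h1.1.natDegree_mul h5.1, natDegree_X_sub_C] at hn h9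
  obtain ⟨s, h7, rfl, h8⟩ := real_of_pal (f := w) ⟨h5.1, by grind, by simpa using hf.2.2.1, h6⟩
  obtain ⟨k, hk⟩ := realIn_quad_even h hB h7.quad_of_alt (j := 0) (hn ▸ h9) (by omega)
  obtain rfl : k = 2 := by
    have := hk.finrank_eq
    simp [natDegree_X_sub_one] at this
    omega
  obtain ⟨g, hg⟩ := hk
  exact ⟨g, (congrArg Multiset.prod hg).trans (by simp [sq, mul_assoc, mul_comm])⟩

theorem two_quad_ge (h : IsQuad B Q) (hB : B.SeparatingLeft) {m : ℕ}
    (hn : finrank F V = 2 * (m + 2)) [Finite (Isom (σ := RingHom.id F) B Q)] :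
    Nat.card F ^ (m + 2) ≤ 2 * Nat.card (ConjClasses (Isom (σ := RingHom.id F) B Q)) := by
  classical
  have t := CharTwo.two_eq_zero (R := F)
  let Ω := {f : F[X] // Pal f ∧ f.natDegree = 2 * (m + 2)}
  have : Finite Ω := Nat.finite_of_card_ne_zero (by rw [card_pal]; exact pow_ne_zero _ Nat.card_pos.ne')
  let R : Ω → Prop := fun f => ∃ g : Isom (σ := RingHom.id F) B Q, (tyE g.1.toLinearMap).prod = f.1
  have h1 := card_real_le (ι := {f // R f}) (·.1.1) (fun a b e => Subtype.ext (Subtype.ext e)) (·.2)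
  obtain ⟨c, hc⟩ := real_arf h hB
  obtain ⟨ν, hν⟩ : ∃ z : F, ∀ t, t ^ 2 + t + z ≠ 0 := by_contra fun e => by
    push Not at e
    exact zero_ne_one ((Finite.injective_iff_surjective (f := fun t : F => t ^ 2 + t)).2
      (fun z => (e z).imp fun a ha => by linear_combination ha - z * t) (by simp [CharTwo.add_self_eq_zero]))
  have h2 : (X ^ (m + 1) + X ^ (m + 3) : F[X]) = X ^ (m + 1) * (X - C 1) ^ 2 := by
    rw [CharTwo.sub_eq_add, CharTwo.add_sq]; simp; ring
  have h3 : ∀ a (f : Ω), Pal (f.1 + C a * (X ^ (m + 1) + X ^ (m + 3))) ∧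
      (f.1 + C a * (X ^ (m + 1) + X ^ (m + 3))).natDegree = 2 * (m + 2) := fun a f => by
    obtain ⟨h1, h3, h4⟩ := pal_iff.1 f.2
    simp only [pal_iff, coeff_add, coeff_C_mul, coeff_X_pow]
    refine ⟨by simp [h1], fun i hi => ?_, fun i hi => ?_⟩
    · rw [h3 i hi, if_neg (by omega), if_neg (by omega)]; simp
    · rw [h4 i hi, add_comm (if i = m + 1 then _ else _)]
      congr 3 <;> exact if_congr (by omega) rfl rfl
  have h4 : ∀ a (f : F[X]), (f + C a * (X ^ (m + 1) + X ^ (m + 3))).eval 1 = f.eval 1 :=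
    fun a f => by simp [h2]
  have h7 : ∀ f : {f // ¬ R f}, f.1.1.eval 1 ≠ 0 := fun f e =>
    f.2 (real_root_two h hB f.1.2.1 (f.1.2.2.trans hn.symm) e)
  have h8 : Nat.card {f // ¬ R f} ≤ Nat.card {f // R f} := by
    refine Nat.card_le_card_of_injective (fun f => ⟨⟨_, h3 (f.1.1.eval 1 * ν) f.1⟩, ?_⟩)
      fun a b e => Subtype.ext (Subtype.ext ?_)
    · obtain ⟨s, -, hs⟩ := exists_norm_form_root (z := (taylor 1 f.1.1).coeff 2 / f.1.1.eval 1 + c)
        (fun s e => f.2 (hc _ f.1.2.1 (f.1.2.2.trans hn.symm) (h7 f) ⟨s, by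
          have := h7 f
          field_simp at e
          linear_combination e - f.1.1.eval 1 * (c + s * s + s) * t⟩)) hν
      refine hc _ (h3 _ _).1 ((h3 _ _).2.trans hn.symm) ((h4 _ _).trans_ne (h7 f)) ⟨s, ?_⟩
      have := h7 f
      dsimp only
      rw [h4, h2, map_add, taylor_mul, taylor_mul, taylor_C, coeff_add, coeff_C_mul, taylor_pow,
        taylor_pow, map_sub, taylor_X, taylor_C, add_sub_cancel_right, coeff_mul_X_pow']
      simp only [t, zero_mul, sub_zero, mul_one, one_mul] at hs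
      simp [coeff_zero_eq_eval_zero, ← hs]
      field_simp
      linear_combination (taylor 1 f.1.1).coeff 2 * t
    · have h8 := Subtype.mk.inj (Subtype.mk.inj e)
      have h9 := congrArg (eval 1) h8
      rw [h4, h4] at h9
      rwa [h9, add_left_inj] at h8
  rw [← card_pal, ← Nat.card_congr (Equiv.sumCompl R), Nat.card_sum]
  omega

end Cfsg.Agent.H18.Cn
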