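import Cfsg.Agent.H18.Dc2

/-! The double cover of the alternating group inside a Clifford algebra. -/

set_option autoImplicit false
set_option linter.unusedSectionVars false

namespace Cfsg.Agent.H18.Dc

open Equiv Equiv.Perm
open scoped commutatorElement

variable {α : Type} [Fintype α] [DecidableEq α]

/-- lifts of transpositions -/
structure Tr {G : Type} [Group G] (π : G →* Perm α) (z : G) (t : α → α → G) : Prop where
  cen : ∀ g, g * z = z * g
  zz : z * z = 1
  πz : π z = 1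
  πt : ∀ a b, a ≠ b → π (t a b) = swap a b
  tt : ∀ a b, a ≠ b → t a b * t a b = 1
  sym : ∀ a b, a ≠ b → t b a = z * t a b
  conj : ∀ a b c d, a ≠ b → c ≠ d → t a b * t c d * t a b = z * t (swap a b c) (swap a b d)

/-- generators -/
def tgens {G : Type} (z : G) (t : α → α → G) (S : Finset α) : Set G :=
  {g | g = z ∨ ∃ a ∈ S, ∃ b ∈ S, a ≠ b ∧ g = t a b}

namespace Tr

variable {G : Type} [Group G] {π : G →* Perm α} {z : G} {t : α → α → G} (H : Tr π z t)
include H

theorem inv_gen {S : Finset α} {y : G} (hy : y ∈ tgens z t S) : y⁻¹ = y := by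
  rcases hy with rfl | ⟨a, -, b, -, h, rfl⟩
  · exact inv_eq_of_mul_eq_one_left H.zz
  · exact inv_eq_of_mul_eq_one_left (H.tt a b h)

theorem fix {S : Finset α} {g : G} (hg : g ∈ Subgroup.closure (tgens z t S)) {x : α}
    (hx : x ∉ S) : π g x = x := by
  induction hg using Subgroup.closure_induction with
  | mem y hy =>
    rcases hy with rfl | ⟨a, ha, b, hb, d, rfl⟩
    · rw [H.πz]; rfl
    · rw [H.πt a b d, swap_apply_of_ne_of_ne] <;> rintro rfl <;> contradiction
  | one => simp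
  | mul y z _ _ h1 h2 => simp [h1, h2]
  | inv y _ h1 => rw [map_inv, Perm.inv_eq_iff_eq, h1]

theorem step {S : Finset α} {m : α} (hm : m ∉ S) {g : G}
    (hg : g ∈ Subgroup.closure (tgens z t (insert m S))) :
    g ∈ Subgroup.closure (tgens z t S) ∨ ∃ i ∈ S, ∃ h ∈ Subgroup.closure (tgens z t S),
      g = h * t m i := by
  set A := Subgroup.closure (tgens z t S)
  have hz : z ∈ A := Subgroup.subset_closure (Or.inl rfl)
  have ht : ∀ a ∈ S, ∀ b ∈ S, a ≠ b → t a b ∈ A := fun a ha b hb d =>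
    Subgroup.subset_closure (Or.inr ⟨a, ha, b, hb, d, rfl⟩)
  have ne : ∀ a ∈ S, m ≠ a := fun a ha h => hm (h ▸ ha)
  let Q : G → Prop := fun g => g ∈ A ∨ ∃ i ∈ S, ∃ h ∈ A, g = h * t m i
  have Qz : ∀ g, Q g → Q (g * z) := by
    rintro g (h | ⟨i, hi, h, hh, rfl⟩)
    · exact Or.inl (A.mul_mem h hz)
    · exact Or.inr ⟨i, hi, h * z, A.mul_mem hh hz, by rw [mul_assoc, H.cen, mul_assoc]⟩
  have Qm : ∀ g, ∀ k ∈ S, Q g → Q (g * t m k) := by
    rintro g k hk (h | ⟨i, hi, h, hh, rfl⟩)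
    · exact Or.inr ⟨k, hk, g, h, rfl⟩
    by_cases e : k = i
    · subst e
      exact Or.inl (by rw [mul_assoc, H.tt _ _ (ne k hk), mul_one]; exact hh)
    have h1 := H.conj m i m k (ne i hi) (ne k hk)
    rw [swap_apply_left, swap_apply_of_ne_of_ne (ne k hk).symm e] at h1
    refine Or.inr ⟨i, hi, h * (z * t i k), A.mul_mem hh (A.mul_mem hz (ht i hi k hk (Ne.symm e))), ?_⟩
    rw [← h1, mul_assoc h (_ * _), mul_assoc (t m i * t m k), H.tt _ _ (ne i hi), mul_one, mul_assoc]
  have QG : ∀ g, ∀ y ∈ tgens z t (insert m S), Q g → Q (g * y) := by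
    rintro g y (rfl | ⟨a, ha, b, hb, d, rfl⟩) hg
    · exact Qz g hg
    rcases Finset.mem_insert.1 ha with rfl | ha'
    · exact Qm g b (Finset.mem_of_mem_insert_of_ne hb d.symm) hg
    rcases Finset.mem_insert.1 hb with rfl | hb'
    · rw [H.sym _ _ d.symm, ← mul_assoc]
      exact Qm _ a ha' (Qz g hg)
    rcases hg with h | ⟨i, hi, h, hh, rfl⟩
    · exact Or.inl (A.mul_mem h (ht a ha' b hb' d))
    have h1 := H.conj a b m i d (ne i hi)
    rw [swap_apply_of_ne_of_ne (ne a ha') (ne b hb')] at h1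
    refine Or.inr ⟨swap a b i, by rw [swap_apply_def]; split_ifs <;> assumption, h * t a b * z,
      A.mul_mem (A.mul_mem hh (ht a ha' b hb' d)) hz, ?_⟩
    rw [mul_assoc _ z, ← h1, ← mul_assoc, ← mul_assoc, mul_assoc h, mul_assoc h, H.tt a b d, mul_one,
      mul_assoc]
  change Q g
  induction hg using Subgroup.closure_induction_right with
  | one => exact Or.inl A.one_mem
  | mul_right x _ y hy hx => exact QG x y hy hx
  | mul_inv_cancel x _ y hy hx => rw [H.inv_gen hy]; exact QG x y hy hx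

theorem ker_le (S : Finset α) {g : G} (hg : g ∈ Subgroup.closure (tgens z t S)) (h1 : π g = 1) :
    g ∈ Subgroup.zpowers z := by
  induction S using Finset.induction_on with
  | empty =>
    refine (Subgroup.closure_le _).2 ?_ hg
    rintro y (rfl | ⟨a, ha, -⟩)
    · exact Subgroup.mem_zpowers _
    · simp at ha
  | insert m S hm ih =>
    rcases H.step hm hg with h | ⟨i, hi, h, hh, rfl⟩
    · exact ih h
    exfalso
    have d : m ≠ i := fun h => hm (h ▸ hi)
    have h2 := congrArg (fun σ : Perm α => σ m) h1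
    simp only [map_mul, Perm.mul_apply, H.πt m i d, swap_apply_left, Perm.one_apply] at h2
    exact d ((π h).injective ((H.fix hh hm).trans h2.symm))

theorem exists_cover (h4 : 4 ≤ Fintype.card α) (hz : z ≠ 1) :
    ∃ (Γ : Type) (_ : Group Γ) (_ : Finite Γ) (ρ : Γ →* Perm α) (w : Γ), Ce ρ ∧ orderOf w = 2 ∧
      w ∈ commutator Γ ∧ ∀ g, ρ g = 1 ↔ g ∈ Subgroup.zpowers w := by
  let A := Subgroup.closure (tgens z t Finset.univ)
  let Γ := A ⊓ (alternatingGroup α).comap π
  have hzA : z ∈ A := Subgroup.subset_closure (Or.inl rfl)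
  have ht : ∀ a b, a ≠ b → t a b ∈ A := fun a b d =>
    Subgroup.subset_closure (Or.inr ⟨a, by simp, b, by simp, d, rfl⟩)
  let w : Γ := ⟨z, hzA, by simp [H.πz]⟩
  have hw : orderOf w = 2 := by
    rw [← Subgroup.orderOf_coe]
    exact orderOf_eq_prime (by rw [sq]; exact H.zz) hz
  have hk : ∀ g : Γ, (π.comp Γ.subtype) g = 1 ↔ g ∈ Subgroup.zpowers w := fun g => by
    constructor
    · intro h
      obtain ⟨n, hn⟩ := H.ker_le _ g.2.1 h
      exact ⟨n, Subtype.ext hn⟩
    · rintro ⟨n, rfl⟩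
      simp [w, H.πz]
  have hk' : (π.comp Γ.subtype).ker = Subgroup.zpowers w := Subgroup.ext hk
  have hfin : Finite Γ := by
    rw [(π.comp Γ.subtype).finite_iff_finite_ker_range, hk']
    refine ⟨Nat.finite_of_card_ne_zero ?_, inferInstance⟩
    rw [Nat.card_zpowers, hw]; norm_num
  have h2 : ∀ a b c d, a ≠ b → c ≠ d → t a b * t c d ∈ Γ := fun a b c d h h' =>
    ⟨A.mul_mem (ht a b h) (ht c d h'), by simp [H.πt, h, h']⟩
  refine ⟨Γ, inferInstance, hfin, π.comp Γ.subtype, w, ⟨fun y hy g => ?_, fun σ hσ => ?_,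
    fun g => g.2.2⟩, hw, ?_, hk⟩
  · obtain ⟨n, rfl⟩ := (hk y).1 hy
    exact ((show Commute g w from Subtype.ext (H.cen g)).zpow_right n).eq
  · have h1 : σ ∈ A.map π := by
      have : σ ∈ Subgroup.closure {σ : Perm α | σ.IsSwap} := by rw [closure_isSwap]; trivial
      refine (Subgroup.closure_le _).2 ?_ this
      rintro _ ⟨a, b, h, rfl⟩
      exact ⟨t a b, ht a b h, H.πt a b h⟩
    obtain ⟨g, hg, rfl⟩ := h1
    exact ⟨⟨g, hg, hσ⟩, rfl⟩
  · obtain ⟨i, k, a, b, ⟨ia, ib, ab⟩, ⟨ka, kb, -⟩, ik⟩ := exists_four h4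
    have e : w = ⁅(⟨_, h2 i a k b ia kb⟩ : Γ), (⟨_, h2 i k a b ik ab⟩ : Γ)⁆ := by
      refine Subtype.ext ?_
      change z = t i a * t k b * (t i k * t a b) * (t i a * t k b)⁻¹ * (t i k * t a b)⁻¹
      have i1 := inv_eq_of_mul_eq_one_left (H.tt i a ia)
      have i2 := inv_eq_of_mul_eq_one_left (H.tt k b kb)
      have c1 := H.conj k b i k kb ik
      have c2 := H.conj k b a b kb ab
      have c3 := H.conj i a i b ia ib
      have c4 := H.conj i a a k ia ka.symm
      have c5 := H.conj i k a b ik ab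
      rw [swap_apply_left, swap_apply_of_ne_of_ne ik ib] at c1
      rw [swap_apply_right, swap_apply_of_ne_of_ne ka.symm ab] at c2
      rw [swap_apply_left, swap_apply_of_ne_of_ne ib.symm ab.symm] at c3
      rw [swap_apply_right, swap_apply_of_ne_of_ne ik.symm ka] at c4
      rw [swap_apply_of_ne_of_ne ia.symm ka.symm, swap_apply_of_ne_of_ne ib.symm kb.symm] at c5
      have q1 : t k b * (t i k * t a b) * t k b = t i b * t a k := by
        calc _ = t k b * t i k * (t k b * t k b) * t a b * t k b := by rw [H.tt k b kb]; group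
          _ = (t k b * t i k * t k b) * (t k b * t a b * t k b) := by group
          _ = z * (t i b * z) * t a k := by rw [c1, c2]; group
          _ = _ := by rw [H.cen, ← mul_assoc, H.zz, one_mul]
      have q2 : t i a * (t i b * t a k) * t i a = t a b * t i k := by
        calc _ = t i a * t i b * (t i a * t i a) * t a k * t i a := by rw [H.tt i a ia]; group
          _ = (t i a * t i b * t i a) * (t i a * t a k * t i a) := by group
          _ = z * (t a b * z) * t i k := by rw [c3, c4]; group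
          _ = _ := by rw [H.cen, ← mul_assoc, H.zz, one_mul]
      have q3 : t i k * t a b = z * (t a b * t i k) := by
        rw [← mul_assoc, ← c5, mul_assoc, H.tt i k ik, mul_one]
      rw [mul_inv_rev, i1, i2, eq_mul_inv_iff_mul_eq]
      calc _ = t a b * t i k := by rw [q3, ← mul_assoc, H.zz, one_mul]
        _ = _ := by rw [← q2, ← q1]; group
    rw [e]
    exact Subgroup.commutator_mem_commutator (Subgroup.mem_top _) (Subgroup.mem_top _)

end Tr

/-- the sum of squares over the field with seven elements -/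
noncomputable def Q7 (α : Type) [Fintype α] : QuadraticForm (ZMod 7) (α → ZMod 7) :=
  LinearMap.BilinMap.toQuadraticMap (dotProductBilin (ZMod 7) (ZMod 7))

/-- normalised root vectors -/
def rv (a b : α) : α → ZMod 7 := (5 : ZMod 7) • (Pi.single a 1 - Pi.single b 1)

theorem dot_rv (a b : α) (w : α → ZMod 7) : rv a b ⬝ᵥ w = 5 * (w a - w b) := by
  simp [rv]

theorem Q7_rv {a b : α} (h : a ≠ b) : Q7 α (rv a b) = 1 := by
  change rv a b ⬝ᵥ rv a b = 1
  rw [dot_rv]
  simp [rv, h, h.symm]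
  decide

theorem refl_rv {a b : α} (h : a ≠ b) (w : α → ZMod 7) :
    QuadraticMap.polar (Q7 α) (rv a b) w • rv a b - Q7 α (rv a b) • w = -(w ∘ swap a b) := by
  rw [Q7_rv h, Q7, LinearMap.BilinMap.polar_toQuadraticMap]
  change (rv a b ⬝ᵥ w + w ⬝ᵥ rv a b) • rv a b - _ = _
  rw [dotProduct_comm w, dot_rv]
  have h7 : (7 : ZMod 7) = 0 := rfl
  ext x
  by_cases h1 : x = a
  · subst h1
    simp [rv, h]
    linear_combination (7 * (w x - w b)) * h7
  by_cases h2 : x = b
  · subst h2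
    simp [rv, h1]
    linear_combination (7 * (w x - w a)) * h7
  simp [rv, h1, h2, swap_apply_of_ne_of_ne]

theorem rv_swap (a b c d : α) : rv c d ∘ swap a b = rv (swap a b c) (swap a b d) := by
  ext x
  simp [rv, Pi.single_apply, swap_apply_eq_iff]

/-- the lift of a transposition -/
noncomputable def tc (a b : α) : (CliffordAlgebra (Q7 α))ˣ × Perm α :=
  if h : a ≠ b then (⟨CliffordAlgebra.ι (Q7 α) (rv a b), CliffordAlgebra.ι (Q7 α) (rv a b),
    by simp [Q7_rv h], by simp [Q7_rv h]⟩, swap a b) else 1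

theorem tr_clifford : Tr (MonoidHom.snd _ _) ((-1, 1) : (CliffordAlgebra (Q7 α))ˣ × Perm α) tc where
  cen g := by ext <;> simp
  zz := by ext <;> simp
  πz := rfl
  πt a b h := by simp [tc, h]
  tt a b h := by ext <;> simp [tc, h, Q7_rv h]
  sym a b h := by
    refine Prod.ext (Units.ext ?_) ?_
    · simp only [tc, dif_pos h, dif_pos h.symm, Prod.fst_mul, Units.val_mul, Units.val_neg,
        Units.val_one, neg_mul, one_mul, ← map_neg]
      congr 1
      simp [rv, ← smul_neg]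
    · simp [tc, h, h.symm, swap_comm]
  conj a b c d h h' := by
    have h2 : swap a b c ≠ swap a b d := (swap a b).injective.ne h'
    refine Prod.ext (Units.ext ?_) ?_
    · simp only [tc, dif_pos h, dif_pos h', dif_pos h2, Prod.fst_mul, Units.val_mul, Units.val_neg,
        Units.val_one, neg_mul, one_mul]
      rw [CliffordAlgebra.ι_mul_ι_mul_ι, refl_rv h, rv_swap, map_neg]
    · simp [tc, h, h', h2, swap_apply_apply]

theorem neg_one_ne7 : (-1 : ZMod 7) ≠ 1 := by decide

theorem exists_cover (h4 : 4 ≤ Fintype.card α) :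
    ∃ (Γ : Type) (_ : Group Γ) (_ : Finite Γ) (ρ : Γ →* Perm α) (w : Γ), Ce ρ ∧ orderOf w = 2 ∧
      w ∈ commutator Γ ∧ ∀ g, ρ g = 1 ↔ g ∈ Subgroup.zpowers w := by
  refine tr_clifford.exists_cover h4 fun h => ?_
  haveI : Fact (Nat.Prime 7) := ⟨by norm_num⟩
  haveI : Invertible (2 : ZMod 7) := ⟨4, rfl, rfl⟩
  have h1 : (-1 : CliffordAlgebra (Q7 α)) = 1 := congrArg (fun x => x.1.val) h
  have h2 : algebraMap (ZMod 7) (CliffordAlgebra (Q7 α)) (-1) = algebraMap _ _ 1 := by simpa using h1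
  exact neg_one_ne7 ((algebraMap (ZMod 7) (CliffordAlgebra (Q7 α))).injective h2)

theorem Ce.quot {Γ : Type*} [Group Γ] {π : Γ →* Perm α} (H : Ce π) (Z : Subgroup Γ) [Z.Normal]
    (h : ∀ g, π g = 1 ↔ g ∈ Z) : Nonempty (Γ ⧸ Z ≃* alternatingGroup α) := by
  let π' : Γ →* alternatingGroup α := π.codRestrict _ H.even
  have hs : Function.Surjective π' := fun σ => by
    obtain ⟨g, hg⟩ := H.surj σ σ.2
    exact ⟨g, Subtype.ext hg⟩
  have hk : Z = π'.ker := by
    ext g
    rw [← h, MonoidHom.mem_ker, Subtype.ext_iff]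
    rfl
  exact ⟨(QuotientGroup.quotientMulEquivOfEq hk).trans
    (QuotientGroup.quotientKerEquivOfSurjective π' hs)⟩

theorem invol_type {σ : Perm α} (h7 : Fintype.card α ≤ 7) (hs : sign σ = 1) (ho : orderOf σ = 2) :
    σ.cycleType = Multiset.replicate 2 2 := by
  obtain ⟨m, hm⟩ := cycleType_prime_order (σ := σ) (ho ▸ Nat.prime_two)
  have h1 := sum_cycleType_le σ
  rw [sign_of_cycleType] at hs
  rw [hm, ho] at h1 hs ⊢
  simp only [Multiset.sum_replicate, smul_eq_mul, Multiset.card_replicate] at h1 hs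
  have h2 : m < 3 := by omega
  interval_cases m
  · exact absurd hs (by decide)
  · rfl
  · exact absurd hs (by decide)

theorem TT_ne {i k a b : α} (h : D i a b) (h' : D k a b) (hik : i ≠ k) :
    (T i a b * T k a b) i = a := by
  rw [Perm.mul_apply, T_other hik h.1 h.2.1, T_fst h]

theorem invol_eq {σ : Perm α} (h7 : Fintype.card α ≤ 7) (hs : sign σ = 1) (ho : orderOf σ = 2) :
    ∃ i k a b, D i a b ∧ D k a b ∧ i ≠ k ∧ σ = T i a b * T k a b := by
  have h1 := invol_type h7 hs ho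
  have h2 := sum_cycleType_le σ
  rw [h1] at h2
  obtain ⟨i, k, a, b, d, d', hik⟩ := exists_four (α := α) h2
  have h3 := invol_type (σ := T i a b * T k a b) h7 (by simp [sign_T d, sign_T d']) (by
    refine orderOf_eq_prime ?_ fun h => ?_
    · rw [T_sq d d' hik]
      obtain ⟨h1, h2, h3⟩ := d
      obtain ⟨h4, h5, -⟩ := d'
      ext x
      simp only [sq, Perm.mul_apply, swap_apply_def, Perm.one_apply]
      grind
    · have := TT_ne d d' hik
      rw [h] at this
      exact d.1 this)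
  obtain ⟨g, hg⟩ := isConj_iff.1 (isConj_iff_cycleType_eq.2 (h3.trans h1.symm))
  refine ⟨g i, g k, g a, g b, d.map g, d'.map g, g.injective.ne hik, ?_⟩
  rw [← hg, ← T_conj, ← T_conj]; group

theorem sq_of_card_two {Γ : Type*} [Group Γ] {Z : Subgroup Γ} (h : Nat.card Z = 2) {w : Γ}
    (hw : w ∈ Z) : w * w = 1 := by
  have := pow_card_eq_one' (x := (⟨w, hw⟩ : Z))
  rw [h, sq] at this
  exact congrArg Subtype.val this

theorem unique_invol {Γ : Type*} [Group Γ] [Finite Γ] (h7 : Fintype.card α ≤ 7)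
    (hZ : Nat.card (Subgroup.center Γ) = 2) (e : Γ ⧸ Subgroup.center Γ ≃* alternatingGroup α)
    (hn : ∀ L : Subgroup Γ, ¬(Subgroup.center Γ).IsComplement' L) {x y : Γ} (hx : orderOf x = 2)
    (hy : orderOf y = 2) : x = y := by
  obtain ⟨π, H, hπ⟩ := ce_of_quot le_rfl e
  have h2 : ∀ w, π w = 1 → w * w = 1 := fun w hw => sq_of_card_two hZ ((hπ w).1 hw)
  have C := H.cov_of_three fun z hz h3 => by rwa [h2 z hz, one_mul] at h3
  have key : ∀ x : Γ, orderOf x = 2 → x ∈ Subgroup.center Γ := fun x hx => by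
    by_contra h
    have hx2 : x * x = 1 := by rw [← sq, ← hx, pow_orderOf_eq_one]
    obtain ⟨i, k, a, b, d, d', hik, e⟩ := invol_eq h7 (H.even x) (orderOf_eq_prime
      (by rw [sq, ← map_mul, hx2, map_one]) fun h0 => h ((hπ x).1 h0))
    obtain ⟨u, hu⟩ : ∃ u, u = L π (fun x => x * x * x = 1) i a b *
      L π (fun x => x * x * x = 1) k a b := ⟨_, rfl⟩
    have h3 : π (u⁻¹ * x) = 1 := by simp [hu, e, (C.L_spec d).2, (C.L_spec d').2]
    have h4 : β π (fun x => x * x * x = 1) i k a b = 1 := by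
      rw [β, ← hu]
      calc u * u = u * (u * ((u⁻¹ * x) * (u⁻¹ * x))) := by rw [h2 _ h3, mul_one]
        _ = u * (x * (u⁻¹ * x)) := by group
        _ = 1 := by rw [H.cen _ h3, ← mul_assoc, mul_inv_cancel_left, hx2]
    refine hn (Subgroup.closure (gens π (fun x => x * x * x = 1) ⊥ Finset.univ))
      (Subgroup.isComplement'_of_disjoint_and_mul_eq_univ ?_ ?_)
    · rw [Subgroup.disjoint_def]
      intro z h5 h6
      exact C.ker_le bot_le (fun _ _ _ _ g g' hik' => by rw [C.β_eq d d' hik g g' hik', h4]; rfl) _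
        h6 ((hπ z).2 h5)
    · refine Set.eq_univ_of_forall fun g => ?_
      obtain ⟨h, hh, e⟩ := C.exists_gen ⊥ g
      exact ⟨g * h⁻¹, (hπ _).1 (by simp [e]), h, hh, by simp⟩
  obtain ⟨z, -, hz⟩ := (Nat.card_eq_two_iff' (1 : Subgroup.center Γ)).1 hZ
  have h5 : ∀ x : Γ, orderOf x = 2 → x = z := fun x hx =>
    congrArg Subtype.val (hz ⟨x, key x hx⟩ fun h => by
      have : x = 1 := congrArg Subtype.val h
      simp [this] at hx)
  rw [h5 x hx, h5 y hy]

theorem exists_two_invol : ∃ (Γ : Type) (_ : Group Γ) (_ : Finite Γ),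
    (Nat.card (Subgroup.center Γ) = 2 ∧ Nonempty (Γ ⧸ Subgroup.center Γ ≃* alternatingGroup (Fin 8)) ∧
      ∀ L : Subgroup Γ, ¬(Subgroup.center Γ).IsComplement' L) ∧
    ∃ x y : Γ, x ≠ y ∧ orderOf x = 2 ∧ orderOf y = 2 := by
  obtain ⟨Γ, _, _, π, w, H, ho, hc, hk⟩ := exists_cover (α := Fin 8) (by simp)
  have hZ : Subgroup.center Γ = Subgroup.zpowers w := by
    ext g
    rw [← hk]
    refine ⟨fun h => ?_, fun h => Subgroup.mem_center_iff.2 (H.cen g h)⟩
    have : (⟨π g, H.even g⟩ : alternatingGroup (Fin 8)) ∈ Subgroup.center _ := by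
      rw [Subgroup.mem_center_iff]
      rintro ⟨σ, hσ⟩
      obtain ⟨u, rfl⟩ := H.surj σ hσ
      exact Subtype.ext (by simpa using congrArg π (Subgroup.mem_center_iff.1 h u))
    rw [alternatingGroup.center_eq_bot (by simp)] at this
    exact congrArg Subtype.val this
  have hcard : Nat.card (Subgroup.center Γ) = 2 := by rw [hZ, Nat.card_zpowers, ho]
  have hk' : ∀ g, π g = 1 ↔ g ∈ Subgroup.center Γ := fun g => hZ ▸ hk g
  have C := H.cov_of_three fun z hz h3 => by
    rwa [sq_of_card_two hcard ((hk' z).1 hz), one_mul] at h3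
  refine ⟨Γ, inferInstance, inferInstance, ⟨hcard, H.quot _ hk', fun M hM => ?_⟩, w, ?_⟩
  · have h1 : commutator Γ ≤ M := by
      refine Subgroup.commutator_le.2 fun g _ g' _ => ?_
      obtain ⟨⟨u, h⟩, rfl⟩ := hM.2 g
      obtain ⟨⟨v, h'⟩, rfl⟩ := hM.2 g'
      have c1 := Subgroup.mem_center_iff.1 u.2
      have c2 := Subgroup.mem_center_iff.1 v.2
      have : ⁅(u : Γ) * h, (v : Γ) * h'⁆ = h * h' * (h : Γ)⁻¹ * (h' : Γ)⁻¹ := by
        rw [commutatorElement_def, ← c1, ← c2]
        calc _ = (h : Γ) * ((u : Γ) * ((h' : Γ) * (v : Γ))) * (u : Γ)⁻¹ * (h : Γ)⁻¹ * ((h' : Γ) * v)⁻¹ := by group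
          _ = (h : Γ) * (h' : Γ) * ((v : Γ) * (h : Γ)⁻¹) * ((h' : Γ) * v)⁻¹ := by rw [← c1]; group
          _ = _ := by rw [← c2]; group
      change ⁅(u : Γ) * h, (v : Γ) * h'⁆ ∈ M
      rw [this]
      exact M.mul_mem (M.mul_mem (M.mul_mem h.2 h'.2) (M.inv_mem h.2)) (M.inv_mem h'.2)
    have h2 := Subgroup.disjoint_def.1 hM.disjoint (hZ ▸ Subgroup.mem_zpowers w) (h1 hc)
    simp [h2] at ho
  have d1 : D (0 : Fin 8) 2 3 := by unfold D; decide
  have d2 : D (1 : Fin 8) 2 3 := by unfold D; decide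
  have d3 : D (4 : Fin 8) 6 7 := by unfold D; decide
  have d4 : D (5 : Fin 8) 6 7 := by unfold D; decide
  obtain ⟨u, hu⟩ : ∃ u, u = L π (fun x => x * x * x = 1) 0 2 3 *
    L π (fun x => x * x * x = 1) 1 2 3 := ⟨_, rfl⟩
  obtain ⟨v, hv⟩ : ∃ u, u = L π (fun x => x * x * x = 1) 4 6 7 *
    L π (fun x => x * x * x = 1) 5 6 7 := ⟨_, rfl⟩
  have e1 : π u = T 0 2 3 * T 1 2 3 := by rw [hu, map_mul, (C.L_spec d1).2, (C.L_spec d2).2]
  have e2 : π v = T 4 6 7 * T 5 6 7 := by rw [hv, map_mul, (C.L_spec d3).2, (C.L_spec d4).2]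
  have e3 : u * v * u⁻¹ = v := by
    have t1 := C.L_conj d3 u
    have t2 := C.L_conj d4 u
    rw [e1, show (T 0 2 3 * T 1 2 3 : Perm (Fin 8)) 6 = 6 by decide,
      show (T 0 2 3 * T 1 2 3 : Perm (Fin 8)) 7 = 7 by decide] at t1 t2
    rw [show (T 0 2 3 * T 1 2 3 : Perm (Fin 8)) 4 = 4 by decide] at t1
    rw [show (T 0 2 3 * T 1 2 3 : Perm (Fin 8)) 5 = 5 by decide] at t2
    conv_rhs => rw [hv, ← t1, ← t2]
    rw [hv]; group
  have e4 : u * v * (u * v) = 1 := by
    have t1 := C.β_eq d1 d2 (by decide) d3 d4 (by decide)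
    have t2 := C.β_sq d1 d2 (by decide)
    rw [β, β, ← hu, ← hv] at t1
    rw [β, ← hu] at t2
    calc _ = (u * v * u⁻¹) * (u * u) * v := by group
      _ = v * (v * v) * v := by rw [e3, t1]
      _ = 1 := by rw [← t2, ← t1]; group
  have e5 : π (u * v) ≠ 1 := by rw [map_mul, e1, e2]; decide
  refine ⟨u * v, fun h => e5 (h ▸ (hk w).2 (Subgroup.mem_zpowers w)), ho,
    orderOf_eq_prime (by rw [sq, e4]) fun h => e5 (by rw [h, map_one])⟩

end Cfsg.Agent.H18.Dc
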