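import Mathlib
import Cfsg.Agent.H25.J3C

/-! Orbits of the triple cover of `J₃` on vectors. -/

set_option maxRecDepth 100000
set_option linter.all false
set_option autoImplicit false

namespace Cfsg.Agent.H18.J3
open Cfsg.Agent.H25 Cfsg.Agent.H25.J3 Cfsg.Spor MulAction

/-- the orbit of the first point of a chain is everything -/
theorem orbit_of_OL {G Ω : Type*} [Group G] [Finite G] [MulAction G Ω] {T : PT} {g : ℕ → G} {pt : ℕ → Ω}
    (h : AM T g pt) (hinj : ∀ i < T.N, ∀ j < T.N, pt i = pt j → i = j) {X : ℕ} (hX : Lc X g = ⊤)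
    (hG : X < 2 ^ T.G) {l : OL} (hl : l.ok T X [] = true) (hn : l.n = T.N) :
    orbit G (pt l.b) = pt '' {i | i < T.N} := by
  obtain ⟨h1, h2⟩ := OL.sound h hinj (B := []) (by simp) hl
  have h3 : ∀ y : G, ∃ i < T.N, y⁻¹ • pt l.b = pt i := fun y =>
    mem_of_closed (P := fun y => ∃ i < T.N, y⁻¹ • pt l.b = pt i) ⟨_, h1, by simp⟩ (by
      rintro k ⟨i, a1, a2⟩ _ ⟨a, ha, rfl⟩
      have ha' : a < T.G := by
        by_contra hc
        rw [Nat.testBit_lt_two_pow (hG.trans_le (Nat.pow_le_pow_right (by norm_num) (by omega)))] at ha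
        cases ha
      exact ⟨_, (h i a1 a ha').1, by rw [mul_inv_rev, mul_smul, a2, (h i a1 a ha').2]⟩) y
      (show y ∈ Lc X g from hX ▸ Subgroup.mem_top y)
  have hf : {i | i < T.N}.Finite := Set.finite_lt_nat _
  refine Set.eq_of_subset_of_ncard_le ?_ ?_ (hf.image _)
  · rintro _ ⟨y, rfl⟩
    obtain ⟨i, a1, a2⟩ := h3 y⁻¹
    exact ⟨i, a1, by rw [← a2, inv_inv]⟩
  · have e : fixB G pt [l.b] = stabilizer G (pt l.b) := Subgroup.ext fun y =>
      ⟨fun hy => hy _ (by simp), fun hy b hb => by rw [List.mem_singleton.1 hb]; exact hy⟩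
    rw [fixB_nil, hX, top_inf_eq, top_inf_eq, e, Subgroup.card_top,
      ← Subgroup.index_mul_card (stabilizer G (pt l.b)), index_stabilizer, hn] at h2
    refine (Set.ncard_image_le hf).trans ?_
    rw [show {i | i < T.N} = (Finset.range T.N : Set ℕ) by ext; simp, Set.ncard_coe_finset,
      Finset.card_range]
    exact Nat.le_of_mul_le_mul_right h2 Nat.card_pos

noncomputable def dec (m : ℕ) : F9 → K := vdec 18 1 bas m

theorem dg_xor (a b j : ℕ) : (dg 1 (a ^^^ b) j : ZMod 2) = dg 1 a j + dg 1 b j := by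
  simp only [dg, Nat.xor_div_two_pow, Nat.xor_mod_two_pow]
  rcases Nat.mod_two_eq_zero_or_one (a / 2 ^ (1 * j)) with h | h <;>
    rcases Nat.mod_two_eq_zero_or_one (b / 2 ^ (1 * j)) with h' | h' <;>
    rw [pow_one, h, h'] <;> decide

theorem dec_xor (a b : ℕ) : dec (a ^^^ b) = dec a + dec b := by
  funext z
  simp only [dec, dec_eq, Pi.add_apply, dg_xor]
  rfl

theorem dec_surj (v : F9 → K) : ∃ m < 2 ^ 18, dec m = v := by
  rw [← Finset.univ_sum_single v]
  refine Finset.sum_induction _ (fun v => ∃ m < 2 ^ 18, dec m = v) ?_ ⟨0, by norm_num, by simp [dec, vdec]⟩ ?_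
  · rintro _ _ ⟨a, ha, rfl⟩ ⟨b, hb, rfl⟩
    exact ⟨_, Nat.xor_lt_two_pow ha hb, dec_xor a b⟩
  · intro z _
    generalize v z = t
    refine ⟨(t.re.val + 2 * t.im.val) * 4 ^ idx z, ?_, funext fun w => ?_⟩
    · revert z t; decide +kernel
    · rw [dec, dec_eq]; revert z t w; decide +kernel

noncomputable def spr (k : ℕ) : ℕ :=
  Nat.rec (motive := fun _ => ℕ) 0
    (fun j ih => Nat.add ih (Nat.shiftLeft (Nat.land (Nat.shiftRight k j) 1) (Nat.mul 7 j))) 18

noncomputable def same (c k : ℕ) : Bool :=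
  allLin (fun j => Nat.beq (Nat.mod (dg 7 c j) 2) (Nat.mod (dg 1 k j) 2)) 0 18

theorem same_sound {c k : ℕ} (h : same c k = true) : vdec 18 7 bas c = dec k := by
  funext z
  have := idx_lt z
  have key : ∀ j < 18, (dg 7 c j : ZMod 2) = dg 1 k j := fun j hj =>
    (ZMod.natCast_eq_natCast_iff' _ _ _).2
      (Nat.eq_of_beq_eq_true (allLin_sound h j (Nat.zero_le _) (by omega)))
  rw [dec, dec_eq, dec_eq, key _ (by omega), key _ (by omega)]

noncomputable def e18 (T k : ℕ) : ℕ := Nat.land (Nat.shiftRight T (Nat.mul 18 k)) 262143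

noncomputable def ent (a k t : ℕ) : Bool :=
  force (spr k) fun c => band (same c k) (force (V3.ap a c) fun d => same d t)

theorem ent_sound {a k t : ℕ} (ha : a < 2) (h : ent a k t = true) : (x3 a)⁻¹ • dec k = dec t := by
  simp only [ent, force_eq, band_eq, Bool.and_eq_true] at h
  rw [← same_sound h.1, ← same_sound h.2]
  exact vm3.act a (show a < 3 by omega) _

noncomputable def tabOK (TA : List (ℕ × ℕ)) : Bool :=
  allLin (fun a => allRange (fun k => band (ent a k (e18 (gd (0, 0) TA a).1 k))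
    (ent a (Nat.shiftLeft k 9) (e18 (gd (0, 0) TA a).2 k))) 0 512) 0 2

noncomputable def act (TA : List (ℕ × ℕ)) (a m : ℕ) : ℕ :=
  Nat.xor (e18 (gd (0, 0) TA a).1 (Nat.land m 511)) (e18 (gd (0, 0) TA a).2 (Nat.shiftRight m 9))

theorem act_sound {TA : List (ℕ × ℕ)} (h : tabOK TA = true) {a m : ℕ} (ha : a < 2) (hm : m < 2 ^ 18) :
    act TA a m < 2 ^ 18 ∧ (x3 a)⁻¹ • dec m = dec (act TA a m) := by
  have h1 := fun k (hk : k < 512) =>
    allRange_sound (allLin_sound h a (Nat.zero_le _) (by omega)) k (Nat.zero_le _) hk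
  simp only [band_eq, Bool.and_eq_true] at h1
  have e : m = (m &&& (2 ^ 9 - 1)) ^^^ ((m >>> 9) <<< 9) := Nat.eq_of_testBit_eq fun i => by
    simp only [Nat.testBit_xor, Nat.testBit_and, Nat.testBit_two_pow_sub_one, Nat.testBit_shiftLeft,
      Nat.testBit_shiftRight]
    by_cases hi : i < 9
    · simp [hi, show ¬ i ≥ 9 by omega]
    · simp [hi, show i ≥ 9 by omega, show 9 + (i - 9) = i by omega]
  have l : ∀ T k, e18 T k < 2 ^ 18 := fun T k => lt_of_le_of_lt Nat.and_le_right (by norm_num)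
  refine ⟨Nat.xor_lt_two_pow (l _ _) (l _ _), ?_⟩
  conv_lhs => rw [e]
  rw [dec_xor, smul_add]
  exact (congrArg₂ _ (ent_sound ha (h1 _ (lt_of_le_of_lt Nat.and_le_right (by norm_num))).1)
    (ent_sound ha (h1 _ (by rw [Nat.shiftRight_eq_div_pow]; omega)).2)).trans (dec_xor _ _).symm

noncomputable def rc (rt : NT) (m : ℕ) : ℕ := rt.get (Nat.mul m 6) 63

noncomputable def redOK (TA : List (ℕ × ℕ)) (rt : NT) (reps : List ℕ) (lo hi : ℕ) : Bool :=
  allRange (fun m => force (rc rt m) fun r => Bool.rec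
    (force (Nat.land r 1) fun a => force (act TA a m) fun t =>
      Nat.ble (Nat.succ (Nat.shiftRight (rc rt t) 1)) (Nat.shiftRight r 1))
    (anyL (Nat.beq m) reps) (Nat.ble r 1)) lo hi

def RedP (TA : List (ℕ × ℕ)) (rt : NT) (reps : List ℕ) (m : ℕ) : Prop :=
  m ∈ reps ∨ ∃ a < 2, rc rt (act TA a m) >>> 1 < rc rt m >>> 1

theorem redOK_sound {TA : List (ℕ × ℕ)} {rt : NT} {reps : List ℕ} {lo hi : ℕ}
    (h : redOK TA rt reps lo hi = true) : ∀ m, lo ≤ m → m < hi → RedP TA rt reps m := fun m h1 h2 => by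
  have := allRange_sound h m h1 h2
  simp only [force_eq] at this
  cases hb : Nat.ble (rc rt m) 1 with
  | true =>
    rw [hb] at this
    obtain ⟨u, hu, e⟩ := anyL_sound this
    exact Or.inl (Nat.eq_of_beq_eq_true e ▸ hu)
  | false =>
    rw [hb] at this
    exact Or.inr ⟨_, lt_of_le_of_lt Nat.and_le_right (by norm_num), Nat.le_of_ble_eq_true this⟩

theorem reduce {TA : List (ℕ × ℕ)} (h : tabOK TA = true) {rt : NT} {reps : List ℕ}
    (h2 : ∀ m < 262144, RedP TA rt reps m) (v : F9 → K) : ∃ y : Γ, ∃ r ∈ reps, y • v = dec r := by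
  obtain ⟨m, hm, rfl⟩ := dec_surj v
  induction hd : rc rt m >>> 1 using Nat.strong_induction_on generalizing m with
  | _ n ih =>
    rcases h2 m hm with h3 | ⟨a, ha, h3⟩
    · exact ⟨1, m, h3, one_smul _ _⟩
    · obtain ⟨b1, b2⟩ := act_sound h ha hm
      obtain ⟨y, r, c1, c2⟩ := ih _ (hd ▸ h3) _ b1 rfl
      exact ⟨y * (x3 a)⁻¹, r, c1, by rw [mul_smul, b2, c2]⟩

theorem top3 : Lc 3 (fun a => (x3 a : G0)) = ⊤ := top_of_card lov hcard.le

theorem orb0 : orbit G0 (OQ.mk Γ (bas 0)) =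
    (fun i => OQ.mk Γ (vdec 18 7 bas (cd i))) '' {i | i < 23256} := by
  have := orbit_of_OL amv injv top3 (by decide) (l := j3vch_0) (by decide +kernel) rfl
  rwa [show cd j3vch_0.b = 2 ^ (7 * 0) by decide +kernel, vdec_pow (by norm_num) (by norm_num)] at this

end Cfsg.Agent.H18.J3
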