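import Mathlib
import Cfsg.Agent.H28.J2Q
import Cfsg.Agent.H25.CenB
import Cfsg.Agent.S0824

/-! The Hall–Janko group satisfies the large extraspecial hypothesis. -/

set_option maxRecDepth 100000
set_option linter.all false
set_option autoImplicit false

namespace Cfsg.Agent.H18.Jd
open Cfsg.Agent.H14 Cfsg.Agent.H28.J2P Subgroup

def tS : ℕ := nat_lit 0x1b8239a6030909453a919386ca1666c614082d71ca50addd05e8eba63a5dbc870f21aa5ab89a79f72d464b5ac9ec20a4dd98faa8f7e829876861244a97dec5658845ba27ef2922b1c90963a6951629b58421828406e8080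
def tQ : ℕ := nat_lit 0x3e4d5b63b251a160f0e0d310963902899500969206351ef2ec2c5a0b255903a4f38a3e7702e00838c2a97f46fdd1d20ad79428f094add9e2b70ea26c11633d3760b552ea16d99b487900f3258c9ed4c9110bd5440609c53
def tG : ℕ := nat_lit 0xc62cb60b420a985a01b1d8e0df316ed2111aa269ce584c7ba9eac75fa43113b2510fa464412b3985259e5f01082c35918d0371ab814a62a8a0a9305390cd59b704239bb8983d9a18bd1bd61fc84128cc93751e275c1ebc6

theorem chk : (A.okb tS = true ∧ A.okb tQ = true ∧ A.okb tG = true) ∧ (CZ.test tS = true ∧ QZ.test tQ = true ∧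
    KJ.test tG = true ∧ QZ.test (A.cj tG s0) = true) ∧ Nat.beq (A.cj tG s0) s0 = false ∧
    Nat.beq (A.mul tS tQ) (A.mul tQ tS) = false ∧ Nat.beq (A.mul tS tQ) (A.mul tQ (A.mul s0 tS)) = false := by
  decide +kernel

theorem om : Nonempty (alternatingGroup (Fin 5) ≃* Omega (ZMod 2) (quadFormMinus 1 (ZMod 2) 1 1)) := by
  obtain ⟨e⟩ := S0824.result (F := ZMod 2) (by simp)
  refine ⟨((e.subgroupMap (commutator _)).trans (MulEquiv.subgroupCongr ?_)).symm⟩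
  rw [← alternatingGroup.commutator_perm_eq (by simp), commutator_def, commutator_def, map_commutator,
    map_top_of_surjective _ e.surjective]

noncomputable def z : KJ.K := ⟨A.el s0, (le_Q es_Q.mem).1⟩

theorem main : orderOf z = 2 ∧ ∃ (Q : Subgroup (centralizer ({z} : Set KJ.K))) (_ : Q.Normal),
    generalizedFittingSubgroup (centralizer ({z} : Set KJ.K)) = Q ∧ IsExtraspecial 2 Q ∧ Nat.card Q = 2 ^ 5 ∧
    Nonempty ((centralizer ({z} : Set KJ.K)) ⧸ Q ≃* Omega (ZMod 2) (quadFormMinus 1 (ZMod 2) 1 1)) ∧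
    ∃ g : KJ.K, (∃ hq : g * z * g⁻¹ ∈ centralizer ({z} : Set KJ.K),
      (⟨g * z * g⁻¹, hq⟩ : centralizer ({z} : Set KJ.K)) ∈ Q) ∧ g * z * g⁻¹ ≠ z := by
  haveI := normal_Q
  obtain ⟨q⟩ := quot_Q
  obtain ⟨o⟩ := om
  obtain ⟨⟨k1, k2, k3⟩, ⟨k4, k5, k6, k7⟩, k8, k9, k10⟩ := chk
  have k1 := A.okb_ok _ k1
  have k2 := A.okb_ok _ k2
  have k3 := A.okb_ok _ k3
  let e : centralizer ({z} : Set KJ.K) ≃* CZ.K := centralizerSub KJ.K z
  let f : centralizer ({z} : Set KJ.K) →* alternatingGroup (Fin 5) :=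
    q.toMonoidHom.comp ((QuotientGroup.mk' _).comp e.toMonoidHom)
  have hf : Function.Surjective f := q.surjective.comp ((QuotientGroup.mk'_surjective _).comp e.surjective)
  have mk : ∀ x, x ∈ f.ker ↔ x.1.1 ∈ QZ.K := fun x =>
    q.map_eq_one_iff.trans ((QuotientGroup.eq_one_iff _).trans mem_subgroupOf)
  have cen : ∀ x : centralizer ({z} : Set KJ.K), x ∈ centralizer (f.ker : Set _) ↔ x.1.1 ∈ centralizer (QZ.K : Set _) := fun x =>
    ⟨fun h y hy => congrArg (·.1.1) (h (e.symm ⟨y, le_Q hy⟩) ((mk _).2 hy)),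
      fun h y hy => Subtype.ext (Subtype.ext (h _ ((mk y).1 hy)))⟩
  let zc : centralizer ({z} : Set KJ.K) := ⟨z, mem_centralizer_singleton_iff.2 rfl⟩
  have ex : ∀ {x y : centralizer ({z} : Set KJ.K)}, x.1.1 = y.1.1 → x = y := fun h => Subtype.ext (Subtype.ext h)
  have hE : H29.ES f.ker zc := ⟨⟨fun h => es_Q.ne (congrArg (·.1.1) h), ex es_Q.zz, (mk _).2 es_Q.mem,
    fun x hx => (es_Q.sq _ ((mk x).1 hx)).imp ex ex,
    fun x hx hc _ => (es_Q.cen _ ((mk x).1 hx) ((cen x).1 hc)).imp ex ex⟩,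
    fun x hx hc => (es_Q.cen _ ((mk x).1 hx) ((cen x).1 hc)).imp ex ex,
    fun h => es_Q.nab fun y hy => (cen (e.symm ⟨y, le_Q hy⟩)).1 (h ((mk _).2 hy))⟩
  have hc : Nat.card f.ker = 2 ^ 5 := by
    refine Eq.trans (Nat.card_congr (Equiv.subtypeEquiv e.toEquiv fun x => ?_)) card_Q
    exact (mk x).trans mem_subgroupOf.symm
  have hq := (QZ.test_iff _ k2).1 k5
  have h7 := (QZ.test_iff _ (A.ok_cj _ _ k3 ok_s0)).1 k7
  rw [A.el_cj _ _ k3 ok_s0] at h7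
  refine ⟨(Subgroup.orderOf_mk _ _).trans es_Q.ord, f.ker, inferInstance, H25.CenB.fstar_eq hf hE
    (by rw [nat_card_alternatingGroup, Nat.card_fin]; decide) (s := e.symm ⟨_, (CZ.test_iff _ k1).1 k4⟩)
    (q := e.symm ⟨_, le_Q hq⟩) ((mk _).2 hq) (fun h => ?_) (fun h => ?_), hE.isExtraspecial, hc,
    ⟨(QuotientGroup.quotientKerEquivOfSurjective f hf).trans o⟩, ⟨_, (KJ.test_iff _ k3).1 k6⟩,
    ⟨mem_centralizer_singleton_iff.2 (Subtype.ext (es_Q.comm_z h7)), (mk _).2 h7⟩, fun h => ?_⟩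
  · have h1 : A.el tS * A.el tQ = A.el tQ * A.el tS := congrArg (·.1.1) h
    rw [← A.el_mul _ _ k1 k2, ← A.el_mul _ _ k2 k1, A.el_eq_iff (A.ok_mul _ _ k1 k2) (A.ok_mul _ _ k2 k1), k9] at h1
    exact absurd h1 (by decide)
  · have h1 : A.el tS * A.el tQ = A.el tQ * (A.el s0 * A.el tS) := congrArg (·.1.1) h
    rw [← A.el_mul _ _ k1 k2, ← A.el_mul _ _ ok_s0 k1, ← A.el_mul _ _ k2 (A.ok_mul _ _ ok_s0 k1),
      A.el_eq_iff (A.ok_mul _ _ k1 k2) (A.ok_mul _ _ k2 (A.ok_mul _ _ ok_s0 k1)), k10] at h1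
    exact absurd h1 (by decide)
  · have h1 : A.el tG * A.el s0 * (A.el tG)⁻¹ = A.el s0 := congrArg (·.1) h
    rw [← A.el_cj _ _ k3 ok_s0, A.el_eq_iff (A.ok_cj _ _ k3 ok_s0) ok_s0, k8] at h1
    exact absurd h1 (by decide)

theorem nab : ¬ IsMulCommutative KJ.K := fun h => by
  obtain ⟨-, -, -, -, -, -, -, g, -, n⟩ := main
  exact n (by rw [h.is_comm.comm g z, mul_inv_cancel_right])

end Cfsg.Agent.H18.Jd
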