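import Cfsg.Agent.H11.Syl2L
import Cfsg.Prelude.Def_Transfer

/-! Normal elementary abelian subgroups of Sylow 2-subgroups of linear groups: upper bounds. -/

set_option autoImplicit false

namespace Cfsg.Agent.H18.Nr

open Module Function Finset

variable {F V : Type*} [Field F] [AddCommGroup V] [Module F V] [FiniteDimensional F V]

theorem sum_finrank_le {ι : Type*} [Fintype ι] {p : ι → Submodule F V} (h : iSupIndep p) :
    ∑ i, finrank F (p i) ≤ finrank F V := by
  classical
  rw [← Module.finrank_directSum]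
  exact LinearMap.finrank_le_finrank_of_injective (f := DirectSum.coeLinearMap p)
    h.dfinsupp_lsum_injective

theorem finrank_sup_le {ι : Type*} (p : ι → Submodule F V) (s : Finset ι) :
    finrank F (s.sup p : Submodule F V) ≤ ∑ i ∈ s, finrank F (p i) := by
  classical
  induction s using Finset.induction_on with
  | empty => simp
  | insert a s ha ih =>
    rw [sup_insert, sum_insert ha]
    exact (Submodule.finrank_add_le_finrank_add_finrank _ _).trans (by omega)

theorem maxGen_eq (h2 : (2 : F) ≠ 0) {f : End F V} (hf : f * f = 1) (μ : F) :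
    f.maxGenEigenspace μ = f.eigenspace μ := by
  refine End.IsFinitelySemisimple.maxGenEigenspace_eq_eigenspace
    (End.IsSemisimple.isFinitelySemisimple (End.isSemisimple_of_squarefree_aeval_eq_zero
      (p := Polynomial.X ^ 2 - Polynomial.C 1) ?_ (by simp [sq, hf]))) μ
  exact (Polynomial.separable_X_pow_sub_C 1 (by simpa using h2) one_ne_zero).squarefree

variable {S : Type*} [Group S] (ρ : S →* End F V) (E : Subgroup S)

/-- Weight spaces of a subgroup. -/
def W (χ : E → F) : Submodule F V := ⨅ e : E, (ρ e).eigenspace (χ e)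

variable {ρ E}

omit [FiniteDimensional F V] in
theorem mem_W {χ : E → F} {v : V} : v ∈ W ρ E χ ↔ ∀ e : E, ρ e v = χ e • v := by
  simp [W, Submodule.mem_iInf]

omit [FiniteDimensional F V] in
theorem sq_E (hE : IsElementaryAbelian 2 E) (e : E) : ρ e * ρ e = 1 := by
  rw [← map_mul, ← sq, hE.2 _ e.2, map_one]

omit [FiniteDimensional F V] in
theorem comm_E (hE : IsElementaryAbelian 2 E) (e e' : E) : Commute (ρ e) (ρ e') :=
  Commute.map (congrArg Subtype.val (hE.1.is_comm.comm e e')) ρ

theorem W_indep (h2 : (2 : F) ≠ 0) (hE : IsElementaryAbelian 2 E) : iSupIndep (W ρ E) := by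
  have := End.independent_iInf_maxGenEigenspace_of_forall_mapsTo (fun e : E => ρ e)
    fun i j => End.mapsTo_maxGenEigenspace_of_comm (comm_E hE j i)
  simp only [maxGen_eq h2 (sq_E hE _)] at this
  exact this

theorem W_top (h2 : (2 : F) ≠ 0) (hE : IsElementaryAbelian 2 E) : ⨆ χ, W ρ E χ = ⊤ := by
  have := End.iSup_iInf_maxGenEigenspace_eq_top_of_iSup_maxGenEigenspace_eq_top_of_commute
    (fun e : E => ρ e) (fun i j _ => comm_E hE i j) fun e => by
      simp only [maxGen_eq h2 (sq_E hE _)]
      refine eq_top_iff.2 fun v _ => ?_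
      have h1 : ρ e (ρ e v) = v := DFunLike.congr_fun (sq_E hE e) v
      have : v = (2 : F)⁻¹ • ((v + ρ e v) + (v - ρ e v)) := by
        rw [add_add_sub_cancel, ← two_smul F, smul_smul, inv_mul_cancel₀ h2, one_smul]
      rw [this]
      refine Submodule.smul_mem _ _ (add_mem (Submodule.mem_iSup_of_mem 1 ?_)
        (Submodule.mem_iSup_of_mem (-1) ?_))
      · simp [h1, add_comm]
      · simp [h1]
  simp only [maxGen_eq h2 (sq_E hE _)] at this
  exact this

theorem ext_W (h2 : (2 : F) ≠ 0) (hE : IsElementaryAbelian 2 E) {f g : End F V}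
    (h : ∀ χ, ∀ v ∈ W ρ E χ, f v = g v) : f = g := by
  ext v
  have : v ∈ ⨆ χ, W ρ E χ := (W_top (ρ := ρ) h2 hE).ge Submodule.mem_top
  induction this using Submodule.iSup_induction' with
  | mem χ v hv => exact h χ v hv
  | zero => simp
  | add x y _ _ h1 h2 => simp [h1, h2]

omit [FiniteDimensional F V] in
theorem chi_sq (hE : IsElementaryAbelian 2 E) {χ : E → F} (h : W ρ E χ ≠ ⊥) (e : E) :
    χ e = 1 ∨ χ e = -1 := by
  obtain ⟨v, hv, h0⟩ := (Submodule.ne_bot_iff _).1 h
  have h1 : ρ e (ρ e v) = v := DFunLike.congr_fun (sq_E hE e) v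
  rw [mem_W.1 hv, map_smul, mem_W.1 hv, smul_smul, ← sub_eq_zero] at h1
  nth_rewrite 2 [← one_smul F v] at h1
  rw [← sub_smul, smul_eq_zero, sub_eq_zero] at h1
  exact mul_self_eq_one_iff.1 (h1.resolve_right h0)

theorem card_E_le [Finite F] [Finite S] (h2 : (2 : F) ≠ 0) (hρ : Injective ρ)
    (hE : IsElementaryAbelian 2 E) : ∃ k, Nat.card E ≤ 2 ^ k ∧ k ≤ finrank F V ∧
      2 * k ≤ finrank F V + Nat.card {χ // finrank F (W ρ E χ) = 1} := by
  classical
  haveI := Fintype.ofFinite (E → F)
  refine ⟨Fintype.card {χ // W ρ E χ ≠ ⊥}, ?_, (W_indep h2 hE).subtype_ne_bot_le_finrank, ?_⟩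
  · have := Nat.card_le_card_of_injective
      (fun (e : E) (χ : {χ // W ρ E χ ≠ ⊥}) => decide (χ.1 e = 1)) fun e e' h =>
        Subtype.ext (hρ (ext_W h2 hE fun χ v hv => by
          by_cases h0 : W ρ E χ = ⊥
          · rw [h0, Submodule.mem_bot] at hv
            simp [hv]
          have h3 := congrFun h ⟨χ, h0⟩
          simp only [decide_eq_decide] at h3
          rw [mem_W.1 hv, mem_W.1 hv]
          rcases chi_sq hE h0 e with h4 | h4 <;> rcases chi_sq hE h0 e' with h5 | h5
          · rw [h4, h5]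
          · rw [h4, h3.1 h4]
          · rw [h5, h3.2 h5]
          · rw [h4, h5]))
    simpa using this
  · refine le_trans ?_ (Nat.add_le_add_right (sum_finrank_le (W_indep (ρ := ρ) h2 hE)) _)
    rw [Nat.card_eq_fintype_card, Fintype.card_subtype, Fintype.card_subtype, card_filter,
      card_filter, ← sum_add_distrib, mul_sum]
    refine sum_le_sum fun χ _ => ?_
    by_cases h0 : W ρ E χ = ⊥
    · simp [h0]
    · have := Submodule.finrank_eq_zero.not.2 h0
      rw [if_pos h0]
      split_ifs <;> omega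

omit [FiniteDimensional F V] in
theorem map_W [hN : E.Normal] (s : S) {χ : E → F} {v : V} (hv : v ∈ W ρ E χ) :
    ρ s v ∈ W ρ E fun e => χ (MulAut.conjNormal s⁻¹ e) := mem_W.2 fun e => by
  rw [← map_smul, ← mem_W.1 hv, ← End.mul_apply, ← End.mul_apply, ← map_mul, ← map_mul]
  simp [mul_assoc]

theorem finrank_W_le [hN : E.Normal] (s : S) (χ : E → F) :
    finrank F (W ρ E χ) ≤ finrank F (W ρ E fun e => χ (MulAut.conjNormal s⁻¹ e)) :=
  LinearMap.finrank_le_finrank_of_injective (f := (ρ s).restrict fun _ hv => map_W s hv)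
    fun v w h => Subtype.ext (by
      have := congrArg (ρ s⁻¹) (congrArg Subtype.val h)
      simpa [← End.mul_apply, ← map_mul] using this)

theorem finrank_W [hN : E.Normal] (s : S) (χ : E → F) :
    finrank F (W ρ E fun e => χ (MulAut.conjNormal s⁻¹ e)) = finrank F (W ρ E χ) := by
  refine le_antisymm ((finrank_W_le s⁻¹ _).trans (le_of_eq ?_)) (finrank_W_le s χ)
  have : ∀ e : E, MulAut.conjNormal s⁻¹ (MulAut.conjNormal s⁻¹⁻¹ e) = e := fun e => by
    rw [← MulAut.mul_apply, ← map_mul, mul_inv_cancel, map_one, MulAut.one_apply]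
  exact congrArg (fun ψ => finrank F (W ρ E ψ)) (funext fun e => congrArg χ (this e))

theorem card_S_le [Fintype F] [Finite S] (hq : Fintype.card F % 4 = 3) (hρ : Injective ρ)
    (hE : IsElementaryAbelian 2 E) [hN : E.Normal] {a : ℕ} (hS : Nat.card S = 2 ^ a) :
    ∃ n', n' + Nat.card {χ // finrank F (W ρ E χ) = 1} ≤ finrank F V ∧
      a ≤ Nat.card {χ // finrank F (W ρ E χ) = 1} +
        padicValNat 2 (Nat.card {χ // finrank F (W ρ E χ) = 1}).factorial +
        padicValNat 2 (Nat.card (GL (Fin n') F)) := by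
  classical
  have h2 : (2 : F) ≠ 0 := Ring.two_ne_zero fun h => by
    have := FiniteField.even_card_iff_char_two.1 h
    omega
  haveI := Fintype.ofFinite (E → F)
  set X := {χ // finrank F (W ρ E χ) = 1}
  let W' : Submodule F V := (univ.filter fun χ => ¬finrank F (W ρ E χ) = 1).sup (W ρ E)
  have hW : ∀ χ, ¬finrank F (W ρ E χ) = 1 → W ρ E χ ≤ W' := fun χ h => le_sup (by simpa using h)
  letI : MulAction S X :=
    { smul := fun s χ => ⟨fun e => χ.1 (MulAut.conjNormal s⁻¹ e), (finrank_W s _).trans χ.2⟩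
      one_smul := fun χ => Subtype.ext (funext fun e => congrArg χ.1 (by simp))
      mul_smul := fun s t χ => Subtype.ext (funext fun e => congrArg χ.1 (by simp)) }
  let b := Representation.subrepresentation ρ W' fun s => Finset.sup_le fun χ hχ v hv =>
    hW _ (by rw [finrank_W]; simpa using hχ) (map_W s hv)
  let c := (MulAction.toPermHom S X).prod b.toHomUnits
  refine ⟨finrank F W', ?_, ?_⟩
  · refine le_trans ?_ (sum_finrank_le (W_indep (ρ := ρ) h2 hE))
    rw [← sum_filter_add_sum_filter_not univ (fun χ => finrank F (W ρ E χ) = 1), add_comm]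
    refine Nat.add_le_add (le_of_eq ?_) (finrank_sup_le _ _)
    rw [Nat.card_eq_fintype_card, Fintype.card_subtype, card_eq_sum_ones]
    exact sum_congr rfl fun χ h => (mem_filter.1 h).2.symm
  have h3 : Nat.card c.ker ≤ 2 ^ Nat.card X := by
    have key : ∀ s ∈ c.ker, ∀ χ : X, (∀ v ∈ W ρ E χ.1, ρ s v = v) ∨ ∀ v ∈ W ρ E χ.1, ρ s v = -v := by
      intro s hs χ
      have h4 : (fun e => χ.1 (MulAut.conjNormal s⁻¹ e)) = χ.1 :=
        congrArg Subtype.val (DFunLike.congr_fun (congrArg Prod.fst (MonoidHom.mem_ker.1 hs)) χ)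
      obtain ⟨v, h0, hv⟩ := finrank_eq_one_iff'.1 χ.2
      obtain ⟨c, hc⟩ := hv ⟨ρ s v, by have := map_W s v.2; rwa [h4] at this⟩
      have h5 : ρ s v = c • v.1 := (congrArg Subtype.val hc).symm
      have h6 : ∀ n, ρ (s ^ n) v = c ^ n • v.1 := fun n => by
        induction n with
        | zero => simp
        | succ n ih => rw [pow_succ, map_mul, End.mul_apply, h5, map_smul, ih, smul_smul, pow_succ']
      have h7 := h6 (2 ^ a)
      rw [← hS, pow_card_eq_one', map_one, hS, End.one_apply, ← sub_eq_zero] at h7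
      nth_rewrite 1 [← one_smul F v.1] at h7
      rw [← sub_smul, smul_eq_zero, sub_eq_zero] at h7
      have h8 := h7.resolve_right fun h => h0 (Subtype.ext h)
      have h9 : c ≠ 0 := fun h => by simp [h] at h8
      have h10 := H11.sq_eq_one_of_mod hq (a := Units.mk0 c h9) (k := a) (Units.ext (by simp [← h8]))
      refine h10.imp (fun h w hw => ?_) fun h w hw => ?_ <;>
      · obtain ⟨d, hd⟩ := hv ⟨w, hw⟩
        have h11 : c = _ := congrArg Units.val h
        have h12 : w = d • v.1 := (congrArg Subtype.val hd).symm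
        simp [h12, h5, h11]
    have := Nat.card_le_card_of_injective
      (fun (s : c.ker) (χ : X) => decide (∀ v ∈ W ρ E χ.1, ρ s v = v)) fun s s' h =>
        Subtype.ext (hρ (ext_W h2 hE fun χ v hv => by
          by_cases h0 : finrank F (W ρ E χ) = 1
          · have h3 := congrFun h ⟨χ, h0⟩
            simp only [decide_eq_decide] at h3
            rcases key _ s.2 ⟨χ, h0⟩ with h4 | h4 <;> rcases key _ s'.2 ⟨χ, h0⟩ with h5 | h5
            · rw [h4 v hv, h5 v hv]
            · rw [h4 v hv, h3.1 h4 v hv]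
            · rw [h5 v hv, h3.2 h5 v hv]
            · rw [h4 v hv, h5 v hv]
          have h6 : ∀ s ∈ c.ker, ρ s v = v := fun s hs => by
            have h7 : b s = 1 := congrArg Units.val (congrArg Prod.snd (MonoidHom.mem_ker.1 hs))
            exact congrArg Subtype.val (DFunLike.congr_fun h7 ⟨v, hW _ h0 hv⟩)
          rw [h6 _ s.2, h6 _ s'.2]))
    simpa using this
  have e : (End F W')ˣ ≃* GL (Fin (finrank F W')) F :=
    Units.mapEquiv (LinearMap.toMatrixAlgEquiv (finBasis F W')).toMulEquiv
  have h4 := c.ker.card_mul_index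
  rw [Subgroup.index_ker, hS] at h4
  obtain ⟨i, -, hi⟩ := (Nat.dvd_prime_pow Nat.prime_two).1 (Dvd.intro _ h4)
  obtain ⟨j, -, hj⟩ := (Nat.dvd_prime_pow Nat.prime_two).1 (Dvd.intro_left _ h4)
  have h5 := c.range.card_subgroup_dvd_card
  rw [Nat.card_prod, Nat.card_perm, Nat.card_congr e.toEquiv, hj,
    padicValNat_dvd_iff_le (Nat.mul_ne_zero (Nat.factorial_ne_zero _) Nat.card_pos.ne'),
    padicValNat.mul (Nat.factorial_ne_zero _) Nat.card_pos.ne'] at h5
  rw [hi, hj, ← pow_add] at h4
  rw [hi, Nat.pow_le_pow_iff_right (by norm_num)] at h3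
  have := Nat.pow_right_injective le_rfl h4
  omega

end Cfsg.Agent.H18.Nr
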