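import Cfsg.Agent.H18.Nr1

/-! Normal 2-rank of Sylow 2-subgroups of linear and symplectic groups. -/

set_option autoImplicit false

namespace Cfsg.Agent.H18.Nr

open Module Function Subgroup Equiv Matrix Cfsg.Agent.H11
open scoped MatrixGroups

/-- An elementary abelian subgroup of rank `r` whose normalizer has odd index. -/
def NP (G : Type*) [Group G] (r : ℕ) : Prop := ∃ E H : Subgroup G, IsElementaryAbelian 2 E ∧
  2 ^ r ≤ Nat.card E ∧ H ≤ normalizer E ∧ padicValNat 2 (Nat.card G) ≤ padicValNat 2 (Nat.card H)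

variable {G G' : Type*} [Group G] [Group G']

theorem ea_iff {E : Subgroup G} : IsElementaryAbelian 2 E ↔
    (∀ a ∈ E, ∀ b ∈ E, a * b = b * a) ∧ ∀ a ∈ E, a ^ 2 = 1 :=
  and_congr_left' ⟨fun h a ha b hb => congrArg Subtype.val (h.is_comm.comm ⟨a, ha⟩ ⟨b, hb⟩),
    fun h => ⟨⟨fun a b => Subtype.ext (h a a.2 b b.2)⟩⟩⟩

theorem ea_map {E : Subgroup G} (h : IsElementaryAbelian 2 E) (f : G →* G') :
    IsElementaryAbelian 2 (E.map f) := by
  rw [ea_iff] at h ⊢
  refine ⟨?_, ?_⟩
  · rintro _ ⟨a, ha, rfl⟩ _ ⟨b, hb, rfl⟩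
    rw [← map_mul, h.1 a ha b hb, map_mul]
  · rintro _ ⟨a, ha, rfl⟩
    rw [← map_pow, h.2 a ha, map_one]

theorem NP.map {r : ℕ} (h : NP G r) {f : G →* G'} (hf : Injective f)
    (hv : padicValNat 2 (Nat.card G') ≤ padicValNat 2 (Nat.card G)) : NP G' r := by
  obtain ⟨E, H, h1, h2, h3, h4⟩ := h
  refine ⟨E.map f, H.map f, ea_map h1 f, by rwa [card_map_of_injective hf],
    (map_mono h3).trans (le_normalizer_map f), ?_⟩
  rw [card_map_of_injective hf]
  omega

theorem NP.prod [Finite G] [Finite G'] {r r' : ℕ} (h : NP G r) (h' : NP G' r') :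
    NP (G × G') (r + r') := by
  obtain ⟨E, H, h1, h2, h3, h4⟩ := h
  obtain ⟨E', H', h1', h2', h3', h4'⟩ := h'
  rw [ea_iff] at h1 h1'
  refine ⟨E.prod E', H.prod H', ea_iff.2 ⟨fun a ha b hb => Prod.ext (h1.1 _ ha.1 _ hb.1)
    (h1'.1 _ ha.2 _ hb.2), fun a ha => Prod.ext (h1.2 _ ha.1) (h1'.2 _ ha.2)⟩, ?_,
    fun g hg => mem_normalizer_iff.2 fun x => and_congr (mem_normalizer_iff.1 (h3 hg.1) _)
      (mem_normalizer_iff.1 (h3' hg.2) _), ?_⟩
  · rw [Nat.card_congr (prodEquiv E E').toEquiv, Nat.card_prod, pow_add]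
    exact Nat.mul_le_mul h2 h2'
  · rw [Nat.card_congr (prodEquiv H H').toEquiv, Nat.card_prod, Nat.card_prod,
      padicValNat.mul Nat.card_pos.ne' Nat.card_pos.ne',
      padicValNat.mul Nat.card_pos.ne' Nat.card_pos.ne']
    omega

theorem NP.sylow [Finite G] {r : ℕ} (h : NP G r) (S : Sylow 2 G) :
    ∃ E : Subgroup (S : Subgroup G), E.Normal ∧ IsElementaryAbelian 2 E ∧ 2 ^ r ≤ Nat.card E := by
  obtain ⟨E, H, h1, h2, h3, h4⟩ := h
  have h5 : IsPGroup 2 (E.subgroupOf (normalizer E)) := fun x =>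
    ⟨1, Subtype.ext (Subtype.ext (h1.2 _ x.2))⟩
  obtain ⟨T, hT⟩ := h5.exists_le_sylow
  have h6 : Nat.card ((T : Subgroup (normalizer (E : Set G))).map (normalizer (E : Set G)).subtype) =
      2 ^ (Nat.card G).factorization 2 := by
    rw [Nat.factorization_def _ Nat.prime_two]
    refine card_eq_of_le ((card_map_of_injective (subtype_injective _)).trans (sylow_card T))
      (h4.trans ?_)
    exact (padicValNat_dvd_iff_le Nat.card_pos.ne').1 (pow_padicValNat_dvd.trans (card_dvd_of_le h3))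
  let T' := Sylow.ofCard _ h6
  have h7 : E ≤ T' := fun x hx => ⟨⟨x, le_normalizer hx⟩, hT hx, rfl⟩
  have h8 : (E.subgroupOf T').Normal := (normal_subgroupOf_iff_le_normalizer h7).2 (map_subtype_le _)
  let e := T'.equiv S
  refine ⟨(E.subgroupOf T').map e.toMonoidHom, h8.map _ e.surjective, ea_map ?_ _, ?_⟩
  · rw [ea_iff] at h1 ⊢
    exact ⟨fun a ha b hb => Subtype.ext (h1.1 _ ha _ hb), fun a ha => Subtype.ext (h1.2 _ ha)⟩
  · rwa [card_map_of_injective e.injective, Nat.card_congr (subgroupOfEquivOfLe h7).toEquiv]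

theorem np_of_wr {D ι : Type*} [Group D] [Fintype ι] [DecidableEq ι] [Finite G] [Finite D]
    {w : (ι → D) →* G} {π : Perm ι →* G} (h : IsWr w π) {z : D} (hz : ∀ d, d * z = z * d)
    (h2 : orderOf z = 2) (hv : padicValNat 2 (Nat.card G) ≤
      Fintype.card ι * padicValNat 2 (Nat.card D) + padicValNat 2 (Fintype.card ι).factorial) :
    NP G (Fintype.card ι) := by
  have h3 : ∀ x ∈ zpowers z, ∀ d, d * x = x * d := fun x hx =>
    mem_center_iff.1 (zpowers_le.2 (mem_center_iff.2 hz) hx)
  refine ⟨(pi Set.univ fun _ => zpowers z).map w, wrSub w π ⊤ ⊤, ea_map (ea_iff.2 ⟨fun a _ b hb =>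
    funext fun i => h3 _ ((mem_pi _).1 hb i trivial) _, fun a ha => funext fun i => ?_⟩) _, ?_,
    sup_le ?_ ?_, ?_⟩
  · exact orderOf_dvd_iff_pow_eq_one.1 (h2 ▸ orderOf_dvd_of_mem_zpowers (ha i trivial))
  · have := h.card_wrSub (zpowers z) ⊥
    rw [wrSub, Subgroup.map_bot, sup_bot_eq, card_bot, mul_one, Nat.card_zpowers, h2] at this
    exact this.ge
  · refine (map_mono ?_).trans (le_normalizer_map w)
    refine le_top.trans (normalizer_eq_top_iff.2 ⟨fun a ha g i _ => ?_⟩).ge
    simpa [h3 _ (ha i trivial) (g i)] using ha i trivial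
  · rintro _ ⟨σ, -, rfl⟩
    refine mem_normalizer_fintype ?_
    rintro _ ⟨a, ha, rfl⟩
    exact ⟨_, fun i _ => ha _ trivial, (h.conj σ a).symm⟩
  · rwa [h.card_wrSub, card_top, card_top, padicValNat.mul (pow_ne_zero _ Nat.card_pos.ne')
      Nat.card_pos.ne', padicValNat.pow, Nat.card_perm, Nat.card_eq_fintype_card (α := ι)]

variable {F : Type*} [Field F] [Fintype F]

theorem two_ne (hF : Odd (Fintype.card F)) : (2 : F) ≠ 0 := fun h => by
  have := H10.two_eq_zero_iff_even_card.1 h
  have := Nat.odd_iff.1 hF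
  omega

theorem np_sp (hF : Odd (Fintype.card F)) (n : ℕ) : NP (symplecticGroup (Fin n) F) n := by
  have h1 : 1 < Fintype.card F := Fintype.one_lt_card
  let e : (Fin n → Fin 2 → F) ≃ₗ[F] (Fin n ⊕ Fin n → F) :=
    { toFun := fun x => Sum.elim (fun i => x i 0) fun i => x i 1
      invFun := fun y i => ![y (.inl i), y (.inr i)]
      map_add' := fun x y => by ext (i | i) <;> rfl
      map_smul' := fun x y => by ext (i | i) <;> rfl
      left_inv := fun x => by ext i j; fin_cases j <;> rfl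
      right_inv := fun y => by ext (i | i) <;> rfl }
  let ψ := (isomCongr (σ := RingHom.id F) (B := piB (Fin n) (altB F))
    (Q := piQ (Fin n) fun _ => 0) (B' := H10.spBilin (Fin n) F) (Q' := fun _ => 0) e
    (fun x y => by rw [H10.spBilin_apply_sum, piB_apply]; rfl) (fun x => by simp [piQ])).trans
    (H10.spIso (Fin n) F).symm
  have h := ((isWr_pi (ι := Fin n) (B := altB F) (Q := fun _ => 0)).precomp slAlt_injective).comp
    (f := ψ.toMonoidHom) ψ.injective
  haveI : Fact (Even (Fintype.card (Fin 2))) := ⟨by simp⟩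
  have := np_of_wr h (z := -1) (fun d => by simp) (orderOf_eq_prime (by simp) fun h0 =>
    two_ne hF (by
      have h2 : (-1 : F) = 1 := by simpa using congrArg (fun g : SL(2, F) => g.1 0 0) h0
      linear_combination -h2)) (by
    rw [H10.card_sp, padicValNat.mul (by positivity)
      (prod_pow_sub_one_ne h1 _), val_odd_pow hF, val_prod_pow_sub_one h1 hF, H10.card_SL2,
      Nat.card_eq_fintype_card (α := F), mul_assoc, mul_comm (_ - 1), ← Nat.sq_sub_sq _ 1,
      padicValNat.mul (by omega) (Nat.sub_ne_zero_of_lt (by nlinarith)),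
      ← pow_one (Fintype.card F), val_odd_pow hF]
    simp)
  simpa using this

theorem sp_le (hF : Odd (Fintype.card F)) {n : ℕ} {S : Type*} [Group S] [Finite S]
    {f : S →* symplecticGroup (Fin n) F} (hf : Injective f) {E : Subgroup S}
    (hE : IsElementaryAbelian 2 E) : Nat.card E ≤ 2 ^ n := by
  let ρ : S →* End F (Fin n ⊕ Fin n → F) :=
    (toLinAlgEquiv' (R := F)).toMonoidHom.comp ((Submonoid.subtype _).comp f)
  have hρ : Injective ρ := toLinAlgEquiv'.injective.comp (Subtype.val_injective.comp hf)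
  have hB : ∀ s u v, H10.spBilin (Fin n) F (ρ s u) (ρ s v) = H10.spBilin (Fin n) F u v :=
    fun s => H10.mem_symplecticGroup_iff_form.1 (f s).2
  obtain ⟨k, k1, -, k2⟩ := card_E_le (two_ne hF) hρ hE
  haveI : IsEmpty {χ // finrank F (W ρ E χ) = 1} := ⟨fun ⟨χ, hχ⟩ => by
    obtain ⟨v, h0, hv⟩ := finrank_eq_one_iff'.1 hχ
    refine h0 (Subtype.ext (H10.spBilin_nondegenerate.1 _ fun w => ?_))
    have : w ∈ ⨆ χ, W ρ E χ := (W_top (ρ := ρ) (two_ne hF) hE).ge Submodule.mem_top
    induction this using Submodule.iSup_induction' with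
    | mem ψ w hw =>
      by_cases h : ψ = χ
      · subst h
        obtain ⟨c, hc⟩ := hv ⟨w, hw⟩
        rw [show w = c • v.1 from (congrArg Subtype.val hc).symm, map_smul, H10.spBilin_isAlt,
          smul_zero]
      obtain ⟨e, he⟩ := Function.ne_iff.1 h
      by_contra h1
      have h2 := hB e v w
      rw [mem_W.1 v.2, mem_W.1 hw, map_smul, LinearMap.map_smul₂, smul_smul, smul_eq_mul,
        mul_left_eq_self₀] at h2
      have h3 := h2.resolve_right h1
      rcases chi_sq hE (χ := χ) (fun h => by rw [h, finrank_bot] at hχ; omega) e with h4 | h4 <;> rw [h4] at he h3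
      · exact he (by simpa using h3)
      · exact he (by linear_combination -h3)
    | zero => simp
    | add x y _ _ h1 h2 => simp [h1, h2]⟩
  rw [Nat.card_of_isEmpty, H10.finrank_sp_space, Fintype.card_fin] at k2
  exact k1.trans (Nat.pow_le_pow_right two_pos (by omega))

theorem order_neg_one (hF : Odd (Fintype.card F)) {k : ℕ} : orderOf (-1 : GL (Fin (k + 1)) F) = 2 :=
  orderOf_eq_prime (by simp) fun h0 => two_ne hF (by
    have h2 : (-1 : F) = 1 := by simpa using congrArg (fun g : GL (Fin (k + 1)) F => g.1 0 0) h0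
    linear_combination -h2)

theorem vg_succ (hF : Odd (Fintype.card F)) (n : ℕ) : padicValNat 2 (Nat.card (GL (Fin (n + 1)) F)) =
    padicValNat 2 (Nat.card (GL (Fin n) F)) + padicValNat 2 (Fintype.card F ^ (n + 1) - 1) := by
  have h1 : 1 < Fintype.card F := Fintype.one_lt_card
  rw [val_card_GL hF, val_card_GL hF, Finset.prod_range_succ, padicValNat.mul
    (Finset.prod_ne_zero_iff.mpr fun i _ => Nat.sub_ne_zero_of_lt (Nat.one_lt_pow (by omega) h1))
    (Nat.sub_ne_zero_of_lt (Nat.one_lt_pow (by omega) h1))]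

theorem vg_zero : padicValNat 2 (Nat.card (GL (Fin 0) F)) = 0 := by
  rw [Nat.card_unique, padicValNat_one_right]

theorem v_term {q : ℕ} (h1 : 1 < q) (hq : Odd q) (n : ℕ) :
    padicValNat 2 (q ^ (n + 1) - 1) = padicValNat 2 (q - 1) + padicValNat 2 (n + 1) +
      if Even (n + 1) then padicValNat 2 (q + 1) - 1 else 0 := by
  split_ifs with h
  · have h2 := padicValNat.pow_two_sub_one h1 (by have := Nat.odd_iff.1 hq; omega) (by omega) h
    have h3 : 1 ≤ padicValNat 2 (q + 1) :=
      one_le_padicValNat_of_dvd (by omega) (by have := Nat.odd_iff.1 hq; omega)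
    omega
  · obtain ⟨i, hi⟩ := Nat.not_even_iff_odd.1 h
    rw [hi, val_pow_odd_sub_one h1 hq, padicValNat.eq_zero_of_not_dvd (n := 2 * i + 1) (by omega)]
    rfl

theorem np_gl_one (hq : Fintype.card F % 4 = 1) (n : ℕ) : NP (GL (Fin n) F) n := by
  have hF : Odd (Fintype.card F) := Nat.odd_iff.2 (by omega)
  have h1 : 1 < Fintype.card F := Fintype.one_lt_card
  have e := glReindex (F := F) (Fintype.equivFinOfCardEq (α := Fin 1 × Fin n) (n := n) (by simp))
  have := np_of_wr (isWr_gl.comp (f := e.toMonoidHom) e.injective) (z := -1) (fun d => by simp)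
    (order_neg_one hF) (by
      rw [Fintype.card_fin, vg_succ hF 0, vg_zero, zero_add, zero_add, pow_one]
      clear e
      induction n with
      | zero => simp [vg_zero]
      | succ n ih =>
        rw [vg_succ hF, v_term h1 hF, val_eq_one (n := Fintype.card F + 1) (by omega), Nat.factorial_succ,
          padicValNat.mul (by omega) (Nat.factorial_ne_zero _), add_mul]
        simp only [Nat.sub_self, ite_self]
        omega)
  simpa using this

theorem np_gl_even (hF : Odd (Fintype.card F)) (m : ℕ) : NP (GL (Fin (2 * m)) F) m := by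
  have h1 : 1 < Fintype.card F := Fintype.one_lt_card
  have e := glReindex (F := F) (finProdFinEquiv (m := 2) (n := m))
  have := np_of_wr (isWr_gl.comp (f := e.toMonoidHom) e.injective) (z := -1) (fun d => by simp)
    (order_neg_one hF) (by
      rw [val_card_GL hF, val_card_GL hF, val_prod_GL h1 hF, val_prod_GL h1 hF 1]
      simp)
  simpa using this

theorem np_gl_half (hF : Odd (Fintype.card F)) (n : ℕ) : NP (GL (Fin n) F) ((n + 1) / 2) := by
  obtain ⟨m, rfl | rfl⟩ := n.even_or_odd'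
  · rw [show (2 * m + 1) / 2 = m by omega]
    exact np_gl_even hF m
  have h1 : NP (GL (Fin 1) F) 1 := ⟨zpowers (-1), ⊤, ea_iff.2 ⟨fun a _ b _ =>
    Units.ext (by ext i j; simp [mul_apply, Subsingleton.elim i 0, Subsingleton.elim j 0, mul_comm]),
    fun a ha => orderOf_dvd_iff_pow_eq_one.1 (order_neg_one hF ▸ orderOf_dvd_of_mem_zpowers ha)⟩,
    by rw [Nat.card_zpowers, order_neg_one hF, pow_one], (normalizer_eq_top_iff.2 ⟨fun a ha g => by
      rwa [mem_center_iff.1 (zpowers_le.2 (mem_center_iff.2 fun d => by simp) ha) g,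
        mul_inv_cancel_right]⟩).ge, by rw [card_top]⟩
  let f : GL (Fin (2 * m)) F × GL (Fin 1) F →* GL (Fin (2 * m) ⊕ Fin 1) F := MonoidHom.toHomUnits
    { toFun := fun x => fromBlocks x.1.1 0 0 x.2.1
      map_one' := by simp
      map_mul' := fun x y => by simp [fromBlocks_multiply] }
  have hf : Injective f := fun x y h => by
    have := fromBlocks_inj.1 (congrArg Units.val h)
    exact Prod.ext (Units.ext this.1) (Units.ext this.2.2.2)
  have e := glReindex (F := F) (finSumFinEquiv (m := 2 * m) (n := 1))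
  rw [show (2 * m + 1 + 1) / 2 = m + 1 by omega]
  refine ((np_gl_even hF m).prod h1).map (f := e.toMonoidHom.comp f) (e.injective.comp hf) ?_
  rw [Nat.card_prod, padicValNat.mul Nat.card_pos.ne' Nat.card_pos.ne', vg_succ hF, vg_succ hF 0,
    vg_zero, val_pow_odd_sub_one Fintype.one_lt_card hF]
  simp

theorem vg_add (hq : Fintype.card F % 4 = 3) (n t : ℕ) :
    padicValNat 2 (Nat.card (GL (Fin n) F)) + t + padicValNat 2 ((n + 1).ascFactorial t) +
      ((n + t) / 2 - n / 2) ≤ padicValNat 2 (Nat.card (GL (Fin (n + t)) F)) := by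
  have hF : Odd (Fintype.card F) := Nat.odd_iff.2 (by omega)
  have h1 : 1 < Fintype.card F := Fintype.one_lt_card
  induction t with
  | zero => simp
  | succ t ih =>
    have h2 : 2 ≤ padicValNat 2 (Fintype.card F + 1) :=
      (padicValNat_dvd_iff_le (by omega)).1 (by omega)
    rw [← add_assoc n, vg_succ hF, v_term h1 hF, val_eq_one (n := Fintype.card F - 1) (by omega),
      Nat.ascFactorial_succ, padicValNat.mul (by omega) (Nat.ascFactorial_pos _ _).ne',
      add_right_comm n 1 t]
    split_ifs with h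
    · omega
    · have := Nat.odd_iff.1 (Nat.not_even_iff_odd.1 h)
      omega

theorem gl_le (hF : Odd (Fintype.card F)) {n : ℕ} (S : Sylow 2 (GL (Fin n) F))
    {E : Subgroup (S : Subgroup (GL (Fin n) F))} (hE : IsElementaryAbelian 2 E) :
    Nat.card E ≤ 2 ^ n ∧ (E.Normal → Fintype.card F % 4 = 3 → Nat.card E ≤ 2 ^ ((n + 1) / 2)) := by
  let ρ : (S : Subgroup (GL (Fin n) F)) →* End F (Fin n → F) :=
    (toLinAlgEquiv' (R := F)).toMonoidHom.comp ((Units.coeHom _).comp (Subgroup.subtype _))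
  have hρ : Injective ρ :=
    toLinAlgEquiv'.injective.comp (Units.val_injective.comp Subtype.val_injective)
  obtain ⟨k, k1, k2, k3⟩ := card_E_le (two_ne hF) hρ hE
  rw [finrank_fin_fun] at k2 k3
  refine ⟨k1.trans (Nat.pow_le_pow_right two_pos k2), fun hN hq =>
    k1.trans (Nat.pow_le_pow_right two_pos ?_)⟩
  obtain ⟨n', h1, h2⟩ := card_S_le hq hρ hE (sylow_card S)
  rw [finrank_fin_fun] at h1
  generalize Nat.card {χ // finrank F (W ρ E χ) = 1} = t at *
  have h3 := vg_add hq n' t
  have h4 := vg_add hq (n' + t) (n - (n' + t))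
  rw [Nat.add_sub_cancel' h1] at h4
  have h5 : padicValNat 2 t.factorial ≤ padicValNat 2 ((n' + 1).ascFactorial t) :=
    (padicValNat_dvd_iff_le (Nat.ascFactorial_pos _ _).ne').1
      (pow_padicValNat_dvd.trans (Nat.factorial_dvd_ascFactorial _ _))
  omega

end Cfsg.Agent.H18.Nr
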