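import Cfsg.Agent.H18.Pb3
import Cfsg.Agent.H2.Fitting

/-! Largest nilpotent subgroups of symmetric and alternating groups: the bounds. -/

set_option autoImplicit false

namespace Cfsg.Agent.H18.Pb

open Equiv Equiv.Perm

/-- the exponent of `p` in `n!` -/
def vp (p n : ℕ) : ℕ := ∑ i ∈ Finset.Ico 1 (n + 1), n / p ^ i

theorem vp_eq (p : ℕ) [Fact p.Prime] (n : ℕ) : vp p n = padicValNat p n.factorial :=
  (padicValNat_factorial (Nat.lt_succ_of_le (Nat.log_le_self p n))).symm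

theorem le_vp {p k n : ℕ} [Fact p.Prime] (h : p ^ k ∣ n.factorial) : k ≤ vp p n := by
  rw [vp_eq]
  exact (padicValNat_dvd_iff_le n.factorial_ne_zero).1 h

theorem v2_add (a b : ℕ) : vp 2 a + vp 2 b ≤ vp 2 (a + b) := by
  refine le_vp ?_
  rw [pow_add, vp_eq, vp_eq]
  exact (Nat.mul_dvd_mul pow_padicValNat_dvd pow_padicValNat_dvd).trans
    (Nat.factorial_mul_factorial_dvd_factorial_add a b)

theorem v2_mono {a b : ℕ} (h : a ≤ b) : vp 2 a ≤ vp 2 b := by
  obtain ⟨c, rfl⟩ := Nat.exists_eq_add_of_le h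
  have := v2_add a c
  omega

theorem v2_even (m : ℕ) : vp 2 (2 * m) = vp 2 m + m := by
  rw [vp_eq, vp_eq, padicValNat_factorial_mul]

theorem v2_odd (m : ℕ) : vp 2 (2 * m + 1) = vp 2 (2 * m) := by
  rw [vp_eq, vp_eq, padicValNat_factorial_mul_add _ (by norm_num)]

theorem v2_four (k : ℕ) : vp 2 (4 * k + 1) = vp 2 (4 * k) ∧ vp 2 (4 * k + 2) = vp 2 (4 * k) + 1 ∧
    vp 2 (4 * k + 3) = vp 2 (4 * k) + 1 := by
  have h1 := v2_odd (2 * k)
  have h2 := v2_even (2 * k + 1)
  have h3 := v2_odd (2 * k + 1)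
  have h4 := v2_even (2 * k)
  have h5 := v2_odd k
  rw [show 2 * (2 * k) = 4 * k by ring] at h1 h4
  rw [show 2 * (2 * k + 1) = 4 * k + 2 by ring] at h2 h3
  exact ⟨h1, by omega, by rw [show 4 * k + 3 = 4 * k + 2 + 1 by ring]; omega⟩

/-- the factor attached to the residue modulo four -/
def cN (r : ℕ) : ℕ := if r = 3 then 3 else if r = 2 then 2 else 1

/-- largest order of a nilpotent subgroup of `S_n` -/
def fN (n : ℕ) : ℕ := 2 ^ vp 2 (4 * (n / 4)) * cN (n % 4)

/-- twice the largest order of a nilpotent subgroup of `A_n` -/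
def eN (n : ℕ) : ℕ :=
  if n = 0 ∨ n = 1 then 2 else if n = 3 then 6 else if n = 5 then 10 else if n = 6 then 18
  else if n = 9 then 162 else fN n

theorem fN_eq (k r : ℕ) (h : r < 4) : fN (4 * k + r) = 2 ^ vp 2 (4 * k) * cN r := by
  rw [fN, show (4 * k + r) / 4 = k by omega, show (4 * k + r) % 4 = r by omega]

theorem fN_pos (n : ℕ) : 0 < fN n := by
  unfold fN cN
  split_ifs <;> positivity

theorem fN_of_ne {n : ℕ} (h : n % 4 ≠ 3) : fN n = 2 ^ vp 2 n := by
  obtain ⟨k, r, hr, rfl⟩ : ∃ k r, r < 4 ∧ n = 4 * k + r := ⟨n / 4, n % 4, by omega, by omega⟩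
  obtain ⟨h1, h2, -⟩ := v2_four k
  rw [fN_eq k r hr]
  interval_cases r
  · simp [cN]
  · simp [cN, h1]
  · simp [cN, h2, pow_succ]
  · omega

theorem fN_of_eq {n : ℕ} (h : n % 4 = 3) : fN n = 3 * 2 ^ vp 2 (n - 3) := by
  rw [fN, h, show 4 * (n / 4) = n - 3 by omega, mul_comm]
  rfl

theorem pow_v2_le (n : ℕ) : 2 ^ vp 2 n ≤ fN n := by
  by_cases h : n % 4 = 3
  · obtain ⟨k, rfl⟩ : ∃ k, n = 4 * k + 3 := ⟨n / 4, by omega⟩
    rw [fN_of_eq h, (v2_four k).2.2, pow_succ, Nat.add_sub_cancel]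
    omega
  · rw [fN_of_ne h]

theorem fN_mul (a b : ℕ) : fN a * fN b ≤ fN (a + b) := by
  obtain ⟨j, r, hr, rfl⟩ : ∃ k r, r < 4 ∧ a = 4 * k + r := ⟨a / 4, a % 4, by omega, by omega⟩
  obtain ⟨k, s, hs, rfl⟩ : ∃ k r, r < 4 ∧ b = 4 * k + r := ⟨b / 4, b % 4, by omega, by omega⟩
  have h1 : 2 ^ vp 2 (4 * j) * 2 ^ vp 2 (4 * k) ≤ 2 ^ vp 2 (4 * (j + k)) := by
    rw [← pow_add, mul_add]
    exact Nat.pow_le_pow_right (by norm_num) (v2_add _ _)
  have h2 : 2 ^ vp 2 (4 * (j + k)) * 8 ≤ 2 ^ vp 2 (4 * (j + k + 1)) := by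
    rw [show 8 = 2 ^ vp 2 4 by decide, ← pow_add, mul_add 4 (j + k)]
    exact Nat.pow_le_pow_right (by norm_num) (v2_add _ _)
  rw [fN_eq j r hr, fN_eq k s hs, mul_mul_mul_comm]
  by_cases h : r + s < 4
  · rw [show 4 * j + r + (4 * k + s) = 4 * (j + k) + (r + s) by ring, fN_eq _ _ h]
    refine Nat.mul_le_mul h1 ?_
    interval_cases r <;> interval_cases s <;> first | decide | omega
  · rw [show 4 * j + r + (4 * k + s) = 4 * (j + k + 1) + (r + s - 4) by omega, fN_eq _ _ (by omega)]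
    refine (Nat.mul_le_mul h1 (show cN r * cN s ≤ 8 * cN (r + s - 4) from ?_)).trans ?_
    · interval_cases r <;> interval_cases s <;> first | decide | omega
    · rw [← mul_assoc]
      exact Nat.mul_le_mul_right _ h2

theorem fN_mono {a b : ℕ} (h : a ≤ b) : fN a ≤ fN b := by
  obtain ⟨c, rfl⟩ := Nat.exists_eq_add_of_le h
  have := fN_mul a c
  have := fN_pos c
  nlinarith

theorem eN_of {n : ℕ} (h : ¬(n = 0 ∨ n = 1 ∨ n = 3 ∨ n = 5 ∨ n = 6 ∨ n = 9)) : eN n = fN n := by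
  unfold eN
  split_ifs <;> first | rfl | omega

theorem fN_le_eN (n : ℕ) : fN n ≤ eN n ∧ eN n ≤ 2 * fN n := by
  by_cases h : n = 0 ∨ n = 1 ∨ n = 3 ∨ n = 5 ∨ n = 6 ∨ n = 9
  · rcases h with rfl | rfl | rfl | rfl | rfl | rfl <;> decide
  · rw [eN_of h]; omega

theorem eN_mul (a b : ℕ) : eN a * eN b ≤ 2 * eN (a + b) := by
  have h1 := fN_mul a b
  have h2 := fN_le_eN a
  have h3 := fN_le_eN b
  have h4 := fN_le_eN (a + b)
  by_cases ha : a = 0 ∨ a = 1 ∨ a = 3 ∨ a = 5 ∨ a = 6 ∨ a = 9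
  · by_cases hb : b = 0 ∨ b = 1 ∨ b = 3 ∨ b = 5 ∨ b = 6 ∨ b = 9
    · rcases ha with rfl | rfl | rfl | rfl | rfl | rfl <;>
        rcases hb with rfl | rfl | rfl | rfl | rfl | rfl <;> decide +kernel
    · rw [eN_of hb]; nlinarith
  · rw [eN_of ha]; nlinarith

theorem three_pow_lt {n : ℕ} (h : 16 ≤ n) : 4 * 3 ^ (n - 1) ≤ fN n ^ 2 := by
  induction n using Nat.strong_induction_on with
  | _ n ih =>
  by_cases hn : 24 ≤ n
  · obtain ⟨m, rfl⟩ : ∃ m, n = m + 8 := ⟨n - 8, by omega⟩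
    have h1 := ih m (by omega) (by omega)
    have h2 := fN_mul m 8
    rw [show fN 8 = 128 by decide] at h2
    rw [show m + 8 - 1 = m - 1 + 8 by omega, pow_add]
    nlinarith [Nat.pow_le_pow_left h2 2]
  have hn' : n < 24 := by omega
  interval_cases n <;> decide +kernel

theorem sq_le_three_pow {p : ℕ} (h : 3 ≤ p) : p ^ 2 ≤ 3 ^ (p - 1) := by
  induction p, h using Nat.le_induction with
  | base => decide
  | succ p hp ih =>
    rw [show p + 1 - 1 = p - 1 + 1 by omega, pow_succ 3]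
    nlinarith

theorem odd_bd {p k n : ℕ} (hp : p.Prime) (h3 : 3 ≤ p) (h : p ^ k ∣ n.factorial) :
    p ^ k ≤ fN n ∧ 2 * p ^ k ≤ eN n := by
  haveI := Fact.mk hp
  have h1 := le_vp h
  by_cases hn : 16 ≤ n
  · have h2 := sub_one_mul_padicValNat_factorial_lt_of_ne_zero p (n := n) (by omega)
    rw [← vp_eq] at h2
    have h4 : (p ^ k) ^ 2 ≤ 3 ^ (n - 1) := by
      rw [← pow_mul, mul_comm, pow_mul]
      refine (Nat.pow_le_pow_left (sq_le_three_pow h3) k).trans ?_
      rw [← pow_mul]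
      refine Nat.pow_le_pow_right (by norm_num) ?_
      have := Nat.mul_le_mul_left (p - 1) h1
      omega
    have h5 := three_pow_lt hn
    have h6 : 2 * p ^ k ≤ fN n := by
      exact (Nat.pow_le_pow_iff_left two_ne_zero).1 (show (2 * p ^ k) ^ 2 ≤ fN n ^ 2 by nlinarith)
    rw [eN_of (by omega)]
    omega
  rcases Nat.eq_zero_or_pos k with rfl | hk
  · have := fN_pos n
    have h7 : n < 16 := by omega
    refine ⟨this, ?_⟩
    rw [pow_zero]
    interval_cases n <;> decide +kernel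
  have h4 : p ≤ n := hp.dvd_factorial.1 ((dvd_pow_self p hk.ne').trans h)
  have h5 : p ^ k ≤ p ^ vp p n := Nat.pow_le_pow_right hp.pos h1
  have h6 : ∀ n < 16, ∀ p ∈ [3, 5, 7, 11, 13], p ^ vp p n ≤ fN n ∧ 2 * p ^ vp p n ≤ eN n := by
    decide +kernel
  have h7 := h6 n (by omega) p (by
    have : p < 16 := by omega
    interval_cases p <;> first | decide | exact absurd hp (by decide))
  omega

theorem pgroup_bd {β : Type} [Fintype β] [DecidableEq β] (N : Subgroup (Perm β)) {p : ℕ}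
    (hp : p.Prime) (hN : IsPGroup p N) : Bd fN eN β N := by
  haveI := Fact.mk hp
  obtain ⟨k, hk⟩ := hN.exists_card_eq
  have h1 := card_dvd_fact N
  rw [hk] at h1
  rcases hp.eq_two_or_odd' with rfl | h2
  · refine ⟨hk ▸ (Nat.pow_le_pow_right (by norm_num) (le_vp h1)).trans (pow_v2_le _), fun he => ?_⟩
    by_cases h2 : 2 ≤ Fintype.card β
    · have h3 := card_le_alt he h2
      rw [hk, ← pow_succ'] at h3
      rw [hk, ← pow_succ']
      exact ((Nat.pow_le_pow_right (by norm_num) (le_vp h3)).trans (pow_v2_le _)).trans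
        (fN_le_eN _).1
    · have h3 := Nat.le_of_dvd (Nat.factorial_pos _) h1
      rw [hk]
      have h4 : Fintype.card β < 2 := by omega
      interval_cases (Fintype.card β) <;> simpa [eN] using h3
  · have := hp.two_le
    obtain ⟨h3, h4⟩ := odd_bd hp (by obtain ⟨m, rfl⟩ := h2; omega) h1
    exact ⟨hk ▸ h3, fun _ => hk ▸ h4⟩

theorem imCl_nil : ImCl fun G _ => Group.IsNilpotent G := fun _ _ _ _ f hf hG =>
  haveI := hG
  Group.nilpotent_of_surjective f hf

open MulAction in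
theorem factor_faithful {G β : Type} [Group G] [MulAction G β] [FaithfulSMul G β]
    [IsPretransitive G β] {P Q : Subgroup G} [Q.Normal] (h : P ⊔ Q = ⊤)
    (hc : P ≤ Subgroup.centralizer (Q : Set G)) (x : β) :
    Function.Injective (toPermHom P (orbit P x)) := by
  rw [injective_iff_map_eq_one]
  intro u hu
  refine Subtype.ext (eq_of_smul_eq_smul (α := β) fun y => ?_)
  obtain ⟨g, rfl⟩ := exists_smul_eq G x y
  have hg : g ∈ Q ⊔ P := by rw [sup_comm, h]; trivial
  obtain ⟨q, hq, v, hv, rfl⟩ := Subgroup.mem_sup_of_normal_left.1 hg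
  have h1 : (u : G) • v • x = v • x :=
    congrArg Subtype.val (Equiv.congr_fun hu (⟨v • x, ⟨⟨v, hv⟩, rfl⟩⟩ : orbit P x))
  rw [mul_smul, ← mul_smul (u : G), ← hc u.2 q hq, mul_smul, h1]
  simp

open MulAction in
theorem factor_bd {β : Type} [Fintype β] [DecidableEq β] {N : Subgroup (Perm β)}
    [IsPretransitive N β] {P Q : Subgroup N} [P.Normal] [Q.Normal] (h : P ⊔ Q = ⊤)
    (hc : P ≤ Subgroup.centralizer (Q : Set N)) (hP : P ≠ ⊥) (x : β) (hN : Group.IsNilpotent N) :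
    ∃ a, 2 ≤ a ∧ a ∣ Nat.card P ∧ a ∣ Fintype.card β ∧
      ((∀ (γ : Type) [Fintype γ] [DecidableEq γ] (M : Subgroup (Perm γ)),
        Fintype.card γ = a → Group.IsNilpotent M → Bd fN eN γ M) → Nat.card P ≤ fN a) := by
  classical
  have hi := factor_faithful h hc x
  have e := MonoidHom.ofInjective hi
  refine ⟨Fintype.card (orbit P x), ?_, ?_, ?_, fun ih => ?_⟩
  · by_contra h2
    have h3 := Nat.le_of_dvd (Nat.factorial_pos _) (card_dvd_fact (toPermHom P (orbit P x)).range)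
    rw [← Nat.card_congr e.toEquiv] at h3
    have h4 : Fintype.card (orbit P x) < 2 := by omega
    have h5 := (Subgroup.one_lt_card_iff_ne_bot P).2 hP
    interval_cases (Fintype.card (orbit P x)) <;> exact absurd h3 (not_le.2 h5)
  · rw [Nat.card_eq_fintype_card, ← card_orbit_mul_card_stabilizer_eq_card_group P x]
    exact dvd_mul_right _ _
  · have := (IsBlock.orbit_of_normal (G := N) (N := P) x).ncard_dvd_card (nonempty_orbit x)
    rwa [← Nat.card_coe_set_eq, Nat.card_eq_fintype_card, Nat.card_eq_fintype_card] at this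
  · rw [Nat.card_congr e.toEquiv]
    exact (ih _ _ rfl (Group.nilpotent_of_surjective e.toMonoidHom e.surjective)).1

theorem card_of_nil {G : Type} [Group G] [Finite G] [Group.IsNilpotent G] (p : ℕ) [Fact p.Prime] :
    Nat.card G = Nat.card (pCore p G) * Nat.card (pPrimeCore p G) := by
  have h := Subgroup.isComplement'_of_disjoint_and_mul_eq_univ
    (disjoint_iff.2 (H2.pCore_inf_pPrimeCore (G := G) p))
    (by rw [← Subgroup.normal_mul, H2.pCore_sup_pPrimeCore_of_isNilpotent p]; rfl)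
  exact h.card_mul_card.symm

theorem nil_bd (β : Type) [Fintype β] [DecidableEq β] (N : Subgroup (Perm β))
    (hN : Group.IsNilpotent N) : Bd fN eN β N := by
  refine bound_ind _ imCl_nil _ _ fN_mul (fun a b _ _ => eN_mul a b) (fun n => (fN_le_eN n).1) ?_
    β N hN
  intro γ _ _ M hM ht ih
  by_cases h1 : Nat.card M = 1
  · exact pgroup_bd M Nat.prime_two (IsPGroup.of_card (n := 0) h1)
  obtain ⟨p, hp, hd⟩ := Nat.exists_prime_and_dvd h1
  haveI := Fact.mk hp
  have hs := H2.pCore_sup_pPrimeCore_of_isNilpotent (G := M) p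
  have hc := card_of_nil (G := M) p
  by_cases hQ : pPrimeCore p M = ⊥
  · rw [hQ, sup_bot_eq] at hs
    refine pgroup_bd M hp ?_
    have := H2.pCore_isPGroup (p := p) (G := M)
    rw [hs] at this
    exact this.of_equiv Subgroup.topEquiv
  have hP : pCore p M ≠ ⊥ := fun h0 => by
    rw [h0, Subgroup.card_bot, one_mul] at hc
    exact H2.not_dvd_card_pPrimeCore p (hc ▸ hd)
  haveI : MulAction.IsPretransitive M γ := ⟨fun x y => by
    obtain ⟨a, ha, h⟩ := ht x y
    exact ⟨⟨a, ha⟩, h⟩⟩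
  obtain ⟨x⟩ : Nonempty γ := by
    by_contra h0
    rw [not_nonempty_iff] at h0
    have := card_dvd_fact M
    simp only [Fintype.card_eq_zero, Nat.factorial_zero, Nat.dvd_one] at this
    exact h1 this
  obtain ⟨a, a2, a3, a4, a5⟩ := factor_bd hs (H2.pCore_le_centralizer_pPrimeCore p) hP x hM
  obtain ⟨b, b2, b3, b4, b5⟩ := factor_bd (sup_comm (pCore p M) _ ▸ hs)
    (H2.pPrimeCore_le_centralizer_pCore p) hQ x hM
  have hab : a.Coprime b := by
    obtain ⟨k, hk⟩ := (H2.pCore_isPGroup (p := p) (G := M)).exists_card_eq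
    refine Nat.Coprime.coprime_dvd_left a3 (Nat.Coprime.coprime_dvd_right b3 ?_)
    rw [hk]
    exact Nat.Coprime.pow_left _ H2.pPrimeCore_coprime.symm
  have h2 : a * b ≤ Fintype.card γ :=
    Nat.le_of_dvd (Fintype.card_pos_iff.2 ⟨x⟩) (hab.mul_dvd_of_dvd_of_dvd a4 b4)
  have h3 := a5 fun δ _ _ K hδ hK => ih δ K (by nlinarith) hK
  have h4 := b5 fun δ _ _ K hδ hK => ih δ K (by nlinarith) hK
  have h5 : Nat.card M ≤ fN (a + b) := hc ▸ (Nat.mul_le_mul h3 h4).trans (fN_mul a b)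
  refine ⟨h5.trans (fN_mono (by nlinarith)), fun _ => ?_⟩
  by_cases h6 : a + b + 2 ≤ Fintype.card γ
  · have h7 := fN_mul (a + b) 2
    rw [show fN 2 = 2 by decide] at h7
    have := fN_mono h6
    have := (fN_le_eN (Fintype.card γ)).1
    omega
  · have h7 : a ≤ 3 := by nlinarith
    have h8 : b ≤ 3 := by nlinarith
    have h9 : a + b = 5 ∧ Fintype.card γ = 6 := by
      interval_cases a <;> interval_cases b <;> first | omega | exact absurd hab (by decide)
    rw [h9.1, show fN 5 = 8 by decide] at h5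
    rw [h9.2, show eN 6 = 18 by decide]
    omega

end Cfsg.Agent.H18.Pb
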