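import Cfsg.Agent.H18.Pb4
import Cfsg.Agent.H27.Cover

/-! Largest nilpotent subgroups of symmetric and alternating groups: the extremal cases. -/

set_option autoImplicit false

namespace Cfsg.Agent.H18.Pb

open Equiv Equiv.Perm
open scoped Pointwise

variable {β : Type} [Fintype β] [DecidableEq β]

theorem fact_perm : (Nat.card (Perm β)).factorization 2 = vp 2 (Fintype.card β) := by
  rw [Nat.card_eq_fintype_card, Fintype.card_perm, vp_eq, Nat.factorization_def _ Nat.prime_two]

theorem card_syl_sym (P : Sylow 2 (Perm β)) : Nat.card P = 2 ^ vp 2 (Fintype.card β) := by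
  rw [P.card_eq_multiplicity, fact_perm]

theorem fact_alt (h : 2 ≤ Fintype.card β) :
    (Nat.card (alternatingGroup β)).factorization 2 + 1 = vp 2 (Fintype.card β) := by
  rw [vp_eq, ← card_alt h, Nat.factorization_def _ Nat.prime_two,
    padicValNat.mul two_ne_zero Nat.card_pos.ne', padicValNat.self one_lt_two, add_comm]

theorem card_syl_alt (h : 2 ≤ Fintype.card β) (P : Sylow 2 (alternatingGroup β)) :
    2 * Nat.card P = 2 ^ vp 2 (Fintype.card β) := by
  rw [P.card_eq_multiplicity, ← fact_alt h, pow_succ']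

theorem nil_alt_bd (N : Subgroup (alternatingGroup β)) (hN : Group.IsNilpotent N) :
    2 * Nat.card N ≤ eN (Fintype.card β) := by
  have := (nil_bd _ (N.map (alternatingGroup β).subtype) (H2.isNilpotent_map _ N)).2
    (Subgroup.map_subtype_le N)
  rwa [Subgroup.card_map_of_injective (Subgroup.subtype_injective _)] at this

theorem sym_ne3 (h : Fintype.card β % 4 ≠ 3) (N : Subgroup (Perm β)) (hN : Group.IsNilpotent N)
    (P : Sylow 2 (Perm β)) : Nat.card N ≤ Nat.card P := by
  rw [card_syl_sym, ← fN_of_ne h]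
  exact (nil_bd _ N hN).1

theorem alt_ne3 (h : Fintype.card β % 4 ≠ 3) (h5 : Fintype.card β ≠ 5) (h6 : Fintype.card β ≠ 6)
    (h9 : Fintype.card β ≠ 9) (N : Subgroup (alternatingGroup β)) (hN : Group.IsNilpotent N)
    (P : Sylow 2 (alternatingGroup β)) : Nat.card N ≤ Nat.card P := by
  have h1 := nil_alt_bd N hN
  by_cases h2 : 2 ≤ Fintype.card β
  · rw [eN_of (by omega), fN_of_ne h, ← card_syl_alt h2 P] at h1
    omega
  · have h3 : eN (Fintype.card β) = 2 := by
      have h4 : Fintype.card β < 2 := by omega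
      interval_cases (Fintype.card β) <;> rfl
    have : 0 < Nat.card P := Nat.card_pos
    omega

theorem struct_three {G : Type} [Group G] [Finite G] {N : Subgroup G} (hN : Group.IsNilpotent N)
    {a : ℕ} (h : Nat.card N = 3 * 2 ^ a) : ∃ (c : G) (P : Subgroup G), orderOf c = 3 ∧
      P ≤ Subgroup.centralizer {c} ∧ Nat.card P = 2 ^ a ∧ N = P ⊔ Subgroup.zpowers c := by
  haveI := Fact.mk Nat.prime_three
  obtain ⟨c, hc⟩ := exists_prime_orderOf_dvd_card' (G := N) 3 (h ▸ dvd_mul_right _ _)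
  obtain ⟨P, hP⟩ := Sylow.exists_subgroup_card_pow_prime (G := N) 2 (n := a) (h ▸ dvd_mul_left _ _)
  have h1 : orderOf (c : G) = 3 := by rw [Subgroup.orderOf_coe, hc]
  have h2 : Nat.card (P.map N.subtype) = 2 ^ a := by
    rw [Subgroup.card_map_of_injective N.subtype_injective, hP]
  refine ⟨c, P.map N.subtype, h1, fun x hx => ?_, h2, ?_⟩
  · rw [Subgroup.mem_centralizer_singleton_iff]
    refine H27.commute_of_coprime_of_isNilpotent hN (Subgroup.map_subtype_le P hx) c.2 ?_
    rw [h1]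
    refine Nat.Coprime.coprime_dvd_left (Subgroup.orderOf_dvd_natCard _ hx) ?_
    rw [h2]
    exact Nat.Coprime.pow_left _ (by norm_num)
  · symm
    refine Subgroup.eq_of_le_of_card_ge
      (sup_le (Subgroup.map_subtype_le P) ((Subgroup.zpowers_le).2 c.2)) ?_
    rw [h]
    refine Nat.le_of_dvd Nat.card_pos (Nat.Coprime.mul_dvd_of_dvd_of_dvd
      (Nat.Coprime.pow_right _ (by norm_num)) ?_ ?_)
    · rw [← h1, ← Nat.card_zpowers]
      exact Subgroup.card_dvd_of_le le_sup_right
    · rw [← h2]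
      exact Subgroup.card_dvd_of_le le_sup_left

theorem conj_of_struct {G : Type} [Group G] [Finite G] {c₁ c₂ : G} (hc : IsConj c₁ c₂)
    {P₁ P₂ : Subgroup G} (h1 : P₁ ≤ Subgroup.centralizer {c₁}) (h2 : P₂ ≤ Subgroup.centralizer {c₂})
    (k1 : Nat.card P₁ = 2 ^ (Nat.card (Subgroup.centralizer {c₂})).factorization 2)
    (k2 : Nat.card P₂ = 2 ^ (Nat.card (Subgroup.centralizer {c₂})).factorization 2) :
    ∃ g : G, P₂ ⊔ Subgroup.zpowers c₂ = (P₁ ⊔ Subgroup.zpowers c₁).map (MulAut.conj g).toMonoidHom := by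
  obtain ⟨g, rfl⟩ := isConj_iff.1 hc
  have h3 : P₁.map (MulAut.conj g).toMonoidHom ≤ Subgroup.centralizer {g * c₁ * g⁻¹} := by
    rintro _ ⟨x, hx, rfl⟩
    have := Subgroup.mem_centralizer_singleton_iff.1 (h1 hx)
    rw [Subgroup.mem_centralizer_singleton_iff]
    simp [mul_assoc, ← mul_assoc x, this]
  rw [← Subgroup.card_map_of_injective (f := (MulAut.conj g).toMonoidHom) (MulAut.conj g).injective,
    ← Nat.card_congr (Subgroup.subgroupOfEquivOfLe h3).toEquiv] at k1
  rw [← Nat.card_congr (Subgroup.subgroupOfEquivOfLe h2).toEquiv] at k2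
  obtain ⟨⟨u, hu⟩, h4⟩ := syl_conj 2 k1 k2
  have h5 := Subgroup.mem_centralizer_singleton_iff.1 hu
  refine ⟨u * g, ?_⟩
  rw [Subgroup.map_sup, MonoidHom.map_zpowers]
  congr 1
  · have h6 := congrArg (Subgroup.map (Subgroup.centralizer {g * c₁ * g⁻¹}).subtype) h4
    rw [Subgroup.map_subgroupOf_eq_of_le h2] at h6
    rw [h6]
    ext x
    constructor
    · rintro ⟨_, ⟨⟨y, hy⟩, ⟨z, hz, h7⟩, rfl⟩, rfl⟩
      refine ⟨z, hz, ?_⟩
      have h8 : g * z * g⁻¹ = y := h7
      simp [← h8, mul_assoc]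
    · rintro ⟨z, hz, rfl⟩
      exact ⟨_, ⟨⟨_, h3 ⟨z, hz, rfl⟩⟩, ⟨z, hz, rfl⟩, rfl⟩, by simp [mul_assoc]⟩
  · congr 1
    calc g * c₁ * g⁻¹ = u * (g * c₁ * g⁻¹) * u⁻¹ := by rw [h5]; simp
      _ = _ := by simp [mul_assoc]

theorem three_cycle_of {c : Perm β} (hc : orderOf c = 3) (h : Fintype.card β % 4 = 3) {a : ℕ}
    (ha : vp 2 (Fintype.card β - 3) ≤ a + 1)
    (hd : 2 ^ a ∣ Nat.card (Subgroup.centralizer {c})) : c.IsThreeCycle := by
  obtain ⟨j, hj⟩ := cycleType_prime_order (σ := c) (hc ▸ Nat.prime_three)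
  rw [hc] at hj
  rcases Nat.eq_zero_or_pos j with rfl | h0
  · exact hj
  exfalso
  have h1 := sum_cycleType_le c
  rw [nat_card_centralizer, hj] at hd
  rw [hj] at h1
  simp only [Multiset.sum_replicate, smul_eq_mul, Multiset.prod_replicate,
    Multiset.toFinset_replicate, Nat.add_eq_zero_iff, one_ne_zero, and_false, if_false,
    Finset.prod_singleton, Multiset.count_replicate_self] at hd h1
  rw [mul_right_comm] at hd
  have h2 := le_vp ((Nat.Coprime.dvd_of_dvd_mul_right (Nat.Coprime.pow _ _ (by norm_num)) hd).trans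
    (Nat.factorial_mul_factorial_dvd_factorial_add _ _))
  obtain ⟨k, hk⟩ : ∃ k, Fintype.card β = 4 * k + 7 := ⟨Fintype.card β / 4 - 1, by omega⟩
  have h3 := v2_mono (show Fintype.card β - (j + 1) * 3 + (j + 1) ≤ 4 * k + 3 by omega)
  have h4 := v2_add (4 * k) 4
  rw [show vp 2 4 = 3 by decide] at h4
  rw [(v2_four k).2.2] at h3
  rw [show Fintype.card β - 3 = 4 * k + 4 by omega] at ha
  omega

theorem card_cent_three {c : Perm β} (hc : c.IsThreeCycle) :
    Nat.card (Subgroup.centralizer {c}) = 3 * (Fintype.card β - 3).factorial := by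
  rw [nat_card_centralizer, hc.cycleType]
  simp [mul_comm]

theorem fact_three_mul {m : ℕ} (hm : m ≠ 0) : (3 * m).factorization 2 = padicValNat 2 m := by
  rw [Nat.factorization_def _ Nat.prime_two, padicValNat.mul (by norm_num) hm,
    padicValNat.eq_zero_of_not_dvd (by norm_num), zero_add]

theorem sym_conj (h : Fintype.card β % 4 = 3) {N₁ N₂ : Subgroup (Perm β)}
    (n1 : Group.IsNilpotent N₁) (n2 : Group.IsNilpotent N₂)
    (k1 : Nat.card N₁ = 3 * 2 ^ vp 2 (Fintype.card β - 3))
    (k2 : Nat.card N₂ = 3 * 2 ^ vp 2 (Fintype.card β - 3)) :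
    ∃ g : Perm β, N₂ = N₁.map (MulAut.conj g).toMonoidHom := by
  obtain ⟨c₁, P₁, o1, l1, d1, rfl⟩ := struct_three n1 k1
  obtain ⟨c₂, P₂, o2, l2, d2, rfl⟩ := struct_three n2 k2
  have t1 := three_cycle_of o1 h (Nat.le_succ _) (d1 ▸ Subgroup.card_dvd_of_le l1)
  have t2 := three_cycle_of o2 h (Nat.le_succ _) (d2 ▸ Subgroup.card_dvd_of_le l2)
  have e : (Nat.card (Subgroup.centralizer {c₂})).factorization 2 = vp 2 (Fintype.card β - 3) := by
    rw [card_cent_three t2, fact_three_mul (Nat.factorial_ne_zero _), vp_eq]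
  exact conj_of_struct (isConj_iff_cycleType_eq.2 (t1.trans t2.symm)) l1 l2 (e ▸ d1) (e ▸ d2)

theorem cent_alt_map (c : alternatingGroup β) :
    (Subgroup.centralizer {c}).map (alternatingGroup β).subtype =
      alternatingGroup β ⊓ Subgroup.centralizer {(c : Perm β)} := by
  ext x
  constructor
  · rintro ⟨y, hy, rfl⟩
    exact ⟨y.2, Subgroup.mem_centralizer_singleton_iff.2
      (congrArg Subtype.val (Subgroup.mem_centralizer_singleton_iff.1 hy))⟩
  · rintro ⟨h1, h2⟩
    exact ⟨⟨x, h1⟩, Subgroup.mem_centralizer_singleton_iff.2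
      (Subtype.ext (Subgroup.mem_centralizer_singleton_iff.1 h2)), rfl⟩

theorem card_cent_alt (h5 : 5 ≤ Fintype.card β) {c : alternatingGroup β}
    (hc : (c : Perm β).IsThreeCycle) :
    2 * Nat.card (Subgroup.centralizer {c}) = 3 * (Fintype.card β - 3).factorial := by
  haveI : Nontrivial β := Fintype.one_lt_card_iff_nontrivial.1 (by omega)
  have h1 := (alternatingGroup β).relIndex_dvd_index_of_normal (Subgroup.centralizer {(c : Perm β)})
  rw [alternatingGroup.index_eq_two] at h1
  have h2 : (alternatingGroup β).relIndex (Subgroup.centralizer {(c : Perm β)}) ≠ 1 := by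
    rw [Ne, Subgroup.relIndex_eq_one]
    intro h
    have := card_le_of_centralizer_le_alternating h
    rw [hc.cycleType] at this
    simp at this
    omega
  have h3 := ((Nat.dvd_prime Nat.prime_two).1 h1).resolve_left h2
  rw [← card_cent_three hc, ← Subgroup.card_map_of_injective (alternatingGroup β).subtype_injective,
    cent_alt_map, ← Subgroup.index_mul_card ((alternatingGroup β).subgroupOf
      (Subgroup.centralizer {(c : Perm β)})), ← Subgroup.relIndex, h3,
    ← Subgroup.inf_subgroupOf_right,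
    Nat.card_congr (Subgroup.subgroupOfEquivOfLe inf_le_right).toEquiv]

theorem alt_conj_nil (h : Fintype.card β % 4 = 3) (h7 : 7 ≤ Fintype.card β) {a : ℕ}
    (ha : a + 1 = vp 2 (Fintype.card β - 3)) {N₁ N₂ : Subgroup (alternatingGroup β)}
    (n1 : Group.IsNilpotent N₁) (n2 : Group.IsNilpotent N₂)
    (k1 : Nat.card N₁ = 3 * 2 ^ a) (k2 : Nat.card N₂ = 3 * 2 ^ a) :
    ∃ g : alternatingGroup β, N₂ = N₁.map (MulAut.conj g).toMonoidHom := by
  obtain ⟨c₁, P₁, o1, l1, d1, rfl⟩ := struct_three n1 k1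
  obtain ⟨c₂, P₂, o2, l2, d2, rfl⟩ := struct_three n2 k2
  have key : ∀ (c : alternatingGroup β) (P : Subgroup (alternatingGroup β)), orderOf c = 3 →
      P ≤ Subgroup.centralizer {c} → Nat.card P = 2 ^ a → (c : Perm β).IsThreeCycle := by
    intro c P o l d
    refine three_cycle_of (by rw [Subgroup.orderOf_coe, o]) h ha.ge ?_
    rw [← d, ← Subgroup.card_map_of_injective (alternatingGroup β).subtype_injective]
    exact Subgroup.card_dvd_of_le ((Subgroup.map_mono l).trans ((cent_alt_map c).le.trans inf_le_right))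
  have t1 := key _ _ o1 l1 d1
  have t2 := key _ _ o2 l2 d2
  have e : (Nat.card (Subgroup.centralizer {c₂})).factorization 2 = a := by
    have h1 := congrArg (Nat.factorization · 2) (card_cent_alt (by omega) t2)
    rw [fact_three_mul (Nat.factorial_ne_zero _), ← vp_eq, ← ha,
      Nat.factorization_mul two_ne_zero Nat.card_pos.ne', Finsupp.add_apply,
      Nat.prime_two.factorization_self] at h1
    omega
  exact conj_of_struct (alternatingGroup.isThreeCycle_isConj
    (by rw [Nat.card_eq_fintype_card]; omega) t1 t2) l1 l2 (e ▸ d1) (e ▸ d2)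

/-- an embedding `K × C₃ → Sym β` extending `K → Sym γ` -/
theorem exists_hom_three {γ : Type} [Fintype γ] [DecidableEq γ]
    (h : Fintype.card γ + 3 = Fintype.card β) {K : Type} [Group K] (f : K →* Perm γ)
    (hf : Function.Injective f) : ∃ F : K × Multiplicative (ZMod 3) →* Perm β,
      Function.Injective F ∧ ∀ x, sign (F x) = sign (f x.1) := by
  let e : γ ⊕ Multiplicative (ZMod 3) ≃ β := Fintype.equivOfCardEq (by simp [h])
  refine ⟨e.permCongrHom.toMonoidHom.comp ((sumCongrHom _ _).comp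
    (f.prodMap (MulAction.toPermHom _ (Multiplicative (ZMod 3))))), ?_, ?_⟩
  · exact e.permCongrHom.injective.comp (sumCongrHom_injective.comp
      (hf.prodMap MulAction.toPerm_injective))
  · rintro ⟨x, y⟩
    have : ∀ y : Multiplicative (ZMod 3), sign (MulAction.toPerm y : Perm (Multiplicative (ZMod 3))) = 1 := by
      decide
    simp [this]

theorem exists_of_hom {G K : Type} [Group G] [Group K] [Finite K] (hK : IsPGroup 2 K)
    (F : K × Multiplicative (ZMod 3) →* G) (hF : Function.Injective F) :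
    ∃ M : Subgroup G, Group.IsNilpotent M ∧ Nat.card M = 3 * Nat.card K ∧
      Nonempty (M ≃* K × Multiplicative (ZMod 3)) := by
  have e := MonoidHom.ofInjective hF
  haveI := hK.isNilpotent
  refine ⟨F.range, Group.nilpotent_of_surjective e.toMonoidHom e.surjective, ?_, ⟨e.symm⟩⟩
  rw [← Nat.card_congr e.toEquiv, Nat.card_prod, mul_comm]
  simp

theorem sym_eq3 (n : ℕ) (hn : n % 4 = 3) (P : Sylow 2 (Perm (Fin (n - 3)))) :
    (∀ N : Subgroup (Perm (Fin n)), Group.IsNilpotent N → Nat.card N ≤ 3 * Nat.card P) ∧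
    (∃ M : Subgroup (Perm (Fin n)), Group.IsNilpotent M ∧ Nat.card M = 3 * Nat.card P ∧
      Nonempty (M ≃* (↥(P : Subgroup (Perm (Fin (n - 3)))) × Multiplicative (ZMod 3)))) ∧
    (∀ N₁ N₂ : Subgroup (Perm (Fin n)), Group.IsNilpotent N₁ → Group.IsNilpotent N₂ →
      Nat.card N₁ = 3 * Nat.card P → Nat.card N₂ = 3 * Nat.card P →
      ∃ g : Perm (Fin n), N₂ = N₁.map (MulAut.conj g).toMonoidHom) := by
  have hP := card_syl_sym P
  rw [Fintype.card_fin] at hP
  refine ⟨fun N hN => ?_, ?_, fun N₁ N₂ n1 n2 k1 k2 => ?_⟩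
  · have := (nil_bd _ N hN).1
    rwa [Fintype.card_fin, fN_of_eq hn, ← hP] at this
  · obtain ⟨F, hF, -⟩ := exists_hom_three (β := Fin n) (by simp; omega) _
      (P : Subgroup (Perm (Fin (n - 3)))).subtype_injective
    exact exists_of_hom P.isPGroup' F hF
  · exact sym_conj (by simpa using hn) n1 n2 (by simpa [hP] using k1) (by simpa [hP] using k2)

theorem alt_eq3 (n : ℕ) (hn : n % 4 = 3) (h7 : 7 ≤ n) (P : Sylow 2 (alternatingGroup (Fin (n - 3)))) :
    (∀ N : Subgroup (alternatingGroup (Fin n)), Group.IsNilpotent N → Nat.card N ≤ 3 * Nat.card P) ∧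
    (∃ M : Subgroup (alternatingGroup (Fin n)), Group.IsNilpotent M ∧ Nat.card M = 3 * Nat.card P ∧
      Nonempty (M ≃* (↥(P : Subgroup (alternatingGroup (Fin (n - 3)))) × Multiplicative (ZMod 3)))) ∧
    (∀ N₁ N₂ : Subgroup (alternatingGroup (Fin n)), Group.IsNilpotent N₁ → Group.IsNilpotent N₂ →
      Nat.card N₁ = 3 * Nat.card P → Nat.card N₂ = 3 * Nat.card P →
      ∃ g : alternatingGroup (Fin n), N₂ = N₁.map (MulAut.conj g).toMonoidHom) := by
  have hP := card_syl_alt (by simp; omega) P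
  have hf := fact_alt (β := Fin (n - 3)) (by simp; omega)
  rw [Fintype.card_fin] at hP hf
  refine ⟨fun N hN => ?_, ?_, fun N₁ N₂ n1 n2 k1 k2 => ?_⟩
  · have := nil_alt_bd N hN
    rw [Fintype.card_fin, eN_of (by omega), fN_of_eq hn, ← hP] at this
    omega
  · obtain ⟨F, hF, h1⟩ := exists_hom_three (β := Fin n) (by simp; omega)
      ((alternatingGroup (Fin (n - 3))).subtype.comp (P : Subgroup _).subtype)
      ((Subgroup.subtype_injective _).comp (Subgroup.subtype_injective _))
    refine exists_of_hom P.isPGroup' (F.codRestrict (alternatingGroup (Fin n)) fun x => ?_) ?_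
    · rw [mem_alternatingGroup, h1]
      exact x.1.1.2
    · exact (MonoidHom.injective_codRestrict _ _ _).2 hF
  · rw [P.card_eq_multiplicity] at k1 k2
    exact alt_conj_nil (by simpa using hn) (by simpa using h7) (by simpa using hf) n1 n2 k1 k2

end Cfsg.Agent.H18.Pb
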